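import Cfsg.Agent.INV.Def1Br3
import Cfsg.Agent.INV.Def1Ex
import Cfsg.Agent.FGS.SylowNum
import Cfsg.Agent.SOLV.Core
import Cfsg.Agent.SPOR.OrdTools

/-! Brauer's theorem on perfect groups with a Sylow subgroup of prime order whose number of
Sylow subgroups is not of the exceptional form. -/

set_option autoImplicit false
open Cfsg Subgroup CL.Char
open scoped commutatorElement

namespace CL.D1

/-- The number `n` is not of Brauer's exceptional form. -/
def NR (p n : ℕ) : Prop :=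
  ¬ ∃ h u : ℕ, 0 < h ∧ 0 < u ∧ n * (u + 1) = h * u * p + u ^ 2 + u + h

theorem NR.arith' {p n d d' : ℕ} (hp : 2 ≤ p) (hn : NR p n) (h : d * d' = (p - 1) * (1 + n * p))
    (hd : (d : ℤ) ≡ 1 [ZMOD p]) : d = 1 ∨ 1 + n * p ≤ d := by
  have h0 : 0 < d := Nat.pos_of_mul_pos_right
    (show 0 < d * d' by rw [h]; exact Nat.mul_pos (by omega) (by omega))
  obtain ⟨u, hu⟩ := (Nat.modEq_iff_dvd' h0).1 (Int.natCast_modEq_iff.1 hd.symm)
  obtain rfl : d = 1 + p * u := by omega
  by_contra hc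
  rw [not_or, not_le] at hc
  have h1 : 0 < u := Nat.pos_of_ne_zero (by rintro rfl; simp at hc)
  have h2 : u < n := by nlinarith
  obtain ⟨m, rfl⟩ := Nat.exists_eq_add_of_lt h2
  obtain ⟨q, rfl⟩ : ∃ q, p = q + 1 := ⟨p - 1, by omega⟩
  rw [Nat.add_sub_cancel] at h
  have h3 : ((1 + (q + 1) * u : ℕ) : ℤ) ∣ ((u + 1) * (m + 1) : ℕ) :=
    ⟨u ^ 2 * d' - (q * u * (u + m + 1) - (m + 1)), by
      have : ((1 + (q + 1) * u) * d' : ℤ) = q * (1 + (u + m + 1) * (q + 1)) := by exact_mod_cast h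
      push_cast
      linear_combination (-(u : ℤ) ^ 2) * this⟩
  obtain ⟨k, hk⟩ := Int.natCast_dvd_natCast.1 h3
  exact hn ⟨k, u, Nat.pos_of_ne_zero (by rintro rfl; simp at hk), h1, by linarith⟩

theorem NR.arith {p n d d' : ℕ} (hp : 2 ≤ p) (hn : NR p n) (h : d * d' = (p - 1) * (1 + n * p))
    (hd : (d : ℤ) ≡ 1 [ZMOD p]) : d = 1 ∨ d' = p - 1 := by
  refine (hn.arith' hp h hd).imp_right fun h1 => ?_
  have h2 : d' ≤ p - 1 := by
    by_contra h2
    nlinarith [Nat.mul_le_mul h1 (not_le.1 h2)]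
  obtain ⟨q, rfl⟩ : ∃ q, p = q + 1 := ⟨p - 1, by omega⟩
  rw [Nat.add_sub_cancel] at *
  obtain ⟨u, hu⟩ := hd.dvd
  have h' : (d : ℤ) * d' = q * (1 + n * (q + 1)) := by exact_mod_cast h
  have h3 : ((q + 1 : ℕ) : ℤ) ∣ (d' + 1 : ℕ) :=
    ⟨1 + q * n + u * d', by push_cast at hu ⊢; linear_combination h' + d' * hu⟩
  have := Nat.le_of_dvd (by omega) (Int.natCast_dvd_natCast.1 h3)
  omega

variable {G : Type*} [Group G] [Finite G] {p : ℕ} [hp : Fact p.Prime]

theorem Data.degrees_nr (hperf : commutator G = ⊤) {e n : ℕ} (D : Data G p e) {x : G}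
    (hx : orderOf x = p) (hi : (centralizer ({x} : Set G)).index = e * (1 + n * p))
    (hn : NR p n) :
    (∀ χ ∈ D.X, D.δ χ = 1 → charDegree χ.1 = 1 + n * p) ∧
    (∀ χ ∈ D.X, D.δ χ = -1 → charDegree χ.1 = p - 1 ∨ charDegree χ.1 = (p - 1) * (1 + n * p)) ∧
    (∀ θ ∈ D.Y, D.ε = 1 → charDegree θ.1 = e ∨ charDegree θ.1 = e * (1 + n * p)) ∧
    (∀ θ ∈ D.Y, D.ε = -1 → D.Y.card * charDegree θ.1 = 1 + n * p) := by
  have hp2 := hp.out.two_le
  have hte : p - 1 = D.Y.card * e := by have := D.card_Y; omega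
  have hteZ : (D.Y.card : ℤ) * e + 1 = p := by exact_mod_cast D.card_Y
  have ht : 0 < D.Y.card := D.Y_nonempty.card_pos
  have cof : ∀ d d' : ℕ, d * d' = (p - 1) * (1 + n * p) → (d : ℤ) ≡ -1 [ZMOD p] →
      (d' : ℤ) ≡ 1 [ZMOD p] := by
    intro d d' h hd
    obtain ⟨u, hu⟩ := hd.dvd
    have h' : (d : ℤ) * d' = (p - 1) * (1 + n * p) := by
      have := congrArg (Nat.cast : ℕ → ℤ) h
      rwa [Nat.cast_mul, Nat.cast_mul, Nat.cast_sub (by omega)] at this
    exact Int.modEq_iff_dvd.2 ⟨1 - n + n * p + u * d', by linear_combination h' + d' * hu⟩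
  have hX : ∀ χ ∈ D.X, ∃ d', charDegree χ.1 * d' = (p - 1) * (1 + n * p) := fun χ hχ =>
    ((D.deg_X_dvd hx hχ).trans (by
      rw [hi, hte]; exact Nat.mul_dvd_mul_right (dvd_mul_left _ _) _)).imp fun _ h => h.symm
  have hY : ∀ θ ∈ D.Y, ∃ d', D.Y.card * charDegree θ.1 * d' = (p - 1) * (1 + n * p) :=
    fun θ hθ => ((D.deg_Y_dvd hx hθ).trans (dvd_of_eq hi)).imp fun _ h => by
      rw [hte, mul_assoc, ← h, mul_assoc]
  refine ⟨fun χ hχ h => ?_, fun χ hχ h => ?_, fun θ hθ h => ?_, fun θ hθ h => ?_⟩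
  · obtain ⟨d', hd'⟩ := hX χ hχ
    have h1 := degree_ne_one hperf (D.ne_one (Or.inl hχ))
    have h2 := (hn.arith hp2 hd' (h ▸ D.deg_X hx hχ)).resolve_left (by omega)
    rw [h2, mul_comm] at hd'
    exact Nat.eq_of_mul_eq_mul_left (by omega) hd'
  · obtain ⟨d', hd'⟩ := hX χ hχ
    refine (hn.arith hp2 ((mul_comm _ _).trans hd')
      (cof _ _ hd' (h ▸ D.deg_X hx hχ))).symm.imp_right ?_
    rintro rfl
    rwa [mul_one] at hd'
  · obtain ⟨d', hd'⟩ := hY θ hθ
    have h1 : ((D.Y.card * charDegree θ.1 : ℕ) : ℤ) ≡ -1 [ZMOD p] := by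
      push_cast
      refine ((D.deg_Y θ hθ).mul_left _).trans (Int.modEq_iff_dvd.2 ⟨-1, ?_⟩)
      rw [h]; linear_combination -hteZ
    rcases hn.arith hp2 ((mul_comm _ _).trans hd') (cof _ _ hd' h1) with rfl | h2
    · rw [mul_one, hte, mul_assoc] at hd'
      exact .inr (Nat.eq_of_mul_eq_mul_left ht hd')
    · exact .inl (Nat.eq_of_mul_eq_mul_left ht (h2.trans hte))
  · obtain ⟨d', hd'⟩ := hY θ hθ
    have h1 : ((D.Y.card * charDegree θ.1 : ℕ) : ℤ) ≡ 1 [ZMOD p] := by
      push_cast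
      refine ((D.deg_Y θ hθ).mul_left _).trans (Int.modEq_iff_dvd.2 ⟨1, ?_⟩)
      rw [h]; linear_combination hteZ
    have h3 := degree_ne_one hperf (D.ne_one (Or.inr hθ))
    have h2 := (hn.arith hp2 hd' h1).resolve_left (by nlinarith)
    rw [h2, mul_comm] at hd'
    exact Nat.eq_of_mul_eq_mul_left (by omega) hd'

theorem Data.exists_small (hperf : commutator G = ⊤) {e n : ℕ} (D : Data G p e) {x : G}
    (hx : orderOf x = p) (hi : (centralizer ({x} : Set G)).index = e * (1 + n * p))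
    (hn : NR p n) (hn0 : n ≠ 0) : ∃ χ, (χ ∈ D.X ∨ χ ∈ D.Y) ∧ charDegree χ.1 < p := by
  by_contra hc
  push Not at hc
  obtain ⟨h1, h2, h3, h4⟩ := D.degrees_nr hperf hx hi hn
  obtain ⟨θ, hθ⟩ := D.Y_nonempty
  have hp2 := hp.out.two_le
  have hv : p + 1 ≤ 1 + n * p := by nlinarith [Nat.pos_of_ne_zero hn0]
  generalize 1 + n * p = v at *
  have h5 : (v : ℤ) ∣ D.ε * charDegree θ.1 - 1 := by
    rw [D.deg_eqn hθ, add_sub_cancel_left]
    refine Finset.dvd_sum fun χ hχ => Dvd.dvd.mul_left (Int.natCast_dvd_natCast.2 ?_) _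
    have := hc χ (.inl hχ)
    rcases D.δ_sign χ hχ with h | h
    · rw [h1 χ hχ h]
    · rw [(h2 χ hχ h).resolve_left (by omega)]; exact dvd_mul_left _ _
  have h6 := hc θ (.inr hθ)
  have h7 := D.card_Y
  have ht := D.Y_nonempty.card_pos
  rcases D.ε_sign with h | h
  · rw [h, (h3 θ hθ h).resolve_left (by nlinarith), one_mul, Nat.cast_mul,
      dvd_sub_right (dvd_mul_left _ _), Int.natCast_dvd_ofNat, Nat.dvd_one] at h5
    omega
  · have h8 : v ∣ charDegree θ.1 + 1 := by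
      rw [h, ← dvd_neg] at h5
      exact Int.natCast_dvd_natCast.1 (by simpa [add_comm] using h5)
    have h9 := h4 θ hθ h
    rcases (show D.Y.card = 1 ∨ 2 ≤ D.Y.card by omega) with h10 | h10
    · rw [h10, one_mul] at h9
      rw [h9, Nat.dvd_add_right dvd_rfl, Nat.dvd_one] at h8
      omega
    · have := Nat.le_of_dvd (by omega) h8
      nlinarith

theorem not_normalizer_le (hperf : commutator G = ⊤) (P : Sylow p G) (hP : Nat.card P = p) :
    ¬ normalizer ((P : Subgroup G) : Set G) ≤ centralizer (P : Subgroup G) := fun h => by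
  obtain ⟨Q, K, hK, h2⟩ := CL.hasNPC_of_normalizer_le_centralizer P h
  have h3 := h2.symm.index_eq_card
  rw [CL.Small.card_sylow_eq_card_sylow Q P, hP] at h3
  rw [eq_top_of_index_pow hperf K hK p 1 hp.out (by rw [h3, pow_one]), index_top] at h3
  exact hp.out.one_lt.ne h3

omit hp in
theorem eq_top_of_cyclic (hperf : commutator G = ⊤) {P K : Subgroup G} [IsCyclic P] [K.Normal]
    (h1 : normalizer (P : Set G) ⊔ K = ⊤) (h2 : centralizer (P : Set G) ≤ K) : K = ⊤ := by
  have h3 : ⁅normalizer (P : Set G), normalizer (P : Set G)⁆ ≤ K := by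
    refine commutator_le.2 fun a ha b hb => h2 ?_
    have : ⁅(⟨a, ha⟩ : normalizer (P : Set G)), ⟨b, hb⟩⁆ ∈ P.normalizerMonoidHom.ker := by
      rw [MonoidHom.mem_ker, map_commutatorElement, commutatorElement_eq_one_iff_mul_comm]
      exact (IsCyclic.mulAutMulEquiv P).injective (by rw [map_mul, map_mul, mul_comm])
    rwa [normalizerMonoidHom_ker] at this
  have h4 : (normalizer (P : Set G)).map (QuotientGroup.mk' K) =
      (⊤ : Subgroup G).map (QuotientGroup.mk' K) := by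
    rw [← h1, Subgroup.map_sup, (QuotientGroup.map_mk'_self K), sup_bot_eq]
  rw [eq_top_iff, ← hperf, ← QuotientGroup.ker_mk' K, ← Subgroup.map_eq_bot_iff,
    _root_.commutator, map_commutator, ← h4, ← map_commutator, Subgroup.map_eq_bot_iff,
    QuotientGroup.ker_mk']
  exact h3

theorem card_sylow_ne_one (hperf : commutator G = ⊤) (P : Sylow p G) (hP : Nat.card P = p) :
    Nat.card (Sylow p G) ≠ 1 := fun h => by
  have := CL.Small.normal_of_card_sylow_eq_one h P
  have := isCyclic_of_prime_card hP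
  exact not_normalizer_le hperf P hP (le_top.trans (eq_top_of_cyclic hperf
    (by rw [normalizer_eq_top, top_sup_eq]) le_rfl).ge)

theorem brauer_nr_core (hperf : commutator G = ⊤) (hO : pPrimeCore p G = ⊥) (P : Sylow p G)
    (hP : Nat.card P = p) {n : ℕ} (hv : Nat.card (Sylow p G) = 1 + n * p) (hn : NR p n) :
    (∃ (F : Type) (_ : Field F) (_ : Fintype F), Fintype.card F = p ∧ 3 < p ∧
      Nonempty (G ≃* Matrix.ProjectiveSpecialLinearGroup (Fin 2) F)) ∨
    (∃ (m : ℕ) (F : Type) (_ : Field F) (_ : Fintype F), Fintype.card F = 2 ^ m ∧ p = 2 ^ m + 1 ∧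
      3 < p ∧ Nonempty (G ≃* Matrix.ProjectiveSpecialLinearGroup (Fin 2) F)) := by
  have hodd : p ≠ 2 := by
    rintro rfl
    exact not_normalizer_le hperf P hP (relIndex_eq_one.1
      (Nat.dvd_one.1 (CL.Small.relIndex_centralizer_dvd_of_card_prime _ hP)))
  have hn0 : n ≠ 0 := by rintro rfl; exact card_sylow_ne_one hperf P hP (by simpa using hv)
  obtain ⟨z, -, hz⟩ := CL.Small.exists_mem_orderOf_eq_prime (P : Subgroup G) p (by rw [hP])
  have hC : centralizer ({z} : Set G) = zpowers z := by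
    obtain ⟨D⟩ := exists_data hperf hodd P hP rfl
    obtain ⟨χ, h1, h2⟩ := D.exists_small hperf hz (Nat.eq_of_mul_eq_mul_left Nat.card_pos (by
      rw [card_mul_index, ← mul_assoc, card_centralizer_eq P hP hz,
        CL.Small.card_centralizer_mul_relIndex, ← hv, mul_comm,
        CL.Small.card_sylow_mul_card_normalizer])) hn hn0
    have := χ.2.charKer_normal
    have := isCyclic_of_prime_card hP
    have h3 : charKer χ.1 = ⊥ := (pPrimeCore_eq_bot_iff.1 hO) _ inferInstance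
      (hp.out.coprime_iff_not_dvd.2 fun h => D.ne_one h1 (Subtype.ext ?_)).symm
    · obtain ⟨c, hc⟩ : p ∣ Nat.card (centralizer ((P : Subgroup G) : Set G)) :=
        hP.symm.dvd.trans (card_dvd_of_le (le_centralizer _))
      refine (eq_of_le_of_card_ge (zpowers_le.2 (mem_centralizer_singleton_iff.2 rfl)) ?_).symm
      rw [card_centralizer_eq P hP hz, hc, Nat.card_zpowers, hz]
      by_contra h4
      obtain ⟨y, y1, y2, y3⟩ := exists_reg_commute P hP hc (by rintro rfl; simp at h4) hz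
      have := D.two_mul_lt hperf h1 hz y2 y3 fun h =>
        y1 (mem_bot.1 (h3 ▸ χ.2.mem_charKer.2 h))
      omega
    · have h3 : ¬ p ∣ (charKer χ.1).index :=
        fun h' => not_sq_dvd P hP (by rw [sq, ← card_mul_index]; exact Nat.mul_dvd_mul h h')
      have h4 : ∀ w y : G, orderOf w = p → ¬ p ∣ orderOf y → Commute w y →
          χ.1 (w * y) = χ.1 1 ∧ χ.1 (w * y) = χ.1 y := fun w y hw hy hc => by
        have := CL.Small.le_of_normal_of_not_dvd_index (CL.Small.isPGroup_zpowers_of_orderOf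
          (k := 1) (hw.trans (pow_one p).symm)) h3 (mem_zpowers w)
        exact ⟨(D.val_mul h1 hw hy hc).trans (χ.2.mem_charKer.1 this), this y⟩
      refine χ.2.charKer_eq_top_iff.1 (eq_top_of_cyclic hperf (P.normalizer_sup_eq_top'
        (CL.Small.le_of_normal_of_not_dvd_index P.2 h3)) fun y hy => χ.2.mem_charKer.2 ?_)
      by_cases h5 : p ∣ orderOf y
      · obtain ⟨w, ⟨u, rfl, h6, -, h7⟩, hw⟩ := exists_decomp P hP h5
        exact (h4 w u hw h7 h6).1
      · obtain ⟨w, hw, hw'⟩ :=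
          CL.Small.exists_mem_orderOf_eq_prime (P : Subgroup G) p (by rw [hP])
        exact (h4 w y hw' h5 (hy w hw)).2.symm.trans (h4 w y hw' h5 (hy w hw)).1
  obtain ⟨P', n', g, h⟩ := exists_SC hz hC
  obtain rfl : n = n' :=
    Nat.eq_of_mul_eq_mul_right hp.out.pos (Nat.add_left_cancel (hv.symm.trans h.hv))
  obtain ⟨D⟩ := exists_data hperf hodd P' h.card_P rfl
  generalize (centralizer ((P' : Subgroup G) : Set G)).relIndex
    (normalizer ((P' : Subgroup G) : Set G)) = e at h D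
  obtain ⟨h1, h2, h3, h4⟩ := D.degrees_nr hperf hz (h.index_cent hz) hn
  have h5 := hp.out.two_le
  have hG : Nat.card G ≤ (p - 1) * e * (1 + n * p) ^ 2 := by
    have h3 : p ≤ (p - 1) * (1 + n * p) := by
      obtain ⟨k, rfl⟩ : ∃ k, p = k + 1 := ⟨p - 1, by omega⟩
      rw [Nat.add_sub_cancel]
      nlinarith [Nat.mul_le_mul (show 1 ≤ k by omega)
        (Nat.mul_le_mul_right (k + 1) (Nat.pos_of_ne_zero hn0))]
    rw [h.card_G]
    calc _ ≤ (1 + n * p) * ((p - 1) * (1 + n * p) * _) := by gcongr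
      _ = _ := by ring
  have hte : p - 1 = D.Y.card * e := by have := D.card_Y; omega
  refine h.brauer_core hperf D ⟨h1, fun χ hχ hδ => (h2 χ hχ hδ).resolve_right fun hd => ?_,
    fun θ hθ hε => (h3 θ hθ hε).resolve_right fun hd => ?_, h4⟩
  · obtain ⟨θ₀, hθ₀⟩ := D.Y_nonempty
    have h6 := D.sum_sq_le hθ₀
    have h7 := Finset.single_le_sum (f := fun χ : IrrCharacter G => charDegree χ.1 ^ 2)
      (fun _ _ => Nat.zero_le _) hχ
    simp only [hd] at h7
    have h8 : e ≤ p - 1 := by rw [hte]; exact Nat.le_mul_of_pos_left _ D.Y_nonempty.card_pos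
    have : (p - 1) * e * (1 + n * p) ^ 2 ≤ ((p - 1) * (1 + n * p)) ^ 2 := by
      rw [mul_pow, sq (p - 1)]
      gcongr
    omega
  · have h6 := D.sum_sq_le hθ
    rw [hd] at h6
    rw [hte] at hG
    have : D.Y.card * (e * (1 + n * p)) ^ 2 = D.Y.card * e * e * (1 + n * p) ^ 2 := by ring
    omega

theorem brauer_nr (hperf : commutator G = ⊤) (P : Sylow p G) (hP : Nat.card P = p) {n : ℕ}
    (hv : Nat.card (Sylow p G) = 1 + n * p) (hn : NR p n) :
    (∃ (F : Type) (_ : Field F) (_ : Fintype F), Fintype.card F = p ∧ 3 < p ∧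
      Nonempty (G ⧸ pPrimeCore p G ≃* Matrix.ProjectiveSpecialLinearGroup (Fin 2) F)) ∨
    (∃ (m : ℕ) (F : Type) (_ : Field F) (_ : Fintype F), Fintype.card F = 2 ^ m ∧ p = 2 ^ m + 1 ∧
      3 < p ∧ Nonempty (G ⧸ pPrimeCore p G ≃* Matrix.ProjectiveSpecialLinearGroup (Fin 2) F)) := by
  set K := pPrimeCore p G
  have hs := QuotientGroup.mk'_surjective K
  have h1 : commutator (G ⧸ K) = ⊤ := by
    rw [_root_.commutator, ← map_top_of_surjective _ hs, ← map_commutator, ← _root_.commutator,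
      hperf]
  have hK := coprime_card_pPrimeCore p G
  have h2 : Nat.card (P.mapSurjective hs) = p := by
    have h2 := K.card_mul_index
    obtain ⟨m, hm⟩ : p ∣ K.index := hK.symm.dvd_of_dvd_mul_left
      (h2 ▸ hP ▸ card_subgroup_dvd_card (P : Subgroup G))
    refine (CL.Small.card_sylow_eq_of_factor _ (a := 1) (m := m) (by rw [pow_one, ← hm]; rfl)
      fun h => not_sq_dvd P hP ?_).trans (pow_one p)
    rw [← h2, hm, sq]
    exact (Nat.mul_dvd_mul_left p h).mul_left _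
  have h3 := CL.SN.card_sylow_eq_quotient_mul P K
  refine brauer_nr_core h1 (pPrimeCore_quotient_pPrimeCore p G) _ h2 ?_ hn
  rw [hv] at h3
  refine le_antisymm (Nat.le_of_dvd (by omega) ⟨_, h3⟩) ((hn.arith' hp.out.two_le
    (by rw [h3, mul_left_comm]) ?_).resolve_left (card_sylow_ne_one h1 _ h2))
  exact_mod_cast Int.natCast_modEq_iff.2 (card_sylow_modEq_one p _)

end CL.D1
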