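import Mathlib
import Cfsg.Agent.ORD.FullRam
import Cfsg.Agent.CHAR.Triple
import Cfsg.Agent.CHAR.Scalar
import Cfsg.Agent.CHAR.Quot
import Cfsg.Agent.PLOC.FF2
import Cfsg.Agent.INV.SmallBasic
import Cfsg.Agent.SIG.FStar

/-!
# Fully ramified characters: reduction to a central subgroup and the inductive step over an
abelian chief factor (Gagola)
-/

set_option autoImplicit false
set_option linter.unusedSectionVars false
open Cfsg CL.Char CL.Ord
open scoped ComplexConjugate commutatorElement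

namespace CL.CT

universe u

/-- Every prime whose sixth power divides the order has commutative Sylow subgroups. -/
def Hyp (G : Type*) [Group G] : Prop :=
  ∀ p : ℕ, p.Prime → p ^ 6 ∣ Nat.card G → ∀ Q : Subgroup G, IsPGroup p Q →
    ∀ a ∈ Q, ∀ b ∈ Q, a * b = b * a

theorem Hyp.of_injective {G H : Type*} [Group G] [Group H] (h : Hyp G) (f : H →* G)
    (hf : Function.Injective f) : Hyp H := by
  intro p hp h6 Q hQ a ha b hb
  apply hf
  rw [map_mul, map_mul]
  exact h p hp (h6.trans (Subgroup.card_dvd_of_injective f hf)) (Q.map f) (hQ.map f) _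
    ⟨a, ha, rfl⟩ _ ⟨b, hb, rfl⟩

theorem Hyp.of_surjective {G H : Type*} [Group G] [Group H] [Finite G] (h : Hyp G) (f : G →* H)
    (hf : Function.Surjective f) : Hyp H := by
  intro p hp h6 Q hQ a ha b hb
  have := Fact.mk hp
  have : Finite H := Finite.of_surjective f hf
  obtain ⟨P', hP'⟩ := hQ.exists_le_sylow
  obtain ⟨P, rfl⟩ := Sylow.mapSurjective_surjective hf p P'
  obtain ⟨a', ha', rfl⟩ := hP' ha
  obtain ⟨b', hb', rfl⟩ := hP' hb
  rw [← map_mul, ← map_mul,
    h p hp (h6.trans (Subgroup.card_dvd_of_surjective f hf)) P P.isPGroup' a' ha' b' hb']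

theorem Hyp.section {G : Type*} [Group G] [Finite G] {Z N : Subgroup G} [Z.Normal] [N.Normal]
    (h : Hyp (G ⧸ Z)) (hZN : Z ≤ N) (T : Subgroup G) : Hyp (T ⧸ N.subgroupOf T) := by
  have h1 : Hyp (G ⧸ N) := h.of_surjective (QuotientGroup.map Z N (MonoidHom.id G) hZN) (by
    intro x
    obtain ⟨g, rfl⟩ := QuotientGroup.mk_surjective x
    exact ⟨g, rfl⟩)
  refine h1.of_injective (QuotientGroup.map _ N T.subtype le_rfl) ?_
  rw [injective_iff_map_eq_one]
  intro x hx
  obtain ⟨t, rfl⟩ := QuotientGroup.mk_surjective x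
  exact (QuotientGroup.eq_one_iff _).mpr ((QuotientGroup.eq_one_iff (t : G)).mp hx)

/-- A fully ramified character over a faithful linear character of a central subgroup. -/
structure Cen {G : Type*} [Group G] (Z : Subgroup G) (β : G → ℂ) (μ : Z →* ℂˣ) (e : ℕ) :
    Prop where
  cen : Z ≤ Subgroup.center G
  inj : Function.Injective μ
  fr : FR Z β (fun z => (μ z : ℂ)) e

theorem exists_cen {H : Type u} [Group H] [Finite H] {Z : Subgroup H} [hZ : Z.Normal] {χ : H → ℂ}
    {θ : Z → ℂ} {e : ℕ} (h : FR Z χ θ e) :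
    ∃ (Γ : Type u) (_ : Group Γ) (_ : Finite Γ) (Z' : Subgroup Γ) (_ : Z'.Normal) (β : Γ → ℂ)
      (μ : Z' →* ℂˣ), Cen Z' β μ e ∧ Nonempty (Γ ⧸ Z' ≃* H ⧸ Z) := by
  obtain ⟨Γ, _, _, π, θ', μ, hπ, -, -, -, hinv, -, -, -, -, hβ, -, -⟩ :=
    exists_triple_cover Z θ h.irrZ (inertia_eq_top_iff.mp h.inertia)
  obtain ⟨β, hβi, hβ1, hβM, -⟩ := hβ χ h.irr e (fun n => congrFun h.res n)
  let M : Subgroup Γ := Z.comap π
  let K : Subgroup Γ := μ.ker.map M.subtype
  have hKM : K ≤ M := Subgroup.map_subtype_le _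
  have hmemK : ∀ x : M, (x : Γ) ∈ K ↔ μ x = 1 := fun x =>
    ⟨fun ⟨y, hy, e⟩ => (Subtype.ext e : y = x) ▸ hy, fun hx => ⟨x, hx, rfl⟩⟩
  have hK : K.Normal := ⟨fun x hx g => by
    have := hinv g ⟨x, hKM hx⟩
    rw [(hmemK ⟨x, hKM hx⟩).mp hx] at this
    exact (hmemK _).mpr this⟩
  obtain ⟨β', hβ', hββ⟩ := hβi.exists_quot K (fun n hn => by
    rw [hβM ⟨n, hKM hn⟩, (hmemK ⟨n, hKM hn⟩).mp hn, hβ1]; simp)
  let Z' : Subgroup (Γ ⧸ K) := M.map (QuotientGroup.mk' K)
  have hZ' : Z'.Normal := (hZ.comap π).map _ (QuotientGroup.mk'_surjective K)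
  let f : M →* Z' := (QuotientGroup.mk' K).subgroupMap M
  have hf : Function.Surjective f := MonoidHom.subgroupMap_surjective _ _
  have hker : f.ker ≤ μ.ker := fun x hx =>
    (hmemK x).mp ((QuotientGroup.eq_one_iff (x : Γ)).mp (congrArg Subtype.val hx))
  let μ' : Z' →* ℂˣ := f.liftOfSurjective hf ⟨μ, hker⟩
  have hμ' : ∀ x : M, μ' (f x) = μ x := fun x =>
    f.liftOfRightInverse_comp_apply _ _ ⟨μ, hker⟩ x
  let ε : (Γ ⧸ K) ⧸ Z' ≃* H ⧸ Z :=
    (QuotientGroup.quotientQuotientEquivQuotient K M hKM).trans (quotComapEquiv π hπ Z)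
  refine ⟨Γ ⧸ K, inferInstance, inferInstance, Z', hZ', β', μ', ⟨?_, ?_, hβ', isIrrCharacter_hom μ',
    ?_, ?_⟩, ⟨ε⟩⟩
  · rintro _ ⟨x, hx, rfl⟩
    rw [Subgroup.mem_center_iff]
    intro y
    obtain ⟨g, rfl⟩ := QuotientGroup.mk_surjective y
    change ((g * x : Γ) : Γ ⧸ K) = (x * g : Γ)
    rw [eq_comm, QuotientGroup.eq]
    have h1 : g⁻¹ * x⁻¹ * g ∈ M := (hZ.comap π).conj_mem' _ (inv_mem hx) g
    have h2 := hinv g⁻¹ ⟨x, hx⟩⁻¹
    have h3 : (x * g)⁻¹ * (g * x) = ((⟨g⁻¹ * x⁻¹ * g, h1⟩ * ⟨x, hx⟩ : M) : Γ) := by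
      simp [mul_assoc]
    rw [h3, hmemK, map_mul]
    have h4 : (⟨g⁻¹ * x⁻¹ * g, h1⟩ : M) = ⟨g⁻¹ * ((⟨x, hx⟩⁻¹ : M) : Γ) * g⁻¹⁻¹,
        (hZ.comap π).conj_mem _ (⟨x, hx⟩⁻¹ : M).2 g⁻¹⟩ := Subtype.ext (by simp)
    rw [h4, h2, map_inv, inv_mul_cancel]
  · rw [injective_iff_map_eq_one]
    intro z hz
    obtain ⟨x, rfl⟩ := hf z
    rw [hμ'] at hz
    exact Subtype.ext ((QuotientGroup.eq_one_iff (x : Γ)).mpr ((hmemK x).mpr hz))
  · rw [h.sq, Subgroup.index, Subgroup.index, Nat.card_congr ε.toEquiv]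
  · funext z
    obtain ⟨x, rfl⟩ := hf z
    rw [Pi.smul_apply, hμ', smul_eq_mul, ← hβM, hββ]
    rfl

namespace Cen

variable {G : Type*} [Group G] [Finite G] {Z : Subgroup G} [hZ : Z.Normal] {β : G → ℂ}
  {μ : Z →* ℂˣ} {e : ℕ}

theorem comm (h : Cen Z β μ e) {z : G} (hz : z ∈ Z) (g : G) : g * z = z * g :=
  Subgroup.mem_center_iff.mp (h.cen hz) g

theorem deg (h : Cen Z β μ e) : β 1 = e := by
  have := h.fr.one
  simpa using this

theorem apply_mul (h : Cen Z β μ e) (z : Z) (x : G) : β (z * x) = μ z * β x := by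
  have h1 := h.fr.irr.apply_center_mul (h.cen z.2) x
  have h2 : β z = e * μ z := congrFun h.fr.res z
  have h3 : (e : ℂ) ≠ 0 := by exact_mod_cast h.fr.pos.ne'
  rw [h.deg, h2, mul_assoc] at h1
  exact mul_left_cancel₀ h3 h1

/-- No element outside `Z` is good. -/
theorem exists_comm (h : Cen Z β μ e) {y : G} (hy : y ∉ Z) :
    ∃ c : G, ⁅c, y⁆ ∈ Z ∧ ⁅c, y⁆ ≠ 1 := by
  classical
  by_contra hn
  push Not at hn
  have := Fintype.ofFinite G
  have := Fintype.ofFinite Z
  have h1 : ∀ z : Z, ∑ ψ : IrrCharacter G, (ψ : G → ℂ) (z * y) * conj ((ψ : G → ℂ) y) =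
      if z = 1 then (Nat.card (Subgroup.centralizer ({y} : Set G)) : ℂ) else 0 := by
    intro z
    split_ifs with hz
    · rw [hz, OneMemClass.coe_one, one_mul]
      exact column_conj (IsConj.refl y)
    · refine column_not_conj fun hc => hz ?_
      obtain ⟨c, hc⟩ := isConj_iff.mp hc.symm
      have h2 : ⁅c, y⁆ = z := by rw [commutatorElement_def, hc, mul_inv_cancel_right]
      exact Subtype.ext (h2 ▸ hn c (h2 ▸ z.2))
  have h2 : ∑ z : Z, conj (μ z : ℂ) *
      ∑ ψ : IrrCharacter G, (ψ : G → ℂ) (z * y) * conj ((ψ : G → ℂ) y) = 0 := by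
    simp only [Finset.mul_sum]
    rw [Finset.sum_comm]
    refine Finset.sum_eq_zero fun ψ _ => ?_
    by_cases hψ : classInner (fun n : Z => (ψ : G → ℂ) n) (fun z => (μ z : ℂ)) = 0
    · rw [classInner_def, mul_eq_zero, inv_eq_zero] at hψ
      have h3 := hψ.resolve_left (card_ne_zero _)
      apply mul_left_cancel₀ ψ.2.one_ne_zero
      rw [mul_zero, Finset.mul_sum]
      calc _ = ∑ z : Z, ((ψ : G → ℂ) z * conj (μ z : ℂ)) *
            ((ψ : G → ℂ) y * conj ((ψ : G → ℂ) y)) := Finset.sum_congr rfl fun z _ => by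
              linear_combination (conj (μ z : ℂ) * conj ((ψ : G → ℂ) y)) *
                ψ.2.apply_center_mul (h.cen z.2) y
        _ = 0 := by rw [← Finset.sum_mul, h3, zero_mul]
    · have h3 : (ψ : G → ℂ) y = 0 := by rw [h.fr.unique ψ.2 hψ]; exact h.fr.vanish hy
      simp [h3]
  simp only [h1, mul_ite, mul_zero, Finset.sum_ite_eq', Finset.mem_univ, if_true, map_one,
    Units.val_one, one_mul] at h2
  exact card_ne_zero _ h2

/-- The square of the order of an abelian subgroup modulo `Z` divides the index of `Z`. -/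
theorem relIndex_dvd (h : Cen Z β μ e) {A : Subgroup G} (hA : Z ≤ A)
    (hc : ∀ a ∈ A, ∀ b ∈ A, a * b = b * a) : Z.relIndex A ∣ e := by
  have := Fintype.ofFinite A
  obtain ⟨η, hη, hin⟩ := (h.fr.irr.isCharacter.res A).exists_irr_inner_ne_zero (fun h0 =>
    h.fr.irr.one_ne_zero (congrFun h0 1))
  obtain ⟨m, hm⟩ := (isCharacter_iff_inner.mp (h.fr.irr.isCharacter.res A)).2 η hη
  have hm0 : m ≠ 0 := by rintro rfl; exact hin (by simpa using hm)
  obtain ⟨f, hf, hmf⟩ := h.fr.exists_mul hA hη hm hm0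
  obtain ⟨ν, rfl⟩ := hη.exists_hom_of_comm (fun a b => Subtype.ext (hc _ a.2 _ b.2))
  have hf1 : f = 1 := by
    have := congrFun hf 1
    simp only [Pi.smul_apply, map_one, Units.val_one, smul_eq_mul, mul_one] at this
    have h2 : (⟨((1 : Z) : G), hA (1 : Z).2⟩ : A) = 1 := rfl
    rw [h2, map_one, Units.val_one] at this
    exact_mod_cast this.symm
  have h3 := h.fr.sq
  rw [← Subgroup.relIndex_mul_index hA, ← mul_one A.index, ← hf1, ← hmf, sq, ← mul_assoc] at h3
  exact ⟨m, Nat.eq_of_mul_eq_mul_right h.fr.pos h3⟩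

theorem comm_mul_right (h : Cen Z β μ e) {c a b : G} (hb : ⁅c, b⁆ ∈ Z) :
    ⁅c, a * b⁆ = ⁅c, a⁆ * ⁅c, b⁆ := by
  have h1 : ⁅c, a * b⁆ = ⁅c, a⁆ * (a * ⁅c, b⁆ * a⁻¹) := by
    simp only [commutatorElement_def]; group
  rw [h1, h.comm hb a, mul_inv_cancel_right]

theorem comm_mul_left (h : Cen Z β μ e) {c d a : G} (hd : ⁅d, a⁆ ∈ Z) :
    ⁅c * d, a⁆ = ⁅c, a⁆ * ⁅d, a⁆ := by
  have h1 : ⁅c * d, a⁆ = (c * ⁅d, a⁆ * c⁻¹) * ⁅c, a⁆ := by
    simp only [commutatorElement_def]; group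
  rw [h1, h.comm hd c, mul_inv_cancel_right, h.comm hd]

theorem comm_pow_right (h : Cen Z β μ e) {c a : G} (ha : ⁅c, a⁆ ∈ Z) (n : ℕ) :
    ⁅c, a ^ n⁆ = ⁅c, a⁆ ^ n := by
  induction n with
  | zero => simp
  | succ n ih => rw [pow_succ, h.comm_mul_right ha, ih, pow_succ]

theorem isSolvable_comap (h : Cen Z β μ e) {W : Subgroup (G ⧸ Z)} [Group.IsSolvable W] :
    Group.IsSolvable (W.comap (QuotientGroup.mk' Z)) := by
  have hZN : Z ≤ W.comap (QuotientGroup.mk' Z) := fun z hz => by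
    rw [Subgroup.mem_comap, QuotientGroup.mk'_apply, (QuotientGroup.eq_one_iff z).mpr hz]
    exact one_mem _
  have : Group.IsSolvable Z := Group.isSolvable_of_comm fun a b => Subtype.ext (h.comm b.2 a)
  refine Group.isSolvable_of_ker_le_range (Subgroup.inclusion hZN)
    (((QuotientGroup.mk' Z).comp (Subgroup.subtype _)).codRestrict W fun x => x.2) fun x hx => ?_
  exact ⟨⟨x, (QuotientGroup.eq_one_iff (x : G)).mp (congrArg Subtype.val hx)⟩, rfl⟩

/-- The inductive step over an abelian minimal normal subgroup of `G / Z`. -/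
theorem step (h : Cen Z β μ e) (hH : Hyp (G ⧸ Z)) {W : Subgroup (G ⧸ Z)} (hW : IsMinNormal W)
    (hWs : Group.IsSolvable W)
    (ih : ∀ (T : Subgroup G) (N : Subgroup T) [N.Normal] (η : T → ℂ) (ψ : N → ℂ) (f : ℕ),
      FR N η ψ f → N.index < Z.index → Hyp (T ⧸ N) → Group.IsSolvable (T ⧸ N)) :
    Group.IsSolvable G := by
  classical
  have := Fintype.ofFinite G
  have := Fintype.ofFinite Z
  obtain ⟨p, hp, hWe⟩ := hW.exists_isElementaryAbelian_of_isSolvable hWs
  have := Fact.mk hp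
  have hWn := hW.normal
  have hWc := hW.isMulCommutative_of_isSolvable hWs
  obtain ⟨N, hN⟩ : ∃ N, N = W.comap (QuotientGroup.mk' Z) := ⟨_, rfl⟩
  have := Fintype.ofFinite N
  have hmem : ∀ x : G, x ∈ N ↔ (x : G ⧸ Z) ∈ W := fun x => by rw [hN]; rfl
  have hNn : N.Normal := hN ▸ hWn.comap _
  have hNs : Group.IsSolvable N := hN ▸ h.isSolvable_comap
  have hZN : Z ≤ N := fun z hz => by
    rw [hmem, (QuotientGroup.eq_one_iff z).mpr hz]; exact one_mem _
  have hmap : N.map (QuotientGroup.mk' Z) = W := by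
    rw [hN, Subgroup.map_comap_eq_self_of_surjective (QuotientGroup.mk'_surjective Z)]
  have hchief : ∀ M : Subgroup G, M.Normal → Z ≤ M → M ≤ N → M = Z ∨ M = N := by
    intro M hM h1 h2
    rcases hW.eq_bot_or_eq (M.map (QuotientGroup.mk' Z)) (hM.map _ (QuotientGroup.mk'_surjective Z))
      (hmap ▸ Subgroup.map_mono h2) with h3 | h3
    · rw [Subgroup.map_eq_bot_iff, QuotientGroup.ker_mk'] at h3
      exact Or.inl (le_antisymm h3 h1)
    · right
      rw [hN, ← h3, Subgroup.comap_map_eq, QuotientGroup.ker_mk', sup_eq_left.mpr h1]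
  have hcomm : ∀ a b : G, ⁅a, b⁆ ∈ Z ↔ (a : G ⧸ Z) * b = b * a := fun a b => by
    rw [← QuotientGroup.eq_one_iff, ← commutatorElement_eq_one_iff_mul_comm]
    rfl
  have hab : ∀ a ∈ N, ∀ b ∈ N, ⁅a, b⁆ ∈ Z := fun a ha b hb =>
    (hcomm a b).mpr (congrArg Subtype.val
      (hWc.is_comm.comm (⟨a, (hmem a).mp ha⟩ : W) ⟨b, (hmem b).mp hb⟩))
  have hrel : Z.relIndex N = Nat.card W := by
    rw [← hmap, ← Subgroup.relIndex_ker, QuotientGroup.ker_mk']
  have hW2 : 1 < Nat.card W := (Subgroup.one_lt_card_iff_ne_bot W).mpr hW.ne_bot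
  -- the Clifford correspondent
  obtain ⟨ψ, hψ, hin⟩ := (h.fr.irr.isCharacter.res N).exists_irr_inner_ne_zero (fun h0 =>
    h.fr.irr.one_ne_zero (congrFun h0 1))
  obtain ⟨T, hT⟩ : ∃ T, T = inertia N ψ := ⟨_, rfl⟩
  have := Fintype.ofFinite T
  have := Fintype.ofFinite (N.subgroupOf T)
  have hNT : N ≤ T := hT ▸ le_inertia hψ.isClassFunction
  obtain ⟨η, hη, hind, hinn⟩ := clifford_ind_surj hNT hψ hT.ge h.fr.irr hin
  have hη0 : classInner (fun n : N => η ⟨n, hNT n.2⟩) ψ ≠ 0 := hinn ▸ hin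
  obtain ⟨f, hf0, hres⟩ := exists_res_eq_smul_of_invariant hη (hψ.subOf hNT)
    (inertia_subOf_eq_top hNT hT.le) (by rw [classInner_res_subOf hNT]; exact hη0)
  have hfr : FR (N.subgroupOf T) η (subOf N T ψ) f := by
    refine ⟨hη, hψ.subOf hNT, (sq_eq_index_iff_unique hη (hψ.subOf hNT) hres).mpr ?_, hres⟩
    intro η' hη' h1
    rw [classInner_res_subOf hNT] at h1
    refine clifford_ind_inj hNT hψ hT.ge hη' hη h1 hη0 ?_
    have h2 := clifford_ind_irr hNT hψ hT.ge hη' h1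
    rw [hind]
    refine h.fr.unique h2 (inner_comp_ne_zero_of_constituent (Subgroup.inclusion hZN)
      (h2.isCharacter.res N) hψ ?_ h.fr.irrZ.isCharacter (h.fr.over hZN hψ hin))
    rw [clifford_ind_inner hNT hψ hT.ge hη' h1]
    exact h1
  have hidx : Nat.card W * (N.relIndex T * T.index) = Z.index := by
    rw [Subgroup.relIndex_mul_index hNT, ← hrel, Subgroup.relIndex_mul_index hZN]
  have hTi : 0 < T.index := Nat.pos_of_ne_zero Subgroup.index_ne_zero_of_finite
  have hNi : 0 < N.relIndex T := Nat.pos_of_ne_zero Subgroup.index_ne_zero_of_finite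
  have hTs : Group.IsSolvable T := by
    have h1 := ih T (N.subgroupOf T) η _ f hfr (by
      rw [← hidx]; change N.relIndex T < _
      nlinarith [Nat.le_mul_of_pos_right (N.relIndex T) hTi]) (hH.section hZN T)
    have h2 : Group.IsSolvable (N.subgroupOf T) :=
      Group.isSolvable_of_isSolvable_injective (f := (Subgroup.subgroupOfEquivOfLe hNT).toMonoidHom)
        (Subgroup.subgroupOfEquivOfLe hNT).injective
    exact (Group.isSolvable_iff_subgroup_quotient (N.subgroupOf T)).mpr ⟨h2, h1⟩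
  by_cases hTt : T = ⊤
  · exact Group.isSolvable_of_surjective (f := T.subtype) (fun g => ⟨⟨g, hTt ▸ Subgroup.mem_top g⟩, rfl⟩)
  have hψz : ∀ (z : Z) (a : N), ψ (⟨z, hZN z.2⟩ * a) = μ z * ψ a := fun z a =>
    apply_mul_of_constituent (h.fr.irr.isCharacter.res N).isClassFunction hψ hin (norm_hom μ z)
      (fun x => h.apply_mul z x) a
  -- `N` is abelian
  have hNc : ∀ a ∈ N, ∀ b ∈ N, a * b = b * a := by
    rcases hchief (N ⊓ Subgroup.centralizer (N : Set G)) inferInstance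
      (le_inf hZN fun z hz => Subgroup.mem_centralizer_iff.mpr fun g _ => h.comm hz g)
      inf_le_left with h1 | h1
    · exfalso
      have h2 : ∀ a : N, (a : G) ∉ Z → ψ a = 0 := by
        intro a ha
        rw [← h1, Subgroup.mem_inf, Subgroup.mem_centralizer_iff] at ha
        push Not at ha
        obtain ⟨b, hb, hba⟩ := ha a.2
        have h3 := hψz ⟨_, hab b hb a a.2⟩ a
        have h4 : (⟨⁅b, (a : G)⁆, hZN (hab b hb a a.2)⟩ * a : N) = ⟨b, hb⟩ * a * ⟨b, hb⟩⁻¹ :=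
          Subtype.ext (by simp [commutatorElement_def])
        rw [h4, hψ.isClassFunction] at h3
        by_contra h5
        have h6 : μ ⟨_, hab b hb a a.2⟩ = μ 1 := by
          rw [map_one, ← Units.val_inj]
          exact mul_right_cancel₀ h5 (h3.symm.trans (by simp))
        exact hba (commutatorElement_eq_one_iff_mul_comm.mp (congrArg Subtype.val (h.inj h6)))
      apply hTt
      rw [hT, inertia_eq_top_iff]
      intro g a
      by_cases ha : (a : G) ∈ Z
      · congr 1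
        exact Subtype.ext (by simp [h.comm ha g])
      · rw [h2 a ha]
        exact h2 _ fun h3 => ha (by simpa [mul_assoc] using hZ.conj_mem' _ h3 g)
    · intro a ha b hb
      exact Subgroup.mem_centralizer_iff.mp (h1.ge hb).2 a ha
  obtain ⟨ν, rfl⟩ := hψ.exists_hom_of_comm (fun a b => Subtype.ext (hNc _ a.2 _ b.2))
  have hTW : T.index = Nat.card W := by
    have h1 : (e : ℂ) = T.index * f := by
      rw [← h.deg, ← hind, indFun_one, hfr.one, subOf_one, map_one, Units.val_one, mul_one]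
    have h2 : e = T.index * f := by exact_mod_cast h1
    have h3 := h.fr.sq
    have h4 : f ^ 2 = N.relIndex T := hfr.sq
    rw [← hidx, ← h4, h2] at h3
    have h5 : (T.index * f ^ 2) * T.index = (T.index * f ^ 2) * Nat.card W := by
      linear_combination h3
    exact Nat.eq_of_mul_eq_mul_left (by positivity) h5
  obtain ⟨C, hC⟩ : ∃ C, C = (Subgroup.centralizer (W : Set (G ⧸ Z))).comap (QuotientGroup.mk' Z) :=
    ⟨_, rfl⟩
  have hCn : C.Normal := hC ▸ Subgroup.Normal.comap inferInstance _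
  have hmemC : ∀ c ∈ C, ∀ a ∈ N, ⁅c, a⁆ ∈ Z := fun c hc a ha => by
    rw [hC, Subgroup.mem_comap, Subgroup.mem_centralizer_iff] at hc
    exact (hcomm c a).mpr (hc _ ((hmem a).mp ha)).symm
  rcases hchief (N ⊓ Subgroup.centralizer (C : Set G)) inferInstance
    (le_inf hZN fun z hz => Subgroup.mem_centralizer_iff.mpr fun g _ => h.comm hz g)
    inf_le_left with h1 | h1
  · let τ : C →* (N →* ℂˣ) := MonoidHom.mk' (fun c => MonoidHom.mk'
      (fun a => μ ⟨⁅(c : G), (a : G)⁆, hmemC c c.2 a a.2⟩) fun a b => by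
        rw [← map_mul]; congr 1; exact Subtype.ext (h.comm_mul_right (hmemC c c.2 b b.2)))
      fun c d => MonoidHom.ext fun a => by
        change μ _ = μ _ * μ _
        rw [← map_mul]; congr 1; exact Subtype.ext (h.comm_mul_left (hmemC d d.2 a a.2))
    have hτ : ∀ (c : C) (a : N), τ c a = μ ⟨⁅(c : G), (a : G)⁆, hmemC c c.2 a a.2⟩ := fun _ _ => rfl
    have hτν : ∀ (c : C) (a : N),
        conjN N c (fun g => (ν g : ℂ)) a = τ c a * ν a := fun c a => by
      rw [hτ, ← hψz, conjN_apply]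
      congr 2
      exact Subtype.ext (by simp [commutatorElement_def])
    have hCs : Group.IsSolvable C := by
      have : Group.IsSolvable (T.subgroupOf C) := Group.isSolvable_of_isSolvable_injective
        (f := ((C.subtype.comp (T.subgroupOf C).subtype).codRestrict T fun x => x.2))
        fun a b hab => Subtype.ext (Subtype.ext (congrArg (fun t : T => (t : G)) hab))
      refine Group.isSolvable_of_ker_le_range (T.subgroupOf C).subtype τ fun c hc => ?_
      rw [Subgroup.range_subtype, Subgroup.mem_subgroupOf, hT, mem_inertia_iff]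
      funext a
      rw [hτν, MonoidHom.mem_ker.mp hc]
      simp
    have hsurj : ∀ g : G, ∃ c : C, g * (c : G)⁻¹ ∈ T := by
      intro g
      letI : CommGroup N := { (inferInstance : Group N) with
        mul_comm := fun a b => Subtype.ext (hNc _ a.2 _ b.2) }
      let lam : N →* ℂˣ := ν.comp (conjEquiv N g).toMonoidHom / ν
      have h2 : lam ∈ (CommGroup.subgroupOrderIsoSubgroupMonoidHom N ℂ
          ((CommGroup.subgroupOrderIsoSubgroupMonoidHom N ℂ).symm
            (OrderDual.toDual τ.range))).ofDual := by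
        rw [CommGroup.mem_subgroupOrderIsoSubgroupMonoidHom_iff]
        intro a ha
        rw [CommGroup.mem_subgroupOrderIsoSubgroupMonoidHom_symm_iff] at ha
        have h3 : (a : G) ∈ Z := by
          rw [← h1]
          refine ⟨a.2, Subgroup.mem_centralizer_iff.mpr fun c hc => ?_⟩
          have h4 := ha _ ⟨⟨c, hc⟩, rfl⟩
          rw [hτ, ← map_one μ] at h4
          exact commutatorElement_eq_one_iff_mul_comm.mp (congrArg Subtype.val (h.inj h4))
        have h5 : conjEquiv N g a = a := Subtype.ext (by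
          change g * a * g⁻¹ = a
          rw [h.comm h3 g, mul_inv_cancel_right])
        simp [lam, h5]
      rw [OrderIso.apply_symm_apply] at h2
      obtain ⟨c, hc⟩ := h2
      refine ⟨c, ?_⟩
      rw [hT, ← conjN_eq_conjN_iff]
      funext a
      rw [hτν, hc]
      simp [lam, conjN_eq_comp]
    have : Group.IsSolvable (G ⧸ C) := Group.isSolvable_of_surjective
      (f := (QuotientGroup.mk' C).comp T.subtype) fun x => by
        obtain ⟨g, rfl⟩ := QuotientGroup.mk_surjective x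
        obtain ⟨c, hc⟩ := hsurj g
        exact ⟨⟨_, hc⟩, by simp⟩
    exact (Group.isSolvable_iff_subgroup_quotient C).mpr ⟨hCs, this⟩
  · exfalso
    have h2 : C ≤ T := fun c hc => by
      rw [hT]
      exact centralizer_le_inertia _ (Subgroup.mem_centralizer_iff.mpr fun a ha =>
        (Subgroup.mem_centralizer_iff.mp (h1.ge ha).2 c hc).symm)
    have h3 : Nat.card W ∣ (Subgroup.centralizer (W : Set (G ⧸ Z))).index := by
      rw [← hTW, ← Subgroup.index_comap_of_surjective _ (QuotientGroup.mk'_surjective Z), ← hC]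
      exact Subgroup.index_dvd_of_le h2
    have hWp : IsPGroup p W := fun x => ⟨1, Subtype.ext (by simpa using hWe.2 x x.2)⟩
    obtain ⟨a, ha⟩ := IsPGroup.iff_card.mp hWp
    have ha0 : a ≠ 0 := by rintro rfl; rw [ha] at hW2; simp at hW2
    have hp1 : ¬ p ∣ p - 1 := Nat.not_dvd_of_pos_of_lt (by have := hp.two_le; omega)
      (by have := hp.two_le; omega)
    by_cases h6 : p ^ 6 ∣ Nat.card (G ⧸ Z)
    · obtain ⟨P, hP⟩ := hWp.exists_le_sylow
      have h4 : (P : Subgroup (G ⧸ Z)) ≤ Subgroup.centralizer (W : Set (G ⧸ Z)) := fun x hx =>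
        Subgroup.mem_centralizer_iff.mpr fun y hy => hH p hp h6 P P.isPGroup' y (hP hy) x hx
      exact P.not_dvd_index (((ha ▸ dvd_pow_self p ha0 : p ∣ Nat.card W).trans h3).trans
        (Subgroup.index_dvd_of_le h4))
    have h4 : (p ^ a) ^ 2 ∣ Nat.card (G ⧸ Z) := by
      rw [← ha, ← hrel, ← Subgroup.index_eq_card, ← h.fr.sq]
      exact pow_dvd_pow_of_dvd (h.relIndex_dvd hZN hNc) 2
    have h5 : a < 3 := by
      by_contra h5
      exact h6 ((pow_dvd_pow p (by omega)).trans (pow_mul p a 2 ▸ h4))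
    have hnorm : Subgroup.normalizer (W : Set (G ⧸ Z)) = ⊤ := Subgroup.normalizer_eq_top W
    interval_cases a
    · exact ha0 rfl
    · have h7 := CL.Small.relIndex_centralizer_dvd_of_card_prime (p := p) W (by simpa using ha)
      rw [hnorm, Subgroup.relIndex_top_right] at h7
      exact hp1 ((by rw [ha, pow_one] : p ∣ Nat.card W).trans (h3.trans h7))
    · have h7 := CL.Th.relIndex_centralizer_dvd_of_card_sq hWe ha (E := ⊤) hnorm.ge
      rw [Subgroup.relIndex_top_right] at h7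
      have h8 := h3.trans h7
      have h9 : p ^ 2 - p = (p - 1) * p := by rw [Nat.sub_mul, one_mul, sq]
      rw [ha, h9, ← mul_assoc, sq] at h8
      rcases (Nat.Prime.dvd_mul hp).mp (Nat.dvd_of_mul_dvd_mul_right hp.pos h8) with h10 | h10
      · have h11 := (Nat.dvd_sub_iff_right (Nat.one_le_iff_ne_zero.mpr
          (mul_ne_zero hp.ne_zero hp.ne_zero)) (Nat.dvd_mul_right p p)).mp h10
        exact hp.one_lt.ne' (Nat.dvd_one.mp h11)
      · exact hp1 h10

theorem comm_comap_zpowers (h : Cen Z β μ e) (x : G ⧸ Z) :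
    ∀ a ∈ (Subgroup.zpowers x).comap (QuotientGroup.mk' Z),
      ∀ b ∈ (Subgroup.zpowers x).comap (QuotientGroup.mk' Z), a * b = b * a := by
  obtain ⟨g, rfl⟩ := QuotientGroup.mk_surjective x
  have h1 : ∀ a ∈ (Subgroup.zpowers (g : G ⧸ Z)).comap (QuotientGroup.mk' Z),
      ∃ (n : ℤ), ∃ z ∈ Z, a = g ^ n * z := by
    rintro a ⟨n, hn⟩
    refine ⟨n, (g ^ n)⁻¹ * a, QuotientGroup.eq.mp hn, by simp⟩
  intro a ha b hb
  obtain ⟨n, z, hz, rfl⟩ := h1 a ha
  obtain ⟨m, w, hw, rfl⟩ := h1 b hb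
  have c1 : Commute (g ^ n) (g ^ m) := (Commute.refl g).zpow_zpow n m
  have c2 : ∀ t, Commute t z := h.comm hz
  have c3 : ∀ t, Commute t w := h.comm hw
  exact (c1.mul_right (c3 _)).mul_left ((c2 _).symm)

theorem orderOf_dvd (h : Cen Z β μ e) (x : G ⧸ Z) : orderOf x ∣ e := by
  have hZ' : Z ≤ (Subgroup.zpowers x).comap (QuotientGroup.mk' Z) := fun z hz => by
    rw [Subgroup.mem_comap, QuotientGroup.mk'_apply, (QuotientGroup.eq_one_iff z).mpr hz]
    exact one_mem _
  have h1 := h.relIndex_dvd hZ' (h.comm_comap_zpowers x)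
  have h2 := Subgroup.relIndex_ker ((Subgroup.zpowers x).comap (QuotientGroup.mk' Z))
    (QuotientGroup.mk' Z)
  rw [QuotientGroup.ker_mk', Subgroup.map_comap_eq_self_of_surjective
    (QuotientGroup.mk'_surjective Z), Nat.card_zpowers] at h2
  exact h2 ▸ h1

/-- A simple component of `G / Z` has no nontrivial cyclic Sylow subgroup. -/
theorem not_cyclic_sylow (h : Cen Z β μ e) {K : Subgroup (G ⧸ Z)} (hK : IsComponent K)
    (hKc : K ⊓ Subgroup.centralizer (K : Set (G ⧸ Z)) = ⊥) {r a : ℕ} (hr : r.Prime) {x : G ⧸ Z}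
    (hxK : x ∈ K) (hx : orderOf x = r ^ (a + 1)) : r ^ (a + 2) ∣ Nat.card K := by
  by_contra hS
  obtain ⟨L, hL⟩ : ∃ L, L = K.comap (QuotientGroup.mk' Z) := ⟨_, rfl⟩
  have hmap : L.map (QuotientGroup.mk' Z) = K := by
    rw [hL, Subgroup.map_comap_eq_self_of_surjective (QuotientGroup.mk'_surjective Z)]
  have hmap' : (⁅L, L⁆ : Subgroup G).map (QuotientGroup.mk' Z) = K := by
    rw [Subgroup.map_commutator, hmap, hK.commutator_self]
  obtain ⟨y, hy, hyx⟩ := hmap'.ge (pow_mem hxK (r ^ a))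
  rw [QuotientGroup.mk'_apply] at hyx
  have hy1 : (y : G ⧸ Z) ≠ 1 := by
    rw [hyx, Ne, ← orderOf_dvd_iff_pow_eq_one, hx, Nat.pow_dvd_pow_iff_le_right hr.one_lt]
    omega
  have hyr : y ^ r ∈ Z := by
    rw [← QuotientGroup.eq_one_iff, QuotientGroup.mk_pow, hyx, ← pow_mul, ← pow_succ, ← hx,
      pow_orderOf_eq_one]
  obtain ⟨c, hcZ, hc1⟩ := h.exists_comm (mt (QuotientGroup.eq_one_iff y).mpr hy1)
  have hcy : (c : G ⧸ Z) * y * (c : G ⧸ Z)⁻¹ = y := by
    rw [← mul_inv_eq_one]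
    exact (QuotientGroup.eq_one_iff _).mpr hcZ
  have hyK : (y : G ⧸ Z) ∈ K := hyx ▸ pow_mem hxK _
  have hcK : (c : G ⧸ Z) ∈ Subgroup.normalizer (K : Set (G ⧸ Z)) := by
    by_contra hn
    have h1 := hK.commutator_conj_eq_bot hn
    rw [Subgroup.commutator_comm, Subgroup.commutator_eq_bot_iff_le_centralizer] at h1
    exact hy1 (Subgroup.mem_bot.mp (hKc.le ⟨hyK, h1 ⟨y, hyK, hcy⟩⟩))
  have hcL : c ∈ Subgroup.normalizer (L : Set G) := by
    rw [Subgroup.mem_normalizer_iff] at hcK ⊢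
    intro g
    rw [hL]
    exact hcK g
  have hz : ⁅c, y⁆ ∈ (⁅L, L⁆ : Subgroup G) := by
    rw [commutatorElement_def]
    refine mul_mem ?_ (inv_mem hy)
    have h1 : (⁅L, L⁆ : Subgroup G).map (MulAut.conj c).toMonoidHom = ⁅L, L⁆ := by
      rw [Subgroup.map_commutator, CL.Comp.mem_normalizer_iff_conj.mp hcL]
    exact h1.le ⟨y, hy, rfl⟩
  have hzr : ⁅c, y⁆ ^ r = 1 := by
    rw [← h.comm_pow_right hcZ, commutatorElement_eq_one_iff_mul_comm, h.comm hyr]
  rw [← Subgroup.map_subtype_commutator] at hz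
  obtain ⟨z, hz, hzc⟩ := hz
  change (z : G) = _ at hzc
  let A : Subgroup L := ((Subgroup.zpowers x).comap (QuotientGroup.mk' Z)).subgroupOf L
  letI : CommGroup A := { (inferInstance : Group A) with
    mul_comm := fun a b => Subtype.ext (Subtype.ext (h.comm_comap_zpowers x _ a.2 _ b.2)) }
  have h1 := MonoidHom.transfer_eq_pow (MonoidHom.id A) z (fun k g _ => Subtype.ext (by
    have : (z : G) ^ k ∈ Z := pow_mem (hzc ▸ hcZ) k
    simp only [Subgroup.coe_mul, Subgroup.coe_inv, Subgroup.coe_pow]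
    rw [h.comm this, inv_mul_cancel_right]))
  rw [MonoidHom.mem_ker.mp (Abelianization.commutator_subset_ker _ hz)] at h1
  have h2 : ⁅c, y⁆ ^ A.index = 1 := by
    rw [← hzc]
    exact (congrArg (fun t : A => ((t : L) : G)) h1).symm
  have h3 : r ^ (a + 1) * A.index = Nat.card K := by
    have h4 : A.index = (Subgroup.zpowers x).relIndex K := by
      rw [← hmap, ← Subgroup.relIndex_comap]; rfl
    have h5 : Subgroup.zpowers x ≤ K := by simpa using hxK
    rw [h4, ← hx, ← Nat.card_zpowers,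
      ← Nat.card_congr (Subgroup.subgroupOfEquivOfLe h5).toEquiv]
    exact Subgroup.card_mul_index _
  have h4 : r.Coprime A.index := (Nat.Prime.coprime_iff_not_dvd hr).mpr fun h5 => hS (by
    rw [← h3, pow_succ _ (a + 1)]; exact Nat.mul_dvd_mul_left _ h5)
  exact hc1 (by simpa [h4.gcd_eq_one] using pow_gcd_eq_one.mpr ⟨hzr, h2⟩)

end Cen

/-- The solvability theorem, given that the relevant simple groups have a nontrivial cyclic Sylow
subgroup. -/
theorem isSolvable_of_fr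
    (hs : ∀ (T : Type u) [Group T] [Finite T] [IsSimpleGroup T], ¬ IsMulCommutative T →
      ∀ S : Sylow 2 T, (IsMulCommutative (S : Subgroup T) ∨
        (Nat.card (S : Subgroup T) ∣ 16 ∧ ∀ x : T, orderOf x ≠ 8)) →
      ∃ (r a : ℕ) (x : T), r.Prime ∧ orderOf x = r ^ (a + 1) ∧ ¬ r ^ (a + 2) ∣ Nat.card T)
    (n : ℕ) : ∀ (H : Type u) [Group H] [Finite H] (Z : Subgroup H) [Z.Normal] (χ : H → ℂ)
      (θ : Z → ℂ) (e : ℕ), FR Z χ θ e → Z.index = n → Hyp (H ⧸ Z) → Group.IsSolvable (H ⧸ Z) := by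
  induction n using Nat.strong_induction_on with
  | _ n ih =>
  intro H _ _ Z₀ _ χ θ e h₀ hn hH₀
  obtain ⟨G, _, _, Z, _, β, μ, h, ⟨ε⟩⟩ := exists_cen h₀
  have hH : Hyp (G ⧸ Z) := hH₀.of_injective ε.toMonoidHom ε.injective
  have hi : Z.index = n := by rw [← hn, ← h.fr.sq, h₀.sq]
  suffices Group.IsSolvable (G ⧸ Z) from
    Group.isSolvable_of_surjective (f := ε.toMonoidHom) ε.surjective
  by_cases hF : fittingSubgroup (G ⧸ Z) = ⊥
  swap
  · obtain ⟨W, hW, hWF⟩ := exists_isMinNormal_le _ hF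
    have := isNilpotent_of_le_fittingSubgroup hWF
    have := h.step hH hW inferInstance fun T N _ η ψ f hf hlt hT =>
        ih _ (hi ▸ hlt) T N η ψ f hf rfl hT
    infer_instance
  by_cases hE : layer (G ⧸ Z) = ⊥
  · have h1 := CL.Comp.centralizer_fstar_le (G := G ⧸ Z)
    rw [CL.Comp.fstar_eq_layer_of_fitting_eq_bot hF, hE] at h1
    exact Group.isSolvable_of_top_eq_bot _ (le_bot_iff.mp fun x _ => h1
      (Subgroup.mem_centralizer_iff.mpr fun g hg => by rw [Subgroup.mem_bot.mp hg]; simp))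
  exfalso
  rw [CL.Comp.layer_eq_bot_iff] at hE
  push Not at hE
  obtain ⟨K, hK⟩ := hE
  have hKc : K ⊓ Subgroup.centralizer (K : Set (G ⧸ Z)) = ⊥ :=
    le_bot_iff.mp (hF ▸ hK.center_le_fitting)
  have hc : Subgroup.center K = ⊥ := by
    rw [eq_bot_iff]
    intro x hx
    exact Subtype.ext (Subgroup.mem_bot.mp (hKc.le ⟨x.2, Subgroup.mem_centralizer_iff.mpr
      fun g hg => congrArg Subtype.val (Subgroup.mem_center_iff.mp hx ⟨g, hg⟩)⟩))
  have hsim : IsSimpleGroup K := by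
    have := hK.isQuasisimple.2
    exact ((QuotientGroup.quotientMulEquivOfEq hc).trans
      QuotientGroup.quotientBot).symm.isSimpleGroup
  have hna : ¬ IsMulCommutative K := fun hc =>
    hK.not_isSolvable (Group.isSolvable_of_comm hc.is_comm.comm)
  obtain ⟨S⟩ : Nonempty (Sylow 2 K) := inferInstance
  obtain ⟨r, a, x, hr, hx, hS⟩ := hs K hna S (by
    by_cases h6 : 2 ^ 6 ∣ Nat.card (G ⧸ Z)
    · exact Or.inl ⟨⟨fun a b => Subtype.ext (Subtype.ext (hH 2 Nat.prime_two h6 _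
        (S.isPGroup'.map K.subtype) _ ⟨a, a.2, rfl⟩ _ ⟨b, b.2, rfl⟩))⟩⟩
    have h8 : ¬ 8 ∣ e := fun h8 => h6 (by
      rw [← Subgroup.index_eq_card, ← h.fr.sq]; exact pow_dvd_pow_of_dvd h8 2)
    refine Or.inr ⟨?_, fun x hx => h8 (by
      rw [← hx, ← Subgroup.orderOf_coe]; exact h.orderOf_dvd _)⟩
    obtain ⟨k, hk⟩ := IsPGroup.iff_card.mp S.isPGroup'
    have h1 : 2 ^ k ∣ e ^ 2 := by
      rw [← hk, h.fr.sq, Subgroup.index_eq_card]
      exact (Subgroup.card_subgroup_dvd_card _).trans (Subgroup.card_subgroup_dvd_card _)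
    rw [hk]
    refine pow_dvd_pow 2 (show k ≤ 4 from not_lt.mp fun h5 => h8 ?_)
    have h2 : 2 ^ 5 ∣ e ^ 2 := (pow_dvd_pow 2 h5).trans h1
    have he0 := h.fr.pos.ne'
    rw [Nat.prime_two.pow_dvd_iff_le_factorization (pow_ne_zero 2 he0), Nat.factorization_pow,
      Finsupp.smul_apply, smul_eq_mul] at h2
    exact (Nat.prime_two.pow_dvd_iff_le_factorization he0 (k := 3)).mpr (by omega))
  exact hS (h.not_cyclic_sylow hK hKc hr x.2 (by rw [Subgroup.orderOf_coe, hx]))

end CL.CT
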