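import Mathlib
import Cfsg.Agent.CHAR.Linear
import Cfsg.Agent.SOLV.MinNormal
import Cfsg.Agent.SOLV.CoprimeAut
import Cfsg.Agent.SOLV.FrobeniusNil

/-!
A nilpotent Camina group of odd order with an endomorphism inverting the abelianization has
class at most two.
-/

open Subgroup CL.Char
open scoped commutatorElement Pointwise

namespace CL.Blk

variable {P : Type*} [Group P]

theorem comm_mul_right_of_central {x y y' : P} (h : ⁅x, y'⁆ ∈ center P) :
    ⁅x, y * y'⁆ = ⁅x, y⁆ * ⁅x, y'⁆ := by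
  have h1 : ⁅x, y * y'⁆ = ⁅x, y⁆ * (y * ⁅x, y'⁆ * y⁻¹) := by
    simp only [commutatorElement_def]; group
  rw [h1, mem_center_iff.1 h y, mul_inv_cancel_right]

theorem comm_mul_left_of_central {x x' y : P} (h : ⁅x', y⁆ ∈ center P) :
    ⁅x * x', y⁆ = ⁅x', y⁆ * ⁅x, y⁆ := by
  have h1 : ⁅x * x', y⁆ = (x * ⁅x', y⁆ * x⁻¹) * ⁅x, y⁆ := by
    simp only [commutatorElement_def]; group
  rw [h1, mem_center_iff.1 h x, mul_inv_cancel_right]

theorem comm_inv_left_of_central {x y : P} (h : ⁅x, y⁆ ∈ center P) : ⁅x⁻¹, y⁆ = ⁅x, y⁆⁻¹ := by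
  have h1 : ⁅x⁻¹, y⁆ = x⁻¹ * ⁅x, y⁆⁻¹ * x := by
    simp only [commutatorElement_def]; group
  rw [h1, mem_center_iff.1 (inv_mem h) x⁻¹, inv_mul_cancel_right]

theorem comm_inv_right_of_central {x y : P} (h : ⁅x, y⁆ ∈ center P) : ⁅x, y⁻¹⁆ = ⁅x, y⁆⁻¹ := by
  have h1 : ⁅x, y⁻¹⁆ = y⁻¹ * ⁅x, y⁆⁻¹ * y := by
    simp only [commutatorElement_def]; group
  rw [h1, mem_center_iff.1 (inv_mem h) y⁻¹, inv_mul_cancel_right]

theorem comm_central_mul_left {z x y : P} (h : z ∈ center P) : ⁅z * x, y⁆ = ⁅x, y⁆ := by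
  have h1 : ⁅z * x, y⁆ = z * ⁅x, y⁆ * (y * z⁻¹) * y⁻¹ := by
    simp only [commutatorElement_def]; group
  rw [h1, mem_center_iff.1 (inv_mem h) y, ← mem_center_iff.1 h]
  group

theorem comm_central_mul_right {z x y : P} (h : z ∈ center P) : ⁅x, z * y⁆ = ⁅x, y⁆ := by
  rw [← commutatorElement_inv, comm_central_mul_left h, commutatorElement_inv]

theorem exists_sq_eq_mem [Finite P] (hodd : Odd (Nat.card P)) (H : Subgroup P) {a : P}
    (ha : a ∈ H) : ∃ c ∈ H, c * c = a := by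
  obtain ⟨k, hk⟩ := hodd
  refine ⟨a ^ (k + 1), H.pow_mem ha _, ?_⟩
  rw [← pow_add, show k + 1 + (k + 1) = Nat.card P + 1 by omega, pow_succ, pow_card_eq_one',
    one_mul]

theorem camina_core [Finite P] (hodd : Odd (Nat.card P)) (τ : P →* P)
    (hτ : ∀ x, τ x * x ∈ commutator P)
    (hC : ∀ x, x ∉ commutator P → ∀ c ∈ commutator P, ∃ y, y * x * y⁻¹ = x * c)
    (h4 : ⁅⁅commutator P, (⊤ : Subgroup P)⁆, (⊤ : Subgroup P)⁆ = ⊥) :
    ⁅commutator P, (⊤ : Subgroup P)⁆ = ⊥ := by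
  classical
  set D := commutator P with hD
  set W : Subgroup P := ⁅D, ⊤⁆ with hW
  have hWZ : W ≤ center P := by
    intro w hw
    rw [mem_center_iff]
    intro g
    have : ⁅w, g⁆ ∈ (⊥ : Subgroup P) := h4 ▸ commutator_mem_commutator hw (mem_top g)
    exact (commutatorElement_eq_one_iff_mul_comm.1 this).symm
  have hWD : W ≤ D := commutator_le_left _ _
  have hcW : ∀ c ∈ D, ∀ x, ⁅c, x⁆ ∈ W := fun c hc x => commutator_mem_commutator hc (mem_top x)
  have hcW' : ∀ c ∈ D, ∀ x, ⁅x, c⁆ ∈ W := fun c hc x => by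
    rw [← commutatorElement_inv]; exact W.inv_mem (hcW c hc x)
  have hDD : ⁅D, D⁆ = ⊥ := by
    have h1 : ⁅⁅(⊤ : Subgroup P), D⁆, (⊤ : Subgroup P)⁆ = ⊥ := by
      rw [Subgroup.commutator_comm ⊤ D]; exact h4
    exact Subgroup.commutator_commutator_eq_bot_of_rotate h1 h4
  have hDc : ∀ a ∈ D, ∀ b ∈ D, ⁅a, b⁆ = 1 := fun a ha b hb =>
    (hDD ▸ commutator_mem_commutator ha hb : ⁅a, b⁆ ∈ (⊥ : Subgroup P))
  let π := QuotientGroup.mk' W
  have hπD : ∀ c ∈ D, π c ∈ center (P ⧸ W) := by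
    intro c hc
    rw [mem_center_iff]
    intro g
    obtain ⟨g, rfl⟩ := QuotientGroup.mk'_surjective W g
    rw [← commutatorElement_eq_one_iff_mul_comm, ← map_commutatorElement]
    exact (QuotientGroup.eq_one_iff _).2 (hcW' c hc g)
  have hπc : ∀ x y, ⁅π x, π y⁆ ∈ center (P ⧸ W) := fun x y => by
    rw [← map_commutatorElement]
    exact hπD _ (commutator_mem_commutator (mem_top x) (mem_top y))
  have hτx : ∀ x, τ x = (τ x * x) * x⁻¹ := fun x => by group
  -- `τ` is trivial on `D / W`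
  have hτD : ∀ c ∈ D, π (τ c) = π c := by
    have : D ≤ MonoidHom.eqLocus (π.comp τ) π := by
      refine (commutator_le (H₁ := ⊤) (H₂ := ⊤)).2 fun x _ y _ => ?_
      show π (τ ⁅x, y⁆) = π ⁅x, y⁆
      rw [map_commutatorElement, map_commutatorElement, hτx x, hτx y, map_mul π _ x⁻¹,
        map_mul π _ y⁻¹, comm_central_mul_left (hπD _ (hτ x)),
        comm_central_mul_right (hπD _ (hτ y)), map_inv, map_inv,
        comm_inv_left_of_central (by rw [← map_inv]; exact hπc _ _),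
        comm_inv_right_of_central (hπc _ _), inv_inv, map_commutatorElement]
    exact fun c hc => this hc
  have hτD' : ∀ c ∈ D, τ c * c⁻¹ ∈ W := fun c hc => by
    rw [← QuotientGroup.eq_one_iff]
    show π (τ c * c⁻¹) = 1
    rw [map_mul, hτD c hc, map_inv, mul_inv_cancel]
  -- `τ` inverts `W`
  have hτW : ∀ w ∈ W, τ w = w⁻¹ := by
    let S : Subgroup P :=
      { carrier := {w | w ∈ center P ∧ τ w = w⁻¹}
        one_mem' := ⟨one_mem _, by simp⟩
        mul_mem' := fun {a b} ha hb => ⟨mul_mem ha.1 hb.1, by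
          rw [map_mul, ha.2, hb.2, mul_inv_rev, mem_center_iff.1 (inv_mem ha.1)]⟩
        inv_mem' := fun {a} ha => ⟨inv_mem ha.1, by rw [map_inv, ha.2]⟩ }
    have : W ≤ S := by
      rw [hW, commutator_le]
      intro c hc x _
      refine ⟨hWZ (hcW c hc x), ?_⟩
      have h1 : τ c = (τ c * c⁻¹) * c := by group
      rw [map_commutatorElement, h1, comm_central_mul_left (hWZ (hτD' c hc)), hτx x,
        comm_mul_right_of_central (hWZ (hcW c hc _)), hDc c hc _ (hτ x), one_mul,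
        comm_inv_right_of_central (hWZ (hcW c hc _))]
    exact fun w hw => (this hw).2
  -- surjectivity
  have hsurj : ∀ x, x ∉ D → ∀ w ∈ W, ∃ c ∈ D, ⁅x, c⁆ = w := by
    have aux : ∀ x, x ∉ D → τ x * x ∈ W → ∀ w ∈ W, ∃ c ∈ D, ⁅x, c⁆ = w := by
      intro x hx hxW w hw
      obtain ⟨v, hv, rfl⟩ := exists_sq_eq_mem hodd W hw
      obtain ⟨y, hy⟩ := hC x⁻¹ (fun h => hx (by simpa using h)) v (hWD hv)
      have h1 : ⁅x, y⁆ = v := by
        rw [commutatorElement_def, mul_assoc x, mul_assoc x, hy, mul_inv_cancel_left]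
      have h2 : ⁅x⁻¹, τ y⁆ = v⁻¹ := by
        rw [← hτW v hv, ← h1, map_commutatorElement, hτx x, comm_central_mul_left (hWZ hxW)]
      have h3 : ⁅x, τ y⁆ = v := by
        have := comm_inv_left_of_central (x := x⁻¹) (y := τ y) (h2 ▸ inv_mem (hWZ hv))
        rwa [inv_inv, h2, inv_inv] at this
      exact ⟨τ y * y, hτ y, by rw [comm_mul_right_of_central (h1 ▸ hWZ hv), h3, h1]⟩
    intro x hx w hw
    obtain ⟨c, hc, hcc⟩ := exists_sq_eq_mem hodd D (D.inv_mem (hτ x))
    obtain ⟨c', hc', h⟩ := aux (x * c) (fun h => hx ((D.mul_mem_cancel_right hc).1 h)) (by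
      rw [← QuotientGroup.eq_one_iff]
      show π (τ (x * c) * (x * c)) = 1
      rw [map_mul τ, map_mul, map_mul, map_mul, hτD c hc, mul_assoc, ← mul_assoc (π c),
        ← mem_center_iff.1 (hπD c hc), mul_assoc, ← map_mul, hcc, ← mul_assoc, ← map_mul,
        ← map_mul, mul_inv_cancel, map_one]) w hw
    refine ⟨c', hc', ?_⟩
    rwa [comm_mul_left_of_central (by rw [hDc c hc c' hc']; exact one_mem _), hDc c hc c' hc',
      one_mul] at h
  -- counting
  by_contra hW0
  obtain ⟨w1, hw1, hw1'⟩ := (bot_lt_iff_ne_bot.2 hW0 : ⊥ < W) |> SetLike.exists_of_lt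
  obtain ⟨x0, hx0⟩ : ∃ x0, x0 ∉ D := by
    by_contra hcon
    push Not at hcon
    have h1 : D = ⊤ := eq_top_iff.2 fun x _ => hcon x
    have h2 : W = ⊤ := by rw [hW, h1]; exact h1
    apply hW0
    rw [hW, eq_bot_iff, commutator_le]
    intro a _ b _
    rw [mem_bot, commutatorElement_eq_one_iff_mul_comm]
    exact (mem_center_iff.1 (hWZ (h2 ▸ mem_top a)) b).symm
  obtain ⟨f, hf⟩ := exists_hom_apply_ne_one_of_comm (G := W)
    (fun a b => Subtype.ext (mem_center_iff.1 (hWZ b.2) a)) (x := ⟨w1, hw1⟩)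
    (fun h => hw1' (congrArg Subtype.val h))
  let Φ₀ : P → (D →* ℂˣ) := fun x =>
    { toFun := fun c => f ⟨⁅x, c⁆, hcW' c c.2 x⟩
      map_one' := by
        rw [← map_one f]; congr 1; exact Subtype.ext (by simp)
      map_mul' := fun a b => by
        rw [← map_mul]
        congr 1
        exact Subtype.ext (comm_mul_right_of_central (hWZ (hcW' b b.2 x))) }
  let Φ : P →* (D →* ℂˣ) :=
    { toFun := Φ₀
      map_one' := by
        refine MonoidHom.ext fun c => ?_
        show f ⟨⁅(1 : P), (c : P)⁆, _⟩ = 1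
        rw [← map_one f]; congr 1; exact Subtype.ext (by simp)
      map_mul' := fun a b => by
        ext c
        show ((f ⟨⁅a * b, (c : P)⁆, _⟩ : ℂˣ) : ℂ) =
          (f ⟨⁅a, (c : P)⁆, hcW' c c.2 a⟩ * f ⟨⁅b, (c : P)⁆, hcW' c c.2 b⟩ : ℂˣ)
        rw [mul_comm, ← map_mul]
        congr 2
        exact Subtype.ext (comm_mul_left_of_central (hWZ (hcW' c c.2 b))) }
  have hker : Φ.ker ≤ D := by
    intro x hx
    by_contra hxD
    obtain ⟨c, hc, h⟩ := hsurj x hxD w1 hw1
    apply hf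
    have h1 : f ⟨⁅x, c⁆, hcW' c hc x⟩ = 1 := DFunLike.congr_fun (MonoidHom.mem_ker.1 hx) ⟨c, hc⟩
    rw [← h1]
    congr 1
    exact Subtype.ext h.symm
  have h1 : D.index ≤ W.relIndex D := by
    have h2 : D.index ≤ Φ.ker.index :=
      Nat.le_of_dvd (Nat.pos_of_ne_zero index_ne_zero_of_finite) (index_dvd_of_le hker)
    refine h2.trans ?_
    rw [index_ker, relIndex, ← card_hom_trivial_on (W.subgroupOf D) (by
      refine (commutator_le (H₁ := ⊤) (H₂ := ⊤)).2 fun a _ b _ => ?_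
      have : ⁅a, b⁆ = 1 := Subtype.ext (hDc a a.2 b b.2)
      rw [this]; exact one_mem _)]
    refine Nat.card_le_card_of_injective (fun l : Φ.range => ⟨l.1, ?_⟩) fun a b hab =>
      Subtype.ext (congrArg Subtype.val hab :)
    obtain ⟨_, x, rfl⟩ := l
    intro w hw
    show f ⟨⁅x, (w : P)⁆, _⟩ = 1
    have : ⁅x, (w : P)⁆ = 1 :=
      commutatorElement_eq_one_iff_mul_comm.2 (mem_center_iff.1 (hWZ hw) x)
    simp only [this]
    exact map_one f
  let ψ : P →* P ⧸ W :=
    { toFun := fun y => ⁅π x0, π y⁆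
      map_one' := by simp
      map_mul' := fun a b => by rw [map_mul, comm_mul_right_of_central (hπc _ _)] }
  have h2 : D < ψ.ker := by
    refine lt_of_le_of_ne (fun c hc => ?_) fun h => hx0 (h ▸ ?_)
    · show ⁅π x0, π c⁆ = 1
      exact commutatorElement_eq_one_iff_mul_comm.2 (mem_center_iff.1 (hπD c hc) _)
    · show ⁅π x0, π x0⁆ = 1
      exact commutatorElement_self _
  have h3 : D.map π ≤ ψ.range := by
    rintro _ ⟨c, hc, rfl⟩
    obtain ⟨y, hy⟩ := hC x0⁻¹ (fun h => hx0 (by simpa using h)) c hc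
    refine ⟨y, ?_⟩
    show ⁅π x0, π y⁆ = π c
    rw [← map_commutatorElement, commutatorElement_def, mul_assoc x0, mul_assoc x0, hy,
      mul_inv_cancel_left]
  have h5 : Nat.card (D.map π) = W.relIndex D := by
    rw [← Subgroup.relIndex_bot_left, ← Subgroup.relIndex_comap, MonoidHom.comap_bot,
      QuotientGroup.ker_mk']
  have h6 : Nat.card (D.map π) ≤ ψ.ker.index := by
    rw [index_ker]; exact card_le_of_le h3
  have h7 : ψ.ker.index < D.index := index_strictAnti h2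
  omega

/-- A nilpotent Camina group of odd order with an endomorphism inverting the abelianization has
class at most two. -/
theorem camina_class_two [Finite P] [Group.IsNilpotent P] (hodd : Odd (Nat.card P)) (τ : P →* P)
    (hτ : ∀ x, τ x * x ∈ commutator P)
    (hC : ∀ x, x ∉ commutator P → ∀ c ∈ commutator P, ∃ y, y * x * y⁻¹ = x * c) :
    commutator P ≤ center P := by
  set W : Subgroup P := ⁅commutator P, ⊤⁆ with hW
  set V : Subgroup P := ⁅W, ⊤⁆ with hV
  let π := QuotientGroup.mk' V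
  have hπ := QuotientGroup.mk'_surjective V
  have hD : commutator (P ⧸ V) = (commutator P).map π := by
    show ⁅(⊤ : Subgroup (P ⧸ V)), ⊤⁆ = (⁅(⊤ : Subgroup P), ⊤⁆ : Subgroup P).map π
    rw [map_commutator, map_top_of_surjective _ hπ]
  have hVD : V ≤ commutator P := (commutator_le_left _ _).trans (commutator_le_left _ _)
  have hτV : V ≤ V.comap τ := by
    rw [← map_le_iff_le_comap, hV, hW, _root_.commutator_def, map_commutator, map_commutator,
      map_commutator]
    exact commutator_mono (commutator_mono (commutator_mono le_top le_top) le_top) le_top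
  have h1 := camina_core (P := P ⧸ V)
    (hodd.of_dvd_nat (card_quotient_dvd_card V)) (QuotientGroup.map V V τ hτV) (by
      intro x
      obtain ⟨x, rfl⟩ := hπ x
      rw [hD]
      exact ⟨τ x * x, hτ x, rfl⟩) (by
      intro x hx c hc
      obtain ⟨x, rfl⟩ := hπ x
      rw [hD] at hx hc
      obtain ⟨c, hc, rfl⟩ := hc
      obtain ⟨y, hy⟩ := hC x (fun h => hx (mem_map_of_mem π h)) c hc
      exact ⟨π y, by rw [← map_mul, ← map_inv, ← map_mul, hy, map_mul]⟩) (by
      rw [hD, ← map_top_of_surjective π hπ, ← map_commutator, ← map_commutator,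
        Subgroup.map_eq_bot_iff, QuotientGroup.ker_mk'])
  rw [hD, ← map_top_of_surjective π hπ, ← map_commutator, Subgroup.map_eq_bot_iff,
    QuotientGroup.ker_mk'] at h1
  have h2 : W = ⊥ := by
    have h3 : ∀ n, W ≤ (⊤ : Subgroup P).lowerCentralSeries n := by
      intro n
      induction n with
      | zero => exact le_top
      | succ n ih =>
        exact h1.trans (commutator_mono ih le_rfl)
    obtain ⟨n, hn⟩ := Subgroup.nilpotent_iff_lowerCentralSeries.1 ‹Group.IsNilpotent P›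
    exact le_bot_iff.1 (hn ▸ h3 n)
  intro c hc
  rw [mem_center_iff]
  intro g
  have : ⁅c, g⁆ ∈ (⊥ : Subgroup P) := h2 ▸ commutator_mem_commutator hc (mem_top g)
  exact (commutatorElement_eq_one_iff_mul_comm.1 this).symm

theorem comm_pow_right_of_central {x y : P} (h : ⁅x, y⁆ ∈ center P) (n : ℕ) :
    ⁅x, y ^ n⁆ = ⁅x, y⁆ ^ n := by
  induction n with
  | zero => simp
  | succ n ih => rw [pow_succ, comm_mul_right_of_central h, ih, pow_succ]

/-- A class two `p`-group `P` of Camina type acting coprimely on `M` with all elements outside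
`P₀` fixed point free forces `M` to be nilpotent. -/
theorem isNilpotent_of_class_two {G : Type*} [Group G] [Finite G] {p : ℕ} [hp : Fact p.Prime]
    {P P₀ M : Subgroup G} (hP : IsPGroup p P) (hP₀ : P₀ ≤ P) (hPM : P ≤ normalizer (M : Set G))
    (hcop : (Nat.card M).Coprime p) (hZ : ∀ c ∈ P₀, ∀ y ∈ P, y * c = c * y)
    (hcomm : ∀ x ∈ P, ∀ y ∈ P, ⁅x, y⁆ ∈ P₀) (hpow : ∀ x ∈ P, x ^ p ∈ P₀)
    (hfpf : ∀ x ∈ P, x ∉ P₀ → M ⊓ centralizer {x} = ⊥) {x : G} (hx : x ∈ P) (hx0 : x ∉ P₀)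
    (hC : ∀ c ∈ P₀, ∃ y ∈ P, ⁅x, y⁆ = c) : Group.IsNilpotent M := by
  classical
  have hfin : ∀ u ∈ P, u ≠ 1 → u ^ p = 1 → M ⊓ centralizer {u} = ⊥ → Group.IsNilpotent M := by
    intro u hu hu1 hup h
    refine Frob.isNilpotent_of_prime (R := zpowers u) ((zpowers_le.2 hu).trans hPM) ?_ ?_
    · rw [Nat.card_zpowers, orderOf_eq_prime hup hu1]; exact hp.out
    · rw [eq_bot_iff, ← h]
      exact inf_le_inf_left _ (centralizer_le (by simp))
  by_cases h0 : P₀ = ⊥
  · refine hfin x hx (fun h => hx0 (h ▸ one_mem _)) ?_ (hfpf x hx hx0)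
    have := hpow x hx
    rwa [h0, mem_bot] at this
  have hcopP : ∀ {A L : Subgroup G}, A ≤ P → L ≤ M → (Nat.card A).Coprime (Nat.card L) := by
    intro A L hA hL
    obtain ⟨k, hk⟩ := IsPGroup.iff_card.1 (hP.to_le hA)
    rw [hk]
    exact Nat.Coprime.pow_left _ (Nat.Coprime.coprime_dvd_left (card_dvd_of_le hL) hcop).symm
  set z := x ^ p with hz
  have hzP₀ : z ∈ P₀ := hpow x hx
  have hzp : z ^ p = 1 := by
    obtain ⟨y, hy, h⟩ := hC z hzP₀
    have h1 : ⁅(⟨x, hx⟩ : P), (⟨y, hy⟩ : P)⁆ ∈ center P := by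
      rw [mem_center_iff]
      intro g
      exact Subtype.ext (hZ _ (hcomm x hx y hy) g g.2)
    have h2 : ⁅x, y ^ p⁆ = ⁅x, y⁆ ^ p := congrArg Subtype.val (comm_pow_right_of_central h1 p)
    rw [← h, ← h2, commutatorElement_eq_one_iff_mul_comm]
    exact hZ _ (hpow y hy) x hx
  set M₀ := M ⊓ centralizer {z} with hM₀
  have hPM₀ : P ≤ normalizer (M₀ : Set G) := by
    intro y hy
    refine Subgroup.mem_normalizer_fintype fun m hm => ⟨(mem_normalizer_iff.1 (hPM hy) m).1 hm.1, ?_⟩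
    refine mem_centralizer_singleton_iff.2 ?_
    have h1 := mem_centralizer_singleton_iff.1 hm.2
    have h2 := hZ z hzP₀ y hy
    have h3 := hZ z hzP₀ y⁻¹ (P.inv_mem hy)
    rw [mul_assoc, h3, ← mul_assoc, mul_assoc y, h1, ← mul_assoc, h2]
    simp only [mul_assoc]
  have hfpf₀ : ∀ y ∈ P, y ∉ P₀ → ∀ m ∈ M₀, m * y = y * m → m = 1 := by
    intro y hy hy0 m hm h
    have : m ∈ M ⊓ centralizer {y} := ⟨hm.1, mem_centralizer_singleton_iff.2 h⟩
    rwa [hfpf y hy hy0] at this
  have hM₀C : M₀ ≤ centralizer (P₀ : Set G) := by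
    have hAP : P₀ ⊔ zpowers x ≤ P := sup_le hP₀ (zpowers_le.2 hx)
    have hdec : ∀ a ∈ P₀ ⊔ zpowers x, ∃ c ∈ P₀, ∃ i : ℤ, a = c * x ^ i := by
      let S : Subgroup G :=
        { carrier := {a | ∃ c ∈ P₀, ∃ i : ℤ, a = c * x ^ i}
          one_mem' := ⟨1, one_mem _, 0, by simp⟩
          mul_mem' := by
            rintro _ _ ⟨c, hc, i, rfl⟩ ⟨d, hd, j, rfl⟩
            refine ⟨c * d, mul_mem hc hd, i + j, ?_⟩
            rw [mul_assoc, ← mul_assoc (x ^ i), hZ d hd _ (P.zpow_mem hx i), zpow_add]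
            simp only [mul_assoc]
          inv_mem' := by
            rintro _ ⟨c, hc, i, rfl⟩
            refine ⟨c⁻¹, inv_mem hc, -i, ?_⟩
            rw [mul_inv_rev, ← zpow_neg, hZ _ (inv_mem hc) _ (P.zpow_mem hx _)] }
      have : P₀ ⊔ zpowers x ≤ S :=
        sup_le (fun c hc => ⟨c, hc, 0, by simp⟩) (zpowers_le.2 ⟨1, one_mem _, 1, by simp⟩)
      exact fun a ha => this ha
    have : IsMulCommutative ↥(P₀ ⊔ zpowers x) := ⟨⟨fun a b => Subtype.ext (by
      obtain ⟨c, hc, i, h1⟩ := hdec a a.2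
      obtain ⟨d, hd, j, h2⟩ := hdec b b.2
      show (a : G) * b = b * a
      rw [h1, h2]
      have e1 : Commute c d := hZ d hd c (hP₀ hc)
      have e2 : Commute c (x ^ j) := (hZ c hc _ (P.zpow_mem hx j)).symm
      have e3 : Commute (x ^ i) d := hZ d hd _ (P.zpow_mem hx i)
      exact ((e1.mul_right e2).mul_left (e3.mul_right (Commute.zpow_zpow_self x i j))).eq)⟩⟩
    refine coprime_le_of_forall_cyclic_quotient (P₀ ⊔ zpowers x) M₀ _ (hAP.trans hPM₀)
      (hcopP hAP inf_le_left) fun B a hB => ?_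
    have hBP : B ≤ P := (le_sup_left.trans hB.le).trans hAP
    by_cases hBP₀ : B ≤ P₀
    · intro m hm c hc
      have haA : a ∈ P₀ ⊔ zpowers x := hB ▸ (le_sup_right : zpowers a ≤ _) (mem_zpowers a)
      have ha0 : a ∉ P₀ := fun h => hx0 ((sup_le hBP₀ (zpowers_le.2 h) : B ⊔ zpowers a ≤ P₀)
        (hB ▸ (le_sup_right : zpowers x ≤ _) (mem_zpowers x)))
      have hap : m * a ^ p = a ^ p * m := by
        obtain ⟨d, hd, i, rfl⟩ := hdec a haA
        obtain ⟨y, hy, h⟩ := hC d hd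
        have h1 : ⁅(⟨x, hx⟩ : P), (⟨y, hy⟩ : P)⁆ ∈ center P := by
          rw [mem_center_iff]
          intro g
          exact Subtype.ext (hZ _ (hcomm x hx y hy) g g.2)
        have h2 : ⁅x, y ^ p⁆ = ⁅x, y⁆ ^ p := congrArg Subtype.val (comm_pow_right_of_central h1 p)
        have h3 : d ^ p = 1 := by
          rw [← h, ← h2, commutatorElement_eq_one_iff_mul_comm]
          exact hZ _ (hpow y hy) x hx
        have e2 : Commute d (x ^ i) := (hZ d hd _ (P.zpow_mem hx i)).symm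
        rw [e2.mul_pow, h3, one_mul, ← zpow_natCast, ← zpow_mul, mul_comm i, zpow_mul,
          zpow_natCast]
        exact (Commute.zpow_right (mem_centralizer_singleton_iff.1 hm.1.2) i).eq
      -- `c = b * a ^ j` with `a ^ j ∈ P₀`
      have hcB : c ∈ B ⊔ zpowers a := hB ▸ (le_sup_left : P₀ ≤ _) hc
      have hBn : zpowers a ≤ normalizer (B : Set G) := by
        rw [zpowers_le]
        refine Subgroup.mem_normalizer_fintype fun b hb => ?_
        rw [hZ b (hBP₀ hb) a (hAP haA), mul_inv_cancel_right]; exact hb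
      obtain ⟨b, hb, _, ⟨j, rfl⟩, rfl⟩ : c ∈ (B : Set G) * (zpowers a : Set G) := by
        rw [← coe_mul_of_right_le_normalizer_left _ _ hBn]; exact hcB
      have hj : a ^ j ∈ P₀ := (P₀.mul_mem_cancel_left (hBP₀ hb)).1 hc
      have hpj : (p : ℤ) ∣ j := by
        by_contra hnd
        have hcp : IsCoprime (p : ℤ) j :=
          (Nat.prime_iff_prime_int.1 hp.out).irreducible.coprime_iff_not_dvd.2 hnd
        obtain ⟨u, v, huv⟩ := hcp
        apply ha0
        rw [← zpow_one a, ← huv, zpow_add, mul_comm u, mul_comm v, zpow_mul, zpow_mul,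
          zpow_natCast]
        exact mul_mem (zpow_mem (hpow a (hAP haA)) u) (zpow_mem hj v)
      obtain ⟨k, rfl⟩ := hpj
      have e1 : Commute b m := mem_centralizer_iff.1 hm.2 b hb
      have e2 : Commute (a ^ ((p : ℤ) * k)) m := by
        rw [zpow_mul, zpow_natCast]
        exact (Commute.zpow_right hap k).symm
      exact (e1.mul_left e2).eq
    · obtain ⟨b, hb, hb0⟩ := SetLike.not_le_iff_exists.1 hBP₀
      intro m hm
      rw [hfpf₀ b (hBP hb) hb0 m hm.1 (mem_centralizer_iff.1 hm.2 b hb).symm]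
      exact one_mem _
  have hM₀0 : M₀ = ⊥ := by
    by_contra hne
    let φ : P →* MulAut M₀ := M₀.normalizerMonoidHom.comp (inclusion hPM₀)
    have hφ : ∀ (y : P) (m : M₀), ((φ y m : M₀) : G) = y * m * (y : G)⁻¹ := fun _ _ => rfl
    have hφ0 : ∀ y : P, (y : G) ∈ P₀ → φ y = 1 := by
      intro y hy
      ext m
      rw [hφ, mem_centralizer_iff.1 (hM₀C m.2) y hy, mul_inv_cancel_right]
      rfl
    have hφ1 : ∀ y : P, (y : G) ∉ P₀ → ∀ m : M₀, φ y m = m → m = 1 := by
      intro y hy m h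
      have h1 := hφ y m
      rw [h, eq_mul_inv_iff_mul_eq] at h1
      exact Subtype.ext (hfpf₀ y y.2 hy m m.2 h1)
    have : IsMulCommutative φ.range := ⟨⟨by
      rintro ⟨_, a, rfl⟩ ⟨_, b, rfl⟩
      apply Subtype.ext
      show φ a * φ b = φ b * φ a
      rw [← commutatorElement_eq_one_iff_mul_comm, ← map_commutatorElement]
      exact hφ0 _ (hcomm a a.2 b b.2)⟩⟩
    have h1 : (⊤ : Subgroup M₀) ≤ ⊥ := by
      refine act_le_of_forall_cyclic_quotient φ.range ⊤ ⊥ (fun _ _ _ _ => mem_top _) ?_ ?_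
      · rw [card_top]
        exact Nat.Coprime.coprime_dvd_left (card_range_dvd φ) (hcopP le_rfl inf_le_left)
      · intro C b hCb
        by_cases hC0 : C = ⊥
        · exfalso
          rw [hC0, bot_sup_eq] at hCb
          obtain ⟨y, rfl⟩ : b ∈ φ.range := hCb ▸ mem_zpowers b
          have hdec : ∀ u : P, ∃ i : ℤ, ((y ^ i)⁻¹ * u : P).1 ∈ P₀ := by
            intro u
            obtain ⟨i, hi⟩ : φ u ∈ zpowers (φ y) := hCb ▸ ⟨u, rfl⟩
            refine ⟨i, ?_⟩
            by_contra hn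
            have := (nontrivial_iff_ne_bot M₀).2 hne
            obtain ⟨m, hm⟩ := exists_ne (1 : M₀)
            refine hm (hφ1 _ hn m ?_)
            rw [map_mul, map_inv, map_zpow, ← hi, inv_mul_cancel]
            rfl
          apply h0
          rw [eq_bot_iff]
          intro c hc
          obtain ⟨u, hu, rfl⟩ := hC c hc
          obtain ⟨i, hi⟩ := hdec ⟨x, hx⟩
          obtain ⟨j, hj⟩ := hdec ⟨u, hu⟩
          rw [mem_bot, commutatorElement_eq_one_iff_mul_comm]
          have e1 : x = (y : G) ^ i * (((y : G) ^ i)⁻¹ * x) := by group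
          have e2 : u = (y : G) ^ j * (((y : G) ^ j)⁻¹ * u) := by group
          have f1 : Commute ((y : G) ^ i) (((y : G) ^ j)⁻¹ * u) := hZ _ hj _ (P.zpow_mem y.2 i)
          have f2 : Commute (((y : G) ^ i)⁻¹ * x) u := (hZ _ hi _ hu).symm
          have f3 : Commute ((y : G) ^ i) u := by
            rw [e2]; exact (Commute.zpow_zpow_self _ i j).mul_right f1
          rw [e1]
          exact (f3.mul_left f2).eq
        · obtain ⟨c, hc, hc1⟩ := (bot_lt_iff_ne_bot.2 hC0 : ⊥ < C) |> SetLike.exists_of_lt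
          obtain ⟨y, rfl⟩ : c ∈ φ.range := hCb ▸ (le_sup_left : C ≤ _) hc
          intro m hm
          exact hφ1 y (fun h => hc1 (hφ0 y h)) m (hm.2 _ hc)
    apply hne
    rw [eq_bot_iff]
    intro m hm
    exact congrArg Subtype.val (mem_bot.1 (h1 (mem_top (⟨m, hm⟩ : M₀))))
  by_cases hz1 : z = 1
  · have : M = ⊥ := by
      rw [← hM₀0, hM₀, hz1]
      exact (inf_eq_left.2 fun m _ => mem_centralizer_singleton_iff.2 (by simp)).symm
    rw [this]
    infer_instance
  · exact hfin z (hP₀ hzP₀) hz1 hzp hM₀0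

end CL.Blk
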