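import Cfsg.Agent.BLK.GCanon
import Cfsg.Agent.BLK.OW
import Cfsg.Agent.CHAR.Prod

/-! Extending the faithful character of an extraspecial `2`-group: gluing lemmas. -/

set_option autoImplicit false
open Cfsg Subgroup

namespace CL.DEx
open CL.Char CL.Glb CL.OW

variable {G : Type*} [Group G] {E S : Subgroup G} {z : G} {f : G → ℂ}

/-- `f` is a character of `E S`, irreducible on `E`, with `z` acting as `-1` -/
structure Xt (E S : Subgroup G) (z : G) (f : G → ℂ) : Prop where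
  ch : IsCharacter ↥(E ⊔ S) fun x => f x
  irr : IsIrrCharacter E fun x => f x
  neg : f z = -f 1

theorem exists_fun (L : Subgroup G) (χ : L → ℂ) : ∃ f : G → ℂ, ∀ x : L, f x = χ x := by
  classical
  exact ⟨fun x => if h : x ∈ L then χ ⟨x, h⟩ else 0, fun x => dif_pos x.2⟩

theorem zmul_of_irr {K : Type*} [Group K] [Finite K] {χ : K → ℂ} (hχ : IsIrrCharacter K χ) {z : K}
    (hz : ∀ a, a * z = z * a) : ∃ c, ∀ x, χ (z * x) = c * χ x := by
  obtain ⟨c, -, hc⟩ := mem_charCenter_iff.1 (hχ.center_le_charCenter (mem_center_iff.2 hz))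
  exact ⟨c, hc⟩

theorem neg_of_irr {K : Type*} [Group K] [Finite K] {χ : K → ℂ} (hχ : IsIrrCharacter K χ) {z : K}
    (hz : ∀ a, a * z = z * a) {y : K} (h0 : χ y ≠ 0) (h : χ (z * y) = -χ y) (x : K) :
    χ (z * x) = -χ x := by
  obtain ⟨c, hc⟩ := zmul_of_irr hχ hz
  rw [hc, ← neg_one_mul] at h
  rw [hc, mul_right_cancel₀ h0 h, neg_one_mul]

theorem comm_sup (hE : ∀ a ∈ E, a * z = z * a) (hS : ∀ a ∈ S, a * z = z * a) {a : G}
    (ha : a ∈ E ⊔ S) : a * z = z * a :=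
  mem_centralizer_singleton_iff.1 ((sup_le (fun a ha => mem_centralizer_singleton_iff.2 (hE a ha))
    fun a ha => mem_centralizer_singleton_iff.2 (hS a ha) : E ⊔ S ≤ centralizer {z}) ha)

theorem Xt.irr' [Finite G] (h : Xt E S z f) : IsIrrCharacter ↥(E ⊔ S) fun x => f x :=
  h.ch.irr_of_comp (inclusion le_sup_left) h.irr

theorem Xt.zmul [Finite G] (h : Xt E S z f) (hz : z ∈ E) (hE : ∀ a ∈ E, a * z = z * a)
    (hS : ∀ a ∈ S, a * z = z * a) {x : G} (hx : x ∈ E ⊔ S) : f (z * x) = -f x :=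
  neg_of_irr h.irr' (z := ⟨z, mem_sup_left hz⟩) (fun a => Subtype.ext (comm_sup hE hS a.2))
    (y := 1) h.irr'.one_ne_zero (by simpa using h.neg) ⟨x, hx⟩

theorem Xt.conj (h : Xt E S z f) {x y : G} (hx : x ∈ E ⊔ S) (hy : y ∈ E ⊔ S) :
    f (y * x * y⁻¹) = f x := h.ch.isClassFunction ⟨x, hx⟩ ⟨y, hy⟩

/-- conjugation between subgroups -/
def cjE {A B : Subgroup G} (s : G) (h : ∀ x, x ∈ A ↔ s * x * s⁻¹ ∈ B) : A ≃* B where
  toFun x := ⟨s * x * s⁻¹, (h x).1 x.2⟩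
  invFun y := ⟨s⁻¹ * y * s, (h _).2 (by simp [mul_assoc])⟩
  left_inv x := Subtype.ext (by simp [mul_assoc])
  right_inv x := Subtype.ext (by simp [mul_assoc])
  map_mul' x y := Subtype.ext (by simp [mul_assoc])

theorem Xt.cj {E' : Subgroup G} (h : Xt E S z f) {s : G} (hE : ∀ x, x ∈ E' ↔ s * x * s⁻¹ ∈ E)
    (hS : s ∈ normalizer (S : Set G)) (hz : s * z = z * s) :
    Xt E' S z fun x => f (s * x * s⁻¹) := by
  refine ⟨h.ch.comp (((MulAut.conj s).toMonoidHom.comp (E' ⊔ S).subtype).codRestrict (E ⊔ S)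
    fun x => ?_), h.irr.comp_mulEquiv (cjE s hE), by simpa [hz] using h.neg⟩
  have : E' ⊔ S ≤ (E ⊔ S).comap (MulAut.conj s).toMonoidHom :=
    sup_le (fun x hx => mem_sup_left ((hE x).1 hx)) fun x hx => mem_sup_right
      (conj_mem_of_norm hS hx)
  exact this x.2

theorem prod [Finite G] {E₁ E₂ : Subgroup G} {f₁ f₂ : G → ℂ} (h₁ : Xt E₁ S z f₁)
    (h₂ : Xt E₂ S z f₂) (hz1 : z ∈ E₁) (hz2 : z ∈ E₂) (hzz : z * z = 1)
    (hzS : ∀ a ∈ S, a * z = z * a) (hc : ∀ a ∈ E₁, ∀ b ∈ E₂, a * b = b * a)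
    (hS1 : S ≤ normalizer (E₁ : Set G)) (hS2 : S ≤ normalizer (E₂ : Set G))
    (hES : ∀ a ∈ E₁ ⊔ E₂, a ∈ S → a = 1) (hint : ∀ a ∈ E₁, a ∈ E₂ → a = 1 ∨ a = z) :
    ∃ f, Xt (E₁ ⊔ E₂) S z f ∧
      ∀ a ∈ E₁, ∀ b ∈ E₂, ∀ s ∈ S, f (a * b * s) = f₁ (a * s) * f₂ (b * s) := by
  let D : Subgroup (G × G × G) :=
    { carrier := {d | d.2.2 ∈ S ∧ d.1 * d.2.2⁻¹ ∈ E₁ ∧ d.2.1 * d.2.2⁻¹ ∈ E₂}
      one_mem' := ⟨one_mem _, by simp, by simp⟩
      mul_mem' := fun {d e} hd he => ⟨mul_mem hd.1 he.1,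
        by simpa [mul_assoc] using mul_mem hd.2.1 (conj_mem_of_norm (hS1 hd.1) he.2.1),
        by simpa [mul_assoc] using mul_mem hd.2.2 (conj_mem_of_norm (hS2 hd.1) he.2.2)⟩
      inv_mem' := fun {d} hd => ⟨inv_mem hd.1,
        by simpa [mul_assoc] using inv_mem (conj_mem_of_norm' (hS1 hd.1) hd.2.1),
        by simpa [mul_assoc] using inv_mem (conj_mem_of_norm' (hS2 hd.1) hd.2.2)⟩ }
  have hm : ∀ {E : Subgroup G} {x s : G}, s ∈ S → x * s⁻¹ ∈ E → x ∈ E ⊔ S := fun hs hx => by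
    simpa using mul_mem (mem_sup_left hx) (mem_sup_right hs)
  let p₁ : D →* ↥(E₁ ⊔ S) := ((MonoidHom.fst _ _).comp D.subtype).codRestrict _
    fun d => hm d.2.1 d.2.2.1
  let p₂ : D →* ↥(E₂ ⊔ S) := (((MonoidHom.fst _ _).comp (MonoidHom.snd _ _)).comp
    D.subtype).codRestrict _ fun d => hm d.2.1 d.2.2.2
  let q : D →* ↥(E₁ ⊔ E₂ ⊔ S) := MonoidHom.mk' (fun d => ⟨d.1.1 * d.1.2.2⁻¹ * d.1.2.1,
      mul_mem (mem_sup_left (mem_sup_left d.2.2.1))
        (sup_le_sup_right le_sup_right S (hm d.2.1 d.2.2.2))⟩) fun d e => Subtype.ext (by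
      have := hc _ (conj_mem_of_norm (hS1 d.2.1) e.2.2.1) _ d.2.2.2
      change d.1.1 * e.1.1 * (d.1.2.2 * e.1.2.2)⁻¹ * (d.1.2.1 * e.1.2.1) =
        d.1.1 * d.1.2.2⁻¹ * d.1.2.1 * (e.1.1 * e.1.2.2⁻¹ * e.1.2.1)
      calc _ = d.1.1 * d.1.2.2⁻¹ * (d.1.2.2 * (e.1.1 * e.1.2.2⁻¹) * d.1.2.2⁻¹ *
            (d.1.2.1 * d.1.2.2⁻¹)) * d.1.2.2 * e.1.2.1 := by group
        _ = _ := by rw [this]; group)
  let d₀ : ∀ a ∈ E₁, ∀ b ∈ E₂, ∀ s ∈ S, D := fun a ha b hb s hs =>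
    ⟨(a * s, b * s, s), hs, by simpa using ha, by simpa using hb⟩
  have hq : ∀ a ha b hb s hs, (q (d₀ a ha b hb s hs) : G) = a * b * s := fun a ha b hb s hs => by
    change a * s * s⁻¹ * (b * s) = _
    group
  have h21 : E₂ ≤ normalizer (E₁ : Set G) := le_norm_of_conj fun b hb a ha => by
    rwa [← hc a ha b hb, mul_inv_cancel_right]
  have hsurj : Function.Surjective q := fun x => by
    obtain ⟨l, hl, s, hs, hx⟩ := mem_sup_norm (le_normalizer_sup hS1 hS2) x.2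
    obtain ⟨a, ha, b, hb, rfl⟩ := mem_sup_norm h21 hl
    exact ⟨d₀ a ha b hb s hs, Subtype.ext ((hq a ha b hb s hs).trans hx.symm)⟩
  obtain ⟨ψ, hψ, hψ'⟩ := ((h₁.ch.comp p₁).mul (h₂.ch.comp p₂)).exists_deflate q hsurj fun d hd => by
    obtain ⟨⟨x, y, s⟩, hs, hx, hy⟩ := d
    have hd : x * s⁻¹ * y = 1 := congrArg Subtype.val hd
    have hx' : x * s⁻¹ ∈ E₁ := hx
    have hy' : y * s⁻¹ ∈ E₂ := hy
    have h1 : s = 1 := hES s (by
      have : s = (x * s⁻¹ * (y * s⁻¹))⁻¹ := by rw [← mul_assoc, hd]; simp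
      rw [this]
      exact inv_mem (mul_mem (mem_sup_left hx) (mem_sup_right hy))) hs
    subst h1
    simp only [inv_one, mul_one] at hd hx' hy'
    obtain rfl := eq_inv_of_mul_eq_one_left hd
    change f₁ y⁻¹ * f₂ y = f₁ 1 * f₂ 1
    rcases hint y (inv_mem_iff.1 hx') hy' with rfl | rfl
    · rw [inv_one]
    · rw [inv_eq_of_mul_eq_one_left hzz, h₁.neg, h₂.neg, neg_mul_neg]
  obtain ⟨f, hf⟩ := exists_fun _ ψ
  have hval : ∀ a ∈ E₁, ∀ b ∈ E₂, ∀ s ∈ S, f (a * b * s) = f₁ (a * s) * f₂ (b * s) :=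
    fun a ha b hb s hs => by
    rw [← hq a ha b hb s hs, hf]
    exact (congrFun hψ' (d₀ a ha b hb s hs)).symm
  refine ⟨f, ⟨by rwa [funext hf], ?_, ?_⟩, hval⟩
  · let j : E₁ × E₂ →* ↥(E₁ ⊔ E₂) := MonoidHom.mk' (fun x => ⟨x.1 * x.2,
      mul_mem (mem_sup_left x.1.2) (mem_sup_right x.2.2)⟩) fun x y => Subtype.ext (by
        have := hc _ y.1.2 _ x.2.2
        change (x.1 : G) * y.1 * (x.2 * y.2) = x.1 * x.2 * (y.1 * y.2)
        rw [mul_assoc, ← mul_assoc (y.1 : G), this]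
        group)
    rw [← isIrrCharacter_comp_surjective_iff j fun x => by
      obtain ⟨a, ha, b, hb, hx⟩ := mem_sup_norm h21 x.2
      exact ⟨(⟨a, ha⟩, ⟨b, hb⟩), Subtype.ext hx.symm⟩]
    convert h₁.irr.prod h₂.irr using 2 with x
    have := hval _ x.1.2 _ x.2.2 1 (one_mem _)
    simp only [mul_one] at this
    exact this
  · have a1 := hval z hz1 1 (one_mem _) 1 (one_mem _)
    have a2 := hval 1 (one_mem _) 1 (one_mem _) 1 (one_mem _)
    simp only [mul_one] at a1 a2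
    rw [a1, a2, h₁.neg, neg_mul]

theorem cyc [Finite G] {T : Subgroup G} (h : Xt E T z f) (hz : z ∈ E) (hTS : T ≤ S)
    (hSE : S ≤ normalizer (E : Set G)) (hST : S ≤ normalizer (T : Set G)) {s : G} (hs : s ∈ S)
    (hgen : ∀ x ∈ S, ∃ n : ℤ, x⁻¹ * s ^ n ∈ T)
    (hinv : ∀ y ∈ S, ∀ x ∈ E ⊔ T, f (y * x * y⁻¹) = f x) : ∃ f', Xt E S z f' := by
  have hle : E ⊔ T ≤ E ⊔ S := sup_le_sup_left hTS E
  have hET : E ≤ normalizer ((E ⊔ T : Subgroup G) : Set G) := le_sup_left.trans le_normalizer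
  have hn : E ⊔ S ≤ normalizer ((E ⊔ T : Subgroup G) : Set G) :=
    sup_le hET (le_normalizer_sup hSE hST)
  let N := (E ⊔ T).subgroupOf (E ⊔ S)
  have : N.Normal := normal_subgroupOf_of_le_normalizer hn
  obtain ⟨χ, hχ, hχ'⟩ := exists_ext_of_isCyclic N (θ := fun x => f x.1) ⟨⟨QuotientGroup.mk
      ⟨s, mem_sup_right hs⟩, fun x => by
      obtain ⟨x, rfl⟩ := QuotientGroup.mk_surjective x
      obtain ⟨e, he, y, hy, hx⟩ := mem_sup_norm hSE x.2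
      obtain ⟨n, hn⟩ := hgen y hy
      refine ⟨n, ?_⟩
      rw [eq_comm]
      change _ = QuotientGroup.mk (_ ^ n)
      rw [QuotientGroup.eq, mem_subgroupOf]
      have : (x : G)⁻¹ * s ^ n = y⁻¹ * e⁻¹ * y * (y⁻¹ * s ^ n) := by rw [hx]; group
      simp only [coe_mul, coe_inv, coe_zpow, this]
      exact mul_mem (mem_sup_left (conj_mem_of_norm' (hSE hy) (inv_mem he))) (mem_sup_right hn)⟩⟩
    (h.irr'.comp_mulEquiv (subgroupOfEquivOfLe hle)) fun g n => by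
      obtain ⟨e, he, y, hy, hx⟩ := mem_sup_norm hSE g.2
      change f (g * n * (g : G)⁻¹) = f n
      have h1 : (g : G) * n * (g : G)⁻¹ = e * (y * n * y⁻¹) * e⁻¹ := by rw [hx]; group
      have h2 : ((n : ↥(E ⊔ S)) : G) ∈ E ⊔ T := n.2
      rw [h1, h.conj (conj_mem_of_norm (hn (mem_sup_right hy)) h2) (mem_sup_left he),
        hinv y hy _ h2]
  obtain ⟨f', hf'⟩ := exists_fun _ χ
  have h1 : ∀ x ∈ E, f' x = f x := fun x hx =>
    (hf' ⟨x, mem_sup_left hx⟩).trans (hχ' ⟨⟨x, mem_sup_left hx⟩, mem_sup_left hx⟩)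
  refine ⟨f', by rw [funext hf']; exact hχ.isCharacter, ?_, by rw [h1 z hz, h1 1 (one_mem _), h.neg]⟩
  convert h.irr using 2 with x
  exact h1 x x.2

theorem triv [Finite G] (hz1 : z ≠ 1) (hz : z ∈ E) (hE : ∀ a ∈ E, a = 1 ∨ a = z)
    (hzS : ∀ a ∈ S, a * z = z * a) (hES : ∀ a ∈ E, a ∈ S → a = 1) :
    ∃ f, Xt E S z f ∧ ∀ s ∈ S, f s = 1 := by
  classical
  have hSE : S ≤ normalizer (E : Set G) := le_norm_of_conj fun s hs a ha => by
    rcases hE a ha with rfl | rfl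
    · simp
    · rwa [hzS s hs, mul_inv_cancel_right]
  have hzS' : z ∉ S := fun h => hz1 (hES z hz h)
  have hzz : z * z = 1 := (hE _ (mul_mem hz hz)).resolve_right (by simpa using hz1)
  have hx : ∀ x ∈ E ⊔ S, x ∉ S → z * x ∈ S := fun x hx h => by
    obtain ⟨e, he, s, hs, rfl⟩ := mem_sup_norm hSE hx
    rcases hE e he with rfl | rfl
    · exact (h (by simpa using hs)).elim
    · rwa [← mul_assoc, hzz, one_mul]
  let lam : ↥(E ⊔ S) →* ℂˣ := MonoidHom.mk' (fun x => if (x : G) ∈ S then 1 else -1) fun x y => by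
    by_cases h1 : (x : G) ∈ S <;> by_cases h2 : (y : G) ∈ S
    · simp [h1, h2, mul_mem]
    · simp [h1, h2, mul_mem_cancel_left]
    · simp [h1, h2, mul_mem_cancel_right]
    · have := mul_mem (hx x x.2 h1) (hx y y.2 h2)
      have h3 := comm_sup (E := E) (fun a ha => by rcases hE a ha with rfl | rfl <;> simp) hzS x.2
      rw [← h3, mul_assoc, ← mul_assoc z, hzz, one_mul] at this
      simp [h1, h2, this]
  have h1 : ∀ x : ↥(E ⊔ S), (lam x : ℂ) = if (x : G) ∈ S then 1 else -1 := fun x => by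
    change (((if (x : G) ∈ S then 1 else -1 : ℂˣ)) : ℂ) = _
    split_ifs <;> simp
  refine ⟨fun x => if x ∈ S then 1 else -1, ⟨?_, ?_, by simp [hzS']⟩, fun s hs => if_pos hs⟩
  · rw [← funext h1]
    exact (irrOfHom lam).2.isCharacter
  · convert (irrOfHom (lam.comp (inclusion le_sup_left))).2 using 2 with x
    exact (h1 (inclusion le_sup_left x)).symm

end CL.DEx
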