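import Cfsg.Agent.BLK.DExA
import Cfsg.Agent.ODDC.DadeGroup
import Cfsg.Agent.S4446

/-! Extending the faithful character of an extraspecial `2`-group: the cyclic core case. -/

set_option autoImplicit false
open Cfsg Subgroup
open scoped ComplexConjugate

namespace CL.DEx
open CL.Char CL.Glb CL.OW

theorem irr_res {Γ : Type*} [Group Γ] [Finite Γ] {E A : Subgroup Γ} [E.Normal] [(E ⊔ A).Normal]
    {z : Γ} (hz : ∀ a, a * z = z * a) (hzE : z ∈ E)
    (cm : ∀ a ∈ E, ∀ b ∈ E, a * b = b * a ∨ a * b = z * (b * a))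
    (cen : ∀ a ∈ E, (∀ b ∈ E, a * b = b * a) → a = 1 ∨ a = z)
    (hgen : ∀ g : Γ, ∃ m ∈ E ⊔ A, ∃ c, (∀ a ∈ A, c * a = a * c) ∧ g = m * c)
    (hfix : ∀ a ∈ A, a ≠ 1 → ∀ e ∈ E, e * a = a * e → e = 1 ∨ e = z)
    (hcop : (Nat.card E).Coprime (Nat.card A)) {k : Γ} (hk : k ∈ A) (hk1 : k ≠ 1) {φ : Γ → ℂ}
    (hφ : IsIrrCharacter Γ φ) (hneg : ∀ x, φ (z * x) = -φ x) {ε : ℤ} (hε : ε = 1 ∨ ε = -1)
    (hval : ∀ a ∈ A, a ≠ 1 → φ a = ε) : IsIrrCharacter E fun x => φ x := by
  classical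
  let M := E ⊔ A
  have := Fintype.ofFinite M
  have := Fintype.ofFinite E
  have := Fintype.ofFinite A
  have hAE : A ≤ normalizer (E : Set Γ) := by rw [normalizer_eq_top]; exact le_top
  have hconj : ∀ e ∈ E, ∀ a ∈ A, a ≠ 1 → ∃ y ∈ E, y * (e * a) * y⁻¹ = a ∨
      y * (e * a) * y⁻¹ = z * a := fun e he a ha h1 => by
    obtain ⟨y, hy, c, hc, h2, h3⟩ := CL.Dade.exists_conj_eq_centralizer_mul E a (hAE ha)
      (hcop.symm.coprime_dvd_left (A.orderOf_dvd_natCard ha)) e he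
    refine ⟨y, hy, ?_⟩
    rcases hfix a ha h1 c hc h2 with rfl | rfl
    · exact Or.inl (h3.trans (one_mul _))
    · exact Or.inr h3
  let zM : M := ⟨z, mem_sup_left hzE⟩
  obtain ⟨ψ, hψ, hne⟩ := (hφ.isCharacter.res M).exists_irr_inner_ne_zero fun h =>
    hφ.one_ne_zero (congrFun h 1)
  have hψz : ∀ x, ψ (zM * x) = -ψ x := by
    obtain ⟨c, hc⟩ := zmul_of_irr hψ (z := zM) fun a => Subtype.ext (hz a)
    have h1 : classInner (fun x : M => φ x) ψ = -conj c * classInner (fun x : M => φ x) ψ := by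
      rw [classInner_def, mul_left_comm, Finset.mul_sum _ _ (-conj c),
        ← Equiv.sum_comp (Equiv.mulLeft zM)]
      congr 1
      refine Finset.sum_congr rfl fun x _ => ?_
      rw [Equiv.coe_mulLeft, hc, map_mul, show ((zM * x : M) : Γ) = z * x from rfl, hneg]
      ring
    have h2 : conj c = -1 := by
      have := mul_right_cancel₀ hne ((one_mul _).trans h1)
      linear_combination this
    have h3 : c = -1 := by simpa using congrArg conj h2
    intro x
    rw [hc, h3, neg_one_mul]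
  obtain ⟨F, hF⟩ := exists_fun M ψ
  have hF1 : ∀ x ∈ M, ∀ y ∈ M, F (y * x * y⁻¹) = F x := fun x hx y hy =>
    (hF (⟨y, hy⟩ * ⟨x, hx⟩ * ⟨y, hy⟩⁻¹)).trans
      ((hψ.isCharacter.isClassFunction _ _).trans (hF ⟨x, hx⟩).symm)
  have hF2 : ∀ x ∈ M, F (z * x) = -F x := fun x hx =>
    (hF (zM * ⟨x, hx⟩)).trans ((hψz _).trans (congrArg _ (hF ⟨x, hx⟩).symm))
  have hF0 : ∀ e ∈ E, ¬ (e = 1 ∨ e = z) → F e = 0 := fun e he h => by
    obtain ⟨b, hb, h1⟩ : ∃ b ∈ E, b * e = z * (e * b) := by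
      by_contra! h1
      exact h (cen e he fun b hb => ((cm b hb e he).resolve_right (h1 b hb)).symm)
    have h2 := hF1 e (mem_sup_left he) b (mem_sup_left hb)
    rw [h1, mul_assoc, mul_inv_cancel_right, hF2 e (mem_sup_left he)] at h2
    linear_combination -(2⁻¹ : ℂ) * h2
  have hinv : inertia M ψ = ⊤ := inertia_eq_top_iff.2 fun g n => by
    rw [← hF, ← hF]
    change F (g * n * g⁻¹) = F n
    obtain ⟨m, hm, c, hc, rfl⟩ := hgen g
    have h1 : m * c * n * (m * c)⁻¹ = m * (c * n * c⁻¹) * m⁻¹ := by group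
    rw [h1, hF1 _ (Normal.conj_mem inferInstance _ n.2 c) m hm]
    obtain ⟨e, he, a, ha, hn⟩ := mem_sup_norm hAE n.2
    by_cases h1 : a = 1
    · rw [hn, h1, mul_one]
      by_cases h2 : e = 1 ∨ e = z
      · rcases h2 with rfl | rfl
        · simp
        · rw [hz, mul_inv_cancel_right]
      · rw [hF0 e he h2, hF0 _ (Normal.conj_mem inferInstance _ he c)]
        rintro (h3 | h3)
        · exact h2 (Or.inl (by simpa using h3))
        · rw [mul_inv_eq_iff_eq_mul, ← hz] at h3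
          exact h2 (Or.inr (mul_left_cancel h3))
    · obtain ⟨y, hy, h2⟩ := hconj e he a ha h1
      rw [← hn] at h2
      have h3 : c * (y * n * y⁻¹) * c⁻¹ = y * n * y⁻¹ := by
        rcases h2 with h2 | h2 <;> rw [h2]
        · rw [hc a ha, mul_inv_cancel_right]
        · rw [← mul_assoc, hz, mul_assoc z, hc a ha, mul_assoc, mul_inv_cancel_right]
      rw [← hF1 n n.2 y (mem_sup_left hy), ← h3, ← hF1 _ (Normal.conj_mem inferInstance _ n.2 c)
        (c * y * c⁻¹) (mem_sup_left (Normal.conj_mem inferInstance _ hy c))]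
      congr 1
      group
  obtain ⟨e, -, he⟩ := exists_res_eq_smul_of_invariant hφ hψ hinv hne
  have he1 : e = 1 := by
    have h1 : (ε : ℂ) = e * ψ ⟨k, mem_sup_right hk⟩ :=
      (hval k hk hk1).symm.trans (congrFun he ⟨k, mem_sup_right hk⟩)
    have he0 : (e : ℂ) ≠ 0 := fun h => by
      rw [h, zero_mul] at h1
      rcases hε with rfl | rfl <;> simp at h1
    have h2 : IsIntegral ℤ (algebraMap ℚ ℂ (ε / e)) := by
      have : algebraMap ℚ ℂ (ε / e) = ψ ⟨k, mem_sup_right hk⟩ := by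
        simp only [eq_ratCast, Rat.cast_div, Rat.cast_intCast, Rat.cast_natCast, h1]
        field_simp
      rw [this]
      exact hψ.isCharacter.isIntegral _
    rw [isIntegral_algebraMap_iff (algebraMap ℚ ℂ).injective] at h2
    obtain ⟨y, hy⟩ := IsIntegrallyClosed.isIntegral_iff.1 h2
    have he0' : (e : ℚ) ≠ 0 := by exact_mod_cast he0
    rw [eq_div_iff he0', eq_intCast] at hy
    have h3 : y * e = ε := by exact_mod_cast hy
    have h4 : (e : ℤ) ∣ 1 := by
      rcases hε with rfl | rfl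
      · exact Dvd.intro_left _ h3
      · exact dvd_neg.1 (Dvd.intro_left _ h3)
    exact Nat.dvd_one.1 (by exact_mod_cast h4)
  rw [he1, Nat.cast_one, one_smul] at he
  have hbij : Function.Bijective fun x : A × E =>
      (⟨x.2 * x.1, mul_mem (mem_sup_left x.2.2) (mem_sup_right x.1.2)⟩ : M) := by
    refine ⟨fun x y h => ?_, fun x => ?_⟩
    · have h : (x.2 : Γ) * x.1 = y.2 * y.1 := congrArg Subtype.val h
      have h1 : (y.2 : Γ)⁻¹ * x.2 = y.1 * (x.1 : Γ)⁻¹ := by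
        rw [inv_mul_eq_iff_eq_mul, ← mul_assoc, ← h, mul_inv_cancel_right]
      have h2 : (y.2 : Γ)⁻¹ * x.2 = 1 := Subgroup.disjoint_def.1
        (disjoint_of_coprime_natCard hcop) (mul_mem (inv_mem y.2.2) x.2.2)
        (h1 ▸ mul_mem y.1.2 (inv_mem x.1.2))
      rw [h2] at h1
      exact Prod.ext (Subtype.ext (mul_inv_eq_one.1 h1.symm).symm)
        (Subtype.ext (inv_mul_eq_one.1 h2).symm)
    · obtain ⟨e, he, a, ha, hn⟩ := mem_sup_norm hAE x.2
      exact ⟨(⟨a, ha⟩, ⟨e, he⟩), Subtype.ext hn.symm⟩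
  have h1 := card_mul_classInner ψ ψ
  rw [hψ.inner_self, mul_one, ← he, ← hbij.sum_comp, Fintype.sum_prod_type,
    ← Nat.card_eq_of_bijective _ hbij, Nat.card_prod, ← Finset.add_sum_erase _ _ (Finset.mem_univ 1),
    Finset.sum_congr (s₁ := Finset.univ.erase 1) rfl (g := fun _ => (Nat.card E : ℂ))
      fun (a : A) ha => ?_] at h1
  · refine (hφ.isCharacter.res E).isIrr_of_inner_self (mul_left_cancel₀ (card_ne_zero E) ?_)
    rw [card_mul_classInner, mul_one]
    rw [Finset.sum_const, Finset.card_erase_of_mem (Finset.mem_univ _), Finset.card_univ,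
      ← Nat.card_eq_fintype_card, nsmul_eq_mul, Nat.cast_sub Nat.card_pos] at h1
    simp only [OneMemClass.coe_one, mul_one] at h1
    push_cast at h1
    linear_combination -h1
  · have ha1 : (a : Γ) ≠ 1 := fun h => (Finset.mem_erase.1 ha).1 (Subtype.ext h)
    rw [Finset.sum_congr rfl (g := fun _ => (1 : ℂ)) fun e _ => ?_]
    · simp
    · obtain ⟨y, -, h2⟩ := hconj e e.2 a a.2 ha1
      have h3 := hφ.isCharacter.isClassFunction (e * a) y
      change φ (e * a) * conj (φ (e * a)) = 1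
      rcases h2 with h2 | h2 <;> rw [← h3, h2] <;> rcases hε with rfl | rfl <;>
        simp [hneg, hval a a.2 ha1]

variable {G : Type*} [Group G] {E S K : Subgroup G} {z : G}

/-- the situation of the extension theorem -/
structure Sit (E S K : Subgroup G) (z : G) : Prop where
  z2 : z * z = 1
  z1 : z ≠ 1
  zE : z ∈ E
  pE : IsPGroup 2 E
  pS : IsPGroup 2 S
  oK : Odd (Nat.card K)
  cm : ∀ a ∈ E, ∀ b ∈ E, a * b = b * a ∨ a * b = z * (b * a)
  zcE : ∀ a ∈ E, a * z = z * a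
  zcS : ∀ a ∈ S, a * z = z * a
  zcK : ∀ a ∈ K, a * z = z * a
  cen : ∀ a ∈ E, (∀ b ∈ E, a * b = b * a) → a = 1 ∨ a = z
  SE : S ≤ normalizer (E : Set G)
  KE : K ≤ normalizer (E : Set G)
  SK : S ≤ normalizer (K : Set G)
  ES : ∀ a ∈ E, a ∈ S → a = 1
  fix : ∀ a ∈ E, (∀ k ∈ K, a * k = k * a) → a = 1 ∨ a = z

theorem cop_of_odd [Finite G] {P : Subgroup G} (hP : IsPGroup 2 P) (hK : Odd (Nat.card K)) :
    (Nat.card P).Coprime (Nat.card K) := by
  have := Fact.mk Nat.prime_two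
  obtain ⟨n, hn⟩ := hP.exists_card_eq
  rw [hn]
  exact (Nat.coprime_two_left.2 hK).pow_left _

theorem mem_zp (h : z * z = 1) {a : G} : a ∈ zpowers z ↔ a = 1 ∨ a = z := by
  refine ⟨fun ha => ?_, by rintro (rfl | rfl); exacts [one_mem _, mem_zpowers _]⟩
  obtain ⟨n, rfl⟩ := ha
  have h2 : z ^ (2 : ℤ) = 1 := by rw [zpow_two, h]
  rcases Int.even_or_odd' n with ⟨m, rfl | rfl⟩
  · exact Or.inl (by simp only [zpow_mul, h2, one_zpow])
  · exact Or.inr (by simp only [zpow_add, zpow_mul, h2, one_zpow, one_mul, zpow_one])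

theorem core [Finite G] (h : Sit E S K z) (hr : (Nat.card K).Prime) : ∃ f, Xt E S z f := by
  classical
  have := Fact.mk hr
  have := Fact.mk Nat.prime_two
  let C := S ⊓ centralizer (K : Set G)
  let N := E ⊔ C
  let L := N ⊔ K
  let Z := zpowers z
  have hgen : ∀ a ∈ K, a ≠ 1 → ∀ b ∈ K, b ∈ zpowers a := fun a ha h1 b hb => by
    obtain ⟨n, hn⟩ := mem_zpowers_of_prime_card (g := (⟨a, ha⟩ : K)) (g' := ⟨b, hb⟩) rfl
      fun e => h1 (congrArg Subtype.val e)
    exact ⟨n, congrArg Subtype.val hn⟩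
  have hfix : ∀ a ∈ K, a ≠ 1 → ∀ e ∈ E, e * a = a * e → e = 1 ∨ e = z := fun a ha h1 e he h2 =>
    h.fix e he fun b hb => by
      obtain ⟨n, rfl⟩ := hgen a ha h1 b hb
      exact (Commute.zpow_right h2 n).eq
  have hCE : C ≤ normalizer (E : Set G) := inf_le_left.trans h.SE
  have hKC : K ≤ normalizer (C : Set G) :=
    (le_centralizer_iff.1 inf_le_right).trans (centralizer_le_normalizer _)
  have hKN : K ≤ normalizer (N : Set G) := le_normalizer_sup h.KE hKC
  have hSC : S ≤ normalizer (C : Set G) := le_normalizer_inf le_normalizer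
    (le_normalizer_centralizer h.SK)
  have hSN : S ≤ normalizer (N : Set G) := le_normalizer_sup h.SE hSC
  have hSL : S ≤ normalizer (L : Set G) := le_normalizer_sup hSN h.SK
  have hZE : Z ≤ E := zpowers_le.2 h.zE
  have hEL : E ≤ L := le_sup_left.trans le_sup_left
  have hDL : Z ⊔ C ≤ L := (sup_le_sup_right hZE C).trans le_sup_left
  have hCZ : C ≤ normalizer (Z : Set G) := le_norm_of_conj fun s hs a ha => by
    rcases (mem_zp h.z2).1 ha with rfl | rfl
    · simp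
    · rwa [h.zcS s hs.1, mul_inv_cancel_right]
  obtain ⟨f₀, hf₀, hf₀'⟩ := triv (E := Z) (S := C) h.z1 (mem_zpowers z)
    (fun a => (mem_zp h.z2).1) (fun a ha => h.zcS a ha.1) fun a ha h1 => h.ES a (hZE ha) h1.1
  have hf₁ : ∀ c ∈ C, f₀ (z * c) = -1 := fun c hc => by
    rw [hf₀.zmul (mem_zpowers z) (fun a ha => h.zcE a (hZE ha)) (fun a ha => h.zcS a ha.1)
      (mem_sup_right hc), hf₀' c hc]
  have hpN : IsPGroup 2 N := IsPGroup.to_sup_of_normal_left' h.pE (h.pS.to_le inf_le_left) hCE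
  have := Fintype.ofFinite L
  have := Fintype.ofFinite (N.subgroupOf L)
  have := Fintype.ofFinite ((Z ⊔ C).subgroupOf L)
  have hcN : Nat.card (N.subgroupOf L) = Nat.card N :=
    Nat.card_congr (subgroupOfEquivOfLe le_sup_left).toEquiv
  have hcK : Nat.card (K.subgroupOf L) = Nat.card K :=
    Nat.card_congr (subgroupOfEquivOfLe le_sup_right).toEquiv
  have hDN : ∀ a ∈ K, a ≠ 1 → ∀ x ∈ N, x * a = a * x → x ∈ Z ⊔ C := fun a ha h1 x hx h2 => by
    obtain ⟨e, he, c, hc, rfl⟩ := mem_sup_norm hCE hx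
    refine mul_mem (mem_sup_left ((mem_zp h.z2).2 (hfix a ha h1 e he ?_))) (mem_sup_right hc)
    rw [mul_assoc, ← hc.2 a ha, ← mul_assoc, ← mul_assoc] at h2
    exact mul_right_cancel h2
  have hDK : ∀ x ∈ Z ⊔ C, ∀ a ∈ K, a * x = x * a := fun x hx =>
    (sup_le (zpowers_le.2 h.zcK) inf_le_right : Z ⊔ C ≤ centralizer (K : Set G)) hx
  have := Finite.one_lt_card_iff_nontrivial.1 hr.one_lt
  obtain ⟨⟨k, hk⟩, hk1⟩ := exists_ne (1 : K)
  replace hk1 : k ≠ 1 := fun e => hk1 (Subtype.ext e)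
  have hcop : (Nat.card (N.subgroupOf L)).Coprime (Nat.card (K.subgroupOf L)) := by
    rw [hcN, hcK]
    exact cop_of_odd hpN h.oK
  have hβ := hf₀.irr'.comp_mulEquiv (subgroupOfEquivOfLe hDL)
  obtain ⟨χ, φ, ε, -, hφχ, -, hε, hφ⟩ := (Cfsg.Agent.S4446.result (N.subgroupOf L) (K.subgroupOf L)
    (fun s hs g hg => conj_mem_of_norm (G := N) (hKN hs) hg) hcop
    (by rw [← subgroupOf_sup le_sup_left le_sup_right, subgroupOf_self])
    (isCyclic_of_prime_card hcK) ((Z ⊔ C).subgroupOf L) (Subgroup.ext fun x =>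
      ⟨fun hx => ⟨sup_le_sup_right hZE C hx, fun a ha => Subtype.ext (hDK _ hx a ha)⟩,
        fun hx => hDN k hk hk1 _ hx.1
          (congrArg Subtype.val (hx.2 ⟨k, mem_sup_right hk⟩ hk)).symm⟩)
    (fun x hx => sup_le_sup_right hZE C hx)).2.2 ⟨_, hβ⟩
  obtain ⟨f, hf⟩ := exists_fun L φ.1
  have hv : ∀ c ∈ Z ⊔ C, ∀ a ∈ K, a ≠ 1 → f (c * a) = ε * f₀ c := fun c hc a ha h1 => by
    refine (hf (⟨c, hDL hc⟩ * ⟨a, mem_sup_right ha⟩)).trans (hφ ⟨⟨c, hDL hc⟩, hc⟩ _ (le_antisymm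
      (zpowers_le.2 ha) fun b hb => ?_))
    obtain ⟨n, hn⟩ := hgen a ha h1 b hb
    exact ⟨n, Subtype.ext hn⟩
  have hv1 : ∀ a ∈ K, a ≠ 1 → f a = ε := fun a ha h1 => by
    simpa [hf₀' 1 (one_mem _)] using hv 1 (one_mem _) a ha h1
  have hε0 : (ε : ℂ) ≠ 0 := by rcases hε with rfl | rfl <;> simp
  have hzL : ∀ a : L, a * ⟨z, hEL h.zE⟩ = ⟨z, hEL h.zE⟩ * a := fun a => Subtype.ext
    (comm_sup (E := N) (fun a ha => comm_sup (S := C) h.zcE (fun a ha => h.zcS a ha.1) ha) h.zcK a.2)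
  have hneg := neg_of_irr φ.2 hzL (y := ⟨k, mem_sup_right hk⟩)
    (by rw [← hf, hv1 k hk hk1]; exact hε0) (by
      rw [← hf, ← hf, hv1 k hk hk1]
      simpa [hf₀.neg, hf₀' 1 (one_mem _)] using hv z (mem_sup_left (mem_zpowers z)) k hk hk1)
  have hEn : (E.subgroupOf L).Normal :=
    normal_subgroupOf_of_le_normalizer (sup_le (sup_le le_normalizer hCE) h.KE)
  have hNn : (N.subgroupOf L).Normal :=
    normal_subgroupOf_of_le_normalizer (sup_le le_normalizer hKN)
  have hMn : (E.subgroupOf L ⊔ K.subgroupOf L).Normal := by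
    rw [← subgroupOf_sup hEL le_sup_right]
    exact normal_subgroupOf_of_le_normalizer (sup_le (sup_le (le_sup_left.trans le_normalizer)
      (le_normalizer_sup hCE (inf_le_left.trans h.SK))) (le_sup_right.trans le_normalizer))
  have hirr := irr_res (E := E.subgroupOf L) (A := K.subgroupOf L) hzL h.zE
    (fun a ha b hb => (h.cm a ha b hb).imp Subtype.ext Subtype.ext)
    (fun a ha h1 => (h.cen a ha fun b hb => congrArg Subtype.val (h1 ⟨b, hEL hb⟩ hb)).imp
      Subtype.ext Subtype.ext)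
    (fun g => by
      obtain ⟨x, hx, a, ha, hg⟩ := mem_sup_norm hKN g.2
      obtain ⟨e, he, c, hc, rfl⟩ := mem_sup_norm hCE hx
      exact ⟨⟨e, hEL he⟩ * ⟨a, mem_sup_right ha⟩, mul_mem (mem_sup_left he) (mem_sup_right ha),
        ⟨c, mem_sup_left (mem_sup_right hc)⟩, fun b hb => Subtype.ext (hc.2 b hb).symm,
        Subtype.ext (by rw [hg, mul_assoc, ← hc.2 a ha, ← mul_assoc]; rfl)⟩)
    (fun a ha h1 e he h2 => (hfix a ha (fun e => h1 (Subtype.ext e)) e he
      (congrArg Subtype.val h2)).imp Subtype.ext Subtype.ext)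
    (hcop.coprime_dvd_left (card_dvd_of_le (subgroupOf_mono L le_sup_left)))
    (k := ⟨k, mem_sup_right hk⟩) hk (fun e => hk1 (congrArg Subtype.val e)) φ.2 hneg hε
    fun a ha h1 => by rw [← hf, hv1 a ha fun e => h1 (Subtype.ext e)]
  have hX : Xt E C z f := ⟨by
      convert φ.2.isCharacter.comp (inclusion (le_sup_left : N ≤ L)) using 2 with x
      exact hf (inclusion le_sup_left x), by
      convert hirr.comp_mulEquiv (subgroupOfEquivOfLe hEL).symm using 2 with x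
      exact hf ⟨x, hEL x.2⟩, by
      have := hneg 1
      rwa [mul_one, ← hf, ← hf] at this⟩
  have : IsCyclic K := isCyclic_of_prime_card rfl
  have : IsCyclic (MulAut K) :=
    isCyclic_of_surjective _ (IsCyclic.mulAutMulEquiv K).symm.surjective
  let τ : S →* MulAut K := K.normalizerMonoidHom.comp (inclusion h.SK)
  obtain ⟨⟨_, s, rfl⟩, hs⟩ := IsCyclic.exists_generator (α := τ.range)
  refine cyc hX h.zE inf_le_left h.SE hSC s.2 (fun x hx => ?_) fun y hy x hx => ?_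
  · obtain ⟨n, hn⟩ := hs ⟨_, ⟨x, hx⟩, rfl⟩
    have h1 : τ ((⟨x, hx⟩ : S)⁻¹ * s ^ n) = 1 := by
      rw [map_mul, map_inv, map_zpow, inv_mul_eq_one]
      exact (congrArg Subtype.val hn).symm
    refine ⟨n, ((⟨x, hx⟩ : S)⁻¹ * s ^ n).2, fun a ha => ?_⟩
    have h2 : (x⁻¹ * s ^ n) * a * (x⁻¹ * s ^ n)⁻¹ = a :=
      congrArg (fun σ : MulAut K => (σ ⟨a, ha⟩ : G)) h1
    exact (mul_inv_eq_iff_eq_mul.1 h2).symm
  · let α := cjE (A := L) (B := L) y (mem_normalizer_iff.1 (hSL hy))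
    have hχ : IsIrrCharacter (N.subgroupOf L) fun g => φ.1 g := by rw [funext hφχ]; exact χ.2
    have hk' : y * k * y⁻¹ ≠ 1 := by simpa using hk1
    have := res_eq_of_coset (G := N.subgroupOf L) (C := (Z ⊔ C).subgroupOf L)
      (x := ⟨k, mem_sup_right hk⟩)
      (hcop.coprime_dvd_right ((K.subgroupOf L).orderOf_dvd_natCard hk)) (Subgroup.ext fun x =>
        ⟨fun hx => ⟨sup_le_sup_right hZE C hx, mem_centralizer_singleton_iff.2
          (Subtype.ext (hDK _ hx k hk).symm)⟩, fun hx => hDN k hk hk1 _ hx.1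
          (congrArg Subtype.val (mem_centralizer_singleton_iff.1 hx.2))⟩)
      (φ := fun g => φ.1 (α g)) (φ.2.comp_mulEquiv α).isCharacter
      (hχ.comp_mulEquiv ((subgroupOfEquivOfLe le_sup_left).trans ((cjE (A := N) (B := N) y
        (mem_normalizer_iff.1 (hSN hy))).trans (subgroupOfEquivOfLe le_sup_left).symm)))
      φ.2.isCharacter hχ hβ hε0 hε0 (fun c => by
        rw [← hf]
        change f (y * (c * k) * y⁻¹) = ε * f₀ c
        obtain ⟨w, hw, d, hd, hc⟩ := mem_sup_norm hCZ c.2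
        have hd' := conj_mem_of_norm (hSC hy) hd
        have h1 : y * ((c : L) * k) * y⁻¹ = y * (c : L) * y⁻¹ * (y * k * y⁻¹) := by group
        have hc : ((c : L) : G) = w * d := hc
        have h2 : y * (c : L) * y⁻¹ = w * (y * d * y⁻¹) := by
          rcases (mem_zp h.z2).1 hw with rfl | rfl
          · rw [hc, one_mul, one_mul]
          · rw [hc, ← mul_assoc, h.zcS y hy]; group
        rw [h1, h2, hv _ (mul_mem (mem_sup_left hw) (mem_sup_right hd')) _
          (conj_mem_of_norm (h.SK hy) hk) hk', hc]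
        rcases (mem_zp h.z2).1 hw with rfl | rfl
        · rw [one_mul, one_mul, hf₀' _ hd', hf₀' _ hd]
        · rw [hf₁ _ hd', hf₁ _ hd])
      fun c => (hf _).symm.trans (hv _ c.2 k hk hk1)
    exact (hf (α ⟨x, mem_sup_left hx⟩)).trans ((congrFun this ⟨⟨x, mem_sup_left hx⟩, hx⟩).trans
      (hf ⟨x, mem_sup_left hx⟩).symm)

end CL.DEx
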