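import Cfsg.Agent.BLK.DExB
import Cfsg.Agent.SOLV.CoprimeGen
import Cfsg.Agent.TECH.Conj
import Cfsg.Agent.PLOC.PFrattini
import Cfsg.Agent.S0205

/-! Extending the faithful character of an extraspecial `2`-group: the induction. -/

set_option autoImplicit false
open Cfsg Subgroup
open scoped commutatorElement

namespace CL.DEx
open CL.Char CL.Glb CL.OW CL.MSS

variable {G : Type*} [Group G] {E S K : Subgroup G} {z : G}

theorem comm_of_sup {E₁ E₂ : Subgroup G} {a : G} (h1 : ∀ b ∈ E₁, a * b = b * a)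
    (h2 : ∀ b ∈ E₂, a * b = b * a) {b : G} (hb : b ∈ E₁ ⊔ E₂) : a * b = b * a :=
  (comm_sup (fun b hb => (h1 b hb).symm) (fun b hb => (h2 b hb).symm) hb).symm

theorem Sit.sub (h : Sit E S K z) {E₁ E₂ T : Subgroup G} (h1 : E₁ ≤ E) (hz : z ∈ E₁)
    (hsup : E ≤ E₁ ⊔ E₂) (hc : ∀ a ∈ E₁, ∀ b ∈ E₂, a * b = b * a) (hT : T ≤ S)
    (hTE : T ≤ normalizer (E₁ : Set G)) (hKE : K ≤ normalizer (E₁ : Set G)) : Sit E₁ T K z :=
  ⟨h.z2, h.z1, hz, h.pE.to_le h1, h.pS.to_le hT, h.oK, fun a ha b hb => h.cm a (h1 ha) b (h1 hb),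
    fun a ha => h.zcE a (h1 ha), fun a ha => h.zcS a (hT ha), h.zcK,
    fun a ha h2 => h.cen a (h1 ha) fun _ hb => comm_of_sup h2 (hc a ha) (hsup hb), hTE, hKE,
    hT.trans h.SK, fun a ha h2 => h.ES a (h1 ha) (hT h2), fun a ha => h.fix a (h1 ha)⟩

theorem comm_of_cm (hz2 : z * z = 1) (cm : ∀ a ∈ E, ∀ b ∈ E, a * b = b * a ∨ a * b = z * (b * a))
    (zcE : ∀ a ∈ E, a * z = z * a) {B : Subgroup G} (hB : ∀ a ∈ B, a * z = z * a) {c : G}
    (hc : c ∈ E) (hcB : c ∈ centralizer (B : Set G)) {x : G} (hx : x ∈ ⁅E, B⁆) :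
    c * x = x * c := by
  refine (mem_centralizer_singleton_iff.1 ((commutator_le.2 fun e he b hb =>
    mem_centralizer_singleton_iff.2 ?_ : ⁅E, B⁆ ≤ centralizer {c}) hx)).symm
  have h1 : b * c = c * b := hcB b hb
  have h2 := hB b hb
  have h3 := zcE e he
  rw [commutatorElement_def]
  rcases cm c hc e he with h4 | h4
  · exact ((((Commute.mul_right h4 h1.symm).mul_right (Commute.inv_right h4)).mul_right
      (Commute.inv_right h1.symm)).eq).symm
  · have h5 : c * e⁻¹ = z * (e⁻¹ * c) := by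
      calc c * e⁻¹ = e⁻¹ * (z * z) * (e * c) * e⁻¹ := by rw [hz2]; group
        _ = e⁻¹ * z * (c * e) * e⁻¹ := by rw [h4]; group
        _ = z * (e⁻¹ * c) := by rw [(Commute.inv_left h3).eq]; group
    symm
    calc c * (e * b * e⁻¹ * b⁻¹) = z * e * (c * b) * e⁻¹ * b⁻¹ := by
          rw [← mul_assoc, ← mul_assoc, ← mul_assoc, h4]; group
      _ = z * e * b * (c * e⁻¹) * b⁻¹ := by rw [← h1]; group
      _ = z * (e * (b * z)) * e⁻¹ * (c * b⁻¹) := by rw [h5]; group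
      _ = (z * z) * e * b * e⁻¹ * (b⁻¹ * c) := by
          rw [h2, ← mul_assoc e, h3, (Commute.inv_right h1.symm).eq]; group
      _ = _ := by rw [hz2]; group

theorem Sit.comm (h : Sit E S K z) {B : Subgroup G} (hB : B ≤ K) {c : G} (hc : c ∈ E)
    (hcB : c ∈ centralizer (B : Set G)) {x : G} (hx : x ∈ ⁅E, B⁆) : c * x = x * c :=
  comm_of_cm h.z2 h.cm h.zcE (fun a ha => h.zcK a (hB ha)) hc hcB hx

theorem Sit.split [Finite G] (h : Sit E S K z)
    (ih : ∀ E' S' K' : Subgroup G, Sit E' S' K' z →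
      Nat.card E' + Nat.card S' < Nat.card E + Nat.card S → ∃ f, Xt E' S' z f)
    {E₁ E₂ : Subgroup G} (h1 : E₁ < E) (h2 : E₂ < E) (hz1 : z ∈ E₁) (hz2 : z ∈ E₂)
    (hsup : E ≤ E₁ ⊔ E₂) (hc : ∀ a ∈ E₁, ∀ b ∈ E₂, a * b = b * a)
    (hS1 : S ≤ normalizer (E₁ : Set G)) (hS2 : S ≤ normalizer (E₂ : Set G))
    (hK1 : K ≤ normalizer (E₁ : Set G)) (hK2 : K ≤ normalizer (E₂ : Set G)) :
    ∃ f, Xt E S z f := by
  obtain ⟨f₁, hf₁⟩ := ih _ _ _ (h.sub h1.le hz1 hsup hc le_rfl hS1 hK1)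
    (Nat.add_lt_add_right (card_lt_of_lt h1) _)
  obtain ⟨f₂, hf₂⟩ := ih _ _ _ (h.sub h2.le hz2 (hsup.trans (sup_comm _ _).le)
    (fun a ha b hb => (hc b hb a ha).symm) le_rfl hS2 hK2)
    (Nat.add_lt_add_right (card_lt_of_lt h2) _)
  obtain rfl := le_antisymm hsup (sup_le h1.le h2.le)
  obtain ⟨f, hf, -⟩ := prod hf₁ hf₂ hz1 hz2 h.z2 h.zcS hc hS1 hS2 h.ES fun a ha hb =>
    h.cen a (h1.le ha) fun _ => comm_of_sup (fun b hb' => (hc b hb' a hb).symm) (hc a ha)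
  exact ⟨f, hf⟩

theorem norm_zp {T : Subgroup G} (hT : ∀ a ∈ T, a * z = z * a) :
    T ≤ normalizer (zpowers z : Set G) :=
  (le_centralizer_iff.1 (zpowers_le.2 hT)).trans (centralizer_le_normalizer _)

/-- the product of the centralisers of a family of hyperplanes -/
def EF (E K : Subgroup G) (z : G) (r : ℕ) (P : Subgroup G → Prop) : Subgroup G :=
  zpowers z ⊔ ⨆ B : {B : Subgroup G // B ≤ K ∧ B.relIndex K = r ∧ P B}, E ⊓ centralizer (B.1 : Set G)

variable {r : ℕ} {P P' : Subgroup G → Prop}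

theorem z_mem_EF : z ∈ EF E K z r P := mem_sup_left (mem_zpowers z)

theorem le_EF {B : Subgroup G} (h1 : B ≤ K) (h2 : B.relIndex K = r) (h3 : P B) :
    E ⊓ centralizer (B : Set G) ≤ EF E K z r P :=
  le_sup_of_le_right (le_iSup (fun B : {B : Subgroup G // B ≤ K ∧ B.relIndex K = r ∧ P B} =>
    E ⊓ centralizer (B.1 : Set G)) ⟨B, h1, h2, h3⟩)

theorem EF_le {L : Subgroup G} (hz : z ∈ L) (h : ∀ B ≤ K, B.relIndex K = r → P B →
    E ⊓ centralizer (B : Set G) ≤ L) : EF E K z r P ≤ L :=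
  sup_le (zpowers_le.2 hz) (iSup_le fun B => h B.1 B.2.1 B.2.2.1 B.2.2.2)

theorem cj_EF {g : G} (hE : g ∈ normalizer (E : Set G)) (hK : g ∈ normalizer (K : Set G))
    (hz : g * z = z * g) (h : ∀ B ≤ K, P B → P' (g •ᶜ B)) {x : G} (hx : x ∈ EF E K z r P) :
    g * x * g⁻¹ ∈ EF E K z r P' := by
  refine (EF_le (L := (EF E K z r P').comap (MulAut.conj g).toMonoidHom) ?_
    fun B h1 h2 h3 => map_le_iff_le_comap.1 ?_) hx
  · change g * z * g⁻¹ ∈ EF E K z r P'
    rw [hz, mul_inv_cancel_right]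
    exact z_mem_EF
  · rw [cj_inf, cj_centralizer, cj_eq_of_mem_normalizer hE]
    refine le_EF (cj_le_of_mem_normalizer h1 hK) ?_ (h B h1 h3)
    rw [← h2, ← relIndex_cj g B K, cj_eq_of_mem_normalizer hK]

theorem Sit.EF_comm [Finite G] [IsMulCommutative K] (h : Sit E S K z) (hr : r.Prime)
    (hP : ∀ B, P B → ¬ P' B) : ∀ a ∈ EF E K z r P, ∀ b ∈ EF E K z r P', a * b = b * a := by
  have := Fact.mk Nat.prime_two
  have hE : ∀ {P}, EF E K z r P ≤ E := fun {P} => EF_le h.zE fun _ _ _ _ => inf_le_left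
  intro a ha b hb
  refine mem_centralizer_singleton_iff.1 (EF_le (L := centralizer {b})
    (mem_centralizer_singleton_iff.2 (h.zcE b (hE hb)).symm) (fun B h1 h2 h3 a ha => ?_) ha)
  refine mem_centralizer_singleton_iff.2 (mem_centralizer_singleton_iff.1 (EF_le
    (L := centralizer {a}) (mem_centralizer_singleton_iff.2 (h.zcE a ha.1).symm)
    (fun B' h1' h2' h3' b hb => mem_centralizer_singleton_iff.2 ?_) hb)).symm
  have h4 : K ≤ B ⊔ B' := by
    have a1 := relIndex_mul_relIndex B (B ⊔ B') K le_sup_left (sup_le h1 h1')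
    have a2 := relIndex_mul_relIndex B' (B ⊔ B') K le_sup_right (sup_le h1 h1')
    rw [h2] at a1
    rw [h2'] at a2
    rcases (Nat.dvd_prime hr).1 (Dvd.intro_left _ a1) with a3 | a3
    · exact relIndex_eq_one.1 a3
    · rw [a3, Nat.mul_eq_right hr.ne_zero, relIndex_eq_one] at a1 a2
      obtain rfl : B = B' := le_antisymm (le_sup_left.trans a2) (le_sup_right.trans a1)
      exact (hP B h3 h3').elim
  obtain ⟨s, hs, c, hc, rfl⟩ := coprime_exists_commutator_mul_centralizer B'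
    (E ⊓ centralizer (B : Set G)) (le_normalizer_inf (h1'.trans h.KE) (le_normalizer_centralizer
      (h1'.trans ((le_centralizer_of_le_of_isMulCommutative h1).trans
        (centralizer_le_normalizer _)))))
    (((cop_of_odd h.pE h.oK).coprime_dvd_left (card_dvd_of_le inf_le_left)).coprime_dvd_right
      (card_dvd_of_le h1')).symm (Or.inr (isSolvable_of_isPGroup (h.pE.to_le inf_le_left))) a ha
  have a1 := h.comm h1' hb.1 hb.2 (commutator_mono inf_le_left le_rfl hs)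
  have a2 : b * c = c * b := by
    rcases h.fix c hc.1.1 fun k hk => comm_of_sup (fun x hx => (hc.1.2 x hx).symm)
      (fun x hx => (hc.2 x hx).symm) (h4 hk) with a3 | a3 <;> rw [a3]
    · simp
    · exact h.zcE b hb.1
  rw [← mul_assoc, a1, mul_assoc, a2, mul_assoc]

theorem Sit.step2 [Finite G] [IsMulCommutative K] (h : Sit E S K z) (hr : r.Prime)
    (hexp : ∀ a ∈ K, a ^ r = 1) (hK : K ≠ ⊥) (hf : ∀ k ∈ K, (∀ e ∈ E, e * k = k * e) → k = 1)
    (ih : ∀ E' S' K' : Subgroup G, Sit E' S' K' z →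
      Nat.card E' + Nat.card S' < Nat.card E + Nat.card S → ∃ f, Xt E' S' z f) :
    ∃ f, Xt E S z f := by
  have := Fact.mk Nat.prime_two
  have hE : ∀ {P}, EF E K z r P ≤ E := fun {P} => EF_le h.zE fun _ _ _ _ => inf_le_left
  have hgen := fun L => coprime_le_of_forall_hyperplane K E L hr hexp hK h.KE
    (cop_of_odd h.pE h.oK).symm
  have hKn : ∀ {P}, K ≤ normalizer (EF E K z r P : Set G) := fun {P} => le_norm_of_conj
    fun k hk x hx => cj_EF (h.KE hk) (le_normalizer hk) (h.zcK k hk) (fun B hB h1 => by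
      rwa [cj_eq_of_mem_centralizer (le_centralizer_of_le_of_isMulCommutative hB hk)]) hx
  by_cases h0 : ∀ B ≤ K, B.relIndex K = r → E ⊓ centralizer (B : Set G) ≤ zpowers z
  · obtain ⟨f, hf, -⟩ := triv h.z1 h.zE (fun a ha => (mem_zp h.z2).1 (hgen _ h0 ha)) h.zcS h.ES
    exact ⟨f, hf⟩
  push Not at h0
  obtain ⟨B, hB1, hB2, hB3⟩ := h0
  let P : Subgroup G → Prop := fun X => ∃ t ∈ S, X = t •ᶜ B
  have hcj : ∀ {P P'}, ∀ s ∈ S, (∀ B ≤ K, P B → P' (s •ᶜ B)) → ∀ x ∈ EF E K z r P,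
      s * x * s⁻¹ ∈ EF E K z r P' := fun s hs h1 x hx =>
    cj_EF (h.SE hs) (h.SK hs) (h.zcS s hs) h1 hx
  have hc := h.EF_comm hr (P := P) (P' := fun X => ¬ P X) fun _ => not_not.2
  rcases (hE (P := P)).lt_or_eq with h1 | h1
  · refine h.split ih h1 (hE.lt_of_ne fun h2 => hB3 fun a ha => (mem_zp h.z2).2 (h.cen a ha.1
      fun b hb => hc a (le_EF hB1 hB2 ⟨1, one_mem _, (cj_one B).symm⟩ ha) b (h2.ge hb)))
      z_mem_EF z_mem_EF (hgen _ fun X a1 a2 => ?_) hc (le_norm_of_conj fun s hs => hcj s hs ?_)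
      (le_norm_of_conj fun s hs => hcj s hs ?_) hKn hKn
    · by_cases a3 : P X
      · exact le_sup_of_le_left (le_EF a1 a2 a3)
      · exact le_sup_of_le_right (le_EF a1 a2 a3)
    · rintro _ - ⟨t, ht, rfl⟩
      exact ⟨s * t, mul_mem hs ht, (cj_mul ..).symm⟩
    · rintro X - a1 ⟨t, ht, a2⟩
      exact a1 ⟨s⁻¹ * t, mul_mem (inv_mem hs) ht, by rw [cj_mul, ← a2, inv_cj_cj]⟩
  by_cases h2 : S ≤ normalizer (B : Set G)
  · refine core h ?_
    have a1 : E ≤ centralizer (B : Set G) := h1.ge.trans (EF_le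
      (fun b hb => h.zcK b (hB1 hb)) (by
        rintro _ - - ⟨t, ht, rfl⟩
        rw [cj_eq_of_mem_normalizer (h2 ht)]
        exact inf_le_right))
    obtain rfl : B = ⊥ := eq_bot_iff.2 fun b hb => hf b (hB1 hb) fun e he => (a1 he b hb).symm
    rwa [← relIndex_bot_left, hB2]
  obtain ⟨T', hT', hT''⟩ := ((eq_top_or_exists_le_coatom
    ((normalizer (B : Set G)).subgroupOf S))).resolve_left fun a => h2 (subgroupOf_eq_top.1 a)
  have hi := CL.PG.coatom_index h.pS hT'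
  let T := T'.map S.subtype
  have hTS : T ≤ S := map_subtype_le _
  have hm : ∀ a (ha : a ∈ S), a ∈ T ↔ (⟨a, ha⟩ : S) ∈ T' := fun a ha =>
    mem_map_iff_mem (f := S.subtype) S.subtype_injective (x := ⟨a, ha⟩)
  have hT : ∀ a ∈ S, ∀ b ∈ S, a * b ∈ T ↔ (a ∈ T ↔ b ∈ T) := fun a ha b hb => by
    rw [hm a ha, hm b hb, hm _ (mul_mem ha hb)]
    exact mul_mem_iff_of_index_two hi (a := ⟨a, ha⟩) (b := ⟨b, hb⟩)
  obtain ⟨s, hs, hsT⟩ : ∃ s ∈ S, s ∉ T := by
    by_contra! a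
    exact hT'.1 (eq_top_iff.2 fun x _ => (hm x x.2).1 (a x x.2))
  have hST : S ≤ normalizer (T : Set G) := le_norm_of_conj fun a ha t ht => by
    rw [hT _ (mul_mem ha (hTS ht)) _ (inv_mem ha), hT a ha t (hTS ht), inv_mem_iff]
    tauto
  let Q : Bool → Subgroup G → Prop := fun i X => ∃ t ∈ S, (t ∈ T ↔ i) ∧ X = t •ᶜ B
  have hQ : ∀ i j : Bool, ∀ a ∈ S, ((a ∈ T ↔ i) ↔ j) → ∀ x ∈ EF E K z r (Q i),
      a * x * a⁻¹ ∈ EF E K z r (Q j) := fun i j a ha a1 => hcj a ha (by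
    rintro _ - ⟨t, ht, a2, rfl⟩
    exact ⟨a * t, mul_mem ha ht, by rw [hT a ha t ht, a2, a1], (cj_mul ..).symm⟩)
  have hc' := h.EF_comm hr (P := Q true) (P' := Q false) (by
    rintro _ ⟨t, ht, a1, rfl⟩ ⟨t', ht', a2, a3⟩
    have a4 : t'⁻¹ * t ∈ T := (hm _ (mul_mem (inv_mem ht') ht)).2 (hT'' (mem_normalizer_iff_cj.2
      (show (t'⁻¹ * t) •ᶜ B = B by rw [cj_mul, a3, inv_cj_cj])))
    rw [hT _ (inv_mem ht') t ht, inv_mem_iff, a1, a2] at a4
    simp at a4)
  have hsup : E ≤ EF E K z r (Q true) ⊔ EF E K z r (Q false) := h1.ge.trans (EF_le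
    (mem_sup_left z_mem_EF) (by
      rintro _ a1 a2 ⟨t, ht, rfl⟩
      by_cases a3 : t ∈ T
      · exact le_sup_of_le_left (le_EF a1 a2 ⟨t, ht, by simpa, rfl⟩)
      · exact le_sup_of_le_right (le_EF a1 a2 ⟨t, ht, by simpa, rfl⟩)))
  have hTn : ∀ i, T ≤ normalizer (EF E K z r (Q i) : Set G) := fun i =>
    le_norm_of_conj fun t ht => hQ i i t (hTS ht) (by simp [ht])
  obtain ⟨f₀, hf₀⟩ := ih _ _ _ (h.sub hE z_mem_EF hsup hc' hTS (hTn true) hKn)
    (Nat.add_lt_add_of_le_of_lt (card_le_of_le hE) (card_lt_of_lt (hTS.lt_of_ne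
      fun a => hsT (a.ge hs))))
  have hf₁ := hf₀.cj (E' := EF E K z r (Q false)) (s := s) (fun x =>
    ⟨hQ false true s hs (by simp [hsT]) x, fun hx => by
      simpa [mul_assoc] using hQ true false s⁻¹ (inv_mem hs) (by simp [hsT]) _ hx⟩)
    (hST hs) (h.zcS s hs)
  have hE' := le_antisymm hsup (sup_le hE hE)
  obtain ⟨f, hf, hf'⟩ := prod hf₀ hf₁ z_mem_EF z_mem_EF h.z2 (fun a ha => h.zcS a (hTS ha)) hc'
    (hTn _) (hTn _) (fun a ha a1 => h.ES a (hE'.ge ha) (hTS a1)) fun a ha hb =>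
    h.cen a (hE ha) fun _ a1 => comm_of_sup (fun b hb' => (hc' b hb' a hb).symm) (hc' a ha) (hsup a1)
  rw [← hE'] at hf
  have hinv : ∀ x ∈ E ⊔ T, f (s * x * s⁻¹) = f x := fun x hx => by
    obtain ⟨e, he, t, ht, rfl⟩ := mem_sup_norm (hTS.trans h.SE) hx
    obtain ⟨a, ha, b, hb, rfl⟩ := mem_sup_norm (le_norm_of_conj fun b hb a ha => by
      rwa [← hc' a ha b hb, mul_inv_cancel_right]) (hsup he)
    have a1 : s * (a * b * t) * s⁻¹ = s * b * s⁻¹ * (s * a * s⁻¹) * (s * t * s⁻¹) := by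
      rw [hc' a ha b hb]; group
    rw [a1, hf' _ (hQ false true s hs (by simp [hsT]) b hb) _
      (hQ true false s hs (by simp [hsT]) a ha) _ (conj_mem_of_norm (hST hs) ht), hf' a ha b hb t ht,
      mul_comm, ← hf₀.conj (mul_mem (mem_sup_left ha) (mem_sup_right ht))
        (mem_sup_right ((hT s hs s hs).2 Iff.rfl))]
    congr 2 <;> group
  refine cyc hf h.zE hTS h.SE hST hs (fun x hx => ?_) fun y hy x hx => ?_
  · by_cases a : x ∈ T
    · exact ⟨0, by simpa using a⟩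
    · exact ⟨1, by rw [zpow_one, hT _ (inv_mem hx) s hs, inv_mem_iff]; simp [a, hsT]⟩
  · by_cases a : y ∈ T
    · exact hf.conj hx (mem_sup_right a)
    · have a1 : s⁻¹ * y ∈ T := by rw [hT _ (inv_mem hs) y hy, inv_mem_iff]; simp [a, hsT]
      rw [← hf.conj hx (mem_sup_right a1), ← hinv _ (mul_mem (mul_mem (mem_sup_right a1) hx)
        (inv_mem (mem_sup_right a1)))]
      congr 1
      group

theorem Sit.step [Finite G] (h : Sit E S K z) (hf : ∀ k ∈ K, (∀ e ∈ E, e * k = k * e) → k = 1)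
    (ih : ∀ E' S' K' : Subgroup G, Sit E' S' K' z →
      Nat.card E' + Nat.card S' < Nat.card E + Nat.card S → ∃ f, Xt E' S' z f) :
    ∃ f, Xt E S z f := by
  have := Fact.mk Nat.prime_two
  by_cases hK : K = ⊥
  · obtain ⟨f, hf, -⟩ := triv h.z1 h.zE (fun a ha => h.fix a ha fun k hk => by
      rw [hK, mem_bot] at hk
      simp [hk]) h.zcS h.ES
    exact ⟨f, hf⟩
  obtain ⟨A, hAK, hA0, hAn, hmin⟩ := exists_minimal_invariant (S ⊔ K) K hK
    (sup_le h.SK le_normalizer)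
  have hAo : Odd (Nat.card A) := h.oK.of_dvd_nat (card_dvd_of_le hAK)
  have hlt := commutator_lt_of_isSolvable (Cfsg.Agent.S0205.result hAo) hA0
  have hab : ⁅A, A⁆ = ⊥ := (hmin _ hlt.le (MSS.le_normalizer_commutator hAn hAn)).resolve_right
    hlt.ne
  have hc : ∀ a ∈ A, ∀ b ∈ A, a * b = b * a := fun a ha b hb =>
    commutator_eq_bot_iff_le_centralizer.1 hab hb a ha
  have : IsMulCommutative A := ⟨⟨fun a b => Subtype.ext (hc a a.2 b b.2)⟩⟩
  obtain ⟨r, hr, hrA⟩ := Nat.exists_prime_and_dvd (fun e => hA0 (card_eq_one.1 e))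
  have := Fact.mk hr
  have hexp : ∀ a ∈ A, a ^ r = 1 := by
    let Ω : Subgroup G :=
      { carrier := {a | a ∈ A ∧ a ^ r = 1}
        one_mem' := ⟨one_mem _, one_pow _⟩
        mul_mem' := fun {a b} ha hb => ⟨mul_mem ha.1 hb.1, by
          rw [Commute.mul_pow (hc a ha.1 b hb.1), ha.2, hb.2, one_mul]⟩
        inv_mem' := fun {a} ha => ⟨inv_mem ha.1, by rw [inv_pow, ha.2, inv_one]⟩ }
    obtain ⟨x, hx⟩ := exists_prime_orderOf_dvd_card' r hrA
    rcases hmin Ω (fun a ha => ha.1) (le_norm_of_conj fun s hs a ha =>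
      ⟨conj_mem_of_norm (hAn hs) ha.1, by rw [conj_pow, ha.2]; simp⟩) with h1 | h1
    · have : (x : G) ∈ Ω := ⟨x.2, by rw [← hx, ← coe_pow, pow_orderOf_eq_one, coe_one]⟩
      rw [h1, mem_bot, OneMemClass.coe_eq_one] at this
      rw [this, orderOf_one] at hx
      exact (hr.one_lt.ne hx).elim
    · exact fun a ha => (h1.ge ha).2
  have hAE := hAK.trans h.KE
  have hn : S ⊔ K ≤ normalizer (E : Set G) := sup_le h.SE h.KE
  have hn1 := MSS.le_normalizer_inf hn (MSS.le_normalizer_centralizer hAn)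
  have hn2 := MSS.le_normalizer_sup (MSS.le_normalizer_commutator hn hAn)
    (norm_zp fun a => comm_sup h.zcS h.zcK)
  have h2 : ⁅E, A⁆ ⊔ zpowers z ≤ E :=
    sup_le (commutator_le_left_of_normalizes hAE) (zpowers_le.2 h.zE)
  have hc' : ∀ a ∈ E ⊓ centralizer (A : Set G), ∀ b ∈ ⁅E, A⁆ ⊔ zpowers z, a * b = b * a :=
    fun a ha _ => comm_of_sup (fun _ => h.comm hAK ha.1 ha.2) fun b hb => by
      rcases (mem_zp h.z2).1 hb with a1 | a1 <;> rw [a1]
      · simp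
      · exact h.zcE a ha.1
  rcases h2.lt_or_eq with h3 | h3
  · refine h.split ih (E₁ := E ⊓ centralizer (A : Set G)) (inf_le_left.lt_of_ne fun a => hA0 (eq_bot_iff.2 fun k hk => hf k (hAK hk)
      fun e he => ((a.ge he).2 k hk).symm)) h3 ⟨h.zE, fun k hk => h.zcK k (hAK hk)⟩
      (mem_sup_right (mem_zpowers z)) ((coprime_commutator_sup_centralizer A E hAE
        (cop_of_odd h.pE hAo).symm (Or.inr (isSolvable_of_isPGroup h.pE))).ge.trans
        (sup_le (le_sup_of_le_right le_sup_left) le_sup_left)) hc' (le_sup_left.trans hn1)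
      (le_sup_left.trans hn2) (le_sup_right.trans hn1) (le_sup_right.trans hn2)
  · exact Sit.step2 ⟨h.z2, h.z1, h.zE, h.pE, h.pS, hAo, h.cm, h.zcE, h.zcS,
      fun a ha => h.zcK a (hAK ha), h.cen, h.SE, hAE, le_sup_left.trans hAn, h.ES,
      fun a ha h1 => h.cen a ha fun b hb => hc' a ⟨ha, fun k hk => (h1 k hk).symm⟩ b (h3.ge hb)⟩
      hr hexp hA0 (fun k hk => hf k (hAK hk)) ih

universe u

theorem Sit.ext {G : Type u} [Group G] [Finite G] {E S K : Subgroup G} {z : G} (h : Sit E S K z) :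
    ∃ f, Xt E S z f := by
  induction hn : Nat.card E + Nat.card S using Nat.strong_induction_on generalizing G with
  | _ n ih =>
  have := Fact.mk Nat.prime_two
  let C := K ⊓ centralizer (E : Set G)
  let L := normalizer (C : Set G)
  have hEL : E ≤ L := (le_centralizer_iff.1 inf_le_right).trans (centralizer_le_normalizer _)
  have hSL : S ≤ L := MSS.le_normalizer_inf h.SK (MSS.le_normalizer_centralizer h.SE)
  have hKL : K ≤ L := MSS.le_normalizer_inf le_normalizer (MSS.le_normalizer_centralizer h.KE)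
  let π := QuotientGroup.mk' (C.subgroupOf L)
  let m : Subgroup G → Subgroup (L ⧸ C.subgroupOf L) := fun X => (X.subgroupOf L).map π
  have hp : IsPGroup 2 ↥(E ⊔ S) := isPGroup_sup_of_normalizes' h.pE h.pS h.SE
  have hinj : ∀ a b : L, (a : G) ∈ E ⊔ S → (b : G) ∈ E ⊔ S → π a = π b → a = b := fun a b ha hb e => by
    have h1 : ((a⁻¹ * b : L) : G) ∈ C := (QuotientGroup.eq (s := C.subgroupOf L)).1 e
    exact inv_mul_eq_one.1 (Subtype.ext (Subgroup.disjoint_def.1 (disjoint_of_coprime_natCard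
      (cop_of_odd hp h.oK)) (mul_mem (inv_mem ha) hb) h1.1))
  have hinjE : ∀ a b : L, (a : G) ∈ E → (b : G) ∈ E → π a = π b → a = b := fun a b ha hb =>
    hinj a b (mem_sup_left ha) (mem_sup_left hb)
  have hnm : ∀ {X Y : Subgroup G}, X ≤ normalizer (Y : Set G) → m X ≤ normalizer (m Y : Set _) :=
    fun {X Y} h1 => le_norm_of_conj (by
      rintro _ ⟨s, hs, rfl⟩ _ ⟨a, ha, rfl⟩
      exact ⟨s * a * s⁻¹, conj_mem_of_norm (G := Y) (h1 hs) ha, by simp⟩)
  have hcd : ∀ X ≤ L, Nat.card (m X) ∣ Nat.card X := fun X hX => by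
    rw [← Nat.card_congr (subgroupOfEquivOfLe hX).toEquiv]
    exact card_map_dvd _ _
  let z' : L := ⟨z, hEL h.zE⟩
  have hzc : ∀ {X : Subgroup G}, (∀ a ∈ X, a * z = z * a) → ∀ a ∈ m X, a * π z' = π z' * a := by
    rintro X h1 _ ⟨a, ha, rfl⟩
    rw [← map_mul, ← map_mul]
    exact congrArg π (Subtype.ext (h1 a ha))
  have hor : ∀ a : L, ((a : G) = 1 ∨ (a : G) = z) → π a = 1 ∨ π a = π z' := fun a h1 =>
    h1.imp (fun e => by rw [show a = 1 from Subtype.ext e, map_one])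
      fun e => congrArg π (Subtype.ext e)
  have hcm : ∀ a k : L, (a : G) ∈ E → (k : G) ∈ normalizer (E : Set G) → π a * π k = π k * π a →
      (a : G) * k = k * a := fun a k ha hk e => by
    have := hinjE a (k * a * k⁻¹) ha (conj_mem_of_norm hk ha) (by
      rw [map_mul, map_mul, ← e, map_inv, mul_inv_cancel_right])
    exact eq_mul_inv_iff_mul_eq.1 (congrArg Subtype.val this)
  have h' : Sit (m E) (m S) (m K) (π z') :=
    ⟨by rw [← map_mul, show z' * z' = 1 from Subtype.ext h.z2, map_one],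
      fun e => h.z1 (congrArg Subtype.val (hinjE z' 1 h.zE (one_mem _) (by rw [e, map_one]))),
      ⟨z', h.zE, rfl⟩, (isPGroup_subgroupOf h.pE L).map π, (isPGroup_subgroupOf h.pS L).map π,
      h.oK.of_dvd_nat (hcd K hKL), by
        rintro _ ⟨a, ha, rfl⟩ _ ⟨b, hb, rfl⟩
        simp only [← map_mul]
        exact (h.cm a ha b hb).imp (fun e => congrArg π (Subtype.ext e))
          fun e => congrArg π (Subtype.ext e),
      hzc h.zcE, hzc h.zcS, hzc h.zcK, by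
        rintro _ ⟨a, ha, rfl⟩ h1
        exact hor a (h.cen a ha fun b hb => hcm a ⟨b, hEL hb⟩ ha (le_normalizer hb)
          (h1 _ ⟨_, hb, rfl⟩)),
      hnm h.SE, hnm h.KE, hnm h.SK, by
        rintro _ ⟨a, ha, rfl⟩ ⟨b, hb, e⟩
        obtain rfl := hinj b a (mem_sup_right hb) (mem_sup_left ha) e
        rw [show b = 1 from Subtype.ext (h.ES b ha hb), map_one], by
        rintro _ ⟨a, ha, rfl⟩ h1
        exact hor a (h.fix a ha fun b hb => hcm a ⟨b, hKL hb⟩ ha (h.KE hb) (h1 _ ⟨_, hb, rfl⟩))⟩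
  obtain ⟨f, hf⟩ := h'.step (by
      rintro _ ⟨k, hk, rfl⟩ h1
      exact (QuotientGroup.eq_one_iff k).2 ⟨hk, fun e he =>
        hcm ⟨e, hEL he⟩ k he (h.KE hk) (h1 _ ⟨_, he, rfl⟩)⟩)
    fun E' S' K' h1 h2 => ih _ (h2.trans_le (hn ▸ Nat.add_le_add
      (Nat.le_of_dvd Nat.card_pos (hcd E hEL)) (Nat.le_of_dvd Nat.card_pos (hcd S hSL)))) h1 rfl
  obtain ⟨F, hF⟩ := exists_fun L fun x => f (π x)
  have hle : E ⊔ S ≤ L := sup_le hEL hSL
  refine ⟨F, ?_, ?_, by rw [hF z', hf.neg, ← map_one π]; exact congrArg _ (hF 1).symm⟩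
  · convert hf.ch.comp ((π.comp (inclusion hle)).codRestrict (m E ⊔ m S) fun x => by
      rw [← Subgroup.map_sup, ← subgroupOf_sup hEL hSL]
      exact ⟨_, x.2, rfl⟩) using 2 with x
    exact hF (inclusion hle x)
  · convert (isIrrCharacter_comp_surjective_iff ((π.comp (inclusion hEL)).codRestrict (m E)
      fun x => ⟨_, x.2, rfl⟩) (by
        rintro ⟨_, a, ha, rfl⟩
        exact ⟨⟨a, ha⟩, rfl⟩)).2 hf.irr using 2 with x
    exact hF (inclusion hEL x)

end CL.DEx
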