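import Mathlib
import Cfsg.Agent.CHAR.FS
import Cfsg.Agent.CHAR.Constit
import Cfsg.Agent.CHAR.Linear

/-!
Groups with an element `u` such that `χ(1) - χ(u) = 4` or `χ(u) = 0` for all nonprincipal
irreducible characters: character arithmetic.
-/

set_option autoImplicit false

open Cfsg CL.Char
open scoped ComplexConjugate

namespace CL.Blk.D4

variable {G : Type*} [Group G] [Fintype G]

theorem inner_congr {a b c d : G → ℂ} (h : ∀ g, a g * conj (b g) = c g * conj (d g)) :
    classInner a b = classInner c d := by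
  rw [classInner_def, classInner_def]
  congr 1
  exact Finset.sum_congr rfl fun g _ => h g

theorem inner_deg {a b : G → ℂ} (ha : IsIrrCharacter G a) (hb : IsIrrCharacter G b)
    (h : a 1 ≠ b 1) : classInner a b = 0 :=
  ha.inner_of_ne hb fun e => h (by rw [e])

theorem inner_lt {a b : G → ℂ} (ha : IsCharacter G a) (hb : IsIrrCharacter G b) {m n : ℕ}
    (hm : a 1 = m) (hn : b 1 = n) (h : m < n) : classInner a b = 0 := by
  by_contra h0
  exact absurd (ha.degree_le_of_inner_ne_zero hb h0 hm hn) (by omega)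

/-- For a degree three character of a perfect group, `Λ²χ = χ̄`. -/
theorem alt_three (hp : ∀ lam : G →* ℂˣ, lam = 1) {χ : G → ℂ} (hχ : IsCharacter G χ)
    (h3 : χ 1 = 3) (g : G) : χ (g * g) = χ g ^ 2 - 2 * conj (χ g) := by
  rw [← hχ.apply_inv]
  obtain ⟨n, ρ, rfl⟩ := hχ
  have hn : n = 3 := by
    rw [character_one_fin] at h3
    exact_mod_cast h3
  subst hn
  let D : G →* ℂ :=
    { toFun := fun g => (repMat ρ g).det
      map_one' := by rw [repMat_one, Matrix.det_one]
      map_mul' := fun a b => by rw [repMat_mul, Matrix.det_mul] }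
  have hD : (repMat ρ g).det = 1 := by
    have := congrArg (fun f : G →* ℂˣ => ((f g : ℂˣ) : ℂ)) (hp D.toHomUnits)
    exact (show D g = 1 by simpa using this)
  have hB : repMat ρ g⁻¹ = (repMat ρ g).adjugate := by
    have h1 : repMat ρ g⁻¹ * repMat ρ g = 1 := by rw [← repMat_mul, inv_mul_cancel, repMat_one]
    have h2 := Matrix.mul_adjugate (repMat ρ g)
    rw [hD, one_smul] at h2
    calc repMat ρ g⁻¹ = repMat ρ g⁻¹ * (repMat ρ g * (repMat ρ g).adjugate) := by
          rw [h2, Matrix.mul_one]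
      _ = _ := by rw [← Matrix.mul_assoc, h1, Matrix.one_mul]
  rw [← trace_repMat, ← trace_repMat, ← trace_repMat, hB, repMat_mul]
  generalize repMat ρ g = A
  simp only [Matrix.trace_fin_three, Matrix.adjugate_fin_three, Matrix.mul_apply,
    Fin.sum_univ_three, Matrix.of_apply, Matrix.cons_val', Matrix.cons_val_zero,
    Matrix.cons_val_one, Matrix.cons_val_two, Matrix.cons_val_fin_one, Matrix.head_cons,
    Matrix.tail_cons, Matrix.empty_val', Matrix.head_fin_const]
  ring

/-- The hypothesis. -/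
def Hyp (u : G) : Prop :=
  ∀ χ : G → ℂ, IsIrrCharacter G χ → χ ≠ 1 → χ 1 - χ u = 4 ∨ χ u = 0

/-- Degree three and value `-1`. -/
structure T (u : G) (χ : G → ℂ) : Prop where
  irr : IsIrrCharacter G χ
  deg : χ 1 = 3
  val : χ u = -1

variable {u : G}

theorem Hyp.lin (H : Hyp u) {χ : G → ℂ} (hχ : IsCharacter G χ) (h1 : χ 1 = 1) : χ = 1 := by
  by_contra hne
  have h := hχ.norm_eq_one_of_apply_one h1 u
  rcases H χ (hχ.isIrrCharacter_of_apply_one h1) hne with h2 | h2
  · have : χ u = -3 := by linear_combination h1 - h2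
    rw [this] at h
    norm_num at h
  · rw [h2] at h
    norm_num at h

theorem Hyp.perfect (H : Hyp u) (lam : G →* ℂˣ) : lam = 1 :=
  hom_coe_eq_one_iff.mp (H.lin (isIrrCharacter_hom lam).isCharacter (by simp))

theorem Hyp.irr_cases (H : Hyp u) {χ : G → ℂ} (hχ : IsIrrCharacter G χ) (hne : χ ≠ 1) :
    ∃ d : ℕ, 2 ≤ d ∧ χ 1 = d ∧ (χ u = 0 ∨ χ u = d - 4) := by
  obtain ⟨d, hd, hd1⟩ := hχ.exists_pos_degree
  refine ⟨d, ?_, hd1, ?_⟩
  · by_contra h
    have : d = 1 := by omega
    exact hne (H.lin hχ.isCharacter (by rw [hd1, this]; simp))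
  · rcases H χ hχ hne with h | h
    · right; linear_combination hd1 - h
    · exact Or.inl h

theorem Hyp.diff (H : Hyp u) {a : G → ℂ} (ha : IsCharacter G a) (h0 : classInner a 1 = 0) :
    ∃ (d : ℕ) (v : ℤ), a 1 = d ∧ a u = v ∧
      ((d = 0 ∧ v = 0) ∨ (2 ≤ d - v ∧ (d - v < 4 → v = 0))) := by
  revert h0
  refine ha.induction_on (P := fun a => classInner a 1 = 0 → ∃ (d : ℕ) (v : ℤ), a 1 = d ∧ a u = v ∧
      ((d = 0 ∧ v = 0) ∨ (2 ≤ d - v ∧ (d - v < 4 → v = 0)))) ?_ ?_ ?_
  · exact fun _ => ⟨0, 0, by simp, by simp, Or.inl ⟨rfl, rfl⟩⟩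
  · intro ψ hψ h0
    have hne : ψ ≠ 1 := by
      rintro rfl
      rw [classInner_one_one] at h0
      exact one_ne_zero h0
    obtain ⟨d, hd, h1, h2 | h2⟩ := H.irr_cases hψ hne
    · exact ⟨d, 0, h1, by simpa using h2, Or.inr ⟨by omega, fun _ => rfl⟩⟩
    · exact ⟨d, d - 4, h1, by rw [h2]; push_cast; rfl, Or.inr ⟨by omega, fun h => by omega⟩⟩
  · intro a b ha hb iha ihb h0
    obtain ⟨d, v, h1, h2, h3⟩ := iha (inner_eq_zero_of_add_left ha hb isCharacter_one' h0)
    obtain ⟨d', v', h1', h2', h3'⟩ :=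
      ihb (inner_eq_zero_of_add_left hb ha isCharacter_one' (by rwa [add_comm]))
    refine ⟨d + d', v + v', by simp [h1, h1'], by simp [h2, h2'], ?_⟩
    push_cast
    omega

theorem Hyp.irr_of_diff (H : Hyp u) {a : G → ℂ} (ha : IsCharacter G a) (h0 : classInner a 1 = 0)
    (h4 : a 1 - a u = 4) (hu : a u ≠ 0) : IsIrrCharacter G a := by
  have hne : a ≠ 0 := by
    rintro rfl
    exact hu rfl
  obtain ⟨θ, hθ, hi⟩ := ha.exists_irr_inner_ne_zero hne
  have hr := ha.sub_irr hθ hi
  have e : a = θ + (a - θ) := by ring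
  have hθ0 : classInner θ 1 = 0 :=
    inner_eq_zero_of_add_left hθ.isCharacter hr isCharacter_one' (by rwa [← e])
  have hr0 : classInner (a - θ) 1 = 0 := by rw [classInner_sub_left, h0, hθ0, sub_zero]
  obtain ⟨d, v, h1, h2, h3⟩ := H.diff hθ.isCharacter hθ0
  obtain ⟨d', v', h1', h2', h3'⟩ := H.diff hr hr0
  have hd : d ≠ 0 := by
    rintro rfl
    exact hθ.one_ne_zero (by simpa using h1)
  simp only [Pi.sub_apply] at h1' h2'
  have k1 : ((d + d' - (v + v') : ℤ) : ℂ) = ((4 : ℤ) : ℂ) := by
    push_cast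
    linear_combination h4 - h1 - h1' + h2 + h2'
  have k1' : (d + d' - (v + v') : ℤ) = 4 := by exact_mod_cast k1
  have k2 : v + v' ≠ 0 := by
    intro h
    apply hu
    have : ((v + v' : ℤ) : ℂ) = 0 := by rw [h]; simp
    push_cast at this
    linear_combination this + h2 + h2'
  have hd' : d' = 0 := by omega
  have : a - θ = 0 := hr.eq_zero_of_one (by simpa [hd'] using h1')
  rw [e, this, add_zero]
  exact hθ

theorem inner_mul_conj {χ ψ : G → ℂ} :
    classInner (χ * fun g => conj (ψ g)) 1 = classInner χ ψ :=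
  inner_congr fun g => by simp

theorem Hyp.not_two (H : Hyp u) {ψ : G → ℂ} (hψ : IsIrrCharacter G ψ) (h1 : ψ 1 = 2)
    (h2 : ψ u = -2) : False := by
  have ha := hψ.isCharacter.mul hψ.isCharacter.conj
  have hi : classInner (ψ * fun g => conj (ψ g)) 1 = 1 := by rw [inner_mul_conj, hψ.inner_self]
  have hb := ha.sub_irr isIrrCharacter_one' (by rw [hi]; exact one_ne_zero)
  obtain ⟨d, v, k1, k2, k3⟩ := H.diff hb (by rw [classInner_sub_left, hi, classInner_one_one, sub_self])
  simp only [Pi.sub_apply, Pi.mul_apply, Pi.one_apply, h1, h2, map_neg, map_ofNat] at k1 k2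
  have e1 : (d : ℂ) = ((3 : ℕ) : ℂ) := by rw [← k1]; norm_num
  have e2 : (v : ℂ) = ((3 : ℤ) : ℂ) := by rw [← k2]; norm_num
  have e1' : d = 3 := by exact_mod_cast e1
  have e2' : v = 3 := by exact_mod_cast e2
  omega

theorem Hyp.re_nonneg (H : Hyp u) {ψ : G → ℂ} (hψ : IsIrrCharacter G ψ) (hT : ¬ T u ψ) :
    ∃ v : ℕ, ψ u = v := by
  by_cases hne : ψ = 1
  · exact ⟨1, by simp [hne]⟩
  obtain ⟨d, hd, h1, h2 | h2⟩ := H.irr_cases hψ hne
  · exact ⟨0, by simpa using h2⟩
  · have : 4 ≤ d := by
      by_contra h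
      obtain rfl | rfl : d = 2 ∨ d = 3 := by omega
      · exact H.not_two hψ (by simpa using h1) (by rw [h2]; norm_num)
      · exact hT ⟨hψ, by simpa using h1, by rw [h2]; norm_num⟩
    exact ⟨d - 4, by rw [h2, Nat.cast_sub this]; simp⟩

theorem Hyp.exists_T (H : Hyp u) {a : G → ℂ} (ha : IsCharacter G a) (h : (a u).re < 0) :
    ∃ η, T u η ∧ classInner a η ≠ 0 := by
  by_contra hcon
  push Not at hcon
  have : 0 ≤ (a u).re := by
    revert hcon
    refine ha.induction_on (P := fun a => (∀ η, T u η → classInner a η = 0) → 0 ≤ (a u).re)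
      ?_ ?_ ?_
    · intro _; simp
    · intro ψ hψ h0
      obtain ⟨v, hv⟩ := H.re_nonneg hψ fun hT => by
        have := h0 ψ hT
        rw [hψ.inner_self] at this
        exact one_ne_zero this
      rw [hv]; simp
    · intro a b ha hb iha ihb h0
      have h1 := iha fun η hη => inner_eq_zero_of_add_left ha hb hη.irr.isCharacter (h0 η hη)
      have h2 := ihb fun η hη =>
        inner_eq_zero_of_add_left hb ha hη.irr.isCharacter (by rw [add_comm]; exact h0 η hη)
      simp only [Pi.add_apply, Complex.add_re]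
      linarith
  linarith

theorem Hyp.exists_T_of_ne (H : Hyp u) (hu : u ≠ 1) : ∃ η, T u η := by
  classical
  have hr := isCharacter_regular G
  have hi : classInner (fun g : G => if g = 1 then (Nat.card G : ℂ) else 0) 1 ≠ 0 := by
    rw [classInner_one_right]
    simp
  obtain ⟨η, h, -⟩ := H.exists_T (hr.sub_irr isIrrCharacter_one' hi) (by simp [hu])
  exact ⟨η, h⟩

theorem T.sq (H : Hyp u) {χ : G → ℂ} (h : T u χ) (g : G) :
    χ (g * g) = χ g ^ 2 - 2 * conj (χ g) :=
  alt_three H.perfect h.irr.isCharacter h.deg g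

theorem T.sym (H : Hyp u) {χ : G → ℂ} (h : T u χ) :
    IsCharacter G (χ * χ - fun g => conj (χ g)) := by
  convert h.irr.isCharacter.symSq using 1
  funext g
  rw [h.sq H]
  simp only [Pi.sub_apply, Pi.mul_apply]
  ring

theorem T.real (H : Hyp u) {χ : G → ℂ} (h : T u χ) (g : G) : conj (χ g) = χ g := by
  by_contra hcon
  set c : G → ℂ := fun g => conj (χ g) with hc
  have hci : IsIrrCharacter G c := h.irr.conj
  have c1 : c 1 = 3 := by simp [hc, h.deg, map_ofNat]
  have cu : c u = -1 := by simp [hc, h.val]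
  have hne : χ ≠ c := fun e => hcon (congrFun e g).symm
  set S : G → ℂ := χ * χ - c with hS
  have hSc : IsCharacter G S := h.sym H
  have S1 : S 1 = 6 := by simp [hS, h.deg, c1]; norm_num
  have Su : S u = 2 := by simp [hS, h.val, cu]; norm_num
  have hS0 : classInner S 1 = 0 := by
    rw [hS, classInner_sub_left, inner_deg hci isIrrCharacter_one' (by rw [c1]; norm_num),
      inner_congr (c := χ) (d := c) (fun g => by simp [hc]), h.irr.inner_of_ne hci hne, sub_zero]
  have hSi : IsIrrCharacter G S := H.irr_of_diff hSc hS0 (by rw [S1, Su]; norm_num)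
    (by rw [Su]; norm_num)
  have hSc0 : classInner S c = 0 := inner_deg hSi hci (by rw [S1, c1]; norm_num)
  have hcS0 : classInner c S = 0 := inner_deg hci hSi (by rw [S1, c1]; norm_num)
  have n2 : classInner (χ * c) (χ * c) = 2 := by
    rw [inner_congr (c := S + c) (d := S + c) (fun g => by simp [hS, hc]; ring),
      classInner_add_left, classInner_add_right, classInner_add_right, hSi.inner_self,
      hci.inner_self, hSc0, hcS0]
    norm_num
  have hχc := h.irr.isCharacter.mul hci.isCharacter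
  have n1 : classInner (χ * c) 1 = 1 := by rw [hc, inner_mul_conj, h.irr.inner_self]
  have n1' : classInner 1 (χ * c) = 1 := by rw [isCharacter_one'.inner_comm hχc, n1]
  set θ : G → ℂ := χ * c - 1 with hθ
  have hθc : IsCharacter G θ := hχc.sub_irr isIrrCharacter_one' (by rw [n1]; exact one_ne_zero)
  have hθi : IsIrrCharacter G θ := hθc.isIrr_of_inner_self (by
    rw [hθ, classInner_sub_left, classInner_sub_right, classInner_sub_right, n2, n1, n1',
      classInner_one_one]
    norm_num)
  have θ1 : θ 1 = 8 := by simp [hθ, h.deg, c1]; norm_num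
  have ha := h.irr.isCharacter.mul hSc
  have key : ∀ η, T u η → classInner (χ * S) η = classInner S (c * η) := fun η _ =>
    inner_congr fun g => by simp [hc]; ring
  have le1 : ∀ η, T u η → classInner (χ * S) η ≠ 0 → classInner (χ * S) η = 1 := by
    intro η hη h0
    have hcη := hci.isCharacter.mul hη.irr.isCharacter
    rw [key η hη, hSc.inner_comm hcη] at h0 ⊢
    obtain ⟨n, hn⟩ := hcη.exists_nat_inner hSc
    have h1 := hcη.sub_smul_irr hSi hn le_rfl
    have h2 := degree_le_of_sub h1 (m := 9) (n := n * 6)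
      (by simp [c1, hη.deg]; norm_num) (by simp [S1])
    have h3 : n ≠ 0 := by
      rintro rfl
      exact h0 (by simpa using hn)
    have : n = 1 := by omega
    rw [hn, this]; simp
  obtain ⟨η₁, t1, i1⟩ := H.exists_T ha (by simp [h.val, Su])
  obtain ⟨η₂, t2, i2⟩ := H.exists_T (ha.sub_irr t1.irr i1) (by simp [h.val, Su, t1.val])
  have hne12 : η₁ ≠ η₂ := by
    rintro rfl
    rw [classInner_sub_left, le1 η₁ t1 i1, t1.irr.inner_self, sub_self] at i2
    exact i2 rfl
  rw [classInner_sub_left, t1.irr.inner_of_ne t2.irr hne12, sub_zero] at i2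
  have hc1 := hci.isCharacter.mul t1.irr.isCharacter
  have hc2 := hci.isCharacter.mul t2.irr.isCharacter
  rw [key _ t1, hSc.inner_comm hc1] at i1
  rw [key _ t2] at i2
  have i3 : classInner (c * η₁) (c * η₂) ≠ 0 := fun h0 =>
    i2 (inner_eq_zero_of_add_left hSc (hc1.sub_irr hSi i1) hc2 (by rwa [add_sub_cancel]))
  set e : G → ℂ := η₁ * fun g => conj (η₂ g) with he
  have hec : IsCharacter G e := t1.irr.isCharacter.mul t2.irr.isCharacter.conj
  have e0 : classInner e 1 = 0 := by rw [he, inner_mul_conj, t1.irr.inner_of_ne t2.irr hne12]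
  rw [inner_congr (c := e) (d := θ + 1) (fun g => by simp [he, hθ, hc]; ring),
    classInner_add_right, e0, add_zero] at i3
  have h1 := H.lin (hec.sub_irr hθi i3) (by simp [he, θ1, t1.deg, t2.deg, map_ofNat]; norm_num)
  have h2 : classInner (e - θ) 1 = 0 := by
    rw [classInner_sub_left, e0, inner_deg hθi isIrrCharacter_one' (by rw [θ1]; norm_num), sub_zero]
  rw [h1, classInner_one_one] at h2
  exact one_ne_zero h2

/-- The degree five constituent of the square. -/
def sg (χ : G → ℂ) : G → ℂ := χ * χ - χ - 1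

omit [Group G] [Fintype G] in
theorem sg_apply (χ : G → ℂ) (g : G) : sg χ g = χ g * χ g - χ g - 1 := rfl

theorem T.inner_one {χ : G → ℂ} (h : T u χ) : classInner χ 1 = 0 :=
  inner_deg h.irr isIrrCharacter_one' (by rw [h.deg]; norm_num)

theorem T.one_inner {χ : G → ℂ} (h : T u χ) : classInner 1 χ = 0 :=
  inner_deg isIrrCharacter_one' h.irr (by rw [h.deg]; norm_num)

theorem T.sq' (H : Hyp u) {χ : G → ℂ} (h : T u χ) (g : G) : χ (g * g) = χ g ^ 2 - 2 * χ g := by
  rw [h.sq H, h.real H]

omit [Fintype G] in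
theorem T.sg_one {χ : G → ℂ} (h : T u χ) : sg χ 1 = 5 := by
  rw [sg_apply, h.deg]; norm_num

omit [Fintype G] in
theorem T.sg_val {χ : G → ℂ} (h : T u χ) : sg χ u = 1 := by
  rw [sg_apply, h.val]; norm_num

theorem T.sg_real (H : Hyp u) {χ : G → ℂ} (h : T u χ) (g : G) : conj (sg χ g) = sg χ g := by
  simp [sg_apply, h.real H]

theorem T.sg_irr (H : Hyp u) {χ : G → ℂ} (h : T u χ) : IsIrrCharacter G (sg χ) := by
  have hS : IsCharacter G (χ * χ - χ) := by
    convert h.sym H using 2
    funext g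
    rw [h.real H]
  have h1 : classInner (χ * χ - χ) 1 = 1 := by
    rw [classInner_sub_left, h.inner_one, sub_zero,
      inner_congr (c := χ) (d := χ) (fun g => by simp [h.real H]), h.irr.inner_self]
  refine H.irr_of_diff (hS.sub_irr isIrrCharacter_one' (by rw [h1]; exact one_ne_zero)) ?_ ?_ ?_
  · rw [sg, classInner_sub_left, h1, classInner_one_one, sub_self]
  · rw [h.sg_one, h.sg_val]; norm_num
  · rw [h.sg_val]; norm_num

theorem T.inner_sg (H : Hyp u) {χ η : G → ℂ} (h : T u χ) (h' : T u η) :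
    classInner η (sg χ) = 0 :=
  inner_deg h'.irr (h.sg_irr H) (by rw [h'.deg, h.sg_one]; norm_num)

theorem T.sg_inner (H : Hyp u) {χ η : G → ℂ} (h : T u χ) (h' : T u η) :
    classInner (sg χ) η = 0 :=
  inner_deg (h.sg_irr H) h'.irr (by rw [h'.deg, h.sg_one]; norm_num)

theorem T.sg_inner_one (H : Hyp u) {χ : G → ℂ} (h : T u χ) : classInner (sg χ) 1 = 0 :=
  inner_deg (h.sg_irr H) isIrrCharacter_one' (by rw [h.sg_one]; norm_num)

theorem T.one_inner_sg (H : Hyp u) {χ : G → ℂ} (h : T u χ) : classInner 1 (sg χ) = 0 :=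
  inner_deg isIrrCharacter_one' (h.sg_irr H) (by rw [h.sg_one]; norm_num)

theorem T.norm_mul (H : Hyp u) {χ η : G → ℂ} (h : T u χ) (h' : T u η) (hne : χ ≠ η) :
    classInner (χ * η) (χ * η) = 1 + classInner (sg χ) (sg η) := by
  rw [inner_congr (c := 1 + χ + sg χ) (d := 1 + η + sg η)
    (fun g => by simp [sg_apply, h.real H, h'.real H]; ring)]
  simp only [classInner_add_left, classInner_add_right, classInner_one_one, h.inner_one,
    h'.one_inner, h.irr.inner_of_ne h'.irr hne, h'.inner_sg H h, h.sg_inner H h',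
    h.sg_inner_one H, h'.one_inner_sg H]
  ring

theorem T.sg_eq (H : Hyp u) {χ η : G → ℂ} (h : T u χ) (h' : T u η) : sg χ = sg η := by
  by_cases hne : χ = η
  · rw [hne]
  by_contra hs
  have h1 := h.norm_mul H h' hne
  rw [(h.sg_irr H).inner_of_ne (h'.sg_irr H) hs, add_zero] at h1
  have h2 := (h.irr.isCharacter.mul h'.irr.isCharacter).isIrr_of_inner_self h1
  have h3 : χ * η ≠ 1 := fun e => by
    have := congrFun e 1
    simp only [Pi.mul_apply, h.deg, h'.deg, Pi.one_apply] at this
    norm_num at this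
  have h4 := H _ h2 h3
  simp only [Pi.mul_apply, h.deg, h'.deg, h.val, h'.val] at h4
  norm_num at h4

theorem T.inner_mul_sg (H : Hyp u) {χ : G → ℂ} (h : T u χ) : classInner (χ * sg χ) χ = 1 := by
  rw [inner_congr (c := 1 + χ + sg χ) (d := sg χ)
    (fun g => by simp [sg_apply, h.real H]; ring)]
  simp only [classInner_add_left, h.inner_sg H h, h.one_inner_sg H, (h.sg_irr H).inner_self]
  ring

theorem T.tau (H : Hyp u) {χ : G → ℂ} (h : T u χ) : IsCharacter G (χ * sg χ - sg χ - χ) := by
  have hL : IsCharacter G (χ * sg χ - sg χ) := by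
    convert (h.sg_irr H).isCharacter.altSq using 1
    funext g
    simp only [Pi.sub_apply, Pi.mul_apply, sg_apply, h.sq' H]
    ring
  refine hL.sub_irr h.irr ?_
  rw [classInner_sub_left, h.inner_mul_sg H, h.sg_inner H h]
  norm_num

theorem T.exists_pair (H : Hyp u) {χ : G → ℂ} (h : T u χ) :
    ∃ η, T u η ∧ χ ≠ η ∧ classInner (χ * sg χ) η ≠ 0 := by
  obtain ⟨η, h', hi⟩ := H.exists_T (h.tau H) (by simp [h.val, h.sg_val])
  have hne : χ ≠ η := by
    rintro rfl
    rw [classInner_sub_left, classInner_sub_left, h.inner_mul_sg H, h.sg_inner H h,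
      h.irr.inner_self] at hi
    exact hi (by ring)
  refine ⟨η, h', hne, ?_⟩
  rwa [classInner_sub_left, classInner_sub_left, h.sg_inner H h', h.irr.inner_of_ne h'.irr hne,
    sub_zero, sub_zero] at hi

/-- A pair of degree three characters as for the alternating group of degree five. -/
structure Pair (u : G) (χ η : G → ℂ) : Prop where
  H : Hyp u
  l : T u χ
  r : T u η
  ne : χ ≠ η
  inner : classInner (χ * sg χ) η ≠ 0

namespace Pair

variable {χ η : G → ℂ} (P : Pair u χ η)
include P

theorem sg_eq : sg η = sg χ := P.r.sg_eq P.H P.l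

theorem inner' : classInner (χ * η) (sg χ) ≠ 0 := by
  rw [inner_congr (c := χ * sg χ) (d := η)
    (fun g => by simp only [Pi.mul_apply, P.l.sg_real P.H, P.r.real P.H]; ring)]
  exact P.inner

theorem symm : Pair u η χ := by
  refine ⟨P.H, P.r, P.l, P.ne.symm, ?_⟩
  rw [P.sg_eq, inner_congr (c := χ * sg χ) (d := η)
    (fun g => by simp only [Pi.mul_apply, P.l.real P.H, P.r.real P.H]; ring)]
  exact P.inner

theorem R_char : IsCharacter G (χ * sg χ - sg χ - χ - η) := by
  refine (P.l.tau P.H).sub_irr P.r.irr ?_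
  rw [classInner_sub_left, classInner_sub_left, P.l.sg_inner P.H P.r,
    P.l.irr.inner_of_ne P.r.irr P.ne, sub_zero, sub_zero]
  exact P.inner

theorem R_one : (χ * sg χ - sg χ - χ - η) 1 = (4 : ℕ) := by
  simp only [Pi.sub_apply, Pi.mul_apply, P.l.sg_one, P.l.deg, P.r.deg]
  norm_num

theorem rho_one : (χ * η - sg χ) 1 = (4 : ℕ) := by
  simp only [Pi.sub_apply, Pi.mul_apply, P.l.sg_one, P.l.deg, P.r.deg]
  norm_num

theorem rho_irr : IsIrrCharacter G (χ * η - sg χ) := by
  have hc := P.l.irr.isCharacter.mul P.r.irr.isCharacter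
  have hs := P.l.sg_irr P.H
  have hρ := hc.sub_irr hs P.inner'
  have h0 : classInner (χ * η - sg χ) (sg χ) = 0 :=
    inner_lt hρ hs P.rho_one (n := 5) (by rw [P.l.sg_one]; norm_num) (by norm_num)
  have h1 : classInner (χ * η) (sg χ) = 1 := by
    rw [classInner_sub_left, hs.inner_self] at h0
    linear_combination h0
  refine hρ.isIrr_of_inner_self ?_
  rw [classInner_sub_right, h0, sub_zero, classInner_sub_left, P.l.norm_mul P.H P.r P.ne, P.sg_eq,
    hs.inner_self, hs.isCharacter.inner_comm hc, h1]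
  ring

theorem rho_real (g : G) : conj ((χ * η - sg χ) g) = (χ * η - sg χ) g := by
  simp only [Pi.sub_apply, Pi.mul_apply, map_sub, map_mul, P.l.sg_real P.H, P.l.real P.H,
    P.r.real P.H]

theorem R_eq : χ * sg χ - sg χ - χ - η = χ * η - sg χ := by
  have hs := P.l.sg_irr P.H
  have hρ := P.rho_irr
  have hR := P.R_char
  have hR' := P.symm.R_char
  have hR1' := P.symm.R_one
  rw [P.sg_eq] at hR' hR1'
  have s5 : sg χ 1 = (5 : ℕ) := by rw [P.l.sg_one]; norm_num
  have r4 := P.rho_one
  have R4 := P.R_one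
  have rr := P.rho_real
  set ρ := χ * η - sg χ with hρd
  set R := χ * sg χ - sg χ - χ - η with hRd
  set R' := η * sg χ - sg χ - η - χ with hRd'
  have e1 : χ * ρ = η + ρ + sg χ + R' - R := by
    funext g
    simp only [hρd, hRd, hRd', Pi.sub_apply, Pi.mul_apply, Pi.add_apply, sg_apply]
    ring
  have i1 : classInner (χ * ρ) (sg χ) = 1 := by
    rw [e1]
    simp only [classInner_sub_left, classInner_add_left, P.l.inner_sg P.H P.r, hs.inner_self,
      inner_lt hρ.isCharacter hs r4 s5 (by norm_num), inner_lt hR hs R4 s5 (by norm_num),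
      inner_lt hR' hs hR1' s5 (by norm_num)]
    ring
  have i2 : classInner (χ * ρ) (sg χ) = classInner (R + sg χ + χ + η) ρ :=
    inner_congr fun g => by
      rw [rr, P.l.sg_real P.H]
      simp only [hRd, Pi.sub_apply, Pi.mul_apply, Pi.add_apply]
      ring
  rw [i1, classInner_add_left, classInner_add_left, classInner_add_left,
    inner_deg hs hρ (by rw [s5, r4]; norm_num),
    inner_deg P.l.irr hρ (by rw [P.l.deg, r4]; norm_num),
    inner_deg P.r.irr hρ (by rw [P.r.deg, r4]; norm_num)] at i2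
  refine hR.eq_of_inner_ne_zero_of_degree hρ ?_ (by rw [R4, r4])
  intro h0
  rw [h0] at i2
  norm_num at i2

theorem E1 (g : G) : η g * η g - η g = χ g * χ g - χ g := by
  have := congrFun P.sg_eq g
  simp only [sg_apply] at this
  linear_combination this

theorem E2 (g : G) : χ g * (χ g * χ g - χ g - 1) = χ g + η g + χ g * η g := by
  have := congrFun P.R_eq g
  simp only [sg_apply, Pi.sub_apply, Pi.mul_apply] at this
  linear_combination this

theorem E3 (g : G) : η g * (χ g * χ g - χ g - 1) = χ g + η g + χ g * η g := by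
  have h1 := P.symm.E2 g
  rw [P.E1] at h1
  linear_combination h1

/-- The regular character of the quotient by the kernel. -/
def Phi (χ η : G → ℂ) : G → ℂ :=
  1 + (3 : ℂ) • χ + (3 : ℂ) • η + (4 : ℂ) • (χ * η - sg χ) + (5 : ℂ) • sg χ

theorem Phi_mul (g : G) : (χ g - 3) * Phi χ η g = 0 := by
  simp only [Phi, Pi.add_apply, Pi.smul_apply, Pi.sub_apply, Pi.mul_apply, Pi.one_apply,
    smul_eq_mul, sg_apply]
  linear_combination P.E2 g + 4 * P.E3 g

theorem r_ker {g : G} (hg : χ g = 3) : η g = 3 := by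
  have := P.E2 g
  rw [hg] at this
  linear_combination (-1 / 4 : ℂ) * this

theorem Phi_eq (g : G) [Decidable (g ∈ charKer χ)] :
    Phi χ η g = if g ∈ charKer χ then 60 else 0 := by
  split_ifs with hg
  · rw [P.l.irr.mem_charKer, P.l.deg] at hg
    simp only [Phi, Pi.add_apply, Pi.smul_apply, Pi.sub_apply, Pi.mul_apply, Pi.one_apply,
      smul_eq_mul, sg_apply, hg, P.r_ker hg]
    norm_num
  · rw [P.l.irr.mem_charKer, P.l.deg] at hg
    exact (mul_eq_zero.mp (P.Phi_mul g)).resolve_left (sub_ne_zero.mpr hg)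

theorem Phi_inner : classInner (Phi χ η) 1 = 1 := by
  simp only [Phi, classInner_add_left, classInner_smul_left, classInner_one_one, P.l.inner_one,
    P.r.inner_one, P.l.sg_inner_one P.H,
    inner_deg P.rho_irr isIrrCharacter_one' (by rw [P.rho_one]; norm_num)]
  ring

theorem index_ker : (charKer χ).index = 60 := by
  classical
  have h1 := P.Phi_inner
  rw [classInner_one_right] at h1
  simp only [P.Phi_eq, Finset.sum_ite, Finset.sum_const_zero, add_zero, Finset.sum_const,
    nsmul_eq_mul] at h1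
  have h2 : (Finset.univ.filter fun g => g ∈ charKer χ).card = Nat.card (charKer χ) := by
    rw [Nat.card_eq_fintype_card, Fintype.card_subtype]
  rw [h2, inv_mul_eq_one₀ (card_ne_zero G), ← (charKer χ).card_mul_index] at h1
  have h3 : Nat.card (charKer χ) * (charKer χ).index = Nat.card (charKer χ) * 60 := by
    exact_mod_cast h1
  exact Nat.eq_of_mul_eq_mul_left Nat.card_pos h3

theorem eq_or_eq {w : G → ℂ} (hw : T u w) : w = χ ∨ w = η := by
  classical
  by_contra hcon
  push Not at hcon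
  have h3 : ∀ g, χ g = 3 → w g = 3 := by
    intro g hg
    have h1 := congrFun (hw.sg_eq P.H P.l) g
    simp only [sg_apply, hg] at h1
    have h2 : (w g - 3) * (w g + 2) = 0 := by linear_combination h1
    rcases mul_eq_zero.mp h2 with h | h
    · linear_combination h
    · have h4 := hw.irr.isCharacter.norm_le_norm_one (g * g)
      rw [hw.sq' P.H, hw.deg, show w g = -2 by linear_combination h] at h4
      norm_num at h4
  have h1 : classInner (Phi χ η) w = classInner ((3 : ℂ) • Phi χ η) 1 := inner_congr fun g => by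
    rw [hw.real P.H]
    simp only [Pi.smul_apply, Pi.one_apply, map_one, smul_eq_mul, P.Phi_eq]
    split_ifs with hg
    · rw [P.l.irr.mem_charKer, P.l.deg] at hg
      rw [h3 g hg]; ring
    · ring
  rw [classInner_smul_left, P.Phi_inner] at h1
  simp only [Phi, classInner_add_left, classInner_smul_left, hw.one_inner,
    P.l.irr.inner_of_ne hw.irr hcon.1.symm, P.r.irr.inner_of_ne hw.irr hcon.2.symm,
    P.l.sg_inner P.H hw, inner_deg P.rho_irr hw.irr (by rw [P.rho_one, hw.deg]; norm_num)] at h1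
  norm_num at h1

theorem column (hu : u ≠ 1) (g : G) :
    ∑ θ : IrrCharacter G, (θ : G → ℂ) u * conj ((θ : G → ℂ) g) = 1 - χ g - η g + sg χ g := by
  classical
  let a : IrrCharacter G := ⟨1, isIrrCharacter_one'⟩
  let b : IrrCharacter G := ⟨χ, P.l.irr⟩
  let c : IrrCharacter G := ⟨η, P.r.irr⟩
  let d : IrrCharacter G := ⟨sg χ, P.l.sg_irr P.H⟩
  have ne : ∀ x y : IrrCharacter G, (x : G → ℂ) 1 ≠ (y : G → ℂ) 1 → x ≠ y :=
    fun x y h e => h (by rw [e])
  have hab : a ≠ b := ne _ _ (by simp only [a, b, P.l.deg]; norm_num)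
  have hac : a ≠ c := ne _ _ (by simp only [a, c, P.r.deg]; norm_num)
  have had : a ≠ d := ne _ _ (by simp only [a, d, P.l.sg_one]; norm_num)
  have hbc : b ≠ c := fun e => P.ne (congrArg Subtype.val e)
  have hbd : b ≠ d := ne _ _ (by simp only [b, d, P.l.deg, P.l.sg_one]; norm_num)
  have hcd : c ≠ d := ne _ _ (by simp only [c, d, P.r.deg, P.l.sg_one]; norm_num)
  have hsum : ∀ f : IrrCharacter G → ℂ, ∑ θ ∈ ({a, b, c, d} : Finset _), f θ
      = f a + f b + f c + f d := by
    intro f
    rw [Finset.sum_insert (by simp [hab, hac, had]), Finset.sum_insert (by simp [hbc, hbd]),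
      Finset.sum_pair hcd]
    ring
  have h0 := sum_degree_mul (G := G) u
  rw [if_neg hu, ← Finset.sum_add_sum_compl ({a, b, c, d} : Finset _), hsum] at h0
  simp only [a, b, c, d, Pi.one_apply, P.l.deg, P.l.val, P.r.deg, P.r.val, P.l.sg_one,
    P.l.sg_val] at h0
  have hv : ∀ θ ∈ ({a, b, c, d} : Finset _)ᶜ, ∃ m v : ℕ, 0 < m ∧ (θ : G → ℂ) 1 = m ∧
      (θ : G → ℂ) u = v := by
    intro θ hθ
    obtain ⟨m, hm, h1⟩ := θ.2.exists_pos_degree
    obtain ⟨v, h2⟩ := P.H.re_nonneg θ.2 fun hT => by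
      rcases P.eq_or_eq hT with h | h
      · exact Finset.mem_compl.mp hθ (by simp [show θ = b from Subtype.ext h])
      · exact Finset.mem_compl.mp hθ (by simp [show θ = c from Subtype.ext h])
    exact ⟨m, v, hm, h1, h2⟩
  choose! m v hm h1 h2 using hv
  have h3 : ∑ θ ∈ ({a, b, c, d} : Finset _)ᶜ, m θ * v θ = 0 := by
    have : ((∑ θ ∈ ({a, b, c, d} : Finset _)ᶜ, m θ * v θ : ℕ) : ℂ) = 0 := by
      push_cast
      rw [← Finset.sum_congr rfl fun θ hθ => by rw [← h1 θ hθ, ← h2 θ hθ]]
      linear_combination h0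
    exact_mod_cast this
  rw [← Finset.sum_add_sum_compl ({a, b, c, d} : Finset _), hsum, Finset.sum_eq_zero]
  · simp only [a, b, c, d, Pi.one_apply, P.l.val, P.r.val, P.l.sg_val, P.l.real P.H, P.r.real P.H,
      P.l.sg_real P.H, map_one]
    ring
  · intro θ hθ
    have := Finset.sum_eq_zero_iff.mp h3 θ hθ
    have h4 : v θ = 0 := (Nat.mul_eq_zero.mp this).resolve_left (hm θ hθ).ne'
    rw [h2 θ hθ, h4]
    simp

theorem card_centralizer (hu : u ≠ 1) : Nat.card (Subgroup.centralizer ({u} : Set G)) = 4 := by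
  have h := P.column hu u
  rw [column_conj (IsConj.refl u), P.l.val, P.r.val, P.l.sg_val] at h
  have : (Nat.card (Subgroup.centralizer ({u} : Set G)) : ℂ) = (4 : ℕ) := by
    rw [h]; norm_num
  exact_mod_cast this

theorem isConj (hu : u ≠ 1) {g : G} (h1 : g ∉ charKer χ) (h2 : g * g ∈ charKer χ) :
    IsConj u g := by
  by_contra hc
  have h := P.column hu g
  rw [column_not_conj hc] at h
  rw [P.l.irr.mem_charKer, P.l.deg] at h1 h2
  have h3 := P.r_ker h2
  rw [P.l.sq' P.H] at h2
  rw [P.r.sq' P.H] at h3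
  have hx : χ g = -1 := by
    have : (χ g - 3) * (χ g + 1) = 0 := by linear_combination h2
    linear_combination (mul_eq_zero.mp this).resolve_left (sub_ne_zero.mpr h1)
  have h4 := P.E1 g
  rw [hx] at h4
  have hy : η g = -1 := by linear_combination h4 - h3
  rw [sg_apply, hx, hy] at h
  norm_num at h

end Pair

/-- The outcome of the character arithmetic. -/
theorem Hyp.main (H : Hyp u) (hu : u ≠ 1) : ∃ K : Subgroup G, K.Normal ∧ K.index = 60 ∧ u ∉ K ∧
    Nat.card (Subgroup.centralizer ({u} : Set G)) = 4 ∧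
    ∀ g, g ∉ K → g * g ∈ K → IsConj u g := by
  obtain ⟨χ, h⟩ := H.exists_T_of_ne hu
  obtain ⟨η, h', hne, hi⟩ := h.exists_pair H
  have P : Pair u χ η := ⟨H, h, h', hne, hi⟩
  refine ⟨charKer χ, h.irr.charKer_normal, P.index_ker, ?_, P.card_centralizer hu,
    fun g => P.isConj hu⟩
  rw [h.irr.mem_charKer, h.val, h.deg]
  norm_num

end CL.Blk.D4
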