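import Mathlib

/-!
# Integer matrices attached to a principal 3-block with extraspecial defect group of order 27
-/

set_option autoImplicit false

open Finset

namespace CL.Ex3

variable {I J : Type*} [Fintype I] [DecidableEq I] [Fintype J] [DecidableEq J]

/-- Nine times the projection onto the complement of the columns `d u`. -/
def pi9 (d : J → I → ℤ) (i j : I) : ℤ := (if i = j then 9 else 0) - ∑ u, d u i * d u j

/-- Twenty-seven times the contribution matrix. -/
def aa (T : I → I → ℤ) (d : J → I → ℤ) (i j : I) : ℤ := pi9 d i j + 3 * (T i j + T j i)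

/-- The numerical data. `S` is the set of characters of height zero. -/
structure Mat (T : I → I → ℤ) (d : J → I → ℤ) (S : Finset I) (o : I) (deg : I → ℤ) : Prop where
  row : ∀ i j, ∑ k, T i k * T j k = pi9 d i j
  col : ∀ i j, ∑ k, T k i * T k j = pi9 d i j
  sq : ∀ i j, ∑ k, T i k * T k j = 3 * T j i
  rd : ∀ i u, ∑ k, T i k * d u k = 0
  cd : ∀ i u, ∑ k, T k i * d u k = 0
  dd : ∀ u v, ∑ k, d u k * d v k = if u = v then 9 else 0
  d0 : ∀ u, ∀ i ∈ S, ¬ 3 ∣ d u i
  d1 : ∀ u, ∀ i ∉ S, d u i = 0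
  a0 : ∀ i, ∀ j ∈ S, aa T d i j ≠ 0
  a1 : ∀ i ∉ S, ∀ j ∉ S, 9 ∣ aa T d i j
  aq : ∀ i, ∑ k, aa T d i k ^ 2 = 27 * aa T d i i
  oS : o ∈ S
  d_o : ∀ u, d u o = 1
  deg_o : deg o = 1
  dg : ∀ u, ∑ k, deg k * d u k = 0

theorem one_le_sq {x : ℤ} (h : x ≠ 0) : 1 ≤ x ^ 2 := by
  have := sq_pos_of_ne_zero h
  omega

theorem nine_le_sq {x : ℤ} (h : x ≠ 0) (h3 : 3 ∣ x) : 9 ≤ x ^ 2 := by
  obtain ⟨y, rfl⟩ := h3
  have := one_le_sq (x := y) (by rintro rfl; simp at h)
  nlinarith

theorem sum_odd_ne {s : Finset I} {f : I → ℤ} (h : ∀ i ∈ s, Odd (f i)) (hs : Odd s.card) :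
    ∑ i ∈ s, f i ≠ 0 := by
  intro e
  have h1 : ∑ i ∈ s, f i ≡ ∑ _i ∈ s, (1 : ℤ) [ZMOD 2] :=
    Int.ModEq.sum fun i hi => by
      obtain ⟨m, hm⟩ := h i hi
      rw [hm, Int.ModEq]; omega
  rw [e, sum_const, nsmul_eq_mul, mul_one, Int.ModEq] at h1
  obtain ⟨m, hm⟩ := hs
  omega

namespace Mat

variable {T : I → I → ℤ} {d : J → I → ℤ} {S : Finset I} {o : I} {deg : I → ℤ}
  (h : Mat T d S o deg)
include h

theorem sum_d (u : J) (f : I → ℤ) : ∑ k, f k * d u k = ∑ k ∈ S, f k * d u k :=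
  (sum_subset (subset_univ S) fun k _ hk => by rw [h.d1 u k hk, mul_zero]).symm

theorem pi9_of_notMem {i : I} (hi : i ∉ S) (j : I) : pi9 d i j = if i = j then 9 else 0 := by
  simp [pi9, h.d1 _ i hi]

theorem val (u : J) {i : I} (hi : i ∈ S) : d u i = 1 ∨ d u i = -1 ∨ d u i = 2 ∨ d u i = -2 := by
  have h1 := h.dd u u
  rw [if_pos rfl] at h1
  have h2 : d u i * d u i ≤ 9 :=
    h1 ▸ single_le_sum (f := fun k => d u k * d u k) (fun k _ => mul_self_nonneg _) (mem_univ i)
  have h3 := h.d0 u i hi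
  have h4 : d u i ≤ 3 := by nlinarith
  have h5 : -3 ≤ d u i := by nlinarith
  omega

/-- The set of rows where the column `u` has an even entry. -/
theorem card_add (u : J) : S.card + 3 * (S.filter fun i => Even (d u i)).card = 9 := by
  have h1 := h.dd u u
  rw [if_pos rfl, h.sum_d, sum_congr rfl (g := fun k => 1 + 3 * if Even (d u k) then 1 else 0)
    fun k hk => by rcases h.val u hk with e | e | e | e <;> rw [e] <;> decide,
    sum_add_distrib, ← mul_sum, sum_boole, sum_const, nsmul_eq_mul, mul_one] at h1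
  exact_mod_cast h1

theorem card_ne_three (u : J) : S.card ≠ 3 := by
  intro e
  have h1 := h.card_add u
  have ho : o ∉ S.filter fun i => Even (d u i) := by simp [h.d_o]
  have h2 : insert o (S.filter fun i => Even (d u i)) = S :=
    eq_of_subset_of_card_le (insert_subset h.oS (filter_subset _ _))
      (by rw [card_insert_of_notMem ho]; omega)
  have h3 := h.dg u
  rw [h.sum_d, ← h2, sum_insert ho, h.deg_o, h.d_o] at h3
  have h4 : Even (∑ k ∈ S.filter fun i => Even (d u i), deg k * d u k) :=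
    even_sum _ fun k hk => (mem_filter.1 hk).2.mul_left _
  obtain ⟨m, hm⟩ := h4
  omega

theorem odd_of_nine (h9 : S.card = 9) (u : J) {i : I} (hi : i ∈ S) : d u i = 1 ∨ d u i = -1 := by
  have h1 := h.card_add u
  have h2 : ¬ Even (d u i) := fun e =>
    (card_pos.2 ⟨i, mem_filter.2 ⟨hi, e⟩⟩ : 0 < (S.filter fun i => Even (d u i)).card).ne'
      (by omega)
  rcases h.val u hi with e | e | e | e <;> simp_all

theorem cases (u : J) : S.card = 6 ∨ (S.card = 9 ∧ Fintype.card J = 1) := by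
  have h1 := h.card_add u
  have h2 := h.card_ne_three u
  have h3 : 0 < S.card := card_pos.2 ⟨o, h.oS⟩
  by_cases h6 : S.card = 6
  · exact Or.inl h6
  have h9 : S.card = 9 := by omega
  refine Or.inr ⟨h9, Fintype.card_eq_one_iff.2 ⟨u, fun v => by_contra fun hv => ?_⟩⟩
  have h4 := h.dd v u
  rw [if_neg hv, h.sum_d] at h4
  refine sum_odd_ne (fun i hi => ?_) (by rw [h9]; decide) h4
  rcases h.odd_of_nine h9 u hi with e | e <;> rcases h.odd_of_nine h9 v hi with e' | e' <;>
    rw [e, e'] <;> decide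

theorem ne_zero {i j : I} (hi : i ∉ S) (hj : j ∈ S) : T i j + T j i ≠ 0 := by
  have h1 := h.a0 i j hj
  rw [aa, h.pi9_of_notMem hi, if_neg (by rintro rfl; exact hi hj)] at h1
  omega

theorem diag {i : I} (hi : i ∉ S) : T i i = 0 := by
  have h1 := h.a1 i hi i hi
  rw [aa, h.pi9_of_notMem hi, if_pos rfl] at h1
  by_contra h0
  have h2 := nine_le_sq h0 (by omega)
  have hne : i ≠ o := by rintro rfl; exact hi h.oS
  have h3 := h.row i i
  have h4 := h.col i i
  rw [h.pi9_of_notMem hi, if_pos rfl] at h3 h4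
  have h5 : T i i * T i i + T i o * T i o ≤ 9 := by
    rw [← h3, ← sum_pair (f := fun k => T i k * T i k) hne]
    exact sum_le_sum_of_subset_of_nonneg (subset_univ _) fun k _ _ => mul_self_nonneg _
  have h6 : T i i * T i i + T o i * T o i ≤ 9 := by
    rw [← h4, ← sum_pair (f := fun k => T k i * T k i) hne]
    exact sum_le_sum_of_subset_of_nonneg (subset_univ _) fun k _ _ => mul_self_nonneg _
  have h7 : T i o = 0 := by nlinarith
  have h8 : T o i = 0 := by nlinarith
  exact h.ne_zero hi h.oS (by rw [h7, h8]; rfl)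

theorem tr_pi9 : ∑ i, pi9 d i i = 9 * (Fintype.card I : ℤ) - 9 * Fintype.card J := by
  simp only [pi9, if_true, sum_sub_distrib]
  rw [sum_comm]
  simp [h.dd, mul_comm]

theorem tr_T : ∑ i, T i i = ∑ i ∈ S, T i i :=
  (sum_subset (subset_univ S) fun _ _ hk => h.diag hk).symm

theorem tr_aa : ∑ i, aa T d i i =
    9 * (Fintype.card I : ℤ) - 9 * Fintype.card J + 6 * ∑ i ∈ S, T i i := by
  simp only [aa, sum_add_distrib, h.tr_pi9, ← mul_sum, h.tr_T]
  ring

/-- `U ^ 2 = 3 U + 18 Π` for `U = T + Tᵀ`. -/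
theorem usq (i j : I) : ∑ k, (T i k + T k i) * (T j k + T k j) =
    3 * (T i j + T j i) + 2 * pi9 d i j := by
  have h1 := h.row i j
  have h2 := h.col i j
  have h3 := h.sq i j
  have h4 := h.sq j i
  rw [sum_congr rfl (g := fun k => T i k * T j k + T k i * T k j + T i k * T k j + T j k * T k i)
    fun k _ => by ring]
  simp only [sum_add_distrib, h1, h2, h3, h4]
  ring

theorem ud (i : I) (u : J) : ∑ k ∈ S, (T i k + T k i) * d u k = 0 := by
  rw [← h.sum_d]
  simp only [add_mul, sum_add_distrib, h.rd, h.cd, add_zero]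

theorem split (f : I → ℤ) : ∑ k, f k = ∑ k ∈ S, f k + ∑ k ∈ Sᶜ, f k :=
  (sum_add_sum_compl S f).symm

/-- With nine characters of height zero the others are orthogonal to each other. -/
theorem off (h9 : S.card = 9) (u : J) {i j : I} (hi : i ∉ S) (hj : j ∉ S) :
    T i j + T j i = 0 := by
  by_cases e : i = j
  · subst e; rw [h.diag hi]; rfl
  by_contra h0
  have h1 := h.a1 i hi j hj
  rw [aa, h.pi9_of_notMem hi, if_neg e] at h1
  have h2 := nine_le_sq h0 (by omega)
  have h3 := h.usq i i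
  rw [h.pi9_of_notMem hi, if_pos rfl, h.diag hi, h.split] at h3
  have h4 : (T i j + T j i) * (T i j + T j i) ≤ ∑ k ∈ Sᶜ, (T i k + T k i) * (T i k + T k i) :=
    single_le_sum (f := fun k => (T i k + T k i) * (T i k + T k i))
      (fun k _ => mul_self_nonneg _) (mem_compl.2 hj)
  have h5 : ∀ k ∈ S, 1 ≤ (T i k + T k i) * (T i k + T k i) := fun k hk => by
    rw [← _root_.sq]; exact one_le_sq (h.ne_zero hi hk)
  have h6 : ∑ _k ∈ S, (1 : ℤ) = ∑ k ∈ S, (T i k + T k i) * (T i k + T k i) := by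
    refine le_antisymm (sum_le_sum h5) ?_
    rw [sum_const, h9]; norm_num; nlinarith
  have h7 := (sum_eq_sum_iff_of_le h5).1 h6
  refine sum_odd_ne (fun k hk => ?_) (by rw [h9]; decide) (h.ud i u)
  have h8 : T i k + T k i = 1 ∨ T i k + T k i = -1 := mul_self_eq_one_iff.1 (h7 k hk).symm
  rcases h8 with e | e <;> rcases h.odd_of_nine h9 u hk with e' | e' <;> rw [e, e'] <;> decide

theorem nine_false (h9 : S.card = 9) (hJ : Fintype.card J = 1) {l1 l : ℕ}
    (ht : ∑ i, aa T d i i = 27 * l1) (hk : Fintype.card I = l1 + 2 * l + 1) (hl : 5 ≤ l) :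
    False := by
  obtain ⟨u, hu⟩ := Fintype.card_eq_one_iff.1 hJ
  have hc : Sᶜ.card = l1 + 2 * l - 8 := by rw [card_compl, hk, h9]; omega
  have hp : ∀ i ∈ S, pi9 d i i = 8 := fun i hi => by
    rw [pi9, if_pos rfl, sum_eq_single u (fun v _ hv => absurd (hu v) hv) (by simp)]
    rcases h.odd_of_nine h9 u hi with e | e <;> rw [e] <;> rfl
  have hz : ∀ i ∉ S, ∀ f : I → ℤ, ∑ k, (T i k + T k i) * f k = ∑ k ∈ S, (T i k + T k i) * f k :=
    fun i hi f => (sum_subset (subset_univ S) fun k _ hk => by rw [h.off h9 u hi hk, zero_mul]).symm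
  have h18 : ∀ i ∉ S, ∑ k ∈ S, (T i k + T k i) * (T i k + T k i) = 18 := fun i hi => by
    rw [← hz i hi, h.usq, h.diag hi, h.pi9_of_notMem hi, if_pos rfl]; rfl
  have h1 : ∑ i ∈ S, ∑ k, (T i k + T k i) * (T i k + T k i) = 6 * ∑ i ∈ S, T i i + 144 := by
    rw [sum_congr rfl (g := fun i => 6 * T i i + 16) fun i hi => by rw [h.usq, hp i hi]; ring,
      sum_add_distrib, ← mul_sum, sum_const, h9]
    norm_num
  have h2 : ∑ i ∈ S, ∑ k ∈ Sᶜ, (T i k + T k i) * (T i k + T k i) = 18 * Sᶜ.card := by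
    rw [sum_comm, sum_congr rfl (g := fun _ => (18 : ℤ)) fun k hk => by
      rw [← h18 k (mem_compl.1 hk)]; exact sum_congr rfl fun i _ => by ring]
    simp [mul_comm]
  simp only [h.split, sum_add_distrib, h2] at h1
  have h3 := h.tr_aa
  rw [ht, hk, hJ] at h3
  have h4 : ∑ i ∈ S, ∑ k ∈ S, (T i k + T k i) * (T i k + T k i) ≤ 18 := by
    have : (Sᶜ.card : ℤ) = l1 + 2 * l - 8 := by omega
    push_cast at h3
    omega
  obtain ⟨c, hc'⟩ : Sᶜ.Nonempty := card_pos.1 (by omega)
  have hcS := mem_compl.1 hc'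
  have hv : ∀ i ∈ S, ∑ k ∈ S, (T c k + T k c) * (T i k + T k i) = 3 * (T c i + T i c) :=
    fun i hi => by
      rw [← hz c hcS, h.usq, h.pi9_of_notMem hcS, if_neg (by rintro rfl; exact hcS hi)]; ring
  have h5 : ∀ i ∈ S, 2 ≤ ∑ k ∈ S, (T i k + T k i) * (T i k + T k i) := fun i hi => by
    have a1 : ∑ k ∈ S, (T i k + T k i) * (T i k + T k i) ≡ ∑ k ∈ S, (T i k + T k i) * d u k
        [ZMOD 2] := Int.ModEq.sum fun k hk => by
      have := Int.even_mul_succ_self (T i k + T k i)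
      obtain ⟨m, hm⟩ := this
      rcases h.odd_of_nine h9 u hk with e | e <;> rw [e, Int.ModEq] <;>
        rw [show (T i k + T k i) * (T i k + T k i) = m + m - (T i k + T k i) by linarith] <;> omega
    rw [h.ud, Int.ModEq] at a1
    have a2 : 0 ≤ ∑ k ∈ S, (T i k + T k i) * (T i k + T k i) :=
      sum_nonneg fun k _ => mul_self_nonneg _
    have a3 : ∑ k ∈ S, (T i k + T k i) * (T i k + T k i) ≠ 0 := fun e => by
      have a4 := (sum_eq_zero_iff_of_nonneg fun k _ => mul_self_nonneg _).1 e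
      have a5 := hv i hi
      rw [sum_eq_zero fun k hk => by rw [mul_self_eq_zero.1 (a4 k hk), mul_zero]] at a5
      exact h.ne_zero hcS hi (by omega)
    omega
  have h6 : ∑ _i ∈ S, (2 : ℤ) = ∑ i ∈ S, ∑ k ∈ S, (T i k + T k i) * (T i k + T k i) := by
    refine le_antisymm (sum_le_sum h5) ?_
    rw [sum_const, h9]; exact h4
  have h7 := (sum_eq_sum_iff_of_le h5).1 h6
  obtain ⟨i, hi, hm⟩ := exists_max_image S (fun k => |T c k + T k c|) ⟨o, h.oS⟩
  have h8 : |3 * (T c i + T i c)| ≤ |T c i + T i c| * 2 := by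
    rw [← hv i hi, h7 i hi, mul_sum]
    refine (abs_sum_le_sum_abs _ _).trans (sum_le_sum fun k hk => ?_)
    rw [abs_mul]
    refine mul_le_mul (hm k hk) ?_ (abs_nonneg _) (abs_nonneg _)
    rw [← _root_.sq, ← sq_abs]
    exact Int.le_self_sq _
  have h0 := abs_pos.2 (h.ne_zero hcS hi)
  rw [abs_mul] at h8
  norm_num at h8
  omega

theorem bound_T {i : I} (hi : i ∈ S) : (Sᶜ.card : ℤ) ≤ 2 * pi9 d i i := by
  have h1 : ∑ k ∈ Sᶜ, (T i k * T i k + T k i * T k i) ≤ 2 * pi9 d i i := by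
    rw [two_mul]
    nth_rw 1 [← h.row i i]
    rw [← h.col i i, ← sum_add_distrib]
    exact sum_le_sum_of_subset_of_nonneg (subset_univ _) fun k _ _ =>
      add_nonneg (mul_self_nonneg _) (mul_self_nonneg _)
  refine le_trans ?_ h1
  rw [card_eq_sum_ones, Nat.cast_sum]
  refine sum_le_sum fun k hk => ?_
  have h2 := h.ne_zero (mem_compl.1 hk) hi
  by_cases e : T i k = 0
  · have := one_le_sq (x := T k i) (by omega)
    push_cast; nlinarith
  · have := one_le_sq e
    push_cast; nlinarith [mul_self_nonneg (T k i)]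

theorem aa_comm (i j : I) : aa T d i j = aa T d j i := by
  simp only [aa, pi9, eq_comm (a := i), mul_comm (d _ i), add_comm (T i j)]

theorem bound_a {i : I} (hi : i ∈ S) :
    aa T d i i ^ 2 + (S.card - 1) + 9 * (Sᶜ.card : ℤ) ≤ 27 * aa T d i i := by
  rw [← h.aq, h.split, ← add_sum_erase _ _ hi]
  gcongr
  · rw [show (S.card : ℤ) - 1 = ∑ _k ∈ S.erase i, (1 : ℤ) by
      rw [sum_const, card_erase_of_mem hi, nsmul_eq_mul, mul_one,
        Nat.cast_sub (card_pos.2 ⟨i, hi⟩)]; rfl]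
    exact sum_le_sum fun k hk => one_le_sq (h.a0 i k (mem_of_mem_erase hk))
  · rw [show 9 * (Sᶜ.card : ℤ) = ∑ _k ∈ Sᶜ, (9 : ℤ) by simp [mul_comm]]
    refine sum_le_sum fun k hk => ?_
    rw [h.aa_comm]
    refine nine_le_sq (h.a0 k i hi) ?_
    rw [aa, h.pi9_of_notMem (mem_compl.1 hk)]
    split_ifs <;> omega

theorem pi9_le {i : I} (hi : i ∈ S) : pi9 d i i ≤ 9 - Fintype.card J := by
  rw [pi9, if_pos rfl, ← card_univ, card_eq_sum_ones, Nat.cast_sum]
  gcongr with u
  rcases h.val u hi with e | e | e | e <;> rw [e] <;> norm_num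

theorem exists_pi9_le (h6 : S.card = 6) (u : J) : ∃ i ∈ S, pi9 d i i ≤ 6 - Fintype.card J := by
  have h1 := h.card_add u
  obtain ⟨i, hi⟩ : (S.filter fun i => Even (d u i)).Nonempty := card_pos.1 (by omega)
  obtain ⟨hi, he⟩ := mem_filter.1 hi
  refine ⟨i, hi, ?_⟩
  have h2 : d u i * d u i = 4 := by
    rcases h.val u hi with e | e | e | e <;> rw [e] at he ⊢ <;> first | rfl | exact absurd he (by decide)
  have h3 : ∑ _v ∈ univ.erase u, (1 : ℤ) ≤ ∑ v ∈ univ.erase u, d v i * d v i :=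
    sum_le_sum fun v _ => by rcases h.val v hi with e | e | e | e <;> rw [e] <;> norm_num
  rw [sum_const, card_erase_of_mem (mem_univ u), card_univ, nsmul_eq_mul,
    Nat.cast_sub (Fintype.card_pos_iff.2 ⟨u⟩)] at h3
  rw [pi9, if_pos rfl, ← add_sum_erase _ _ (mem_univ u), h2]
  push_cast at h3
  omega

/-- The general case. -/
theorem main (u : J) {l1 l : ℕ} (ht : ∑ i, aa T d i i = 27 * l1)
    (hk : Fintype.card I = l1 + 2 * l + Fintype.card J) (hl : l + Fintype.card J = 6) :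
    S.card = 6 ∧ l1 = l := by
  rcases h.cases u with h6 | ⟨h9, hJ⟩
  swap
  · exact (h.nine_false h9 hJ ht (by rw [hk, hJ]) (by omega)).elim
  refine ⟨h6, ?_⟩
  have hc : Sᶜ.card = l1 + l := by rw [card_compl, hk, h6]; omega
  have h3 := h.tr_aa
  rw [ht, hk] at h3
  push_cast at h3
  obtain ⟨i, hi, h4⟩ := h.exists_pi9_le h6 u
  have h5 := h.bound_T hi
  have hJ : 0 < Fintype.card J := Fintype.card_pos_iff.2 ⟨u⟩
  have key : ∀ j ∈ S, -1 ≤ T j j ∧ (T j j = -1 → Fintype.card J ≤ 2 ∧ Sᶜ.card ≤ 5) :=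
    fun j hj => by
      have a1 := h.bound_a hj
      have a2 := h.pi9_le hj
      have a3 : aa T d j j = pi9 d j j + 6 * T j j := by rw [aa]; ring
      rw [h6] at a1
      have a4 : 0 < aa T d j j := by
        have := sq_nonneg (aa T d j j)
        omega
      refine ⟨by omega, fun e => ⟨by omega, ?_⟩⟩
      have a5 : aa T d j j = 1 ∨ aa T d j j = 2 := by omega
      rcases a5 with e | e <;> rw [e] at a1 <;> omega
  by_contra hne
  have h7 : ∑ j ∈ S, T j j < ∑ _j ∈ S, (0 : ℤ) := by rw [sum_const_zero]; omega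
  obtain ⟨j, hj, h8⟩ := exists_lt_of_sum_lt h7
  have h9 : ∑ _j ∈ S, (-1 : ℤ) ≤ ∑ j ∈ S, T j j := sum_le_sum fun j hj => (key j hj).1
  rw [sum_const, h6] at h9
  have := key j hj
  norm_num at h9
  omega

/-- The case of a central subgroup of order three. -/
theorem central (u : J) {l1 : ℕ} (ht : ∑ i, aa T d i i = 27 * l1) {c : I → ZMod 3}
    (hc : ∀ i j, T i j ≠ 0 → c j = c i + 1) (co : c o = 0) (hd : ∀ i, c i ≠ 0 → i ∉ S) :
    l1 + Fintype.card J = 6 := by
  have h3 : ∀ a : ZMod 3, a ≠ a + 1 := by decide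
  have hS : ∀ i, i ∈ S ↔ c i = 0 := fun i => ⟨fun hi => by_contra fun e => hd i e hi, fun e =>
    by_contra fun hi => h.ne_zero hi h.oS (by
      have a1 : T i o = 0 := by_contra fun a => h3 0 (by simpa [e, co] using hc i o a)
      have a2 : T o i = 0 := by_contra fun a => h3 0 (by simpa [e, co] using hc o i a)
      rw [a1, a2]; rfl)⟩
  have step : ∀ a : ZMod 3, ∑ i with c i = a, pi9 d i i = ∑ j with c j = a + 1, pi9 d j j :=
    fun a => by
      simp only [← h.row]
      conv_rhs => simp only [h.row, ← h.col]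
      rw [sum_filter, sum_filter]
      simp only [ite_sum_zero]
      rw [sum_comm]
      refine sum_congr rfl fun j _ => sum_congr rfl fun i _ => ?_
      by_cases e : T i j = 0
      · simp [e]
      · simp [hc i j e]
  have hp : ∀ a : ZMod 3, a ≠ 0 → ∑ i with c i = a, pi9 d i i =
      9 * ((univ.filter fun i => c i = a).card : ℤ) := fun a ha => by
    rw [sum_congr rfl (g := fun _ => (9 : ℤ)) fun i hi => by
      rw [h.pi9_of_notMem (hd i (by rwa [(mem_filter.1 hi).2])), if_pos rfl]]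
    simp [mul_comm]
  have hS' : S = univ.filter fun i => c i = 0 := by ext i; simp [hS]
  have s0 := step 0
  have s1 := step 1
  have hf := sum_fiberwise univ c fun i => pi9 d i i
  have hf' := card_eq_sum_card_fiberwise (f := c) (s := univ) (t := univ) fun _ _ => mem_univ _
  have e3 : ∀ {A : Type} [AddCommMonoid A] (f : ZMod 3 → A), ∑ a, f a = f 0 + f 1 + f 2 :=
    fun f => Fin.sum_univ_three f
  rw [e3, h.tr_pi9] at hf
  rw [e3, ← hS', card_univ] at hf'
  rw [zero_add] at s0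
  rw [show (1 : ZMod 3) + 1 = 2 from rfl] at s1
  have p1 := hp 1 (by decide)
  have p2 := hp 2 (by decide)
  have h4 := h.tr_aa
  rw [ht, sum_eq_zero (s := S) fun i _ => by_contra fun e => h3 _ (hc i i e)] at h4
  have h5 : l1 + Fintype.card J = S.card := by omega
  rcases h.cases u with h6 | ⟨h9, hJ⟩
  · omega
  · exact (h.nine_false h9 hJ ht (l := l1) (by omega) (by omega)).elim

end Mat

end CL.Ex3
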