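import Mathlib
import Cfsg.Agent.PLOC.Fusion

/-!
# Fusion in an extraspecial Sylow 3-subgroup of order 27 whose centre is central in the normalizer
-/

set_option autoImplicit false

open Cfsg Subgroup CL.Tr

namespace CL.Ex3

variable {G : Type*} [Group G]

theorem mem_three {u y : G} (hu : u ^ 3 = 1) (h : y ∈ zpowers u) : y = 1 ∨ y = u ∨ y = u⁻¹ := by
  obtain ⟨k, rfl⟩ := h
  have h1 : u ^ k = u ^ (k % (3 : ℕ)) := zpow_eq_zpow_emod' k hu
  obtain h | h | h : k % (3 : ℕ) = 0 ∨ k % (3 : ℕ) = 1 ∨ k % (3 : ℕ) = 2 := by omega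
  all_goals rw [h] at h1
  · exact Or.inl (by simpa using h1)
  · exact Or.inr (Or.inl (by simpa using h1))
  · exact Or.inr (Or.inr (h1.trans (eq_inv_of_mul_eq_one_left (by rw [← hu]; group))))

theorem ncard_cls (R : Subgroup G) (x : G) :
    (centralizer ({x} : Set G)).relIndex R = Set.ncard {y : G | ∃ r ∈ R, r * x * r⁻¹ = y} := by
  let _ : MulAction R G := MulAction.compHom G ((MulAut.conj (G := G)).comp R.subtype)
  have h1 : (centralizer ({x} : Set G)).subgroupOf R = MulAction.stabilizer R x := by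
    ext r
    rw [mem_subgroupOf, mem_centralizer_singleton_iff, MulAction.mem_stabilizer_iff]
    change _ ↔ (r : G) * x * (r : G)⁻¹ = x
    rw [mul_inv_eq_iff_eq_mul]
  rw [relIndex, h1, MulAction.index_stabilizer]
  congr 1
  ext y
  exact ⟨fun ⟨r, e⟩ => ⟨r, r.2, e⟩, fun ⟨r, hr, e⟩ => ⟨⟨r, hr⟩, e⟩⟩

theorem comm_of_cube [Finite G] {m q v : G} (hm : (orderOf m).Coprime 3) (hq : m * q = q * m)
    (h3 : q ^ 3 = 1) (h : m * v * m⁻¹ = v * q) : m * v = v * m := by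
  have h1 : m * v = v * q * m := by rw [← h]; group
  have h2 : m ^ 3 * v = v * m ^ 3 := by
    have h4 : SemiconjBy v (q * m) m := by rw [SemiconjBy, h1, mul_assoc]
    have h5 := (h4.pow_right 3).eq
    rw [(show Commute q m from hq.symm).mul_pow, h3, one_mul] at h5
    exact h5.symm
  obtain ⟨k, hk⟩ := exists_pow_eq_self_of_coprime (x := m) (n := 3) hm.symm
  rw [← hk]
  exact (Commute.pow_left (h2 : Commute (m ^ 3) v) k)

/-- The hypotheses: `P` is extraspecial of order `27` and exponent `3` with centre generated by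
`z`, which is centralized by the normalizer of `P`. -/
structure Ex (P : Sylow 3 G) (z : G) : Prop where
  card : Nat.card (P : Subgroup G) = 27
  exp : ∀ x ∈ (P : Subgroup G), x ^ 3 = 1
  mem : z ∈ (P : Subgroup G)
  ne : z ≠ 1
  cls : ∀ a ∈ (P : Subgroup G), ∀ w ∈ (P : Subgroup G), a * w * a⁻¹ * w⁻¹ ∈ zpowers z
  cen : ∀ w ∈ (P : Subgroup G), (∀ a ∈ (P : Subgroup G), a * w = w * a) → w ∈ zpowers z
  nc : ∀ g ∈ normalizer ((P : Subgroup G) : Set G), g * z = z * g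

/-- The non-central elements. -/
def Om (P : Sylow 3 G) (z w : G) : Prop := w ∈ (P : Subgroup G) ∧ w ∉ zpowers z

theorem comm_zp {g z y : G} (h : g * z = z * g) (hy : y ∈ zpowers z) : g * y = y * g := by
  obtain ⟨k, rfl⟩ := hy
  exact Commute.zpow_right h k

/-- The elements centralizing `z` and `u` modulo `z`. -/
def LL (z u : G) : Subgroup G where
  carrier := {h | h * z = z * h ∧ h * u * h⁻¹ * u⁻¹ ∈ zpowers z}
  one_mem' := by simp
  mul_mem' := fun {a b} ha hb => ⟨Commute.mul_left ha.1 hb.1, by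
    have h1 := comm_zp ha.1 hb.2
    rw [show a * b * u * (a * b)⁻¹ * u⁻¹ = a * (b * u * b⁻¹ * u⁻¹) * (u * a⁻¹ * u⁻¹) by group, h1,
      show b * u * b⁻¹ * u⁻¹ * a * (u * a⁻¹ * u⁻¹) = b * u * b⁻¹ * u⁻¹ * (a * u * a⁻¹ * u⁻¹) by
        group]
    exact mul_mem hb.2 ha.2⟩
  inv_mem' := fun {a} ha => ⟨Commute.inv_left ha.1, by
    have h1 := comm_zp ha.1 (inv_mem ha.2)
    rw [show a⁻¹ * u * a⁻¹⁻¹ * u⁻¹ = a⁻¹ * ((a * u * a⁻¹ * u⁻¹)⁻¹ * a) by group, ← h1,
      inv_mul_cancel_left]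
    exact inv_mem ha.2⟩

theorem mem_LL {z u h : G} : h ∈ LL z u ↔ h * z = z * h ∧ h * u * h⁻¹ * u⁻¹ ∈ zpowers z := Iff.rfl

namespace Ex

variable {P : Sylow 3 G} {z u v w x y g n : G} (h : Ex P z)
include h

theorem z3 : z ^ 3 = 1 := h.exp z h.mem

theorem comm (hx : x ∈ (P : Subgroup G)) : x * z = z * x := h.nc x (le_normalizer hx)

theorem zp_le : zpowers z ≤ P := zpowers_le.2 h.mem

theorem zp3 (hy : y ∈ zpowers z) : y ^ 3 = 1 := h.exp y (h.zp_le hy)

theorem orderOf_z : orderOf z = 3 := orderOf_eq_prime h.z3 h.ne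

theorem card_zp : Nat.card (zpowers z) = 3 := by rw [Nat.card_zpowers, h.orderOf_z]

theorem ne_inv : z ≠ z⁻¹ := fun e => h.ne (by
  have h1 := h.z3
  rw [pow_three', eq_inv_iff_mul_eq_one.1 e, one_mul] at h1
  exact h1)

theorem le_LL (hu : u ∈ (P : Subgroup G)) : (P : Subgroup G) ≤ LL z u :=
  fun a ha => ⟨h.comm ha, h.cls a ha u hu⟩

theorem le_cent : (P : Subgroup G) ≤ centralizer {z} :=
  fun _ ha => mem_centralizer_singleton_iff.2 (h.comm ha)

theorem om_inv (hw : Om P z w) : Om P z w⁻¹ := ⟨inv_mem hw.1, by simpa using hw.2⟩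

theorem om_conj (hn : n ∈ normalizer ((P : Subgroup G) : Set G)) (hw : Om P z w) :
    Om P z (n * w * n⁻¹) := ⟨conj_mem_of_mem_normalizer hn hw.1, fun e => hw.2 (by
  have h1 := comm_zp (h.nc n hn) e
  rwa [show w = n * w * n⁻¹ from mul_left_cancel (a := n) (by rw [h1]; group)])⟩

theorem cj (hw : Om P z w) (hy : y ∈ zpowers z) :
    ∃ a ∈ (P : Subgroup G), a * w * a⁻¹ = y * w := by
  obtain ⟨a, ha, h1⟩ : ∃ a ∈ (P : Subgroup G), a * w ≠ w * a := by
    by_contra c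
    push Not at c
    exact hw.2 (h.cen w hw.1 c)
  have h2 := h.cls a ha w hw.1
  have h3 : a * a * w * (a * a)⁻¹ = (a * w * a⁻¹ * w⁻¹) * (a * w * a⁻¹ * w⁻¹) * w := by
    have := comm_zp (h.comm ha) h2
    calc _ = a * (a * w * a⁻¹ * w⁻¹) * (w * a⁻¹) := by group
      _ = _ := by rw [this]; group
  have h4 : z * z = z⁻¹ := eq_inv_of_mul_eq_one_left (by rw [← h.z3, pow_three'])
  have h5 : z⁻¹ * z⁻¹ = z := by rw [← mul_inv_rev, h4, inv_inv]
  rcases mem_three h.z3 hy with rfl | e | rfl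
  · exact ⟨1, one_mem _, by group⟩
  · rcases mem_three h.z3 h2 with c | c | c
    · exact absurd (by rw [mul_inv_eq_one, mul_inv_eq_iff_eq_mul] at c; exact c) h1
    · exact ⟨a, ha, by rw [e, ← c]; group⟩
    · exact ⟨a * a, mul_mem ha ha, by rw [h3, c, h5, e]⟩
  · rcases mem_three h.z3 h2 with c | c | c
    · exact absurd (by rw [mul_inv_eq_one, mul_inv_eq_iff_eq_mul] at c; exact c) h1
    · exact ⟨a * a, mul_mem ha ha, by rw [h3, c, h4]⟩
    · exact ⟨a, ha, by rw [← c]; group⟩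

variable [Finite G]

theorem not_conj_inv : ¬ IsConj z z⁻¹ := fun c => by
  obtain ⟨g, hg⟩ := isConj_iff.1 c
  have hz : z ∈ centralizer ((P : Subgroup G) : Set G) := fun a ha => h.comm ha
  obtain ⟨n, hn, e⟩ := P.conj_eq_normalizer_conj_of_mem_centralizer z g⁻¹ hz
    (by rw [inv_inv, hg]; exact inv_mem hz)
  rw [inv_inv, hg, mul_assoc, ← h.nc n hn, inv_mul_cancel_left] at e
  exact h.ne_inv e.symm

theorem wc0 (c : IsConj z y) (hy : y ∈ zpowers z) : y = z := by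
  rcases mem_three h.z3 hy with rfl | e | rfl
  · exact absurd (isConj_one_left.1 c) h.ne
  · exact e
  · exact absurd c h.not_conj_inv

theorem wc (c : IsConj z y) (hy : y ∈ (P : Subgroup G)) : y = z := by
  by_contra hne
  have hy' : Om P z y := ⟨hy, fun e => hne (h.wc0 c e)⟩
  obtain ⟨g, hg⟩ := isConj_iff.1 c
  have h1 : g⁻¹ * z * g ∈ centralizer ({z} : Set G) := mem_centralizer_singleton_iff.2 (by
    have := h.comm hy
    rw [← hg] at this
    calc _ = g⁻¹ * (z * (g * z * g⁻¹)) * g := by group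
      _ = _ := by rw [← this]; group)
  have h2 : IsPGroup 3 (zpowers (g⁻¹ * z * g)) := IsPGroup.of_card (n := 1) (by
    rw [Nat.card_zpowers, pow_one, ← h.orderOf_z]
    simpa using MulEquiv.orderOf_eq (MulAut.conj g⁻¹) z)
  obtain ⟨a, ha, h3⟩ := exists_conj_le_sylowIn P.isPGroup' (not_dvd_relIndex_sylow P h.le_cent) h2
    (zpowers_le.2 h1)
  have h4 := h3 _ (mem_zpowers _)
  have ha' := mem_centralizer_singleton_iff.1 ha
  have h5 : Om P z (a * (g⁻¹ * z * g) * a⁻¹) := ⟨h4, fun e => by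
    have h6 := h.wc0 (isConj_iff.2 ⟨a * g⁻¹, by group⟩) e
    refine hne ?_
    have h7 : g⁻¹ * z * g = z := mul_left_cancel (a := a) (by rw [ha']; nth_rw 2 [← h6]; group)
    rw [← hg]; nth_rw 1 [← h7]; group⟩
  obtain ⟨b, -, hb⟩ := h.cj h5 (inv_mem (mem_zpowers z))
  obtain ⟨d, -, hd⟩ := h.cj hy' (inv_mem (mem_zpowers z))
  have h8 : IsConj z (y⁻¹ * z) := isConj_iff.2 ⟨g * a⁻¹ * b * a * g⁻¹, by
    calc _ = g * a⁻¹ * (b * (a * (g⁻¹ * z * g) * a⁻¹) * b⁻¹) * a * g⁻¹ := by group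
      _ = g * (a⁻¹ * (z * a))⁻¹ * g⁻¹ * z := by rw [hb]; group
      _ = _ := by rw [← ha', ← hg]; group⟩
  have h9 : IsConj z⁻¹ (z⁻¹ * y) := by
    obtain ⟨k, hk⟩ := isConj_iff.1 h8
    exact isConj_iff.2 ⟨k, by rw [← inv_inj, mul_inv_rev z⁻¹, inv_inv, ← hk]; group⟩
  exact h.not_conj_inv ((c.trans (isConj_iff.2 ⟨d, hd⟩)).trans h9.symm)

theorem wc_pg {S : Subgroup G} (hS : IsPGroup 3 S) (hz : z ∈ S) (c : IsConj z y) (hy : y ∈ S) :
    y = z := by
  obtain ⟨t, ht⟩ := exists_conj_le_sylow P hS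
  have h1 := h.wc (isConj_iff.2 ⟨t, rfl⟩) (ht z hz)
  have h2 := h.wc (c.trans (isConj_iff.2 ⟨t, rfl⟩)) (ht y hy)
  simpa using h2.trans h1.symm

theorem pg_z : IsPGroup 3 (zpowers z) := P.isPGroup'.to_le h.zp_le

theorem wc2 {H : Subgroup G} (hz : z ∈ H) (c : IsConj z y) (hy : y ∈ H) :
    ∃ a ∈ H, a * y * a⁻¹ = z := by
  obtain ⟨S, h1, -, h3, h4⟩ := exists_sylowIn_ge h.pg_z (zpowers_le.2 hz)
  have h2 : IsPGroup 3 (zpowers y) := IsPGroup.of_card (n := 1) (by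
    obtain ⟨g, rfl⟩ := isConj_iff.1 c
    rw [Nat.card_zpowers, pow_one, ← h.orderOf_z]
    simpa using MulEquiv.orderOf_eq (MulAut.conj g) z)
  obtain ⟨a, ha, h5⟩ := exists_conj_le_sylowIn h3 h4 h2 (zpowers_le.2 hy)
  exact ⟨a, ha, h.wc_pg h3 (h1 (mem_zpowers z)) (c.trans (isConj_iff.2 ⟨a, rfl⟩))
    (h5 y (mem_zpowers y))⟩

/-- The normalizer controls fusion. -/
theorem fus (hu : Om P z u) (hv : Om P z v) (c : IsConj u v) :
    ∃ n ∈ normalizer ((P : Subgroup G) : Set G), n * u * n⁻¹ = v := by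
  obtain ⟨g, hg⟩ := isConj_iff.1 c
  obtain ⟨a, ha, h1⟩ := h.wc2 (H := centralizer {v}) (y := g * z * g⁻¹)
    (mem_centralizer_singleton_iff.2 (h.comm hv.1).symm) (isConj_iff.2 ⟨g, rfl⟩)
    (mem_centralizer_singleton_iff.2 (by
      rw [← hg]
      calc _ = g * (z * u) * g⁻¹ := by group
        _ = _ := by rw [← h.comm hu.1]; group))
  have h2 : a * g * z = z * (a * g) := by nth_rw 2 [← h1]; group
  have h3 : a * g * u * (a * g)⁻¹ = v := by
    rw [show a * g * u * (a * g)⁻¹ = a * (g * u * g⁻¹) * a⁻¹ by group, hg,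
      mem_centralizer_singleton_iff.1 ha, mul_inv_cancel_right]
  generalize a * g = k at h2 h3
  obtain ⟨b, hb, h4⟩ := exists_mul_mem_normalizer_sylow P (h.le_LL hv.1) k fun x hx => ⟨by
    calc _ = k * x * (k⁻¹ * (z * k)) * k⁻¹ := by group
      _ = z * k * x * k⁻¹ := by rw [← h2, inv_mul_cancel_left, mul_assoc k, h.comm hx]; group
      _ = _ := by group, by
    have h5 := h.cls x hx u hu.1
    rw [← h3, show k * x * k⁻¹ * (k * u * k⁻¹) * (k * x * k⁻¹)⁻¹ * (k * u * k⁻¹)⁻¹ =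
      k * (x * u * x⁻¹ * u⁻¹) * k⁻¹ by group, comm_zp h2 h5, mul_inv_cancel_right]
    exact h5⟩
  obtain ⟨d, hd, h6⟩ := h.cj hv (inv_mem hb.2)
  refine ⟨d * (b * k), mul_mem (le_normalizer hd) h4, ?_⟩
  calc _ = d * (b * (k * u * k⁻¹) * b⁻¹ * v⁻¹) * d⁻¹ * (d * v * d⁻¹) := by group
    _ = _ := by rw [h3, h6, comm_zp (h.comm hd) hb.2]; group

theorem not_om_of_conj (hy : y ∈ zpowers z) (c : IsConj y w) : ¬ Om P z w := fun hw => by
  rcases mem_three h.z3 hy with rfl | rfl | rfl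
  · exact hw.2 (by rw [isConj_one_right.1 c]; exact one_mem _)
  · exact hw.2 (by rw [h.wc c hw.1]; exact mem_zpowers _)
  · obtain ⟨g, rfl⟩ := isConj_iff.1 c
    exact (h.om_inv hw).2 (by
      rw [h.wc (y := (g * z⁻¹ * g⁻¹)⁻¹) (isConj_iff.2 ⟨g, by group⟩) (inv_mem hw.1)]
      exact mem_zpowers _)

theorem card_between {D : Subgroup G} (hu : Om P z u) (h1 : z ∈ D) (h2 : u ∈ D)
    (h3 : D ≤ (P : Subgroup G) ⊓ centralizer {u}) : Nat.card D = 9 := by
  have a1 : Nat.card (zpowers z) < Nat.card D :=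
    card_lt_of_lt (lt_of_le_of_ne (zpowers_le.2 h1) fun e => hu.2 (e ▸ h2))
  have a2 : Nat.card D < Nat.card (P : Subgroup G) :=
    card_lt_of_lt (lt_of_le_of_ne (h3.trans inf_le_left) fun e => hu.2 (h.cen u hu.1 fun a ha =>
      mem_centralizer_singleton_iff.1 (h3 (e ▸ ha)).2))
  have a3 := card_dvd_of_le (h3.trans inf_le_left)
  rw [h.card] at a2 a3
  rw [h.card_zp] at a1
  obtain ⟨i, hi, e⟩ := (Nat.dvd_prime_pow Nat.prime_three (m := 3)).1 a3
  rw [e] at a1 a2 ⊢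
  interval_cases i <;> omega

theorem z_mem (hu : Om P z u) : z ∈ (P : Subgroup G) ⊓ centralizer {u} :=
  ⟨h.mem, mem_centralizer_singleton_iff.2 (h.comm hu.1).symm⟩

omit h [Finite G] in
theorem u_mem (hu : Om P z u) : u ∈ (P : Subgroup G) ⊓ centralizer {u} :=
  ⟨hu.1, mem_centralizer_singleton_iff.2 rfl⟩

theorem card_Q (hu : Om P z u) : Nat.card ((P : Subgroup G) ⊓ centralizer {u} : Subgroup G) = 9 :=
  h.card_between hu (h.z_mem hu) (u_mem hu) le_rfl

theorem comm_Q (hu : Om P z u) (h1 : g * z = z * g) (h2 : g * u = u * g)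
    (hx : x ∈ (P : Subgroup G) ⊓ centralizer {u}) : g * x = x * g := by
  have h3 : (P : Subgroup G) ⊓ centralizer {u} ⊓ centralizer {g} =
      (P : Subgroup G) ⊓ centralizer {u} :=
    eq_of_le_of_card_ge inf_le_left (by
      rw [h.card_Q hu, h.card_between hu
        (mem_inf.2 ⟨h.z_mem hu, mem_centralizer_singleton_iff.2 h1.symm⟩)
        (mem_inf.2 ⟨u_mem hu, mem_centralizer_singleton_iff.2 h2.symm⟩) inf_le_left])
  rw [← h3] at hx
  exact (mem_centralizer_singleton_iff.1 hx.2).symm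

theorem not_dvd_Q (hu : Om P z u) :
    ¬ 3 ∣ ((P : Subgroup G) ⊓ centralizer {u}).relIndex (centralizer {u}) := by
  refine not_dvd_relIndex_of_maximal (P.isPGroup'.to_le inf_le_left) inf_le_right
    fun S hS h1 h2 => ?_
  obtain ⟨t, ht⟩ := exists_conj_le_sylow P hS
  have h3 := h.wc (isConj_iff.2 ⟨t, rfl⟩) (ht z (h1 (h.z_mem hu)))
  have h4 : Om P z (t * u * t⁻¹) := ⟨ht u (h1 (u_mem hu)), fun e =>
    h.not_om_of_conj e (isConj_iff.2 ⟨t, rfl⟩).symm hu⟩
  have h5 := h.card_between (D := S.map (MulAut.conj t).toMonoidHom) h4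
    ⟨z, h1 (h.z_mem hu), h3⟩ ⟨u, h1 (u_mem hu), rfl⟩ (by
      rintro _ ⟨s, hs, rfl⟩
      refine ⟨ht s hs, mem_centralizer_singleton_iff.2 ?_⟩
      have := mem_centralizer_singleton_iff.1 (h2 hs)
      change t * s * t⁻¹ * _ = _ * (t * s * t⁻¹)
      calc _ = t * (s * u) * t⁻¹ := by group
        _ = _ := by rw [this]; group)
  rw [card_map_conj] at h5
  exact (eq_of_le_of_card_ge h1 (by rw [h5, h.card_Q hu])).ge

theorem exists_syl (hu : Om P z u) : ∃ S : Sylow 3 (centralizer ({u} : Set G)),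
    (S : Subgroup _) = ((P : Subgroup G) ⊓ centralizer {u}).subgroupOf (centralizer {u}) :=
  ⟨((P.isPGroup'.to_le (inf_le_left (b := centralizer {u}))).comap_subtype
    (K := centralizer {u})).toSylow (h.not_dvd_Q hu), rfl⟩

theorem fact_cent (hu : Om P z u) :
    3 ^ (Nat.card (centralizer ({u} : Set G))).factorization 3 = 9 := by
  obtain ⟨S, hS⟩ := h.exists_syl hu
  rw [← S.card_eq_multiplicity, hS, Nat.card_congr (subgroupOfEquivOfLe inf_le_right).toEquiv,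
    h.card_Q hu]

theorem npc (hu : Om P z u) : HasNormalPComplement 3 (centralizer ({u} : Set G)) := by
  obtain ⟨S, hS⟩ := h.exists_syl hu
  refine hasNPC_of_normalizer_le_centralizer S fun n hn x hx => ?_
  have hz : (⟨z, (h.z_mem hu).2⟩ : centralizer ({u} : Set G)) ∈ (S : Subgroup _) := by
    rw [hS]; exact h.z_mem hu
  have h1 : n * ⟨z, (h.z_mem hu).2⟩ * n⁻¹ ∈ (S : Subgroup _) := conj_mem_of_mem_normalizer hn hz
  rw [hS] at h1
  have h2 : (n : G) * z * (n : G)⁻¹ = z := h.wc (isConj_iff.2 ⟨n, rfl⟩) h1.1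
  have h3 : x ∈ (S : Subgroup _) := hx
  rw [hS] at h3
  exact Subtype.ext (h.comm_Q hu (mul_inv_eq_iff_eq_mul.1 h2)
    (mem_centralizer_singleton_iff.1 n.2) h3).symm

theorem K_le_N : (P : Subgroup G) ⊔ centralizer ((P : Subgroup G) : Set G) ≤
    normalizer ((P : Subgroup G) : Set G) := sup_le le_normalizer (centralizer_le_normalizer _)

theorem K_le_LL (hu : u ∈ (P : Subgroup G)) :
    (P : Subgroup G) ⊔ centralizer ((P : Subgroup G) : Set G) ≤ LL z u :=
  sup_le (h.le_LL hu) fun c hc => ⟨(hc z h.mem).symm, by rw [← hc u hu]; simp⟩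

theorem mem_K (hu : Om P z u) (hn : n ∈ normalizer ((P : Subgroup G) : Set G))
    (hL : n ∈ LL z u) : n ∈ (P : Subgroup G) ⊔ centralizer ((P : Subgroup G) : Set G) := by
  obtain ⟨a, m, ha, hm, ⟨k, hk⟩, hc, e⟩ := exists_p_part_mul_p'_part (p := 3) n
  have h1 : a ∈ (P : Subgroup G) := by
    have h2 : IsPGroup 3 (zpowers a) := fun ⟨_, j, rfl⟩ => ⟨k, Subtype.ext (by
      change (a ^ j) ^ 3 ^ k = 1
      rw [← zpow_natCast, ← zpow_mul, mul_comm, zpow_mul, zpow_natCast, hk, one_zpow])⟩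
    have h3 := h2.inf_normalizer_sylow P
    have h4 : a ∈ zpowers a ⊓ normalizer (P : Set G) := ⟨mem_zpowers a, zpowers_le.2 hn ha⟩
    rw [h3] at h4
    exact h4.2
  have hN : m ∈ normalizer ((P : Subgroup G) : Set G) := zpowers_le.2 hn hm
  have hL' : m ∈ LL z u := zpowers_le.2 hL hm
  have h5 : m * u = u * m := comm_of_cube hc (comm_zp hL'.1 hL'.2) (h.zp3 hL'.2)
    (by rw [comm_zp (h.comm hu.1) hL'.2]; group)
  rw [e]
  refine mul_mem_sup h1 fun v hv => ?_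
  have h6 : v⁻¹ * (m * v * m⁻¹) ∈ (P : Subgroup G) ⊓ centralizer {u} :=
    ⟨(P : Subgroup G).mul_mem ((P : Subgroup G).inv_mem hv) (conj_mem_of_mem_normalizer hN hv),
      mem_centralizer_singleton_iff.2 (by
      have h7 := comm_zp hL'.1 (h.cls v hv u hu.1)
      have h8 : m * (v * u * v⁻¹) = v * u * v⁻¹ * m := by
        calc _ = m * (v * u * v⁻¹ * u⁻¹) * u := by group
          _ = _ := by rw [h7, mul_assoc _ m, h5]; group
      calc _ = v⁻¹ * (m * v) * (m⁻¹ * (u * m)) * m⁻¹ := by group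
        _ = v⁻¹ * (m * (v * u * v⁻¹)) * (v * m⁻¹) := by rw [← h5]; group
        _ = _ := by rw [h8]; group)⟩
  exact (comm_of_cube hc (h.comm_Q hu hL'.1 h5 h6) (h.exp _ h6.1) (by group)).symm

theorem ncard_om : {w | Om P z w}.ncard = 24 := by
  rw [show {w | Om P z w} = ((P : Subgroup G) : Set G) \ (zpowers z : Set G) from rfl,
    Set.ncard_diff h.zp_le, ← Nat.card_coe_set_eq, ← Nat.card_coe_set_eq]
  exact congrArg₂ _ h.card h.card_zp

theorem ncard_fiber (hu : Om P z u) : {w | Om P z w ∧ IsConj w u}.ncard =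
    3 * ((P : Subgroup G) ⊔ centralizer ((P : Subgroup G) : Set G)).relIndex
      (normalizer ((P : Subgroup G) : Set G)) := by
  have h1 : (centralizer {u}).relIndex
      ((P : Subgroup G) ⊔ centralizer ((P : Subgroup G) : Set G)) = 3 := by
    rw [ncard_cls, ← Set.ncard_image_of_injective _ (mul_left_injective u⁻¹)]
    refine Eq.trans (congrArg _ (Set.ext fun y => ⟨?_, fun hy => ?_⟩ : _ = (zpowers z : Set G)))
      h.card_zp
    · rintro ⟨_, ⟨r, hr, rfl⟩, rfl⟩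
      exact (h.K_le_LL hu.1 hr).2
    · obtain ⟨a, ha, e⟩ := h.cj hu hy
      exact ⟨_, ⟨a, mem_sup_left ha, rfl⟩, by simp [e]⟩
  have h2 : centralizer {u} ⊓ normalizer ((P : Subgroup G) : Set G) ≤
      (P : Subgroup G) ⊔ centralizer ((P : Subgroup G) : Set G) := fun n hn =>
    h.mem_K hu hn.2 ⟨h.nc n hn.2, by rw [mem_centralizer_singleton_iff.1 hn.1]; simp⟩
  have h3 := relIndex_mul_relIndex _ _ _ h2 h.K_le_N
  rw [inf_relIndex_right, ← inf_relIndex_right, inf_assoc, inf_of_le_right h.K_le_N,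
    inf_relIndex_right, h1, ncard_cls] at h3
  rw [h3]
  refine congrArg _ (Set.ext fun w => ⟨fun hw => h.fus hu hw.1 hw.2.symm, ?_⟩)
  rintro ⟨n, hn, rfl⟩
  exact ⟨h.om_conj hn hu, (isConj_iff.2 ⟨n, rfl⟩).symm⟩

/-- Representatives of the classes of non-central elements. -/
theorem exists_reps : ∃ X : Finset G, (∀ x ∈ X, Om P z x) ∧
    (∀ w, Om P z w → ∃! x, x ∈ X ∧ IsConj w x) ∧
    X.card * ((P : Subgroup G) ⊔ centralizer ((P : Subgroup G) : Set G)).relIndex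
      (normalizer ((P : Subgroup G) : Set G)) = 8 := by
  classical
  have := Fintype.ofFinite G
  let r : G → G := fun w => Classical.epsilon fun y => Om P z y ∧ IsConj w y
  have r1 : ∀ w, Om P z w → Om P z (r w) ∧ IsConj w (r w) := fun w hw =>
    Classical.epsilon_spec (p := fun y => Om P z y ∧ IsConj w y) ⟨w, hw, IsConj.refl w⟩
  have r2 : ∀ w w', IsConj w w' → r w = r w' := fun w w' c =>
    congrArg Classical.epsilon (funext fun y => propext (and_congr_right fun _ => ⟨c.symm.trans, c.trans⟩))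
  let s : Finset G := Finset.univ.filter (Om P z)
  have hs : ∀ w, w ∈ s ↔ Om P z w := fun w => by simp [s]
  refine ⟨s.image r, fun x hx => ?_, fun w hw => ⟨r w, ⟨Finset.mem_image_of_mem _ ((hs w).2 hw),
    (r1 w hw).2⟩, fun x ⟨hx, c⟩ => ?_⟩, ?_⟩
  · obtain ⟨w, hw, rfl⟩ := Finset.mem_image.1 hx
    exact (r1 w ((hs w).1 hw)).1
  · obtain ⟨v, hv, rfl⟩ := Finset.mem_image.1 hx
    exact r2 _ _ ((r1 v ((hs v).1 hv)).2.trans c.symm)
  have h1 := Finset.card_eq_sum_card_image r s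
  rw [Finset.sum_congr rfl (g := fun _ => 3 * ((P : Subgroup G) ⊔
      centralizer ((P : Subgroup G) : Set G)).relIndex (normalizer ((P : Subgroup G) : Set G)))
    fun x hx => ?_, Finset.sum_const, smul_eq_mul, ← Set.ncard_coe_finset,
    show (s : Set G) = {w | Om P z w} from Set.ext hs, h.ncard_om] at h1
  · linarith
  obtain ⟨v, hv, rfl⟩ := Finset.mem_image.1 hx
  have h2 := r1 v ((hs v).1 hv)
  rw [← h.ncard_fiber h2.1, ← Set.ncard_coe_finset]
  refine congrArg _ (Set.ext fun w => ?_)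
  simp only [Finset.coe_filter, Set.mem_setOf_eq, hs]
  exact and_congr_right fun hw => ⟨fun e => e ▸ (r1 w hw).2, fun c => r2 _ _ (c.trans h2.2.symm)⟩

theorem real (he : 2 ∣ ((P : Subgroup G) ⊔ centralizer ((P : Subgroup G) : Set G)).relIndex
    (normalizer ((P : Subgroup G) : Set G))) (hu : Om P z u) : IsConj u u⁻¹ := by
  have hN : (((P : Subgroup G) ⊔ centralizer ((P : Subgroup G) : Set G)).subgroupOf
      (normalizer ((P : Subgroup G) : Set G))).Normal := ⟨fun k hk n => by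
    have h1 : (k : G) ∈ _ := h.K_le_LL (inv_conj_mem_of_mem_normalizer n.2 hu.1) hk
    refine h.mem_K hu (n * k * n⁻¹).2 ⟨h.nc _ (n * k * n⁻¹).2, ?_⟩
    change (n : G) * k * (n : G)⁻¹ * u * ((n : G) * k * (n : G)⁻¹)⁻¹ * u⁻¹ ∈ _
    rw [show (n : G) * k * (n : G)⁻¹ * u * ((n : G) * k * (n : G)⁻¹)⁻¹ * u⁻¹ = n * (k *
      ((n : G)⁻¹ * u * n) * (k : G)⁻¹ * ((n : G)⁻¹ * u * n)⁻¹) * (n : G)⁻¹ by group,
      comm_zp (h.nc n n.2) h1.2, mul_inv_cancel_right]
    exact h1.2⟩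
  obtain ⟨q, hq⟩ := exists_prime_orderOf_dvd_card' (G := _ ⧸ ((P : Subgroup G) ⊔
    centralizer ((P : Subgroup G) : Set G)).subgroupOf (normalizer ((P : Subgroup G) : Set G))) 2 he
  obtain ⟨n, rfl⟩ := QuotientGroup.mk_surjective q
  have h1 : (n : G) ∉ (P : Subgroup G) ⊔ centralizer ((P : Subgroup G) : Set G) := fun e => by
    rw [(QuotientGroup.eq_one_iff n).2 e, orderOf_one] at hq
    omega
  have h2 : (n : G) * n ∈ (P : Subgroup G) ⊔ centralizer ((P : Subgroup G) : Set G) := by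
    have := pow_orderOf_eq_one (n : _ ⧸ ((P : Subgroup G) ⊔
      centralizer ((P : Subgroup G) : Set G)).subgroupOf (normalizer ((P : Subgroup G) : Set G)))
    rw [hq, sq, ← QuotientGroup.mk_mul, QuotientGroup.eq_one_iff] at this
    exact this
  have h3 := h.om_conj n.2 hu
  have h4 := (h.K_le_LL hu.1 h2).2
  have h5 : n * u * (n : G)⁻¹ * u ∈ zpowers z := by
    by_contra c
    refine h1 (h.mem_K ⟨mul_mem h3.1 hu.1, c⟩ n.2 ⟨h.nc n n.2, ?_⟩)
    rw [show n * (n * u * (n : G)⁻¹ * u) * (n : G)⁻¹ * (n * u * (n : G)⁻¹ * u)⁻¹ =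
      (n * n * u * ((n : G) * n)⁻¹ * u⁻¹) *
        (u * (n * u * (n : G)⁻¹) * u⁻¹ * (n * u * (n : G)⁻¹)⁻¹) by group]
    exact mul_mem h4 (h.cls u hu.1 _ h3.1)
  obtain ⟨a, -, ha⟩ := h.cj (h.om_inv hu) h5
  exact isConj_iff.2 ⟨a⁻¹ * n, by
    rw [← mul_left_cancel_iff (a := a), ← mul_right_cancel_iff (a := a⁻¹), ha]; group⟩

theorem npc_of_one (he : ((P : Subgroup G) ⊔ centralizer ((P : Subgroup G) : Set G)).relIndex
    (normalizer ((P : Subgroup G) : Set G)) = 1) : HasNormalPComplement 3 G := by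
  refine hasNPC_of_sylow_controls P fun x hx g hg => ?_
  have c : IsConj x (g * x * g⁻¹) := isConj_iff.2 ⟨g, rfl⟩
  by_cases hz : x ∈ zpowers z
  · refine ⟨1, one_mem _, ?_⟩
    rcases mem_three h.z3 hz with rfl | rfl | rfl
    · group
    · rw [h.wc c hg]; group
    · rw [← inv_inj, h.wc (y := (g * z⁻¹ * g⁻¹)⁻¹) (isConj_iff.2 ⟨g, by group⟩) (inv_mem hg)]
      group
  obtain ⟨n, hn, e⟩ := h.fus ⟨hx, hz⟩ ⟨hg, fun e => h.not_om_of_conj e c.symm ⟨hx, hz⟩⟩ c
  obtain ⟨a, ha, e'⟩ := h.cj ⟨hx, hz⟩ (h.K_le_LL hx (relIndex_eq_one.1 he hn)).2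
  exact ⟨a, ha, by rw [e', ← e]; group⟩

/-- Passage to the centralizer of `z`. -/
theorem sub : Ex (P.subtype h.le_cent) ⟨z, h.le_cent h.mem⟩ := by
  have hz : ∀ {y : centralizer ({z} : Set G)}, (y : G) ∈ zpowers z →
      y ∈ zpowers (⟨z, h.le_cent h.mem⟩ : centralizer ({z} : Set G)) :=
    fun ⟨k, hk⟩ => ⟨k, Subtype.ext hk⟩
  refine ⟨?_, fun x hx => Subtype.ext (h.exp x hx), h.mem, fun e => h.ne (congrArg Subtype.val e),
    fun a ha w hw => hz (h.cls a ha w hw), fun w hw c => hz (h.cen w hw fun a ha =>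
      congrArg Subtype.val (c ⟨a, h.le_cent ha⟩ ha)),
    fun g _ => Subtype.ext (mem_centralizer_singleton_iff.1 g.2)⟩
  rw [Sylow.coe_subtype, Nat.card_congr (subgroupOfEquivOfLe h.le_cent).toEquiv, h.card]

end Ex

theorem exists_ex [Finite G] (P : Sylow 3 G) (hE : IsExtraspecial 3 (P : Subgroup G))
    (h27 : Nat.card (P : Subgroup G) = 27) (hexp : ∀ x ∈ (P : Subgroup G), x ^ 3 = 1)
    (hNC : ∀ g ∈ normalizer ((P : Subgroup G) : Set G), ∀ z ∈ (P : Subgroup G),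
      (∀ y ∈ (P : Subgroup G), z * y = y * z) → g * z = z * g) : ∃ z, Ex P z := by
  have hc : IsCyclic (center (P : Subgroup G)) := isCyclic_of_prime_card hE.2
  obtain ⟨⟨⟨z, hz⟩, hz'⟩, hg⟩ := hc.exists_generator
  have h1 : ∀ w : (P : Subgroup G), w ∈ center (P : Subgroup G) → (w : G) ∈ zpowers z :=
    fun w hw => by
      obtain ⟨k, hk⟩ := hg ⟨w, hw⟩
      exact ⟨k, congrArg (fun x : center (P : Subgroup G) => (x.1 : G)) hk⟩
  refine ⟨z, h27, hexp, hz, fun e => ?_, fun a ha w hw => h1 (⟨a, ha⟩ * ⟨w, hw⟩ * ⟨a, ha⟩⁻¹ * ⟨w, hw⟩⁻¹) (by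
    rw [← hE.1.2.2]; exact commutator_mem_commutator (mem_top _) (mem_top _)),
    fun w hw c => h1 ⟨w, hw⟩ (mem_center_iff.2 fun a => Subtype.ext (c a a.2)),
    fun g hg => hNC g hg z hz fun y hy =>
      (congrArg Subtype.val (mem_center_iff.1 hz' ⟨y, hy⟩)).symm⟩
  have h2 : center (P : Subgroup G) = ⊥ := eq_bot_iff.2 fun w hw => by
    have := h1 w hw
    rw [e, zpowers_one_eq_bot] at this
    exact Subtype.ext this
  have h3 := hE.2
  rw [h2, card_bot] at h3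
  omega

end CL.Ex3
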