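import Mathlib
import Cfsg.Agent.BLK.Ex3A
import Cfsg.Agent.BLK.Ex3B
import Cfsg.Agent.BLK.Star
import Cfsg.Agent.BLK.PrincCol2
import Cfsg.Agent.CHAR.PowCongr

/-!
# The principal 3-block with extraspecial defect group of order 27: the matrices
-/

set_option autoImplicit false

open Cfsg Subgroup CL.Char CL.Blk
open scoped ComplexConjugate

namespace CL.Ex3

variable {G : Type*} [Group G]

theorem isGen_pp [Finite G] {p : ℕ} [hp : Fact p.Prime] (P : Sylow p G) {θ : G → ℂ}
    (hθ : IsClassFunction G θ) (h : IsGeneralizedCharacter (P : Subgroup G) fun y => θ y) :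
    IsGeneralizedCharacter G fun g => θ (pp p g) := by
  refine isGen_of_prod (fun g x => ?_) P.card_coprime_index
    (P : Subgroup G).card_mul_index.symm.dvd fun A B hc hA hB _ => ?_
  · simp only [((isPPart_pp hp.out g).conj x).pp_eq hp.out, hθ _ x]
  obtain ⟨n, hn⟩ := P.isPGroup'.exists_card_eq
  obtain ⟨j, -, hj⟩ := (Nat.dvd_prime_pow hp.out).1 (hn ▸ hA)
  obtain ⟨g, hg⟩ := Tr.exists_conj_le_sylow P (IsPGroup.of_card hj)
  convert h.comp (MonoidHom.mk' (fun x : A × B => ⟨g * x.1 * g⁻¹, hg _ x.1.2⟩) fun x y =>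
    Subtype.ext (by simp)) using 2 with x
  rw [(isPPart_mul (hc _ x.1.2 _ x.2.2) (pElt_of_mem_isPGroup hp.out (IsPGroup.of_card hj) x.1.2)
    fun e => P.not_dvd_index (e.trans ((B.orderOf_dvd_natCard x.2.2).trans hB))).pp_eq hp.out]
  exact (hθ _ g).symm

theorem sum_blk [Finite G] (B : Set (IrrCharacter G)) [Fintype B] [DecidablePred (· ∈ B)]
    {A : Type*} [AddCommMonoid A] (f : IrrCharacter G → A) :
    ∑ χ with χ ∈ B, f χ = ∑ j : B, f j := Finset.sum_subtype _ (by simp) f

section sf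

variable [Fintype G] {p : ℕ} {M : Ideal AlgInt} {B : Set (IrrCharacter G)} {η η' : G → ℂ}

/-- Functions that are constant on sections. -/
def SF (p : ℕ) (η : G → ℂ) : Prop := ∀ g g', IsConj (pp p g) (pp p g') → η g = η g'

theorem SF.of {θ : G → ℂ} (hθ : IsClassFunction G θ) : SF p fun g => θ (pp p g) :=
  fun _ _ c => hθ.eq_of_isConj c

theorem SF.star (h : SF p η) : SF p (star η) := fun g g' c => congrArg conj (h g g' c)

theorem SF.cf (hp : p.Prime) (h : SF p η) : IsClassFunction G η := fun g x => h _ _ (by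
  rw [((isPPart_pp hp g).conj x).pp_eq hp]
  exact (isConj_iff.2 ⟨x, rfl⟩).symm)

theorem SF.inner_zero (hM : IsPModular p M) (hB : IsPBlock M B) (h : SF p η)
    {χ ψ : IrrCharacter G} (hχ : χ ∈ B) (hψ : ψ ∉ B) : classInner (η * χ.1) ψ.1 = 0 := by
  classical
  rw [classInner_def, ← Finset.sum_fiberwise_of_maps_to (g := η) (t := Finset.univ.image η)
    fun g hg => Finset.mem_image_of_mem _ hg, Finset.sum_eq_zero, mul_zero]
  intro c _
  have h1 := sum_section_eq_zero_of_int hM ((isBlockUnion_of_block hM hB).isInt hM) hχ hψ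
    {g | η g = c} fun g g' x y hx hy a b => (h g' g (by
      rw [hx.pp_eq hM.1, hy.pp_eq hM.1]; exact a.symm)).trans b
  rw [Finset.sum_congr rfl (g := fun g => c * (χ.1 g * conj (ψ.1 g))) fun g hg => by
    rw [Pi.mul_apply, (Finset.mem_filter.1 hg).2, mul_assoc], ← Finset.mul_sum]
  simp only [Set.mem_setOf_eq] at h1
  rw [h1, mul_zero]

/-- The matrix of multiplication by `η`. -/
noncomputable def mm (η : G → ℂ) (i j : IrrCharacter G) : ℂ := classInner (η * i.1) j.1

theorem SF.expand (hM : IsPModular p M) (hB : IsPBlock M B) [Fintype B] (h : SF p η)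
    {i : IrrCharacter G} (hi : i ∈ B) (g : G) : η g * i.1 g = ∑ j : B, mm η i j * j.1.1 g := by
  have h1 : IsClassFunction G (η * i.1) := fun g x => by
    rw [Pi.mul_apply, Pi.mul_apply, h.cf hM.1, i.2.isClassFunction]
  exact (h1.apply_eq_sum g).trans (sum_univ_eq_sum_block B _ fun ψ hψ => by
    rw [h.inner_zero hM hB hi hψ, zero_mul])

theorem SF.mm_mul (hM : IsPModular p M) (hB : IsPBlock M B) [Fintype B] (h : SF p η)
    (η' : G → ℂ) {i : IrrCharacter G} (hi : i ∈ B) (j : IrrCharacter G) :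
    ∑ k : B, mm η i k * mm η' k j = mm (η' * η) i j := by
  rw [mm, show η' * η * i.1 = ∑ k : B, mm η i k • (η' * k.1.1) from funext fun g => by
    simp [mul_assoc, h.expand hM hB hi, Finset.mul_sum, mul_left_comm], classInner_sum_left]
  simp only [classInner_smul_left, mm]

theorem mm_star (η : G → ℂ) (i j : IrrCharacter G) : mm (star η) i j = conj (mm η j i) := by
  rw [mm, mm, classInner_conj_symm, classInner_def, classInner_def]
  exact congrArg _ (Finset.sum_congr rfl fun g _ => by simp; ring)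

theorem mm_add (η η' : G → ℂ) (i j : IrrCharacter G) :
    mm (η + η') i j = mm η i j + mm η' i j := by rw [mm, add_mul, classInner_add_left]; rfl

theorem mm_sub (η η' : G → ℂ) (i j : IrrCharacter G) :
    mm (η - η') i j = mm η i j - mm η' i j := by rw [mm, sub_mul, classInner_sub_left]; rfl

theorem mm_smul (c : ℂ) (η : G → ℂ) (i j : IrrCharacter G) : mm (c • η) i j = c * mm η i j := by
  rw [mm, smul_mul_assoc, classInner_smul_left]; rfl

theorem mm_sum {ι : Type*} (s : Finset ι) (η : ι → G → ℂ) (i j : IrrCharacter G) :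
    mm (∑ a ∈ s, η a) i j = ∑ a ∈ s, mm (η a) i j := by
  rw [mm, Finset.sum_mul, classInner_sum_left]; rfl

open Classical in
/-- The indicator of the section of `u`. -/
noncomputable def ind (p : ℕ) (u g : G) : ℂ := if IsConj u (pp p g) then 1 else 0

theorem sf_ind (u : G) : SF p (ind p u) := by
  classical
  exact SF.of (isClassFunction_indicator u)

theorem mm_ind (hM : IsPModular p M) {u : G} (hu : ∃ k, orderOf u = p ^ k)
    (hn : HasNormalPComplement p (centralizer ({u} : Set G))) {i j : IrrCharacter G}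
    (hi : i ∈ principalBlock M G) (hj : j ∈ principalBlock M G) :
    (p : ℂ) ^ (Nat.card (centralizer ({u} : Set G))).factorization p * mm (ind p u) i j =
      i.1 u * conj (j.1 u) := by
  classical
  have k1 : ∀ i ∈ principalBlock M G, ∀ j ∈ principalBlock M G, mm (ind p u) i j =
      ((Nat.card G : ℂ)⁻¹ * ∑ g, ind p u g) * (i.1 u * conj (j.1 u)) := fun i hi j hj => by
    rw [mm, classInner_def, mul_assoc, Finset.sum_mul]
    refine congrArg _ (Finset.sum_congr rfl fun g _ => ?_)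
    rw [Pi.mul_apply, ind]
    split_ifs with c
    · obtain ⟨c, hc⟩ := isConj_iff.1 c.symm
      have h1 := hc ▸ (isPPart_pp hM.1 g).conj c
      rw [← principal_apply_of_isPPart hM h1 hn hi, ← principal_apply_of_isPPart hM h1 hn hj,
        i.2.isClassFunction, j.2.isClassFunction, mul_assoc]
    · simp
  have h1 := (sf_ind (p := p) u).expand hM isPBlock_principalBlock (irrOne_mem_principalBlock hM) u
  have h2 := column_principal_of_npc hM hu hn
  rw [sum_blk] at h2
  rw [Finset.sum_congr rfl fun k _ => by rw [k1 _ (irrOne_mem_principalBlock hM) _ k.2], ind,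
    (isPPart_self hM.1 hu).pp_eq hM.1, if_pos (IsConj.refl u)] at h1
  simp only [Blk.irrOne_apply, one_mul, mul_assoc, ← Finset.mul_sum, mul_comm (conj _), h2] at h1
  rw [k1 i hi j hj]
  linear_combination -(i.1 u * conj (j.1 u)) * h1

theorem mm_reg (hp : p.Prime) (i j : IrrCharacter G) : mm (ind p 1) i j = contr p i.1 j.1 := by
  rw [mm, contr_def]
  refine congrArg (classInner · _) (funext fun g => ?_)
  simp only [Pi.mul_apply, ind, pRegularPart, IsPRegular, isConj_one_right,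
    (isPPart_pp hp g).eq_one_iff hp]
  by_cases c : p ∣ orderOf g <;> simp [c]

end sf

open Classical in
/-- The faithful character of the Sylow subgroup, as a class function. -/
noncomputable def th (z : G) (ω : ℂ) (g : G) : ℂ :=
  if g = 1 then 3 else if IsConj z g then 3 * ω else if IsConj z⁻¹ g then 3 * ω ^ 2 else 0

theorem cf_th (z : G) (ω : ℂ) : IsClassFunction G (th z ω) := fun g x => by
  have h1 : ∀ a, IsConj a (x * g * x⁻¹) ↔ IsConj a g := fun a =>
    ⟨fun c => c.trans (isConj_iff.2 ⟨x, rfl⟩).symm, fun c => c.trans (isConj_iff.2 ⟨x, rfl⟩)⟩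
  unfold th
  rw [h1, h1, conj_eq_one_iff]

theorem conj_om {ω : ℂ} (h : ω ^ 3 = 1) : conj ω = ω ^ 2 := by
  have h1 := Complex.norm_eq_one_of_pow_eq_one h three_ne_zero
  rw [← Complex.inv_eq_conj h1]
  exact (eq_inv_of_mul_eq_one_left (by rw [← pow_succ, h])).symm

theorem sum_om {ω : ℂ} (h : ω ^ 3 = 1) (h1 : ω ≠ 1) : 1 + ω + ω ^ 2 = 0 :=
  mul_left_cancel₀ (sub_ne_zero.2 h1) (by linear_combination h)

theorem th_one (z : G) (ω : ℂ) : th z ω 1 = 3 := if_pos rfl

namespace Ex

variable [Finite G] {P : Sylow 3 G} {z u w g : G} (h : Ex P z) {ω : ℂ}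
include h

theorem th_z (c : IsConj z g) : th z ω g = 3 * ω := by
  rw [th, if_neg fun e : g = 1 => h.ne (isConj_one_left.1 (e ▸ c)), if_pos c]

theorem th_inv (c : IsConj z⁻¹ g) : th z ω g = 3 * ω ^ 2 := by
  rw [th, if_neg fun e : g = 1 => h.ne (inv_eq_one.1 (isConj_one_left.1 (e ▸ c))),
    if_neg fun e : IsConj z g => h.not_conj_inv (e.trans c.symm), if_pos c]

theorem th_om (hw : Om P z w) (c : IsConj w g) : th z ω g = 0 := by
  rw [th, if_neg fun e : g = 1 => hw.2 (by
      rw [isConj_one_left.1 (e ▸ c : IsConj w 1)]; exact one_mem _),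
    if_neg fun e : IsConj z g => h.not_om_of_conj (mem_zpowers z) (e.trans c.symm) hw,
    if_neg fun e : IsConj z⁻¹ g =>
      h.not_om_of_conj (inv_mem (mem_zpowers z)) (e.trans c.symm) hw]

theorem exists_omega : ∃ ω : ℂ, ω ^ 3 = 1 ∧ ω ≠ 1 ∧
    IsGeneralizedCharacter (P : Subgroup G) fun y => th z ω y := by
  classical
  have := Fintype.ofFinite (P : Subgroup G)
  let z' : (P : Subgroup G) := ⟨z, h.mem⟩
  obtain ⟨ζ, hζ, h1⟩ := exists_irr_not_mem_charKer (g := z') fun e => h.ne (congrArg Subtype.val e)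
  rw [hζ.mem_charKer] at h1
  have h0 := hζ.one_ne_zero
  obtain ⟨c, hc⟩ : ∃ c, ∀ x, ζ (z' * x) = c * ζ x := ⟨ζ z' / ζ 1, fun x => by
    have := hζ.apply_center_mul (z := z') (mem_center_iff.2 fun a => Subtype.ext (h.comm a.2)) x
    field_simp
    linear_combination this⟩
  have z3 : z' * (z' * z') = 1 := Subtype.ext (by rw [← pow_three]; exact h.z3)
  have e1 : ζ z' = c * ζ 1 := by rw [← hc, mul_one]
  have e2 : ζ z'⁻¹ = c ^ 2 * ζ 1 := by
    rw [← eq_inv_of_mul_eq_one_right z3, hc, e1]; ring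
  have c3 : c ^ 3 = 1 := mul_right_cancel₀ h0 (by
    nth_rw 2 [← z3]
    rw [hc, hc, e1]; ring)
  have c1 : c ≠ 1 := fun e => h1 (by rw [e1, e, one_mul])
  have h2 : ∀ y : (P : Subgroup G), (y : G) ∉ zpowers z → ζ y = 0 := fun y hy => by
    obtain ⟨a, ha, e⟩ := h.cj ⟨y.2, hy⟩ (mem_zpowers z)
    have h3 := hc y
    rw [show z' * y = ⟨a, ha⟩ * y * ⟨a, ha⟩⁻¹ from Subtype.ext e.symm, hζ.isClassFunction] at h3
    exact (mul_left_eq_self₀.1 h3.symm).resolve_left c1
  have n1 : (1 : (P : Subgroup G)) ≠ z' := fun e => h.ne (congrArg Subtype.val e).symm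
  have n2 : z' ≠ z'⁻¹ := fun e => h.ne_inv (congrArg Subtype.val e)
  have h3 := hζ.inner_self
  rw [classInner_def, ← Finset.sum_subset (Finset.subset_univ {1, z', z'⁻¹}) fun y _ hy => by
    rw [h2 y fun e => hy (by
      simp only [Finset.mem_insert, Finset.mem_singleton, Subtype.ext_iff]
      exact mem_three h.z3 e), zero_mul],
    Finset.sum_insert (by
      rw [Finset.mem_insert, Finset.mem_singleton]
      exact not_or.2 ⟨n1, fun e => n1 (inv_eq_one.1 e.symm).symm⟩), Finset.sum_pair n2, e1, e2, h.card, map_mul, map_mul,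
    map_pow, conj_om c3, hζ.isCharacter.conj_one, hζ.apply_one_eq_charDegree] at h3
  have h4 : charDegree ζ = 3 := by
    have h5 : ((charDegree ζ ^ 2 : ℕ) : ℂ) = (3 ^ 2 : ℕ) := by
      push_cast at h3 ⊢
      linear_combination 9 * h3 - (charDegree ζ : ℂ) ^ 2 * (c ^ 3 + 2) / 3 * c3
    exact Nat.pow_left_injective two_ne_zero (Nat.cast_injective h5)
  have h5 : ζ 1 = 3 := by rw [hζ.apply_one_eq_charDegree, h4]; rfl
  refine ⟨c, c3, c1, ?_⟩
  convert hζ.isGen using 2 with y
  by_cases hy : (y : G) ∈ zpowers z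
  · rcases mem_three h.z3 hy with e | e | e
    · rw [e, th_one, show y = 1 from Subtype.ext e, h5]
    · rw [e, h.th_z (IsConj.refl _), show y = z' from Subtype.ext e, e1, h5, mul_comm]
    · rw [e, h.th_inv (IsConj.refl _), show y = z'⁻¹ from Subtype.ext e, e2, h5, mul_comm]
  · rw [h.th_om ⟨y.2, hy⟩ (IsConj.refl _), h2 y hy]

omit h in
theorem cls4 (P : Sylow 3 G) {z : G} (h3 : z ^ 3 = 1) (hg : ∃ k, orderOf g = 3 ^ k) :
    g = 1 ∨ IsConj z g ∨ IsConj z⁻¹ g ∨ ∃ w, Om P z w ∧ IsConj w g := by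
  obtain ⟨t, ht⟩ := Tr.exists_conj_le_sylow P (isPGroup_zpowers_of_pElt hg)
  have c : IsConj (t * g * t⁻¹) g := (isConj_iff.2 ⟨t, rfl⟩).symm
  by_cases hz : t * g * t⁻¹ ∈ zpowers z
  · rcases mem_three h3 hz with e | e | e <;> rw [e] at c
    exacts [Or.inl (isConj_one_right.1 c), Or.inr (Or.inl c), Or.inr (Or.inr (Or.inl c))]
  · exact Or.inr (Or.inr (Or.inr ⟨_, ⟨ht g (mem_zpowers g), hz⟩, c⟩))

end Ex

/-- Representatives of the classes of non-central elements. -/
structure Reps (P : Sylow 3 G) (z : G) (X : Finset G) : Prop where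
  om : ∀ x ∈ X, Om P z x
  uq : ∀ w, Om P z w → ∃! x, x ∈ X ∧ IsConj w x

namespace Ex

variable {P : Sylow 3 G} {z : G} (h : Ex P z) {ω : ℂ} {X : Finset G} {M : Ideal AlgInt}
include h

theorem fact27 [Finite G] : (Nat.card G).factorization 3 = 3 :=
  Nat.pow_right_injective (a := 3) (by norm_num)
    (P.card_eq_multiplicity.symm.trans h.card : _ = 3 ^ 3)

theorem pElt [Finite G] {x : G} (hx : x ∈ (P : Subgroup G)) : ∃ k, orderOf x = 3 ^ k :=
  pElt_of_mem_isPGroup Nat.prime_three P.isPGroup' hx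

theorem card_B [Finite G] (hM : IsPModular 3 M) (r : Reps P z X) :
    Nat.card (principalBlock M G) = blockRank 3 (principalBlock M G) +
      2 * blockRank 3 (principalBlock M (centralizer ({z} : Set G))) + X.card := by
  classical
  have n1 : ∀ y ∈ zpowers z, y ∉ X := fun y hy e => (r.om y e).2 hy
  have n2 : ∀ y ∈ zpowers z, ∀ g, IsConj g y → ∀ x ∈ X, ¬ IsConj g x := fun y hy g c x hx c' =>
    h.not_om_of_conj hy (c.symm.trans c') (r.om x hx)
  have m1 := mem_zpowers z
  have m2 := inv_mem m1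
  have a1 : ¬ IsConj z 1 := fun c => h.ne (isConj_one_left.1 c)
  have a2 : ¬ IsConj z⁻¹ 1 := fun c => h.ne (inv_eq_one.1 (isConj_one_left.1 c))
  rw [card_principal_eq_sum hM (X := insert 1 (insert z (insert z⁻¹ X))) (fun x hx => ?_)
    fun g hg => ?_, Finset.sum_insert (by simp [n1 1 (one_mem _), h.ne, h.ne.symm]),
    Finset.sum_insert (by simp [n1 z m1, h.ne_inv]), Finset.sum_insert (n1 _ m2),
    blockRank_principal_centralizer_one hM, Finset.sum_congr rfl fun x hx =>
      blockRank_principal_of_npc hM (h.npc (r.om x hx)),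
    show centralizer ({z⁻¹} : Set G) = centralizer {z} from Subgroup.ext fun a => by
      simp only [mem_centralizer_singleton_iff]; exact Commute.inv_right_iff (a := a) (b := z)]
  · simp; ring
  · simp only [Finset.mem_insert] at hx
    rcases hx with rfl | rfl | rfl | hx
    exacts [pElt_one, h.pElt h.mem, h.pElt (inv_mem h.mem), h.pElt (r.om x hx).1]
  simp only [Finset.mem_insert]
  rcases cls4 P h.z3 hg with rfl | c | c | ⟨w, hw, c⟩
  · exact ⟨1, ⟨Or.inl rfl, IsConj.refl _⟩, fun y hy => isConj_one_right.1 hy.2⟩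
  · refine ⟨z, ⟨by simp, c.symm⟩, ?_⟩
    rintro y ⟨rfl | rfl | rfl | hy, c'⟩
    exacts [absurd (c.trans c') a1, rfl, absurd (c.trans c') h.not_conj_inv,
      absurd c' (n2 _ m1 g c.symm y hy)]
  · refine ⟨z⁻¹, ⟨by simp, c.symm⟩, ?_⟩
    rintro y ⟨rfl | rfl | rfl | hy, c'⟩
    exacts [absurd (c.trans c') a2, absurd (c.trans c').symm h.not_conj_inv, rfl,
      absurd c' (n2 _ m2 g c.symm y hy)]
  · obtain ⟨x, hx, hu⟩ := r.uq w hw
    refine ⟨x, ⟨by simp [hx.1], c.symm.trans hx.2⟩, ?_⟩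
    rintro y ⟨rfl | rfl | rfl | hy, c'⟩
    exacts [absurd hw (h.not_om_of_conj (one_mem _) (c.trans c').symm),
      absurd hw (h.not_om_of_conj m1 (c.trans c').symm),
      absurd hw (h.not_om_of_conj m2 (c.trans c').symm), hu y ⟨hy, c.trans c'⟩]

theorem tri [Fintype G] (r : Reps P z X) (g : G) :
    (∑ u : X, ind 3 u.1 g = 0 ∧ (th z ω (pp 3 g) = 3 ∧ ind 3 1 g = 1 ∨
      (th z ω (pp 3 g) = 3 * ω ∨ th z ω (pp 3 g) = 3 * ω ^ 2) ∧ ind 3 1 g = 0)) ∨
    (∑ u : X, ind 3 u.1 g = 1 ∧ th z ω (pp 3 g) = 0 ∧ ind 3 1 g = 0) := by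
  have n2 : ∀ y ∈ zpowers z, IsConj y (pp 3 g) → ∑ u : X, ind 3 u.1 g = 0 := fun y hy c =>
    Finset.sum_eq_zero fun u _ => if_neg fun c' =>
      h.not_om_of_conj hy (c.trans c'.symm) (r.om u u.2)
  have n3 : ∀ y, y ≠ 1 → IsConj y (pp 3 g) → ind 3 1 g = 0 := fun y hy c =>
    if_neg fun c' => hy (isConj_one_left.1 (c.trans c'.symm))
  rcases cls4 P h.z3 (isPPart_pp Nat.prime_three g).pElt with e | c | c | ⟨w, hw, c⟩
  · exact Or.inl ⟨n2 1 (one_mem _) (by rw [e]), Or.inl ⟨by rw [e, th_one], if_pos (by rw [e])⟩⟩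
  · exact Or.inl ⟨n2 _ (mem_zpowers z) c, Or.inr ⟨Or.inl (h.th_z c), n3 _ h.ne c⟩⟩
  · exact Or.inl ⟨n2 _ (inv_mem (mem_zpowers z)) c,
      Or.inr ⟨Or.inr (h.th_inv c), n3 _ (inv_ne_one.2 h.ne) c⟩⟩
  · obtain ⟨x, hx, hu⟩ := r.uq w hw
    refine Or.inr ⟨?_, h.th_om hw c, n3 w (fun e => hw.2 (e ▸ one_mem _)) c⟩
    refine (Finset.sum_eq_single (⟨x, hx.1⟩ : X) (fun u _ hne => if_neg fun c' =>
      hne (Subtype.ext (hu u ⟨u.2, c.trans c'.symm⟩))) (by simp)).trans
      (if_pos (hx.2.symm.trans c))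

open Classical in
theorem exists_mat [Fintype G] (hM : IsPModular 3 M) [Fintype (principalBlock M G)]
    (r : Reps P z X) (hr : ∀ x ∈ X, IsConj x x⁻¹) (o3 : ω ^ 3 = 1) (o1 : ω ≠ 1)
    (hω : IsGeneralizedCharacter (P : Subgroup G) fun y => th z ω y) :
    ∃ (T : principalBlock M G → principalBlock M G → ℤ) (d : X → principalBlock M G → ℤ),
      Mat T d (Finset.univ.filter fun i => blockHeight 3 (principalBlock M G) i.1.1 = 0)
        ⟨_, irrOne_mem_principalBlock hM⟩ (fun i => charDegree i.1.1) ∧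
      ∑ i, aa T d i i = 27 * (blockRank 3 (principalBlock M G) : ℤ) ∧
      (∀ i j, mm (fun g => th z ω (pp 3 g)) i.1 j.1 = T i j) ∧ ∀ u i, i.1.1 u.1 = d u i := by
  have p3 := Nat.prime_three
  have hB := isPBlock_principalBlock (M := M) (G := G)
  set θ : G → ℂ := fun g => th z ω (pp 3 g) with hθ
  have gθ : IsGeneralizedCharacter G θ := isGen_pp P (cf_th z ω) hω
  have sθ : SF 3 θ := SF.of (cf_th z ω)
  choose T hT using fun i j : principalBlock M G =>
    (gθ.mul i.1.2.isGen).exists_int_inner j.1.2.isGen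
  replace hT : ∀ i j : principalBlock M G, mm θ i.1 j.1 = T i j := hT
  have hT' : ∀ i j : principalBlock M G, mm (star θ) i.1 j.1 = T j i := fun i j => by
    rw [mm_star, hT, map_intCast]
  have u3 : ∀ u : X, u.1 ^ 3 = 1 := fun u => h.exp _ (r.om u u.2).1
  have pu : ∀ u : X, ∃ k, orderOf u.1 = 3 ^ k := fun u => h.pElt (r.om u u.2).1
  choose d hd using fun (u : X) (i : principalBlock M G) =>
    i.1.2.isGen.exists_int_of_pow three_ne_zero (u3 u) fun k hk => by
      rw [pow_eq_pow_mod k (u3 u)]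
      obtain h | h : k % 3 = 1 ∨ k % 3 = 2 := by
        have := mt Nat.dvd_of_mod_eq_zero (p3.coprime_iff_not_dvd.1 hk.symm); omega
      · rw [h, pow_one]
      · rw [h, show u.1 ^ 2 = u.1⁻¹ from eq_inv_of_mul_eq_one_left (by rw [← pow_succ, u3])]
        exact (i.1.2.isClassFunction.eq_of_isConj (hr u u.2)).symm
  have so := sum_om o3 o1
  have co := conj_om o3
  have f1 : θ * star θ = (9 : ℂ) • 1 - (9 : ℂ) • ∑ u : X, ind 3 u.1 := funext fun g => by
    simp only [Pi.mul_apply, Pi.star_apply, Pi.sub_apply, Pi.smul_apply, Finset.sum_apply,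
      Pi.one_apply, smul_eq_mul, hθ, RCLike.star_def]
    rcases h.tri (ω := ω) r g with ⟨a, ⟨b, -⟩ | ⟨b | b, -⟩⟩ | ⟨a, b, -⟩ <;>
      simp only [a, b, map_mul, map_pow, map_ofNat, co, map_zero]
    · ring
    · linear_combination 9 * o3
    · linear_combination 9 * (ω ^ 3 + 1) * o3
    · ring
  have f2 : θ * θ = (3 : ℂ) • star θ := funext fun g => by
    simp only [Pi.mul_apply, Pi.star_apply, Pi.smul_apply, smul_eq_mul, hθ, RCLike.star_def]
    rcases h.tri (ω := ω) r g with ⟨-, ⟨b, -⟩ | ⟨b | b, -⟩⟩ | ⟨-, b, -⟩ <;>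
      simp only [b, map_mul, map_pow, map_ofNat, co, map_zero] <;> ring
  have f3 : θ * star θ + (3 : ℂ) • (θ + star θ) = (27 : ℂ) • ind 3 1 := funext fun g => by
    simp only [Pi.mul_apply, Pi.star_apply, Pi.add_apply, Pi.smul_apply, smul_eq_mul, hθ,
      RCLike.star_def]
    rcases h.tri (ω := ω) r g with ⟨-, ⟨b, a⟩ | ⟨b | b, a⟩⟩ | ⟨-, b, a⟩ <;>
      simp only [a, b, map_mul, map_pow, map_ofNat, co, map_zero]
    · ring
    · linear_combination 9 * o3 + 9 * so
    · linear_combination 9 * (ω ^ 3 + 1 + ω) * o3 + 9 * so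
    · ring
  have hp : ∀ i j : principalBlock M G, mm (θ * star θ) i.1 j.1 = pi9 d i j := fun i j => by
    have h1 : ∀ u : X, 9 * mm (ind 3 u.1) i.1 j.1 = d u i * d u j := fun u => by
      have := mm_ind hM (pu u) (h.npc (r.om u u.2)) i.2 j.2
      rw [← Nat.cast_pow, h.fact_cent (r.om u u.2), hd, hd, map_intCast] at this
      exact this
    rw [f1, mm_sub, mm_smul, mm_smul, mm_sum, Finset.mul_sum, Finset.sum_congr rfl fun u _ => h1 u,
      mm, one_mul, i.1.2.inner j.1.2, pi9]
    by_cases e : i = j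
    · simp [e]
    · simp [e, show i.1.1 ≠ j.1.1 from fun c => e (Subtype.ext (Subtype.ext c))]
  have hdef : blockDefect 3 (principalBlock M G) = 3 := by rw [blockDefect_principal hM, h.fact27]
  have ha : ∀ i j : principalBlock M G,
      aa T d i j = cz 3 (blockDefect 3 (principalBlock M G)) i.1.1 j.1.1 := fun i j =>
    Int.cast_injective (α := ℂ) (by
      rw [cz_cast hM hB i.2 j.1.2.isGen, hdef, ← mm_reg p3, aa]
      push_cast
      rw [← hp, ← hT, ← hT', ← mm_add, ← mm_smul, ← mm_add, f3, mm_smul]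
      norm_num)
  have θu : ∀ u : X, θ u.1 = 0 := fun u => by
    simp only [hθ]
    rw [(isPPart_self p3 (pu u)).pp_eq p3, h.th_om (r.om u u.2) (IsConj.refl _)]
  have dd : ∀ u v, ∑ k, d u k * d v k = if u = v then 9 else 0 := fun u v =>
    Int.cast_injective (α := ℂ) (by
      have h1 : ((∑ k, d u k * d v k : ℤ) : ℂ) =
          ∑ χ with χ ∈ principalBlock M G, χ.1 u.1 * conj (χ.1 v.1) := by
        rw [sum_blk]; simp [hd]
      rw [h1]
      split_ifs with e
      · rw [e, column_principal_of_npc hM (pu v) (h.npc (r.om v v.2)), ← Nat.cast_pow,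
          h.fact_cent (r.om v v.2)]
        norm_num
      · rw [column_of_not_isConj hM (isBlockUnion_of_block hM hB) (pu u) (pu v) fun c =>
          e (Subtype.ext ((r.uq u (r.om u u.2)).unique ⟨u.2, IsConj.refl _⟩ ⟨v.2, c⟩))]
        simp)
  have hS : ∀ (u : X) (i : principalBlock M G),
      blockHeight 3 (principalBlock M G) i.1.1 = 0 ↔ ¬ 3 ∣ d u i := fun u i => by
    have h1 := i.1.2.isGen.int_modEq_one p3 (k := 1) (by rw [pow_one, u3]) (hd u i)
      (n := charDegree i.1.1) (by simpa using i.1.2.apply_one_eq_charDegree)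
    rw [blockHeight_principal hM, Nat.factorization_eq_zero_iff]
    have h2 := i.1.2.charDegree_pos
    rw [Int.ModEq] at h1
    simp only [p3, not_true, false_or]
    omega
  have d_o : ∀ u, d u ⟨_, irrOne_mem_principalBlock hM⟩ = 1 := fun u => by
    exact_mod_cast (hd u ⟨_, irrOne_mem_principalBlock hM⟩).symm.trans (Blk.irrOne_apply _)
  refine ⟨T, d, ⟨fun i j => Int.cast_injective (α := ℂ) ?_, fun i j => Int.cast_injective (α := ℂ) ?_,
    fun i j => Int.cast_injective (α := ℂ) ?_, fun i u => Int.cast_injective (α := ℂ) ?_,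
    fun i u => Int.cast_injective (α := ℂ) ?_, dd, fun u i hi => (hS u i).1 (by simpa using hi),
    fun u i hi => ?_, fun i j hj => ?_, fun i hi j hj => ?_, fun i => ?_, ?_, d_o, ?_,
    fun u => Int.cast_injective (α := ℂ) ?_⟩, ?_, hT, hd⟩
  · rw [← hp, mul_comm, ← sθ.mm_mul hM hB _ i.2]; simp [hT, hT']
  · rw [← hp, ← sθ.star.mm_mul hM hB _ i.2]; simp [hT, hT']
  · push_cast
    rw [← hT', ← mm_smul, ← f2, ← sθ.mm_mul hM hB _ i.2]; simp [hT]
  · have := sθ.expand hM hB i.2 u.1
    rw [θu, zero_mul] at this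
    simpa [hT, hd] using this.symm
  · have := sθ.star.expand hM hB i.2 u.1
    rw [Pi.star_apply, θu, star_zero, zero_mul] at this
    simpa [hT', hd] using this.symm
  · have h1 : 3 ∣ d u i := by simpa [hS u] using hi
    by_contra h0
    have h2 := nine_le_sq h0 h1
    have h3 := dd u u
    have hne : i ≠ ⟨_, irrOne_mem_principalBlock hM⟩ := by
      rintro rfl
      rw [d_o] at h1; omega
    have h4 := Finset.sum_le_sum_of_subset_of_nonneg (f := fun k => d u k * d u k)
      (Finset.subset_univ {i, ⟨_, irrOne_mem_principalBlock hM⟩}) fun k _ _ => mul_self_nonneg _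
    rw [Finset.sum_pair hne, h3, if_pos rfl, d_o] at h4
    nlinarith
  · rw [ha]; exact cz_ne_zero_of_height_zero hM hB i.2 j.2 (by simpa using hj)
  · rw [ha]
    refine dvd_trans ?_ ((pow_height_succ_dvd_cz_iff hM hB i.2 j.2).2 (by simpa using hj))
    exact pow_dvd_pow (3 : ℤ) (m := 2) (by
      have : blockHeight 3 (principalBlock M G) i.1.1 ≠ 0 := by simpa using hi
      omega)
  · simp only [ha]
    rw [sum_cz_sq hM hB i.2, hdef]; rfl
  · simp only [Finset.mem_filter, Finset.mem_univ, true_and, blockHeight_principal hM]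
    rw [show charDegree (Blk.irrOne G).1 = 1 from charDegree_const_one]; simp
  · exact congrArg _ charDegree_const_one
  · have := sum_degree_mul_eq_zero hM hB (y := u.1) (by
      rw [orderOf_eq_prime (u3 u) fun e => (r.om u u.2).2 (e ▸ one_mem _)])
    rw [sum_blk] at this
    simpa [hd, fun i : principalBlock M G => i.1.2.apply_one_eq_charDegree] using this
  · simp only [ha]
    rw [sum_cz_self hM hB, hdef]; rfl

theorem th_central [Finite G] (hz : z ∈ center G) (o3 : ω ^ 3 = 1) (g : G) :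
    th z ω (pp 3 (z * g)) = ω * th z ω (pp 3 g) := by
  have p3 := Nat.prime_three
  have hc := mem_center_iff.1 hz
  obtain ⟨s, e, c, ⟨k, hk⟩, hs⟩ := isPPart_pp p3 g
  have h1 : IsPPart 3 (z * g) (z * pp 3 g) := ⟨s, by rw [mul_assoc, e],
    Commute.mul_left (hc s).symm c, exists_orderOf_eq_pow_of_pow_eq_one p3 (k := k + 1) (by
      rw [(show Commute z (pp 3 g) from (hc _).symm).mul_pow, pow_succ', pow_mul, h.z3, one_pow,
        one_mul, mul_comm, pow_mul, ← hk, pow_orderOf_eq_one, one_pow]), hs⟩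
  rw [h1.pp_eq p3]
  generalize pp 3 g = y
  have c1 : ∀ a, IsConj z a ↔ a = z := fun a => ⟨fun c => by
    obtain ⟨t, rfl⟩ := isConj_iff.1 c
    rw [hc, mul_inv_cancel_right], fun e => by rw [e]⟩
  have c2 : ∀ a, IsConj z⁻¹ a ↔ a = z⁻¹ := fun a => ⟨fun c => by
    obtain ⟨t, rfl⟩ := isConj_iff.1 c
    rw [mem_center_iff.1 (inv_mem hz), mul_inv_cancel_right], fun e => by rw [e]⟩
  have h4 : z * z = z⁻¹ := eq_inv_of_mul_eq_one_left (by rw [← h.z3, pow_three'])
  by_cases e1 : y = 1
  · rw [e1, mul_one, th_one, h.th_z (IsConj.refl _), mul_comm]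
  by_cases e2 : y = z
  · rw [e2, h4, h.th_z (IsConj.refl _), h.th_inv (IsConj.refl _)]; ring
  by_cases e3 : y = z⁻¹
  · rw [e3, mul_inv_cancel, th_one, h.th_inv (IsConj.refl _)]; linear_combination -3 * o3
  unfold th
  rw [c1, c1, c2, c2, if_neg e1, if_neg e2, if_neg e3, if_neg fun e => e3 (eq_inv_of_mul_eq_one_right e),
    if_neg fun e => e1 (mul_eq_left.1 e), if_neg fun e => e2 (mul_left_cancel (e.trans h4.symm)),
    mul_zero]

theorem rank_central [Finite G] (hM : IsPModular 3 M) (r : Reps P z X)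
    (hr : ∀ x ∈ X, IsConj x x⁻¹) (hX : X.Nonempty) (hz : z ∈ center G) :
    blockRank 3 (principalBlock M G) + X.card = 6 := by
  classical
  have := Fintype.ofFinite G
  obtain ⟨ω, o3, o1, hω⟩ := h.exists_omega
  obtain ⟨T, d, m, ht, hT, hd⟩ := h.exists_mat hM r hr o3 o1 hω
  obtain ⟨u, hu⟩ := hX
  have so := sum_om o3 o1
  have hf : ∀ a b : ZMod 3, ω * ω ^ a.val * conj (ω ^ b.val) = 1 → b = a + 1 := fun a b e => by
    rw [map_pow, conj_om o3, ← pow_mul, ← pow_succ', ← pow_add, pow_eq_pow_mod _ o3] at e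
    by_contra c
    have h1 : (a.val + 1 + 2 * b.val) % 3 = 1 ∨ (a.val + 1 + 2 * b.val) % 3 = 2 := by
      clear e; revert a b; decide
    rcases h1 with h1 | h1 <;> rw [h1] at e
    · exact o1 (by simpa using e)
    · exact o1 (by linear_combination o3 - ω * e)
  choose c hc using fun i : principalBlock M G => show ∃ a : ZMod 3, ∀ x,
      i.1.1 (z * x) = ω ^ a.val * i.1.1 x from by
    have h0 := i.1.2.one_ne_zero
    obtain ⟨l, hl⟩ : ∃ l, ∀ x, i.1.1 (z * x) = l * i.1.1 x := ⟨i.1.1 z / i.1.1 1, fun x => by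
      have := i.1.2.apply_center_mul hz x
      field_simp
      linear_combination this⟩
    have l3 : l ^ 3 = 1 := mul_right_cancel₀ h0 (by
      nth_rw 2 [← h.z3]
      rw [pow_three z, hl, hl, ← mul_one z, hl]; ring)
    have l4 : (l - 1) * ((l - ω) * (l - ω ^ 2)) = 0 := by
      linear_combination l3 + (l - l ^ 2) * so + (l - 1) * o3
    rcases mul_eq_zero.1 l4 with e | e
    · exact ⟨0, fun x => by rw [hl, sub_eq_zero.1 e]; simp⟩
    rcases mul_eq_zero.1 e with e | e
    · exact ⟨1, fun x => by rw [hl, sub_eq_zero.1 e]; exact congrArg (· * _) (pow_one ω).symm⟩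
    · exact ⟨2, fun x => by rw [hl, sub_eq_zero.1 e]; rfl⟩
  have c0 : ∀ i x, c i ≠ 0 → i.1.1 (z * x) = i.1.1 x → i.1.1 x = 0 := fun i x hi e => by
    rw [hc] at e
    refine (mul_left_eq_self₀.1 e).resolve_left fun e' => hi ?_
    have := hf (c i) 1 (by
      rw [e', show (1 : ZMod 3).val = 1 from rfl, pow_one, conj_om o3]; linear_combination o3)
    exact left_eq_add.1 (this.trans (add_comm _ _))
  have := m.central ⟨u, hu⟩ ht (c := c) (fun i j hij => hf _ _ ?_)
    (by_contra fun e => one_ne_zero (c0 _ 1 e rfl)) fun i hi hS => m.d0 ⟨u, hu⟩ i hS ?_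
  · simpa using this
  · have h1 : mm (fun g => th z ω (pp 3 g)) i.1 j.1 = ω * ω ^ (c i).val * conj (ω ^ (c j).val) *
        mm (fun g => th z ω (pp 3 g)) i.1 j.1 := by
      rw [mm, classInner_def, mul_left_comm]
      refine congrArg _ ?_
      rw [Finset.mul_sum, ← Equiv.sum_comp (Equiv.mulLeft z)]
      refine Finset.sum_congr rfl fun g _ => ?_
      simp only [Equiv.coe_mulLeft, Pi.mul_apply, h.th_central hz o3, hc, map_mul]
      ring
    rw [hT] at h1
    exact (mul_left_eq_self₀.1 h1.symm).resolve_right (Int.cast_ne_zero.2 hij)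
  · obtain ⟨a, -, e⟩ := h.cj (r.om u hu) (mem_zpowers z)
    have h1 := c0 i u hi (by rw [← e, i.1.2.isClassFunction])
    rw [hd ⟨u, hu⟩ i, Int.cast_eq_zero] at h1
    rw [h1]; exact dvd_zero 3

theorem rank_cent [Finite G] (hM : IsPModular 3 M) (r : Reps P z X)
    (hr : ∀ x ∈ X, IsConj x x⁻¹) (hX : X.Nonempty) :
    blockRank 3 (principalBlock M (centralizer ({z} : Set G))) + X.card = 6 := by
  classical
  have hN : normalizer ((P : Subgroup G) : Set G) ≤ centralizer {z} := fun n hn =>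
    mem_centralizer_singleton_iff.2 (h.nc n hn)
  have ho : ∀ w : centralizer ({z} : Set G),
      Om (P.subtype h.le_cent) ⟨z, h.le_cent h.mem⟩ w ↔ Om P z w := fun w =>
    and_congr Iff.rfl (not_congr ⟨fun ⟨k, hk⟩ => ⟨k, congrArg Subtype.val hk⟩,
      fun ⟨k, hk⟩ => ⟨k, Subtype.ext hk⟩⟩)
  have hc : ∀ v w : centralizer ({z} : Set G), Om P z v → Om P z w → IsConj v.1 w.1 → IsConj v w :=
    fun v w hv hw c => by
      obtain ⟨n, hn, e⟩ := h.fus hv hw c
      exact isConj_iff.2 ⟨⟨n, hN hn⟩, Subtype.ext e⟩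
  have h1 := h.sub.rank_central hM (X := X.subtype (· ∈ centralizer ({z} : Set G)))
    ⟨fun x hx => (ho x).2 (r.om x (by simpa using hx)), fun w hw => ?_⟩
    (fun x hx => ?_) ?_ (mem_center_iff.2 fun g => Subtype.ext (mem_centralizer_singleton_iff.1 g.2))
  · rwa [Finset.card_subtype, Finset.filter_true_of_mem fun x hx => h.le_cent (r.om x hx).1] at h1
  · obtain ⟨x, hx, hu⟩ := r.uq w ((ho w).1 hw)
    exact ⟨⟨x, h.le_cent (r.om x hx.1).1⟩, ⟨by simpa using hx.1,
      hc _ _ ((ho w).1 hw) (r.om x hx.1) hx.2⟩, fun y hy => Subtype.ext (hu y ⟨by simpa using hy.1,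
        (centralizer ({z} : Set G)).subtype.map_isConj hy.2⟩)⟩
  · have h2 : x.1 ∈ X := by simpa using hx
    exact hc _ _ (r.om x h2) (h.om_inv (r.om x h2)) (hr x h2)
  · obtain ⟨x, hx⟩ := hX
    exact ⟨⟨x, h.le_cent (r.om x hx).1⟩, by simpa using hx⟩

theorem card_ht [Finite G] [Fintype (principalBlock M G)] :
    Nat.card {χ : IrrCharacter G // χ ∈ principalBlock M G ∧
      blockHeight 3 (principalBlock M G) (χ : G → ℂ) = 0} =
    (Finset.univ.filter fun i : principalBlock M G =>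
      blockHeight 3 (principalBlock M G) i.1.1 = 0).card := by
  rw [← Fintype.card_subtype, ← Nat.card_eq_fintype_card]
  exact Nat.card_congr (Equiv.subtypeSubtypeEquivSubtypeInter _ _).symm

theorem even [Finite G] (hM : IsPModular 3 M) (r : Reps P z X)
    (hr : ∀ x ∈ X, IsConj x x⁻¹) (hX : X.Nonempty) :
    Nat.card (principalBlock M G) + 2 * X.card = 18 ∧
      Nat.card {χ : IrrCharacter G // χ ∈ principalBlock M G ∧
        blockHeight 3 (principalBlock M G) (χ : G → ℂ) = 0} = 6 ∧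
      blockRank 3 (principalBlock M G) + X.card = 6 := by
  classical
  have := Fintype.ofFinite G
  obtain ⟨ω, o3, o1, hω⟩ := h.exists_omega
  obtain ⟨T, d, m, ht, -, -⟩ := h.exists_mat hM r hr o3 o1 hω
  have h1 := h.rank_cent hM r hr hX
  have h2 := h.card_B hM r
  obtain ⟨u, hu⟩ := hX
  obtain ⟨h3, h4⟩ := m.main ⟨u, hu⟩ ht (l := blockRank 3 (principalBlock M (centralizer {z})))
    (by rw [← Nat.card_eq_fintype_card, h2]; simp) (by simpa using h1)
  rw [h.card_ht, h3]
  omega

theorem one [Finite G] (hM : IsPModular 3 M) (r : Reps P z X) (h8 : X.card = 8)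
    (hn : HasNormalPComplement 3 G) :
    Nat.card (principalBlock M G) = 11 ∧
      Nat.card {χ : IrrCharacter G // χ ∈ principalBlock M G ∧
        blockHeight 3 (principalBlock M G) (χ : G → ℂ) = 0} = 9 ∧
      blockRank 3 (principalBlock M G) = 1 := by
  classical
  have p3 := Nat.prime_three
  have h1 := blockRank_principal_of_npc hM hn
  have h2 := h.card_B hM r
  rw [h1, blockRank_principal_of_npc hM (hasNPC_subgroup hn _), h8] at h2
  refine ⟨h2, ?_, h1⟩
  rw [h.card_ht]
  set S := Finset.univ.filter fun i : principalBlock M G =>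
    blockHeight 3 (principalBlock M G) i.1.1 = 0 with hS
  have h3 := sum_sq_principal_of_npc hM hn
  rw [sum_blk, h.fact27] at h3
  have h4 : ∑ i : principalBlock M G, charDegree i.1.1 ^ 2 = 27 := by
    simp only [fun i : principalBlock M G => i.1.2.apply_one_eq_charDegree] at h3
    exact_mod_cast h3
  have hd : ∀ i : principalBlock M G, ∃ j, charDegree i.1.1 = 3 ^ j := fun i => by
    have a1 := i.1.2.charDegree_dvd_index_of_le (Z := pResidual 3 G)
      (le_trans (fun g hg => i.1.2.mem_charKer.2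
        (principal_apply_reg_of_npc hM hn i.2 ((npc_mem_iff p3 hn).1 hg))) (charKer_le_charCenter _))
    rw [npc_index p3 hn] at a1
    obtain ⟨j, -, e⟩ := (Nat.dvd_prime_pow p3).1 a1
    exact ⟨j, e⟩
  have hm : ∀ i : principalBlock M G, i ∈ S ↔ charDegree i.1.1 = 1 := fun i => by
    obtain ⟨j, e⟩ := hd i
    simp [hS, blockHeight_principal hM, e, p3.factorization_pow]
  rw [← Finset.sum_add_sum_compl S, Finset.sum_congr rfl (g := fun _ => 1) fun i hi => by
    rw [(hm i).1 hi, one_pow], ← Finset.card_eq_sum_ones] at h4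
  have h5 : 9 ∣ ∑ i ∈ Sᶜ, charDegree i.1.1 ^ 2 := Finset.dvd_sum fun i hi => by
    obtain ⟨j, e⟩ := hd i
    have a1 := mt (hm i).2 (Finset.mem_compl.1 hi)
    rw [e] at a1 ⊢
    rcases j with _ | j
    · simp at a1
    · exact ⟨(3 ^ j) ^ 2, by ring⟩
  have h6 := Finset.card_le_univ S
  rw [← Nat.card_eq_fintype_card, h2] at h6
  have h7 : 0 < S.card :=
    Finset.card_pos.2 ⟨⟨_, irrOne_mem_principalBlock hM⟩, (hm _).2 charDegree_const_one⟩
  omega

end Ex

end CL.Ex3
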