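import Mathlib
import Cfsg.Agent.CHAR.FS
import Cfsg.Agent.CHAR.Realizable

/-! Invariant bilinear forms, the Frobenius–Schur indicator and real representations. -/

open Cfsg Module Matrix CL.Char
open scoped ComplexConjugate

namespace CL.Blk

variable {G : Type*} [Group G] [Fintype G] {n : ℕ}

theorem repMat_schur (ρ : Representation ℂ G (Fin n → ℂ)) [ρ.IsIrreducible] (a b c d : Fin n) :
    ∑ g, repMat ρ g d b * repMat ρ g⁻¹ c a =
      if b = c ∧ d = a then (Nat.card G : ℂ) / n else 0 := by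
  have h := congrArg LinearMap.toMatrix' (sum_conj_eq_smul ρ (Matrix.toLin' (single b c 1)))
  rw [map_sum, map_smul] at h
  have h1 := congrFun (congrFun h d) a
  simp only [LinearMap.toMatrix'_mul, LinearMap.toMatrix'_toLin', LinearMap.toMatrix'_one,
    Matrix.sum_apply, Matrix.smul_apply, Matrix.trace_toLin'_eq, finrank_fin_fun] at h1
  have h2 : ∀ g : G, (LinearMap.toMatrix' (ρ g) * single b c (1 : ℂ) *
      LinearMap.toMatrix' (ρ g⁻¹)) d a = repMat ρ g d b * repMat ρ g⁻¹ c a := by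
    intro g
    rw [Matrix.mul_apply, Finset.sum_eq_single c]
    · rw [Matrix.mul_single_apply_same, mul_one]; rfl
    · intro x _ hx
      rw [Matrix.mul_single_apply_of_ne _ _ _ _ _ hx, zero_mul]
    · simp
  simp only [h2] at h1
  rw [h1]
  by_cases hbc : b = c <;> by_cases hda : d = a <;>
    simp [hbc, hda, Matrix.trace, Matrix.single, Matrix.one_apply]
  exact Or.inl (Ne.symm hbc)

omit [Fintype G] in
theorem schur_mat (ρ : Representation ℂ G (Fin n → ℂ)) [ρ.IsIrreducible]
    (A : Matrix (Fin n) (Fin n) ℂ) (h : ∀ g, A * repMat ρ g = repMat ρ g * A) :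
    A = (A.trace / n) • (1 : Matrix (Fin n) (Fin n) ℂ) := by
  have h1 := schur_scalar_eq ρ (Matrix.toLin' A) fun g => by
    apply LinearMap.toMatrix'.injective
    simp only [LinearMap.toMatrix'_mul, LinearMap.toMatrix'_toLin']
    exact h g
  have h2 := congrArg LinearMap.toMatrix' h1
  simpa using h2

theorem sum_repMat_sq (ρ : Representation ℂ G (Fin n → ℂ)) [ρ.IsIrreducible] :
    ∑ g, repMat ρ (g * g) = ((∑ g, ρ.character (g * g)) / n) • (1 : Matrix (Fin n) (Fin n) ℂ) := by
  rw [schur_mat ρ (∑ g, repMat ρ (g * g)) fun h => ?_, Matrix.trace_sum]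
  · simp only [trace_repMat]
  · rw [Finset.sum_mul, Finset.mul_sum, ← Equiv.sum_comp (MulAut.conj h).toEquiv]
    refine Finset.sum_congr rfl fun g _ => ?_
    rw [← repMat_mul, ← repMat_mul]
    congr 1
    simp [mul_assoc]

omit [Fintype G] in
theorem mul_repMat_of_inv {ρ : Representation ℂ G (Fin n → ℂ)} {M : Matrix (Fin n) (Fin n) ℂ}
    (hM : ∀ g, (repMat ρ g)ᵀ * M * repMat ρ g = M) (g : G) :
    M * repMat ρ g = (repMat ρ g⁻¹)ᵀ * M := by
  conv_rhs => rw [← hM g]
  rw [← Matrix.mul_assoc, ← Matrix.mul_assoc, ← Matrix.transpose_mul, ← repMat_mul,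
    mul_inv_cancel, repMat_one, Matrix.transpose_one, Matrix.one_mul]

theorem transpose_eq_of_inv (ρ : Representation ℂ G (Fin n → ℂ)) [ρ.IsIrreducible]
    {M : Matrix (Fin n) (Fin n) ℂ} (hM : ∀ g, (repMat ρ g)ᵀ * M * repMat ρ g = M) :
    Mᵀ = fsInd ρ.character • M := by
  have hn : (n : ℂ) ≠ 0 := by simpa using rep_finrank_ne_zero ρ
  have h1 : ((∑ g, ρ.character (g * g)) / n) • M = ∑ g, (repMat ρ g⁻¹)ᵀ * M * repMat ρ g := by
    rw [← Matrix.mul_one M, ← Matrix.mul_smul, ← sum_repMat_sq, Matrix.mul_sum, Matrix.mul_one]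
    refine Finset.sum_congr rfl fun g _ => ?_
    rw [repMat_mul, ← Matrix.mul_assoc, mul_repMat_of_inv hM]
  ext a b
  have h2 := congrFun (congrFun h1 a) b
  simp only [Matrix.sum_apply, Matrix.mul_apply, Matrix.transpose_apply, Finset.sum_mul,
    Matrix.smul_apply, smul_eq_mul] at h2
  rw [Finset.sum_comm] at h2
  have h3 : ∀ d, ∑ g : G, ∑ c, repMat ρ g⁻¹ c a * M c d * repMat ρ g d b =
      if d = a then M b d * ((Nat.card G : ℂ) / n) else 0 := by
    intro d
    rw [Finset.sum_comm]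
    have h4 : ∀ c, ∑ g : G, repMat ρ g⁻¹ c a * M c d * repMat ρ g d b =
        M c d * if b = c ∧ d = a then (Nat.card G : ℂ) / n else 0 := by
      intro c
      rw [← repMat_schur ρ, Finset.mul_sum]
      exact Finset.sum_congr rfl fun g _ => by ring
    simp only [h4]
    by_cases hd : d = a <;> simp [hd]
  simp only [h3, Finset.sum_ite_eq', Finset.mem_univ, if_true] at h2
  rw [Matrix.transpose_apply, Matrix.smul_apply, smul_eq_mul, fsInd_def]
  have h5 := card_ne_zero G
  field_simp at h2 ⊢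
  linear_combination -h2

theorem inv_sum (ρ : Representation ℂ G (Fin n → ℂ)) (N : Matrix (Fin n) (Fin n) ℂ) (h : G) :
    (repMat ρ h)ᵀ * (∑ g, (repMat ρ g)ᵀ * N * repMat ρ g) * repMat ρ h =
      ∑ g, (repMat ρ g)ᵀ * N * repMat ρ g := by
  rw [Finset.mul_sum, Finset.sum_mul, ← Equiv.sum_comp (Equiv.mulRight h)
    (fun g => (repMat ρ g)ᵀ * N * repMat ρ g)]
  refine Finset.sum_congr rfl fun g _ => ?_
  simp only [Equiv.coe_mulRight, repMat_mul, Matrix.transpose_mul, Matrix.mul_assoc]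

theorem exists_inv_ne_zero (ρ : Representation ℂ G (Fin n → ℂ)) [ρ.IsIrreducible]
    (hreal : ∀ g, (ρ.character g).im = 0) :
    ∃ M : Matrix (Fin n) (Fin n) ℂ, M ≠ 0 ∧ ∀ g, (repMat ρ g)ᵀ * M * repMat ρ g = M := by
  by_contra hne
  push Not at hne
  have h1 : ∀ i j, ∑ g, repMat ρ g i i * repMat ρ g j j = 0 := by
    intro i j
    have h2 : ∑ g, (repMat ρ g)ᵀ * single i j (1 : ℂ) * repMat ρ g = 0 := by
      by_contra h3
      obtain ⟨g, hg⟩ := hne _ h3
      exact hg (inv_sum ρ _ g)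
    rw [← (show (∑ g, (repMat ρ g)ᵀ * single i j (1 : ℂ) * repMat ρ g) i j = 0 by rw [h2]; rfl),
      Matrix.sum_apply]
    refine Finset.sum_congr rfl fun g _ => ?_
    rw [Matrix.mul_apply, Finset.sum_eq_single j]
    · rw [Matrix.mul_single_apply_same, mul_one]; rfl
    · intro x _ hx
      rw [Matrix.mul_single_apply_of_ne _ _ _ _ _ hx, zero_mul]
    · simp
  have h2 := sum_character_mul_conj ρ
  have h3 : ∀ g, conj (ρ.character g) * ρ.character g =
      ∑ i, ∑ j, repMat ρ g i i * repMat ρ g j j := by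
    intro g
    rw [Complex.conj_eq_iff_im.2 (hreal g), ← trace_repMat, Matrix.trace, Finset.sum_mul_sum]
    rfl
  simp only [h3] at h2
  rw [Finset.sum_comm] at h2
  simp_rw [fun i => Finset.sum_comm (s := (Finset.univ : Finset G))
    (t := (Finset.univ : Finset (Fin n))) (f := fun g j => repMat ρ g i i * repMat ρ g j j),
    h1] at h2
  simp only [Finset.sum_const_zero] at h2
  exact card_ne_zero G h2.symm

theorem trace_conjTranspose_mul_self (A : Matrix (Fin n) (Fin n) ℂ) :
    (Aᴴ * A).trace = ((∑ i, ∑ j, ‖A j i‖ ^ 2 : ℝ) : ℂ) := by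
  simp only [Matrix.trace, Matrix.diag, Matrix.mul_apply, Matrix.conjTranspose_apply]
  push_cast
  refine Finset.sum_congr rfl fun i _ => Finset.sum_congr rfl fun j _ => ?_
  rw [← Complex.conj_mul']
  rfl

theorem exists_pos_trace_sum (ρ : Representation ℂ G (Fin n → ℂ)) {T : Matrix (Fin n) (Fin n) ℂ}
    (hT : T ≠ 0) : ∃ r : ℝ, 0 < r ∧ (Tᴴ * (∑ g, (repMat ρ g)ᴴ * repMat ρ g) * T).trace = r := by
  refine ⟨∑ g, ∑ i, ∑ j, ‖(repMat ρ g * T) j i‖ ^ 2, ?_, ?_⟩
  · obtain ⟨j, i, h⟩ : ∃ j i, T j i ≠ 0 := by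
      by_contra h
      push Not at h
      exact hT (Matrix.ext h)
    refine Finset.sum_pos' (fun _ _ => by positivity) ⟨1, Finset.mem_univ _, ?_⟩
    refine Finset.sum_pos' (fun _ _ => by positivity) ⟨i, Finset.mem_univ _, ?_⟩
    refine Finset.sum_pos' (fun _ _ => by positivity) ⟨j, Finset.mem_univ _, ?_⟩
    rw [repMat_one, Matrix.one_mul]
    positivity
  · rw [Finset.mul_sum, Finset.sum_mul, Matrix.trace_sum, Complex.ofReal_sum]
    refine Finset.sum_congr rfl fun g _ => ?_
    rw [← trace_conjTranspose_mul_self, Matrix.conjTranspose_mul]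
    simp only [Matrix.mul_assoc]

/-- Hilbert 90 for `ℂ/ℝ` -/
theorem exists_isUnit_mul_map_conj {T : Matrix (Fin n) (Fin n) ℂ}
    (hT : T * T.map conj = 1) : ∃ S : Matrix (Fin n) (Fin n) ℂ, IsUnit S ∧ T * S.map conj = S := by
  have hinj : Function.Injective fun s : ℝ => -((1 + s * Complex.I) / (1 - s * Complex.I)) := by
    intro s t h
    have h1 : ∀ s : ℝ, (1 - s * Complex.I : ℂ) ≠ 0 := fun s h => by
      simpa using congrArg Complex.re h
    simp only [neg_inj] at h
    rw [div_eq_div_iff (h1 s) (h1 t)] at h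
    have h2 := congrArg Complex.im h
    simp at h2
    linarith
  obtain ⟨z, ⟨s, rfl⟩, hz⟩ := (Set.infinite_range_of_injective hinj).exists_notMem_finite
    (Matrix.finite_spectrum T)
  have h1 : (1 - s * Complex.I : ℂ) ≠ 0 := fun h => by simpa using congrArg Complex.re h
  have h2 := spectrum.notMem_iff.1 hz
  refine ⟨(1 + s * Complex.I) • (1 : Matrix (Fin n) (Fin n) ℂ) + (1 - s * Complex.I) • T, ?_, ?_⟩
  · have h3 : (1 + s * Complex.I) • (1 : Matrix (Fin n) (Fin n) ℂ) + (1 - s * Complex.I) • T =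
        (-(1 - s * Complex.I)) • (algebraMap ℂ (Matrix (Fin n) (Fin n) ℂ)
          (-((1 + s * Complex.I) / (1 - s * Complex.I))) - T) := by
      rw [Algebra.algebraMap_eq_smul_one, smul_sub, smul_smul, neg_mul_neg, mul_div_cancel₀ _ h1,
        neg_smul, sub_neg_eq_add]
    rw [h3]
    exact h2.smul (Units.mk0 _ (neg_ne_zero.2 h1))
  · have h3 : ((1 + s * Complex.I) • (1 : Matrix (Fin n) (Fin n) ℂ) +
        (1 - s * Complex.I) • T).map conj = (1 - s * Complex.I) • (1 : Matrix (Fin n) (Fin n) ℂ) +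
          (1 + s * Complex.I) • T.map conj := by
      ext i j
      by_cases h : i = j <;> simp [h, Matrix.one_apply, sub_eq_add_neg]
    rw [h3, Matrix.mul_add, Matrix.mul_smul, Matrix.mul_smul, hT, Matrix.mul_one, add_comm]

theorem exists_conj_intertwiner (ρ : Representation ℂ G (Fin n → ℂ)) [ρ.IsIrreducible]
    (h1 : fsInd ρ.character = 1) : ∃ T : Matrix (Fin n) (Fin n) ℂ, T * T.map conj = 1 ∧
      ∀ g, repMat ρ g * T = T * (repMat ρ g).map conj := by
  have hirr := isIrrCharacter_character ρ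
  have hreal : ∀ g, (ρ.character g).im = 0 := by
    by_contra h
    push Not at h
    rw [hirr.fsInd_eq_zero_of_not_real h] at h1
    exact zero_ne_one h1
  obtain ⟨M, hM0, hM⟩ := exists_inv_ne_zero ρ hreal
  have hMt := transpose_eq_of_inv ρ hM
  rw [h1, one_smul] at hMt
  set H := ∑ g, (repMat ρ g)ᴴ * repMat ρ g with hH
  have hHh : Hᴴ = H := by
    rw [hH, Matrix.conjTranspose_sum]
    simp only [Matrix.conjTranspose_mul, Matrix.conjTranspose_conjTranspose]
  have hHinv : ∀ h, H * repMat ρ h = (repMat ρ h⁻¹)ᴴ * H := by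
    intro h
    rw [hH, Finset.mul_sum, Finset.sum_mul, ← Equiv.sum_comp (Equiv.mulRight h⁻¹)]
    refine Finset.sum_congr rfl fun g _ => ?_
    simp only [Equiv.coe_mulRight]
    rw [Matrix.mul_assoc, ← repMat_mul, inv_mul_cancel_right, repMat_mul,
      Matrix.conjTranspose_mul, Matrix.mul_assoc]
  have hHu : IsUnit H := by
    rw [← Matrix.mulVec_injective_iff_isUnit, ← Matrix.coe_mulVecLin, ← LinearMap.ker_eq_bot,
      LinearMap.ker_eq_bot']
    intro v hv
    by_contra hv0
    obtain ⟨i, hi⟩ : ∃ i, v i ≠ 0 := Function.ne_iff.1 hv0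
    obtain ⟨r, hr, hr'⟩ := exists_pos_trace_sum ρ (T := Matrix.of fun a _ => v a) (fun h =>
      hi (congrFun (congrFun h i) i))
    have h2 : H * (Matrix.of fun a (_ : Fin n) => v a) = 0 := by
      ext a b
      exact congrFun hv a
    rw [← hH, Matrix.mul_assoc, h2] at hr'
    simp only [Matrix.mul_zero, Matrix.trace_zero] at hr'
    exact hr.ne (by exact_mod_cast hr')
  obtain ⟨T, hT⟩ : ∃ T, H * T = M.map conj := ⟨hHu.unit⁻¹.val * M.map conj, by
    rw [← Matrix.mul_assoc, hHu.mul_val_inv, Matrix.one_mul]⟩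
  have hXT : ∀ g, repMat ρ g * T = T * (repMat ρ g).map conj := by
    intro g
    refine hHu.mul_left_cancel ?_
    rw [← Matrix.mul_assoc, hHinv, Matrix.mul_assoc, hT, ← Matrix.mul_assoc, hT,
      ← Matrix.map_mul, mul_repMat_of_inv hM, Matrix.map_mul]
    rfl
  have hcc : ∀ A : Matrix (Fin n) (Fin n) ℂ, (A.map conj).map conj = A := fun A => by
    ext; simp
  have hXT' : ∀ g, (repMat ρ g).map conj * T.map conj = T.map conj * repMat ρ g := by
    intro g
    rw [← Matrix.map_mul, hXT, Matrix.map_mul, hcc]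
  have hc := schur_mat ρ (T * T.map conj) fun g => by
    rw [Matrix.mul_assoc, ← hXT', ← Matrix.mul_assoc, ← hXT, Matrix.mul_assoc]
  set c := (T * T.map conj).trace / n
  have hc' : T.map conj * T = conj c • (1 : Matrix (Fin n) (Fin n) ℂ) := by
    have h2 := congrArg (fun A : Matrix (Fin n) (Fin n) ℂ => A.map conj) hc
    simp only [Matrix.map_mul, hcc] at h2
    rw [h2]
    ext i j
    by_cases h : i = j <;> simp [h, Matrix.one_apply]
  have hT0 : T ≠ 0 := by
    rintro rfl
    rw [Matrix.mul_zero] at hT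
    exact hM0 (by rw [← hcc M, ← hT]; ext; simp)
  have h2 : Tᴴ * H = H.map conj * T.map conj := by
    rw [← Matrix.map_mul, hT, hcc, ← hHh, ← Matrix.conjTranspose_mul, hT]
    ext i j
    simpa using congrFun (congrFun hMt i) j
  obtain ⟨r, hr, hr'⟩ := exists_pos_trace_sum ρ hT0
  have hn : 0 < n := by simpa using rep_finrank_pos ρ
  have : Nonempty (Fin n) := ⟨⟨0, hn⟩⟩
  obtain ⟨s, hs, hs'⟩ := exists_pos_trace_sum ρ (T := 1) one_ne_zero
  rw [← hH] at hr' hs'
  rw [h2, Matrix.mul_assoc, hc', Matrix.mul_smul, Matrix.mul_one, Matrix.trace_smul] at hr'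
  rw [Matrix.conjTranspose_one, Matrix.one_mul, Matrix.mul_one] at hs'
  have h3 : (H.map conj).trace = s := by
    rw [← AddMonoidHom.map_trace, hs', Complex.conj_ofReal]
  rw [h3, smul_eq_mul] at hr'
  have h4 : c = ((r / s : ℝ) : ℂ) := by
    have h5 : conj c = ((r / s : ℝ) : ℂ) := by
      push_cast
      rw [eq_div_iff (by exact_mod_cast hs.ne'), hr']
    rw [← Complex.conj_conj c, h5, Complex.conj_ofReal]
  set a : ℝ := (Real.sqrt (r / s))⁻¹
  have ha : (a : ℂ) * a * c = 1 := by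
    rw [h4, ← Complex.ofReal_mul, ← Complex.ofReal_mul, ← mul_inv,
      Real.mul_self_sqrt (div_pos hr hs).le, inv_mul_cancel₀ (div_pos hr hs).ne', Complex.ofReal_one]
  have h5 : ((a : ℂ) • T).map conj = (a : ℂ) • T.map conj := by ext; simp
  refine ⟨(a : ℂ) • T, ?_, fun g => ?_⟩
  · rw [h5, Matrix.smul_mul, Matrix.mul_smul, hc, smul_smul, smul_smul, ha, one_smul]
  · rw [Matrix.mul_smul, Matrix.smul_mul, hXT]

/-- an irreducible character of indicator `1` is afforded by a real representation -/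
theorem isFChar_real_of_fsInd {χ : G → ℂ} (hχ : IsIrrCharacter G χ) (h1 : fsInd χ = 1) :
    IsFChar ℝ G χ := by
  obtain ⟨n, ρ, hρ, rfl⟩ := hχ
  obtain ⟨T, hT, hXT⟩ := exists_conj_intertwiner ρ h1
  obtain ⟨S, hS, hTS⟩ := exists_isUnit_mul_map_conj hT
  set Y : G → Matrix (Fin n) (Fin n) ℂ := fun g => hS.unit⁻¹.val * repMat ρ g * S with hY
  have hSY : ∀ g, S * Y g = repMat ρ g * S := fun g => by
    simp only [hY]
    rw [← Matrix.mul_assoc, ← Matrix.mul_assoc, hS.mul_val_inv, Matrix.one_mul]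
  have hreal : ∀ g, (Y g).map conj = Y g := by
    intro g
    refine hS.mul_left_cancel ?_
    rw [hSY]
    nth_rewrite 1 [← hTS]
    rw [Matrix.mul_assoc, ← Matrix.map_mul, hSY, Matrix.map_mul, ← Matrix.mul_assoc, ← hXT,
      Matrix.mul_assoc, hTS]
  have hre : ∀ g, ((Y g).map Complex.re).map (algebraMap ℝ ℂ) = Y g := by
    intro g
    ext i j
    exact Complex.conj_eq_iff_re.1 (congrFun (congrFun (hreal g) i) j)
  have hinj : Function.Injective fun A : Matrix (Fin n) (Fin n) ℝ => A.map (algebraMap ℝ ℂ) :=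
    Matrix.map_injective (algebraMap ℝ ℂ).injective
  have hY1 : Y 1 = 1 := by
    simp only [hY]
    rw [repMat_one, Matrix.mul_one, hS.val_inv_mul]
  have hYm : ∀ g h, Y (g * h) = Y g * Y h := fun g h => hS.mul_left_cancel (by
    rw [hSY, ← Matrix.mul_assoc, hSY, Matrix.mul_assoc, hSY, repMat_mul, Matrix.mul_assoc])
  refine ⟨n, { toFun := fun g => Matrix.toLin' ((Y g).map Complex.re)
               map_one' := ?_
               map_mul' := fun g h => ?_ }, funext fun g => ?_⟩
  · have : (Y 1).map Complex.re = 1 := hinj (by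
      simp only [hre]
      rw [hY1]
      exact (Matrix.map_one _ (map_zero _) (map_one _)).symm)
    rw [this, Matrix.toLin'_one]; rfl
  · have : (Y (g * h)).map Complex.re = (Y g).map Complex.re * (Y h).map Complex.re := hinj (by
      simp only [Matrix.map_mul, hre]
      exact hYm g h)
    rw [this, Matrix.toLin'_mul]; rfl
  · change algebraMap ℝ ℂ (LinearMap.trace ℝ _ (Matrix.toLin' ((Y g).map Complex.re))) = _
    rw [Matrix.trace_toLin'_eq, AddMonoidHom.map_trace, hre, ← trace_repMat]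
    simp only [hY]
    rw [Matrix.trace_mul_comm, ← Matrix.mul_assoc, hS.mul_val_inv, Matrix.one_mul]

theorem fsInd_of_isFChar_real {χ : G → ℂ} (hχ : IsIrrCharacter G χ) (h : IsFChar ℝ G χ) :
    fsInd χ = 1 := by
  obtain ⟨n, σ, rfl⟩ := h
  have he : (complexify σ).character = fun g => algebraMap ℝ ℂ (σ.character g) :=
    funext (character_complexify σ)
  have hirr := isIrreducible_of_character (complexify σ) (he ▸ hχ)
  have hn : 0 < n := by simpa using rep_finrank_pos (complexify σ)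
  have : Nonempty (Fin n) := ⟨⟨0, hn⟩⟩
  have h1 := transpose_eq_of_inv (complexify σ) (inv_sum (complexify σ) 1)
  have h2 : ∀ g, (repMat (complexify σ) g)ᴴ = (repMat (complexify σ) g)ᵀ := by
    intro g
    rw [repMat, toMatrix'_complexify]
    ext i j
    simp
  obtain ⟨s, hs, hs'⟩ := exists_pos_trace_sum (complexify σ) (T := 1) one_ne_zero
  simp only [Matrix.conjTranspose_one, Matrix.one_mul, Matrix.mul_one, h2] at hs' h1
  have h3 := congrArg Matrix.trace h1
  rw [Matrix.trace_transpose, Matrix.trace_smul, hs', he, smul_eq_mul] at h3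
  exact mul_right_cancel₀ (by exact_mod_cast hs.ne' : (s : ℂ) ≠ 0) (by rw [← h3, one_mul])

theorem fsInd_eq_one_iff {χ : G → ℂ} (hχ : IsIrrCharacter G χ) : fsInd χ = 1 ↔ IsFChar ℝ G χ :=
  ⟨isFChar_real_of_fsInd hχ, fsInd_of_isFChar_real hχ⟩

end CL.Blk
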