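import Mathlib
import Cfsg.Agent.SOLV.MinNormal

/-!
Average size of fixed point groups: a finite solvable group acting irreducibly and nontrivially
on a finite abelian `q`-group fixes on average at most the square root.
-/

open Subgroup
open scoped Pointwise

namespace CL.Blk

/-- `p`-adic valuation of the order of a subgroup. -/
noncomputable def vp {W : Type*} [Group W] (p : ℕ) (S : Subgroup W) : ℕ :=
  (Nat.card S).factorization p

section vp
variable {W : Type*} [Group W] [Finite W] (p : ℕ)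

theorem vp_mono {S T : Subgroup W} (h : S ≤ T) : vp p S ≤ vp p T := by
  unfold vp
  exact (Nat.factorization_le_iff_dvd Nat.card_pos.ne' Nat.card_pos.ne').2
    (Subgroup.card_dvd_of_le h) p

theorem vp_eq_inf_ker_add_map {W' : Type*} [Group W'] (f : W →* W') (S : Subgroup W) :
    vp p S = vp p (S ⊓ f.ker) + vp p (S.map f) := by
  unfold vp
  have h1 : Nat.card S = Nat.card ↥(S ⊓ f.ker) * Nat.card (S.map f) := by
    have e1 := Subgroup.card_eq_card_quotient_mul_card_subgroup (f.domRestrict S).ker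
    have e2 : Nat.card (S ⧸ (f.domRestrict S).ker) = Nat.card (S.map f) := by
      rw [Nat.card_congr (QuotientGroup.quotientKerEquivRange (f.domRestrict S)).toEquiv,
        MonoidHom.domRestrict_range]
    have e3 : Nat.card (f.domRestrict S).ker = Nat.card ↥(S ⊓ f.ker) := by
      rw [MonoidHom.ker_domRestrict, inf_comm, ← Subgroup.inf_subgroupOf_right]
      exact Nat.card_congr (Subgroup.subgroupOfEquivOfLe inf_le_right).toEquiv
    rw [e1, e2, e3, mul_comm]
  have : Finite (S.map f) := Finite.of_surjective _ (f.subgroupMap_surjective S)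
  rw [h1, Nat.factorization_mul Nat.card_pos.ne' Nat.card_pos.ne']
  rfl

omit [Finite W] in
theorem vp_bot : vp p (⊥ : Subgroup W) = 0 := by
  simp [vp]

end vp

section comm
variable {W : Type*} [CommGroup W] [Finite W] (p : ℕ)

theorem vp_add_le_of_disjoint {S T U : Subgroup W} (hS : S ≤ U) (hT : T ≤ U) (h : S ⊓ T = ⊥) :
    vp p S + vp p T ≤ vp p U := by
  unfold vp
  let f : S × T →* U := MonoidHom.coprod (Subgroup.inclusion hS) (Subgroup.inclusion hT)
  have hf : Function.Injective f := by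
    rw [injective_iff_map_eq_one]
    rintro ⟨s, t⟩ hst
    have h1 : (s : W) * t = 1 := congrArg Subtype.val hst
    have h2 : (s : W) ∈ S ⊓ T := ⟨s.2, by
      rw [eq_inv_of_mul_eq_one_left h1]; exact T.inv_mem t.2⟩
    rw [h, Subgroup.mem_bot] at h2
    rw [h2, one_mul] at h1
    ext <;> simp [h1, h2]
  have h2 := Subgroup.card_dvd_of_injective f hf
  rw [Nat.card_prod] at h2
  have h3 := (Nat.factorization_le_iff_dvd (mul_ne_zero Nat.card_pos.ne' Nat.card_pos.ne')
    Nat.card_pos.ne').2 h2 p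
  rwa [Nat.factorization_mul Nat.card_pos.ne' Nat.card_pos.ne'] at h3

end comm

section action
variable {Γ W : Type*} [Group Γ] [CommGroup W] [MulDistribMulAction Γ W]

/-- Fixed points of one element. -/
def fixEl (W : Type*) [CommGroup W] [MulDistribMulAction Γ W] (g : Γ) : Subgroup W where
  carrier := {w | g • w = w}
  one_mem' := smul_one g
  mul_mem' := fun {a b} ha hb => by
    simp only [Set.mem_ofPred_eq] at *
    rw [smul_mul', ha, hb]
  inv_mem' := fun {a} ha => by
    simp only [Set.mem_ofPred_eq] at *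
    rw [smul_inv', ha]

theorem mem_fixEl {g : Γ} {w : W} : w ∈ fixEl W g ↔ g • w = w := Iff.rfl

/-- Fixed points of a subgroup. -/
def fixSub (W : Type*) [CommGroup W] [MulDistribMulAction Γ W] (B : Subgroup Γ) : Subgroup W where
  carrier := {w | ∀ b ∈ B, b • w = w}
  one_mem' := fun b _ => smul_one b
  mul_mem' := fun {a c} ha hc b hb => by rw [smul_mul', ha b hb, hc b hb]
  inv_mem' := fun {a} ha b hb => by rw [smul_inv', ha b hb]

theorem mem_fixSub {B : Subgroup Γ} {w : W} : w ∈ fixSub W B ↔ ∀ b ∈ B, b • w = w := Iff.rfl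

/-- The norm map of a finite subgroup. -/
noncomputable def normB (W : Type*) [CommGroup W] [MulDistribMulAction Γ W] (B : Subgroup Γ)
    [Fintype B] : W →* W where
  toFun w := ∏ b : B, (b : Γ) • w
  map_one' := by simp
  map_mul' a c := by simp [smul_mul', Finset.prod_mul_distrib]

theorem normB_apply (B : Subgroup Γ) [Fintype B] (w : W) :
    normB W B w = ∏ b : B, (b : Γ) • w := rfl

theorem normB_of_fix (B : Subgroup Γ) [Fintype B] {w : W} (hw : w ∈ fixSub W B) :
    normB W B w = w ^ Nat.card B := by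
  rw [normB_apply, Finset.prod_congr rfl (fun (b : B) _ => hw b b.2), Finset.prod_const,
    Finset.card_univ, Nat.card_eq_fintype_card]

theorem normB_mem_fix (B : Subgroup Γ) [Fintype B] (w : W) : normB W B w ∈ fixSub W B := by
  intro c hc
  rw [normB_apply, Finset.smul_prod']
  refine Fintype.prod_equiv (Equiv.mulLeft (⟨c, hc⟩ : B)) _ _ (fun b => ?_)
  simp [mul_smul]

theorem normB_smul (B : Subgroup Γ) [Fintype B] {g : Γ} (hg : g ∈ normalizer (B : Set Γ))
    (w : W) : normB W B (g • w) = g • normB W B w := by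
  rw [normB_apply, normB_apply, Finset.smul_prod']
  symm
  let e : B ≃ B :=
    { toFun := fun b => ⟨g * b * g⁻¹, (mem_normalizer_iff.1 hg b).1 b.2⟩
      invFun := fun b => ⟨g⁻¹ * b * g, by
        have := (mem_normalizer_iff.1 hg (g⁻¹ * b * g)).2 (by simp [mul_assoc])
        exact this⟩
      left_inv := fun b => Subtype.ext (by simp [mul_assoc])
      right_inv := fun b => Subtype.ext (by simp [mul_assoc]) }
  refine Fintype.prod_equiv e _ _ (fun b => ?_)
  simp [e, ← mul_smul]

theorem normB_mem {U : Subgroup W} (B : Subgroup Γ) [Fintype B]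
    (hU : ∀ b ∈ B, ∀ w ∈ U, b • w ∈ U) {w : W} (hw : w ∈ U) : normB W B w ∈ U := by
  rw [normB_apply]
  exact U.prod_mem fun b _ => hU b b.2 w hw

theorem coset_bound [Finite Γ] [Finite W] (p : ℕ) (A : Subgroup Γ) [hA : A.Normal] [Fintype A]
    (hcomm : ∀ a ∈ A, ∀ b ∈ A, a * b = b * a)
    (hcop : (Nat.card A).Coprime (Nat.card W)) (hfix : fixSub W A = ⊥) (x : Γ) :
    ∀ U : Subgroup W, (∀ h ∈ A ⊔ zpowers x, ∀ w ∈ U, h • w ∈ U) →
      2 * ∑ a : A, vp p (U ⊓ fixEl W (x * a)) ≤ Nat.card A * vp p U := by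
  classical
  intro U
  induction U using WellFoundedLT.induction with
  | ind U ih => ?_
  intro hU
  by_cases hU0 : U = ⊥
  · subst hU0
    simp [vp_bot]
  obtain ⟨B, ⟨hBA, hBU⟩, hmax⟩ := (wellFounded_gt (α := Subgroup Γ)).has_min
    {B | B ≤ A ∧ U ⊓ fixSub W B ≠ ⊥} ⟨⊥, bot_le, by
      have : fixSub W (⊥ : Subgroup Γ) = ⊤ := by
        rw [eq_top_iff]; intro w _ b hb; rw [Subgroup.mem_bot.1 hb, one_smul]
      rw [this, inf_top_eq]; exact hU0⟩
  have : Fintype B := Fintype.ofFinite B
  -- maximality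
  have hM : ∀ c ∈ A, c ∉ B → ∀ w ∈ U, w ∈ fixSub W B → c • w = w → w = 1 := by
    intro c hc hcB w hw hwB hcw
    by_contra hne
    refine hmax (B ⊔ zpowers c) ⟨sup_le hBA (zpowers_le.2 hc), ?_⟩ ?_
    · intro h0
      have : w ∈ U ⊓ fixSub W (B ⊔ zpowers c) := by
        refine ⟨hw, ?_⟩
        have : B ⊔ zpowers c ≤ MulAction.stabilizer Γ w :=
          sup_le (fun b hb => hwB b hb) (zpowers_le.2 hcw)
        exact fun b hb => this hb
      rw [h0] at this
      exact hne this
    · exact lt_of_le_of_ne le_sup_left fun h => hcB (h ▸ (le_sup_right : zpowers c ≤ _)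
        (mem_zpowers c))
  have hpow : ∀ w : W, w ^ Nat.card B = 1 → w = 1 := by
    intro w hw
    have h1 : orderOf w ∣ Nat.card B := orderOf_dvd_of_pow_eq_one hw
    have h2 : orderOf w ∣ Nat.card W := orderOf_dvd_natCard w
    have h3 : (Nat.card B).Coprime (Nat.card W) :=
      Nat.Coprime.coprime_dvd_left (Subgroup.card_dvd_of_le hBA) hcop
    exact orderOf_eq_one_iff.1 (Nat.eq_one_of_dvd_coprimes h3 h1 h2)
  have hAnB : ∀ a ∈ A, a ∈ normalizer (B : Set Γ) := by
    intro a ha
    rw [mem_normalizer_iff]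
    intro b
    constructor
    · intro hb; rw [hcomm a ha b (hBA hb)]; simpa using hb
    · intro hb
      have h1 : b ∈ A := by
        have := hA.conj_mem _ (hBA hb) a⁻¹
        simpa [mul_assoc] using this
      rw [hcomm a ha b h1] at hb; simpa using hb
  have hxH : x ∈ A ⊔ zpowers x := (le_sup_right : zpowers x ≤ _) (mem_zpowers x)
  have hUA : ∀ a ∈ A, ∀ w ∈ U, a • w ∈ U := fun a ha => hU a ((le_sup_left : A ≤ _) ha)
  have hUB : ∀ a ∈ B, ∀ w ∈ U, a • w ∈ U := fun a ha => hUA a (hBA ha)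
  let Y : Subgroup W :=
    { carrier := {w | w ∈ U ∧ ∀ h ∈ A ⊔ zpowers x, normB W B (h • w) = 1}
      one_mem' := ⟨U.one_mem, fun h _ => by simp⟩
      mul_mem' := fun {a c} ha hc => ⟨U.mul_mem ha.1 hc.1, fun h hh => by
        rw [smul_mul', map_mul, ha.2 h hh, hc.2 h hh, one_mul]⟩
      inv_mem' := fun {a} ha => ⟨U.inv_mem ha.1, fun h hh => by
        rw [smul_inv', map_inv, ha.2 h hh, inv_one]⟩ }
  have hYU : Y ≤ U := fun w hw => hw.1
  have hYinv : ∀ h ∈ A ⊔ zpowers x, ∀ w ∈ Y, h • w ∈ Y := fun h hh w hw =>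
    ⟨hU h hh w hw.1, fun h' hh' => by
      rw [← mul_smul]; exact hw.2 _ (Subgroup.mul_mem _ hh' hh)⟩
  set U0 := U ⊓ fixSub W B with hU0def
  have hU0Y : ∀ w ∈ U0, w ∈ Y → w = 1 := by
    intro w hw hwY
    have := hwY.2 1 (Subgroup.one_mem _)
    rw [one_smul, normB_of_fix B hw.2] at this
    exact hpow w this
  have hYlt : Y < U := by
    refine lt_of_le_of_ne hYU fun h => hBU ?_
    rw [eq_bot_iff]
    intro w hw
    exact hU0Y w hw (h ▸ hw.1)
  have hIH := ih Y hYlt hYinv
  -- splitting of each term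
  have hsplit : ∀ a : A, vp p (U ⊓ fixEl W (x * a)) ≤
      vp p (Y ⊓ fixEl W (x * a)) + vp p ((U ⊓ fixEl W (x * a)).map (normB W B)) := by
    intro a
    rw [vp_eq_inf_ker_add_map p (normB W B) (U ⊓ fixEl W (x * a))]
    refine Nat.add_le_add_right (vp_mono p ?_) _
    rintro w ⟨⟨hwU, hwg⟩, hwk⟩
    refine ⟨⟨hwU, fun h hh => ?_⟩, hwg⟩
    have h1 : A ⊔ zpowers x ≤ A ⊔ MulAction.stabilizer Γ w := by
      refine sup_le le_sup_left (zpowers_le.2 ?_)
      have : x = (x * a) * (a : Γ)⁻¹ := by simp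
      rw [this]
      exact Subgroup.mul_mem _ ((le_sup_right : MulAction.stabilizer Γ w ≤ _) hwg)
        ((le_sup_left : A ≤ _) (A.inv_mem a.2))
    have h2 : h ∈ (A : Set Γ) * (MulAction.stabilizer Γ w : Set Γ) := by
      rw [← Subgroup.normal_mul]; exact h1 hh
    obtain ⟨a', ha', s, hs, rfl⟩ := h2
    have hs' : s • w = w := hs
    have hk : normB W B w = 1 := hwk
    show normB W B ((a' * s) • w) = 1
    rw [mul_smul, hs', normB_smul B (hAnB a' ha'), hk, smul_one]
  have hmapU0 : ∀ a : A, (U ⊓ fixEl W (x * a)).map (normB W B) ≤ U0 := by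
    rintro a _ ⟨w, hw, rfl⟩
    exact ⟨normB_mem B hUB hw.1, normB_mem_fix B w⟩
  have hsum : ∑ a : A, vp p (U ⊓ fixEl W (x * a)) ≤ ∑ a : A, vp p (Y ⊓ fixEl W (x * a)) +
      ∑ a : A, vp p ((U ⊓ fixEl W (x * a)).map (normB W B)) := by
    rw [← Finset.sum_add_distrib]
    exact Finset.sum_le_sum fun a _ => hsplit a
  by_cases hxB : x ∈ normalizer (B : Set Γ)
  · -- invariant case
    have hBne : B ≠ A := by
      rintro rfl
      exact hBU (by rw [hU0def, hfix, inf_bot_eq])
    obtain ⟨c, hcA, hcB⟩ := SetLike.exists_of_lt (lt_of_le_of_ne hBA hBne)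
    have h1 : ∀ a : A, vp p ((U ⊓ fixEl W (x * a)).map (normB W B)) ≤
        vp p (U0 ⊓ fixEl W (x * a)) := by
      intro a
      refine vp_mono p (le_inf (hmapU0 a) ?_)
      rintro _ ⟨w, hw, rfl⟩
      rw [mem_fixEl, ← normB_smul B (Subgroup.mul_mem _ hxB (hAnB a a.2))]
      have : (x * a) • w = w := hw.2
      rw [this]
    have h2 : ∀ a : A, vp p (U0 ⊓ fixEl W (x * a)) +
        vp p (U0 ⊓ fixEl W (x * (a * ⟨c, hcA⟩ : A))) ≤ vp p U0 := by
      intro a
      refine vp_add_le_of_disjoint p inf_le_left inf_le_left ?_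
      rw [eq_bot_iff]
      rintro w ⟨⟨hw, h3⟩, ⟨-, h4⟩⟩
      have h3' : (x * a) • w = w := h3
      have h4' : (x * (a * c)) • w = w := h4
      refine hM c hcA hcB w hw.1 hw.2 ?_
      rw [← mul_assoc, mul_smul] at h4'
      exact smul_left_cancel (x * a) (h4'.trans h3'.symm)
    have h3 : ∑ a : A, vp p (U0 ⊓ fixEl W (x * (a * ⟨c, hcA⟩ : A))) =
        ∑ a : A, vp p (U0 ⊓ fixEl W (x * a)) :=
      Fintype.sum_equiv (Equiv.mulRight (⟨c, hcA⟩ : A)) _ _ (fun a => rfl)
    have h4 : 2 * ∑ a : A, vp p (U0 ⊓ fixEl W (x * a)) ≤ Nat.card A * vp p U0 := by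
      have := Finset.sum_le_sum fun a (_ : a ∈ (Finset.univ : Finset A)) => h2 a
      rw [Finset.sum_add_distrib, h3, Finset.sum_const, Finset.card_univ, smul_eq_mul,
        ← Nat.card_eq_fintype_card] at this
      omega
    have h5 : vp p Y + vp p U0 ≤ vp p U := by
      refine vp_add_le_of_disjoint p hYU inf_le_left ?_
      rw [eq_bot_iff]
      rintro w ⟨h6, h7⟩
      exact hU0Y w h7 h6
    have h6 := Finset.sum_le_sum fun a (_ : a ∈ (Finset.univ : Finset A)) => h1 a
    have h7 := Nat.mul_le_mul_left (Nat.card A) h5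
    rw [mul_add] at h7
    omega
  · -- moving case
    have hx' : ∃ b ∈ B, x * b * x⁻¹ ∉ B := by
      by_contra hcon
      push Not at hcon
      exact hxB (Subgroup.mem_normalizer_fintype hcon)
    obtain ⟨b, hbB, hxb⟩ := hx'
    let U1 := U0.map (MulDistribMulAction.toMonoidHom W x)
    have hU1 : vp p U1 = vp p U0 := by
      unfold vp
      rw [Subgroup.card_map_of_injective (MulAction.injective x)]
    have hU1U : U1 ≤ U := by
      rintro _ ⟨w, hw, rfl⟩
      exact hU x hxH w hw.1
    have hU1fix : ∀ w ∈ U1, (x * b * x⁻¹) • w = w := by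
      rintro _ ⟨w, hw, rfl⟩
      show (x * b * x⁻¹) • x • w = x • w
      rw [← mul_smul, inv_mul_cancel_right, mul_smul, hw.2 b hbB]
    have hcA : x * b * x⁻¹ ∈ A := hA.conj_mem b (hBA hbB) x
    have h01 : U0 ⊓ U1 = ⊥ := by
      rw [eq_bot_iff]
      rintro w ⟨h1, h2⟩
      exact hM _ hcA hxb w h1.1 h1.2 (hU1fix w h2)
    have hY01 : Y ⊓ (U0 ⊔ U1) = ⊥ := by
      rw [eq_bot_iff]
      rintro w ⟨h1, h2⟩
      obtain ⟨u0, hu0, u1, hu1, rfl⟩ := Subgroup.mem_sup.1 h2
      have h3 : normB W B u1 = 1 := by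
        refine hM _ hcA hxb _ (normB_mem B hUB (hU1U hu1)) (normB_mem_fix B _) ?_
        rw [← normB_smul B (hAnB _ hcA), hU1fix u1 hu1]
      have h4 := h1.2 1 (Subgroup.one_mem _)
      rw [one_smul, map_mul, h3, mul_one, normB_of_fix B hu0.2] at h4
      have h5 := hpow u0 h4
      subst h5
      rw [one_mul] at h1 ⊢
      obtain ⟨w, hw, rfl⟩ := hu1
      have h6 := hYinv x⁻¹ (Subgroup.inv_mem _ hxH) _ h1
      have h7 : x⁻¹ • (MulDistribMulAction.toMonoidHom W x) w = w := by
        show x⁻¹ • x • w = w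
        rw [inv_smul_smul]
      rw [h7] at h6
      rw [hU0Y w hw h6, map_one]
      exact Subgroup.one_mem _
    have h5 := vp_add_le_of_disjoint p (le_sup_left : U0 ≤ U0 ⊔ U1) le_sup_right h01
    have h6 : vp p Y + vp p (U0 ⊔ U1) ≤ vp p U :=
      vp_add_le_of_disjoint p hYU (sup_le inf_le_left hU1U) hY01
    have h7 := Finset.sum_le_sum fun a (_ : a ∈ (Finset.univ : Finset A)) =>
      vp_mono p (hmapU0 a)
    rw [Finset.sum_const, Finset.card_univ, smul_eq_mul, ← Nat.card_eq_fintype_card] at h7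
    have h8 : vp p Y + 2 * vp p U0 ≤ vp p U := by omega
    have h9 := Nat.mul_le_mul_left (Nat.card A) h8
    rw [mul_add, ← mul_assoc, mul_comm _ 2, mul_assoc] at h9
    omega

end action

theorem avg_bound {G W : Type*} [Group G] [Fintype G] [Group.IsSolvable G] [CommGroup W]
    [Finite W] (φ : G →* MulAut W) {q : ℕ} (hq : q.Prime) (hW : IsPGroup q W)
    (hirr : ∀ U : Subgroup W, (∀ g, ∀ w ∈ U, φ g w ∈ U) → U = ⊥ ∨ U = ⊤)
    (hne : ∃ g, φ g ≠ 1) (p : ℕ) :
    2 * ∑ g : G, vp p (fixEl W (φ g)) ≤ Nat.card G * vp p (⊤ : Subgroup W) := by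
  classical
  have : Fact q.Prime := ⟨hq⟩
  have hsurj := φ.rangeRestrict_surjective
  have : Finite φ.range := Finite.of_surjective _ hsurj
  have : Group.IsSolvable φ.range := Group.isSolvable_of_surjective hsurj
  obtain ⟨g0, hg0⟩ := hne
  have : Nontrivial φ.range := ⟨⟨φ.rangeRestrict g0, 1, fun h => hg0 (congrArg Subtype.val h)⟩⟩
  obtain ⟨A, hA⟩ := exists_isMinNormal φ.range
  have := hA.normal
  have : Fintype A := Fintype.ofFinite A
  have hAc := hA.isMulCommutative_of_isSolvable inferInstance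
  obtain ⟨r, hr, hAr⟩ := hA.exists_isPGroup_of_isSolvable inferInstance
  have hcomm : ∀ a ∈ A, ∀ b ∈ A, a * b = b * a := fun a ha b hb =>
    congrArg Subtype.val (hAc.is_comm.comm (⟨a, ha⟩ : A) ⟨b, hb⟩)
  have hfix : fixSub W A = ⊥ := by
    rcases hirr (fixSub W A) (fun g w hw a ha => by
      have h1 := hw _ (hA.normal.conj_mem a ha (φ.rangeRestrict g)⁻¹)
      have h2 : φ g w = (φ.rangeRestrict g) • w := rfl
      rw [h2, ← mul_smul]
      conv_rhs => rw [← h1, ← mul_smul]
      congr 1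
      group) with h | h
    · exact h
    · exfalso
      apply hA.ne_bot
      rw [eq_bot_iff]
      intro a ha
      rw [Subgroup.mem_bot]
      ext w
      have : w ∈ fixSub W A := h ▸ Subgroup.mem_top w
      exact this a ha
  have hWnt : Nontrivial W := by
    by_contra h
    rw [not_nontrivial_iff_subsingleton] at h
    exact hg0 (by ext w; exact Subsingleton.elim _ _)
  have hcop : (Nat.card A).Coprime (Nat.card W) := by
    have : Fact r.Prime := ⟨hr⟩
    by_cases hrq : r = q
    · subst hrq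
      exfalso
      have h1 : r ∣ Nat.card W := by
        obtain ⟨n, hn, h⟩ := hW.nontrivial_iff_card.1 hWnt
        rw [h]; exact dvd_pow_self _ hn.ne'
      obtain ⟨w, hw, hw1⟩ := hAr.exists_fixed_point_of_prime_dvd_card_of_fixed_point W h1
        (a := 1) (fun a => smul_one a)
      have : w ∈ fixSub W A := fun a ha => hw ⟨a, ha⟩
      rw [hfix] at this
      exact hw1 (Subgroup.mem_bot.1 this).symm
    · obtain ⟨n, hn⟩ := hAr.exists_card_eq
      obtain ⟨m, hm⟩ := hW.exists_card_eq
      rw [hn, hm]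
      exact Nat.Coprime.pow _ _ ((Nat.coprime_primes hr hq).2 hrq)
  have h1 : ∀ x : G, 2 * ∑ a : A, vp p (fixEl W (φ.rangeRestrict x * a)) ≤
      Nat.card A * vp p (⊤ : Subgroup W) := by
    intro x
    have := coset_bound p A hcomm hcop hfix (φ.rangeRestrict x) ⊤
      (fun _ _ _ _ => Subgroup.mem_top _)
    simpa only [top_inf_eq] using this
  have h2 := Finset.sum_le_sum fun x (_ : x ∈ (Finset.univ : Finset G)) => h1 x
  rw [← Finset.mul_sum, Finset.sum_comm, Finset.sum_const, Finset.card_univ, smul_eq_mul,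
    ← Nat.card_eq_fintype_card] at h2
  have h3 : ∀ a : A, ∑ x : G, vp p (fixEl W (φ.rangeRestrict x * a)) =
      ∑ g : G, vp p (fixEl W (φ g)) := by
    intro a
    obtain ⟨y, hy⟩ := hsurj a
    refine Fintype.sum_equiv (Equiv.mulRight y) _ _ (fun x => ?_)
    rw [← hy, ← map_mul]
    rfl
  rw [Finset.sum_congr rfl fun a _ => h3 a, Finset.sum_const, Finset.card_univ, smul_eq_mul,
    ← Nat.card_eq_fintype_card] at h2
  have h4 : 0 < Nat.card A := Nat.card_pos
  refine Nat.le_of_mul_le_mul_left ?_ h4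
  calc Nat.card A * (2 * ∑ g : G, vp p (fixEl W (φ g)))
      = 2 * (Nat.card A * ∑ g : G, vp p (fixEl W (φ g))) := by ring
    _ ≤ _ := h2
    _ = _ := by ring

/-- One chief factor `K/L` of a solvable group: a function measuring how much of it is moved. -/
theorem exists_chief_fun {G : Type*} [Group G] [Fintype G] [Group.IsSolvable G] {p : ℕ}
    (hp : p.Prime) {F R : Subgroup G} [F.Normal] [R.Normal] (hF : Group.IsNilpotent F)
    (hR : ∀ r ∈ R, ∃ k : ℕ, r ^ p ^ k ∈ F) {K L : Subgroup G} [K.Normal] [L.Normal] (hLK : L < K)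
    (hchief : ∀ M : Subgroup G, M.Normal → L ≤ M → M ≤ K → M = L ∨ M = K) {e : ℕ}
    (he : e = 1 ∨ e ^ 2 = L.relIndex K) :
    ∃ b : G → ℕ, (∀ g, ∀ r ∈ R, b (g * r) = b g) ∧
      (∀ g, b g + vp p (K ⊓ centralizer {g}) + vp p L ≤ vp p K + vp p (L ⊓ centralizer {g})) ∧
      Nat.card G * e.factorization p ≤ ∑ g, b g := by
  classical
  have : Fact p.Prime := ⟨hp⟩
  let π := QuotientGroup.mk' L
  let V := K.map π
  have hV : IsMinNormal V := isMinNormal_map_mk'_of_chief hLK hchief
  have := hV.normal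
  have hVc := hV.isMulCommutative_of_isSolvable inferInstance
  obtain ⟨q, hq, hVq⟩ := hV.exists_isPGroup_of_isSolvable inferInstance
  let _ : CommGroup V := { (inferInstance : Group V) with mul_comm := hVc.is_comm.comm }
  let φ : G →* MulAut V := (MulAut.conjNormal (H := V)).comp π
  have hφ : ∀ (g : G) (v : V), ((φ g v : V) : G ⧸ L) = π g * v * (π g)⁻¹ := fun g v => rfl
  have hK : vp p K = vp p L + vp p (⊤ : Subgroup V) := by
    rw [vp_eq_inf_ker_add_map p π K, QuotientGroup.ker_mk', inf_eq_right.2 hLK.le]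
    congr 1
    unfold vp
    rw [Subgroup.card_top]
  have hcardV : Nat.card V = L.relIndex K := by
    rw [← Subgroup.relIndex_bot_left, ← Subgroup.relIndex_comap, MonoidHom.comap_bot,
      QuotientGroup.ker_mk']
  have hC : ∀ g, vp p (K ⊓ centralizer {g}) ≤
      vp p (L ⊓ centralizer {g}) + vp p (fixEl V (φ g)) := by
    intro g
    rw [vp_eq_inf_ker_add_map p π (K ⊓ centralizer {g}), QuotientGroup.ker_mk']
    refine Nat.add_le_add (vp_mono p fun x hx => ⟨hx.2, hx.1.2⟩) ?_
    have h1 : vp p (fixEl V (φ g)) = vp p ((fixEl V (φ g)).map V.subtype) := by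
      unfold vp
      rw [Subgroup.card_map_of_injective V.subtype_injective]
    rw [h1]
    refine vp_mono p ?_
    rintro _ ⟨x, ⟨hxK, hxC⟩, rfl⟩
    refine ⟨⟨π x, x, hxK, rfl⟩, ?_, rfl⟩
    apply Subtype.ext
    show ((φ g ⟨π x, x, hxK, rfl⟩ : V) : G ⧸ L) = π x
    have h2 : g * x = x * g := mem_centralizer_iff.1 hxC g rfl
    rw [hφ, ← map_mul, h2, map_mul, mul_inv_cancel_right]
  by_cases hpe : p ∣ e
  · have he2 : e ^ 2 = Nat.card V := by
      rcases he with he | he
      · subst he; exact absurd (Nat.dvd_one.1 hpe) hp.ne_one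
      · rw [he, hcardV]
    have hqp : q = p := by
      obtain ⟨n, hn⟩ := (@IsPGroup.iff_card q V _ ⟨hq⟩ _).1 hVq
      have : p ∣ q ^ n := by rw [← hn, ← he2]; exact dvd_pow hpe two_ne_zero
      exact ((Nat.prime_dvd_prime_iff_eq hp hq).1 (hp.dvd_of_dvd_pow this)).symm
    subst hqp
    have hirr : ∀ U : Subgroup V, (∀ g, ∀ w ∈ U, φ g w ∈ U) → U = ⊥ ∨ U = ⊤ := by
      intro U hU
      have hn : (U.map V.subtype).Normal := ⟨by
        rintro _ ⟨w, hw, rfl⟩ g
        obtain ⟨g, rfl⟩ := QuotientGroup.mk'_surjective L g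
        exact ⟨φ g w, hU g w hw, rfl⟩⟩
      rcases hV.eq_bot_or_eq _ hn (map_subtype_le U) with h | h
      · left
        rwa [map_eq_bot_iff_of_injective _ V.subtype_injective] at h
      · right
        apply map_injective V.subtype_injective
        rw [h, ← MonoidHom.range_eq_map, range_subtype]
    have hne : ∃ g, φ g ≠ 1 := by
      by_contra hcon
      push Not at hcon
      have h1 : V ≤ center (G ⧸ L) := by
        intro v hv
        rw [mem_center_iff]
        intro g
        obtain ⟨g, rfl⟩ := QuotientGroup.mk'_surjective L g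
        have h2 := hφ g ⟨v, hv⟩
        rw [hcon g] at h2
        have h3 : v = π g * v * (π g)⁻¹ := h2
        exact mul_inv_eq_iff_eq_mul.1 h3.symm
      have h2 := hV.card_prime_of_le_center h1
      rw [← he2] at h2
      exact Nat.Prime.not_prime_pow (by norm_num) h2
    have hRφ : ∀ r ∈ R, φ r = 1 := by
      have hFφ : ∀ f ∈ F, φ f = 1 := by
        intro f hf
        have : (F.map π).Normal := Subgroup.Normal.map inferInstance π
          (QuotientGroup.mk'_surjective L)
        have h1 := hV.le_centralizer_of_isNilpotent (F := F.map π) (isNilpotent_map F π)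
          (mem_map_of_mem π hf)
        ext v
        rw [hφ, ← mem_centralizer_iff.1 h1 v v.2, mul_inv_cancel_right]
        rfl
      have hRq : IsPGroup q (R.map φ) := by
        rintro ⟨_, r, hr, rfl⟩
        obtain ⟨k, hk⟩ := hR r hr
        exact ⟨k, Subtype.ext (by
          show φ r ^ q ^ k = 1
          rw [← map_pow, hFφ _ hk])⟩
      have h1 : q ∣ Nat.card V := by rw [← he2]; exact dvd_pow hpe two_ne_zero
      obtain ⟨w, hw, hw1⟩ := hRq.exists_fixed_point_of_prime_dvd_card_of_fixed_point V h1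
        (a := 1) (fun a => smul_one a)
      rcases hirr (fixSub V (R.map φ)) (by
        rintro g w hw _ ⟨r, hr, rfl⟩
        have h2 := hw _ (mem_map_of_mem φ (Subgroup.Normal.conj_mem inferInstance r hr g⁻¹))
        show φ r (φ g w) = φ g w
        have h3 : φ (g⁻¹ * r * g⁻¹⁻¹) w = w := h2
        conv_rhs => rw [← h3]
        rw [← MulAut.mul_apply, ← MulAut.mul_apply, ← map_mul, ← map_mul]
        congr 2
        group) with h | h
      · have : w ∈ fixSub V (R.map φ) := fun a ha => hw ⟨a, ha⟩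
        rw [h] at this
        exact absurd (Subgroup.mem_bot.1 this).symm hw1
      · intro r hr
        ext v
        have : v ∈ fixSub V (R.map φ) := h ▸ Subgroup.mem_top v
        exact congrArg Subtype.val (this _ (mem_map_of_mem φ hr))
    have hle : ∀ g, vp q (fixEl V (φ g)) ≤ vp q (⊤ : Subgroup V) := fun g => vp_mono q le_top
    refine ⟨fun g => vp q (⊤ : Subgroup V) - vp q (fixEl V (φ g)), fun g r hr => ?_,
      fun g => ?_, ?_⟩
    · simp only [map_mul, hRφ r hr, mul_one]
    · have := hC g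
      have := hle g
      beta_reduce
      omega
    · have h1 := avg_bound φ hq hVq hirr hne q
      have h2 : vp q (⊤ : Subgroup V) = 2 * e.factorization q := by
        unfold vp
        rw [Subgroup.card_top, ← he2, Nat.factorization_pow]
        rfl
      have h3 : ∑ g, (vp q (⊤ : Subgroup V) - vp q (fixEl V (φ g))) +
          ∑ g, vp q (fixEl V (φ g)) = Nat.card G * vp q (⊤ : Subgroup V) := by
        rw [← Finset.sum_add_distrib, Finset.sum_congr rfl fun g _ => Nat.sub_add_cancel (hle g),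
          Finset.sum_const, Finset.card_univ, smul_eq_mul, Nat.card_eq_fintype_card]
      rw [h2] at h1 h3 ⊢
      have h4 : Nat.card G * (2 * e.factorization q) = 2 * (Nat.card G * e.factorization q) := by
        ring
      beta_reduce
      omega
  · refine ⟨fun _ => 0, fun _ _ _ => rfl, fun g => ?_, ?_⟩
    · have := hC g
      have := vp_mono p (le_top : fixEl V (φ g) ≤ ⊤)
      beta_reduce
      omega
    · rw [Nat.factorization_eq_zero_of_not_dvd hpe]; simp

end CL.Blk
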