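import Mathlib
import Cfsg.Agent.CHAR.FeitFrob
import Cfsg.Agent.CHAR.TIFN
import Cfsg.Agent.BLK.B0Pairs

/-! A Sylow subgroup with Frobenius normalizer quotient: the characters not killing a central
subgroup are coherent, and some non-principal character of the principal block is constant on
that subgroup. -/

set_option autoImplicit false

open Cfsg Subgroup CL.Char CL.Blk
open scoped ComplexConjugate

namespace CL.GlSz

section coh

variable {L : Type*} [Group L] [Fintype L] {K Z : Subgroup L} [K.Normal] [Z.Normal] {p : ℕ}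
  (hF : ∀ g, g ∉ K → ∀ k ∈ K, g * k = k * g → k = 1) (hp : p.Prime) (hK : IsPGroup p K)
  (hZK : Z ≤ K) (hZc : ∀ z ∈ Z, ∀ k ∈ K, z * k = k * z)
include hF hp hK hZK hZc

omit [Z.Normal] in
theorem exists_deg {χ : IrrCharacter L} (hχ : χ ∈ irrBetween Z ⊥) :
    ∃ k, charDegree χ.1 = K.index * p ^ k ∧ (p ^ k) ^ 2 ∣ Z.relIndex K := by
  have := Fact.mk hp
  obtain ⟨h1, h2⟩ := mem_irrBetween.1 hχ
  obtain ⟨θ, hθ, -, e⟩ := frob_exists_under hF (B := ⊥) (χ := χ)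
    (mem_irrBetween.2 ⟨h1, fun h => h2 fun k hk => h k (hZK hk)⟩)
  obtain ⟨n, hn⟩ := hK.exists_card_eq
  obtain ⟨k, -, hk⟩ := (Nat.dvd_prime_pow hp).1 (hn ▸ charDegree_dvd_card (⟨θ, hθ⟩ : IrrCharacter K))
  obtain ⟨m, -, hm⟩ := (Nat.dvd_prime_pow hp).1 (hn ▸ relIndex_dvd_card Z K)
  replace hk : charDegree θ = p ^ k := hk
  have h3 : charDegree θ ^ 2 ≤ Z.relIndex K := hθ.charDegree_sq_le_index fun z hz =>
    hθ.center_le_charCenter (mem_center_iff.2 fun g => Subtype.ext (hZc z hz g g.2).symm)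
  refine ⟨k, by rw [e, hk], ?_⟩
  rw [hk, hm, ← pow_mul] at *
  exact pow_dvd_pow p ((Nat.pow_le_pow_iff_right hp.one_lt).1 h3)

theorem coh_center {G : Type*} [Group G] [Fintype G] (hp2 : p ≠ 2) (he : ¬ p ∣ K.index)
    {S : Set (L → ℂ)} {τ : (L → ℂ) → (G → ℂ)}
    (hτ : IsLinearIsometryOn (zspanOn S ({1}ᶜ : Set L)) τ)
    (hτ1 : ∀ α ∈ zspanOn S ({1}ᶜ : Set L), τ α 1 = 0) (hS : ∀ χ ∈ irrBetween Z ⊥, χ.1 ∈ S) :
    Coh (irrBetween Z ⊥) τ := by
  classical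
  have hd := fun χ hχ => exists_deg hF hp hK hZK hZc (χ := χ) hχ
  have he0 : 0 < K.index := Nat.pos_of_ne_zero K.index_ne_zero_of_finite
  have hp3 : 3 ≤ p := by have := hp.two_le; omega
  suffices h : ∀ n, Coh ((irrBetween Z ⊥).filter fun χ => charDegree χ.1 < n) τ by
    refine (h (Nat.card L + 1)).mono fun χ hχ => Finset.mem_filter.2 ⟨hχ, ?_⟩
    exact Nat.lt_succ_of_le (Nat.le_of_dvd Nat.card_pos (charDegree_dvd_card χ))
  intro n
  induction n with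
  | zero => exact coh_of_degree_eq hτ hτ1 (by simp) (by simp)
  | succ n ih =>
  set S₀ := (irrBetween Z ⊥).filter fun χ => charDegree χ.1 < n with hS₀
  have hm : ∀ χ ∈ S₀, χ ∈ irrBetween Z ⊥ ∧ charDegree χ.1 < n := fun χ => Finset.mem_filter.1
  rcases S₀.eq_empty_or_nonempty with h0 | h0
  · have h1 : ∀ χ ∈ (irrBetween Z ⊥).filter fun χ => charDegree χ.1 < n + 1,
        charDegree χ.1 = n := fun χ hχ => by
      obtain ⟨h1, h2⟩ := Finset.mem_filter.1 hχ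
      by_contra h3
      have : χ ∈ S₀ := Finset.mem_filter.2 ⟨h1, by omega⟩
      simp [h0] at this
    exact coh_of_degree_eq hτ hτ1 (fun χ hχ => hS χ (Finset.mem_filter.1 hχ).1) fun χ hχ ξ hξ => by
      rw [χ.2.apply_one_eq_charDegree, ξ.2.apply_one_eq_charDegree, h1 χ hχ, h1 ξ hξ]
  obtain ⟨ψ, hψ⟩ := h0
  have key : ∀ χ ∈ irrBetween Z ⊥, charDegree χ.1 = n → charDegree ψ.1 ∣ charDegree χ.1 ∧
      2 * charDegree ψ.1 * charDegree χ.1 < ∑ ξ ∈ S₀, charDegree ξ.1 ^ 2 := by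
    intro χ hχ hn
    obtain ⟨k, hk, hk'⟩ := hd χ hχ
    obtain ⟨j, hj, -⟩ := hd ψ (hm ψ hψ).1
    have hjk : j < k := by
      have := (hm ψ hψ).2
      rw [← hn, hk, hj] at this
      exact (Nat.pow_lt_pow_iff_right hp.one_lt).1 (lt_of_mul_lt_mul_left this (Nat.zero_le _))
    have h1 : (p ^ k) ^ 2 ∣ ∑ ξ ∈ irrBetween Z ⊥, charDegree ξ.1 ^ 2 := by
      have h2 := sum_irrBetween (H := Z) (B := ⊥) bot_le
      have h3 : (p ^ k) ^ 2 ∣ Z.index := hk'.trans (relIndex_dvd_index_of_le hZK)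
      exact (Nat.dvd_add_left h3).1 (h2 ▸ h3.mul_left _)
    rw [← Finset.sum_filter_add_sum_filter_not _ (fun χ => charDegree χ.1 < n), ← hS₀] at h1
    have h2 : (p ^ k) ^ 2 ∣ ∑ ξ ∈ S₀, charDegree ξ.1 ^ 2 := by
      refine (Nat.dvd_add_left (Finset.dvd_sum fun ξ hξ => ?_)).1 h1
      obtain ⟨h3, h4⟩ := Finset.mem_filter.1 hξ
      obtain ⟨i, hi, -⟩ := hd ξ h3
      rw [← hn, hk, hi, not_lt] at h4
      have h5 := (Nat.pow_le_pow_iff_right hp.one_lt).1 (le_of_mul_le_mul_left h4 he0)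
      rw [hi]
      exact pow_dvd_pow_of_dvd ((pow_dvd_pow p h5).mul_left _) 2
    have h3 : K.index ^ 2 ∣ ∑ ξ ∈ S₀, charDegree ξ.1 ^ 2 := Finset.dvd_sum fun ξ hξ => by
      obtain ⟨i, hi, -⟩ := hd ξ (hm ξ hξ).1
      rw [hi]
      exact pow_dvd_pow_of_dvd (dvd_mul_right _ _) 2
    have h4 := Nat.Coprime.mul_dvd_of_dvd_of_dvd
      ((((hp.coprime_iff_not_dvd.2 he).symm.pow_right k).pow 2 2)) h3 h2
    have h5 := Nat.le_of_dvd (Finset.sum_pos' (fun _ _ => Nat.zero_le _)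
      ⟨ψ, hψ, pow_pos ψ.2.charDegree_pos 2⟩) h4
    obtain ⟨d, rfl⟩ := Nat.exists_eq_add_of_lt hjk
    have h6 : charDegree χ.1 = charDegree ψ.1 * (p ^ d * p) := by rw [hk, hj]; ring
    refine ⟨⟨_, h6⟩, lt_of_lt_of_le ?_ h5⟩
    rw [← mul_pow, ← hk, sq]
    refine Nat.mul_lt_mul_of_pos_right ?_ χ.2.charDegree_pos
    have h7 : 3 ≤ p ^ d * p := le_trans hp3 (Nat.le_mul_of_pos_left _ (pow_pos hp.pos d))
    rw [h6, mul_comm 2]
    exact Nat.mul_lt_mul_of_pos_left (by omega) ψ.2.charDegree_pos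
  suffices h : ∀ T : Finset (IrrCharacter L), (∀ χ ∈ T, χ ∈ irrBetween Z ⊥ ∧ charDegree χ.1 = n) →
      Coh (T ∪ S₀) τ by
    refine (h ((irrBetween Z ⊥).filter fun χ => charDegree χ.1 = n)
      fun χ => Finset.mem_filter.1).mono fun χ hχ => ?_
    obtain ⟨h1, h2⟩ := Finset.mem_filter.1 hχ
    rcases (Nat.lt_succ_iff.1 h2).eq_or_lt with h3 | h3
    · exact Finset.mem_union_left _ (Finset.mem_filter.2 ⟨h1, h3⟩)
    · exact Finset.mem_union_right _ (Finset.mem_filter.2 ⟨h1, h3⟩)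
  intro T
  induction T using Finset.induction_on with
  | empty => intro _; simpa using ih
  | insert χ T _ ih' =>
    intro hT
    rw [Finset.insert_union]
    obtain ⟨h1, h2⟩ := hT χ (Finset.mem_insert_self _ _)
    obtain ⟨h3, h4⟩ := key χ h1 h2
    refine (ih' fun ξ hξ => hT ξ (Finset.mem_insert_of_mem hξ)).insert hτ hτ1 (fun ξ hξ => ?_)
      (hS χ h1) (Finset.mem_union_right _ hψ) h3 (lt_of_lt_of_le h4
        (Finset.sum_le_sum_of_subset Finset.subset_union_right))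
    rcases Finset.mem_union.1 hξ with hξ | hξ
    · exact hS ξ (hT ξ (Finset.mem_insert_of_mem hξ)).1
    · exact hS ξ (hm ξ hξ).1

end coh

section iso

variable {G L : Type*} [Group G] [Group L] {p : ℕ} {K : Subgroup L} {σ : K →* G}
  {M : Ideal AlgInt}

/-- `K` is the kernel of the Frobenius group `L`, and `σ` embeds it into `G` with the same
fusion and with `p`-nilpotent centralizers. -/
structure Fr (p : ℕ) (K : Subgroup L) (σ : K →* G) : Prop where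
  normal : K.Normal
  pg : IsPGroup p K
  inj : Function.Injective σ
  frob : ∀ g, g ∉ K → ∀ k ∈ K, g * k = k * g → k = 1
  fus : ∀ k k' : K, IsConj (σ k) (σ k') ↔ IsConj (k : L) k'
  npc : ∀ k : K, k ≠ 1 → HasNormalPComplement p (centralizer ({σ k} : Set G))
  card : ∀ k : K, k ≠ 1 → p ^ (Nat.card (centralizer ({σ k} : Set G))).factorization p =
    Nat.card (centralizer ({(k : L)} : Set L))

/-- restriction to `K`, extended by zero -/
noncomputable def fl (σ : K →* G) (χ : G → ℂ) : L → ℂ := extendByZero K fun k => χ (σ k)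

theorem fl_coe (χ : G → ℂ) (k : K) : fl σ χ k = χ (σ k) := extendByZero_coe K _ k

theorem fl_of_not_mem (χ : G → ℂ) {l : L} (h : l ∉ K) : fl σ χ l = 0 :=
  extendByZero_of_not_mem K _ h

theorem Fr.isClassFunction_fl (h : Fr p K σ) {χ : G → ℂ} (hχ : IsClassFunction G χ) :
    IsClassFunction L (fl σ χ) := fun l g => by
  by_cases hl : l ∈ K
  · have h1 := h.normal.conj_mem l hl g
    obtain ⟨c, hc⟩ := isConj_iff.1 ((h.fus ⟨l, hl⟩ ⟨_, h1⟩).2 (isConj_iff.2 ⟨g, rfl⟩))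
    rw [fl_coe χ ⟨_, h1⟩, fl_coe χ ⟨l, hl⟩, ← hc, hχ]
  · rw [fl_of_not_mem χ hl, fl_of_not_mem χ fun h1 => hl ?_]
    simpa [mul_assoc] using h.normal.conj_mem _ h1 g⁻¹

variable [Fintype G] [Fintype L]

open Classical in
/-- the isometry into the principal block -/
noncomputable def tau (M : Ideal AlgInt) (σ : K →* G) (α : L → ℂ) : G → ℂ :=
  ∑ χ with χ ∈ principalBlock M G, classInner α (fl σ χ.1) • χ.1

theorem inner_tau (α : L → ℂ) {χ : IrrCharacter G} (hχ : χ ∈ principalBlock M G) :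
    classInner (tau M σ α) χ.1 = classInner α (fl σ χ.1) := by
  classical
  simp [tau, classInner_sum_left, classInner_smul_left, classInner_irr_irr, hχ]

theorem Fr.tau_apply (h : Fr p K σ) (hM : IsPModular p M) {α : L → ℂ} (hα : IsClassFunction L α)
    (h1 : α 1 = 0) (h0 : ∀ l, l ∉ K → α l = 0) (k : K) : tau M σ α (σ k) = α k := by
  classical
  have hp := hM.1
  have hpe : ∀ k : K, ∃ n, orderOf (σ k) = p ^ n := fun k => by
    rw [orderOf_injective σ h.inj]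
    have := Fact.mk hp
    exact IsPGroup.iff_orderOf.1 h.pg k
  rw [hα.apply_eq_sum]
  simp only [tau, Finset.sum_apply, Pi.smul_apply, smul_eq_mul, classInner_def, mul_assoc,
    ← Finset.mul_sum, Finset.sum_mul]
  congr 1
  rw [Finset.sum_comm, Finset.sum_comm (s := (Finset.univ : Finset (IrrCharacter L)))]
  refine Finset.sum_congr rfl fun l _ => ?_
  rw [← Finset.mul_sum, ← Finset.mul_sum]
  by_cases hl : l ∈ K
  swap
  · rw [h0 l hl, zero_mul, zero_mul]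
  by_cases hl1 : l = 1
  · rw [hl1, h1, zero_mul, zero_mul]
  have hl2 : (⟨l, hl⟩ : K) ≠ 1 := fun e => hl1 (congrArg Subtype.val e)
  congr 1
  have h2 := kerB_eq hM (hpe ⟨l, hl⟩) (h.npc _ hl2) (isPPart_self hp (hpe k))
  have h3 := congrArg conj (column_orth l (k : L))
  rw [h.card _ hl2] at h2
  simp only [map_sum, map_mul, Complex.conj_conj, apply_ite conj, map_natCast, map_zero] at h3
  rw [h3, ← if_congr ((h.fus k ⟨l, hl⟩).trans isConj_comm) rfl rfl]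
  exact (Finset.sum_congr rfl fun χ _ => by rw [fl_coe χ.1 ⟨l, hl⟩, mul_comm]).trans
    (h2.trans (by congr))

theorem Fr.inner_tau_tau (h : Fr p K σ) (hM : IsPModular p M) (α : L → ℂ) {β : L → ℂ}
    (hβ : IsClassFunction L β) (h1 : β 1 = 0) (h0 : ∀ l, l ∉ K → β l = 0) :
    classInner (tau M σ α) (tau M σ β) = classInner α β := by
  classical
  have h2 : β = ∑ χ with χ ∈ principalBlock M G, classInner β (fl σ χ.1) • fl σ χ.1 := by
    funext l
    by_cases hl : l ∈ K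
    · rw [← h.tau_apply hM hβ h1 h0 ⟨l, hl⟩, tau, Finset.sum_apply, Finset.sum_apply]
      exact Finset.sum_congr rfl fun χ _ => by rw [Pi.smul_apply, Pi.smul_apply, fl_coe χ.1 ⟨l, hl⟩]
    · rw [h0 l hl, Finset.sum_apply]
      exact (Finset.sum_eq_zero fun χ _ => by rw [Pi.smul_apply, fl_of_not_mem _ hl, smul_zero]).symm
  conv_rhs => rw [h2]
  rw [tau.eq_1 M σ β, classInner_sum_right, classInner_sum_right]
  exact Finset.sum_congr rfl fun χ hχ => by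
    rw [classInner_smul_right, classInner_smul_right, inner_tau α (Finset.mem_filter.1 hχ).2]

omit [Fintype G] in
theorem Fr.exists_ind (h : Fr p K σ) [Fintype K] {ξ : IrrCharacter L} (hξ : ¬ ∀ k ∈ K, ξ.1 k = ξ.1 1) :
    ∃ θ : K → ℂ, IsIrrCharacter K θ ∧ (θ ≠ fun _ => 1) ∧ ∀ χ : G → ℂ, IsClassFunction G χ →
      classInner ξ.1 (fl σ χ) = classInner θ fun k => χ (σ k) := by
  have := h.normal
  obtain ⟨θ, h1, h2, h3⟩ := frob_exists_ind h.frob ξ.2 hξ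
  refine ⟨θ, h1, h2, fun χ hχ => ?_⟩
  rw [← h3, classInner_indFun_left K θ (h.isClassFunction_fl hχ)]
  simp only [fl_coe]

theorem Fr.iso (h : Fr p K σ) (hM : IsPModular p M) {S : Set (L → ℂ)}
    (hS : ∀ φ ∈ S, IsIrrCharacter L φ ∧ ¬ ∀ k ∈ K, φ k = φ 1) :
    IsLinearIsometryOn (zspanOn S ({1}ᶜ : Set L)) (tau M σ) ∧
      ∀ α ∈ zspanOn S ({1}ᶜ : Set L), tau M σ α 1 = 0 := by
  classical
  have := h.normal
  have key : ∀ α ∈ Submodule.span ℤ S, IsClassFunction L α ∧ (∀ l, l ∉ K → α l = 0) ∧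
      ∀ χ : IrrCharacter G, ∃ n : ℤ, classInner α (fl σ χ.1) = n := by
    intro α hα
    induction hα using Submodule.span_induction with
    | mem φ hφ =>
      obtain ⟨h1, h2⟩ := hS φ hφ
      refine ⟨h1.isClassFunction, fun l hl => frob_eq_zero h.frob h1 h2 hl, fun χ => ?_⟩
      obtain ⟨θ, h3, -, h4⟩ := h.exists_ind (ξ := ⟨φ, h1⟩) h2
      rw [h4 _ χ.2.isClassFunction]
      exact h3.isGen.exists_int_inner (χ.2.isCharacter.comp σ).isGen
    | zero => exact ⟨fun _ _ => rfl, fun _ _ => rfl, fun _ => ⟨0, by simp [classInner_zero_left]⟩⟩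
    | add a b _ _ ha hb =>
      refine ⟨ha.1.add hb.1, fun l hl => by rw [Pi.add_apply, ha.2.1 l hl, hb.2.1 l hl, add_zero],
        fun χ => ?_⟩
      obtain ⟨m, hm⟩ := ha.2.2 χ
      obtain ⟨n, hn⟩ := hb.2.2 χ
      exact ⟨m + n, by rw [classInner_add_left, hm, hn, Int.cast_add]⟩
    | smul n a _ ha =>
      refine ⟨fun x y => by rw [Pi.smul_apply, Pi.smul_apply, ha.1], fun l hl => by
        rw [Pi.smul_apply, ha.2.1 l hl, smul_zero], fun χ => ?_⟩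
      obtain ⟨m, hm⟩ := ha.2.2 χ
      exact ⟨n * m, by rw [classInner_zsmul_left, hm, Int.cast_mul]⟩
  refine ⟨⟨fun α _ β _ => ?_, fun α _ n => ?_, fun α _ β hβ => ?_, fun α hα => ?_⟩, fun α hα => ?_⟩
  · simp only [tau, classInner_add_left, add_smul, Finset.sum_add_distrib]
  · simp only [tau, classInner_zsmul_left, Finset.smul_sum, mul_smul, Int.cast_smul_eq_zsmul]
  · obtain ⟨h1, h2⟩ := mem_zspanOn_one.1 hβ
    exact h.inner_tau_tau hM α (key β h1).1 h2 (key β h1).2.1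
  · refine isGen_sum _ _ fun χ _ => ?_
    obtain ⟨n, hn⟩ := (key α hα.1).2.2 χ
    rw [hn]
    exact χ.2.isGen.intCast_smul _
  · obtain ⟨h1, h2⟩ := mem_zspanOn_one.1 hα
    have := h.tau_apply hM (key α h1).1 h2 (key α h1).2.1 1
    rwa [map_one, OneMemClass.coe_one, h2] at this

theorem Fr.exists_const [IsSimpleGroup G] (h : Fr p K σ) (hG : ¬ IsMulCommutative G)
    (hM : IsPModular p M) (hp2 : p ≠ 2) {Z : Subgroup L} [Z.Normal]
    (hZK : Z ≤ K) (hZ1 : Z ≠ ⊥) (hZc : ∀ z ∈ Z, ∀ k ∈ K, z * k = k * z) :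
    ∃ χ ∈ principalBlock M G, χ ≠ Blk.irrOne G ∧ ∀ a b : K, (a : L) ∈ Z → (b : L) ∈ Z → a ≠ 1 →
      b ≠ 1 → χ.1 (σ a) = χ.1 (σ b) := by
  classical
  have := h.normal
  have hp := hM.1
  have he : ¬ p ∣ K.index := fun hd => by
    have := Fact.mk hp
    obtain ⟨k, hk⟩ := frob_relIndex_modEq h.frob (B := ⊥) bot_le
    rw [relIndex_bot_left] at hk
    rcases h.pg.card_eq_or_dvd with h1 | h1
    · exact hZ1 (le_bot_iff.1 (card_eq_one.1 h1 ▸ hZK))
    · exact hp.one_lt.ne' (Nat.dvd_one.1 ((Nat.dvd_add_right (hd.mul_right k)).1 (hk ▸ h1)))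
  set X := irrBetween Z ⊥ with hX
  have hXK : ∀ ξ ∈ X, ¬ ∀ k ∈ K, ξ.1 k = ξ.1 1 := fun ξ hξ h1 =>
    (mem_irrBetween.1 hξ).2 fun k hk => h1 k (hZK hk)
  obtain ⟨hτ, hτ1⟩ := h.iso hM (S := Subtype.val '' (X : Set (IrrCharacter L))) (by
    rintro _ ⟨ξ, hξ, rfl⟩
    exact ⟨ξ.2, hXK ξ hξ⟩)
  have hm : ∀ ξ ∈ X, ξ.1 ∈ Subtype.val '' (X : Set (IrrCharacter L)) := fun ξ hξ => ⟨ξ, hξ, rfl⟩
  obtain ⟨f, f1, f2, f3⟩ := coh_center h.frob hp h.pg hZK hZc hp2 he hτ hτ1 hm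
  have hX0 : X.Nonempty := by
    rw [Finset.nonempty_iff_ne_empty]
    intro e
    have h2 := sum_irrBetween (H := Z) (B := ⊥) bot_le
    rw [← hX, e, Finset.sum_empty, zero_add, relIndex_bot_left] at h2
    exact hZ1 (card_eq_one.1 (Nat.eq_of_mul_eq_mul_right
      (Nat.pos_of_ne_zero Z.index_ne_zero_of_finite) (by rw [← h2, one_mul])))
  obtain ⟨ξ₀, h0, hmin⟩ := X.exists_min_image (fun ξ => charDegree ξ.1) hX0
  have hrel : ∀ ξ ∈ X, ∀ χ ∈ principalBlock M G,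
      ξ₀.1 1 * classInner (f ξ) χ.1 - ξ.1 1 * classInner (f ξ₀) χ.1 =
        ξ₀.1 1 * classInner ξ.1 (fl σ χ.1) - ξ.1 1 * classInner ξ₀.1 (fl σ χ.1) := by
    intro ξ hξ χ hχ
    have := inner_tau (σ := σ) (ξ₀.1 1 • ξ.1 - ξ.1 1 • ξ₀.1) hχ
    rw [f3 ξ hξ ξ₀ h0] at this
    simpa only [classInner_sub_left, classInner_smul_left] using this
  have hsg : ∀ ξ ∈ X, ∃ ψ : IrrCharacter G, f ξ = ψ.1 ∨ f ξ = -ψ.1 := fun ξ hξ => by
    rcases (f1 ξ hξ).irr_or_neg_irr (by rw [f2 ξ hξ ξ hξ, ξ.2.inner_self]) with e | e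
    · exact ⟨⟨_, e⟩, Or.inl rfl⟩
    · exact ⟨⟨_, e⟩, Or.inr (neg_neg _).symm⟩
  by_contra hne
  push Not at hne
  have hB : ∀ χ ∈ principalBlock M G, χ ≠ Blk.irrOne G → ∃ ξ ∈ X, f ξ = χ.1 ∨ f ξ = -χ.1 := by
    intro χ hχ h1
    by_contra h2
    obtain ⟨a, b, ha, hb, ha1, hb1, hab⟩ := hne χ hχ h1
    have h3 : ∀ ξ ∈ X, classInner (f ξ) χ.1 = 0 := fun ξ hξ => by
      obtain ⟨ψ, hψ⟩ := hsg ξ hξ
      have h4 : ψ ≠ χ := fun e => h2 ⟨ξ, hξ, e ▸ hψ⟩
      rcases hψ with e | e <;> simp [e, classInner_neg_left, classInner_irr_irr, h4]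
    refine hab ?_
    rw [← fl_coe χ.1 a, ← fl_coe χ.1 b]
    refine const_on_of_inner_prop (Z : Set L) (h.isClassFunction_fl χ.2.isClassFunction)
      (classInner (fl σ χ.1) ξ₀.1 / ξ₀.1 1) (fun ψ hψ hk => ?_) ha hb
      (fun e => ha1 (Subtype.ext e)) (fun e => hb1 (Subtype.ext e))
    have h4 : (⟨ψ, hψ⟩ : IrrCharacter L) ∈ X := mem_irrBetween.2
      ⟨fun n hn => by rw [mem_bot.1 hn], fun e => by
        obtain ⟨k, hk, hk'⟩ := hk
        exact hk' (e k hk)⟩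
    have h5 := congrArg conj (hrel _ h4 χ hχ)
    rw [h3 _ h4, h3 _ h0] at h5
    simp only [map_sub, map_mul, classInner_conj_symm, ξ₀.2.isCharacter.conj_one,
      hψ.isCharacter.conj_one, map_zero] at h5
    have h6 := ξ₀.2.one_ne_zero
    field_simp
    linear_combination -h5
  obtain ⟨⟨z, hz⟩, hz1⟩ := ne_bot_iff_exists_ne_one.1 hZ1
  have hy : p ∣ orderOf (σ ⟨z, hZK hz⟩) := by
    have := Fact.mk hp
    obtain ⟨n, hn⟩ := IsPGroup.iff_orderOf.1 h.pg ⟨z, hZK hz⟩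
    rw [orderOf_injective σ h.inj, hn]
    refine dvd_pow_self p ?_
    rintro rfl
    exact hz1 (Subtype.ext (congrArg Subtype.val (orderOf_eq_one_iff.1 hn) :))
  obtain ⟨ψ₀, hψ₀⟩ := hsg ξ₀ h0
  have hD : charDegree ψ₀.1 = 1 := by
    by_contra hD
    obtain ⟨q, hq, hqD⟩ := Nat.exists_prime_and_dvd hD
    obtain ⟨χ, hχ, h1, h2, -⟩ := exists_principal_not_dvd hM hq hy
    obtain ⟨ξ, hξ, h3⟩ := hB χ hχ fun e => h1 (by rw [e]; rfl)
    obtain ⟨k, hk, -⟩ := exists_deg h.frob hp h.pg hZK hZc hξ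
    obtain ⟨j, hj, -⟩ := exists_deg h.frob hp h.pg hZK hZc h0
    have h4 := hmin ξ hξ
    simp only [hk, hj] at h4
    obtain ⟨d, rfl⟩ := Nat.exists_eq_add_of_le ((Nat.pow_le_pow_iff_right hp.one_lt).1
      (le_of_mul_le_mul_left h4 (Nat.pos_of_ne_zero K.index_ne_zero_of_finite)))
    have h5 := congrFun (f3 ξ hξ ξ₀ h0) 1
    rw [hτ1 _ (cross_mem_zspanOn (hm ξ hξ) (hm ξ₀ h0))] at h5
    have h6 : ξ.1 1 = ξ₀.1 1 * p ^ d := by
      rw [ξ.2.apply_one_eq_charDegree, ξ₀.2.apply_one_eq_charDegree, hk, hj]; push_cast; ring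
    simp only [Pi.sub_apply, Pi.smul_apply, smul_eq_mul, h6] at h5
    have h7 : f ξ 1 = p ^ d * f ξ₀ 1 :=
      mul_left_cancel₀ ξ₀.2.one_ne_zero (by linear_combination -h5)
    have h8 : ((charDegree χ.1 : ℤ) : ℂ) ^ 2 = ((p ^ d * charDegree ψ₀.1 : ℕ) : ℤ) ^ 2 := by
      push_cast
      rw [← χ.2.apply_one_eq_charDegree, ← ψ₀.2.apply_one_eq_charDegree]
      have h9 : ∀ {φ : G → ℂ} {ψ : IrrCharacter G}, φ = ψ.1 ∨ φ = -ψ.1 → ψ.1 1 ^ 2 = φ 1 ^ 2 := by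
        rintro _ ψ (rfl | rfl) <;> simp
      rw [mul_pow, h9 h3, h9 hψ₀, h7, mul_pow]
    have h9 : charDegree χ.1 = p ^ d * charDegree ψ₀.1 := by
      have : charDegree χ.1 ^ 2 = (p ^ d * charDegree ψ₀.1) ^ 2 := by exact_mod_cast h8
      exact Nat.pow_left_injective two_ne_zero this
    exact h2 (h9 ▸ hqD.mul_left _)
  have hψ1 : ψ₀.1 = fun _ => 1 := by
    refine ψ₀.2.charKer_eq_top_iff.1 (top_le_iff.1 ?_)
    have h1 : commutator G = ⊤ := (IsSimpleGroup.eq_bot_or_eq_top_of_normal (commutator G)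
      inferInstance).resolve_left fun e => hG ((commutator_eq_bot_iff G).1 e)
    rw [← h1, ψ₀.2.commutator_le_charKer_iff, ψ₀.2.apply_one_eq_charDegree, hD, Nat.cast_one]
  have hψ2 : ψ₀ = Blk.irrOne G := Subtype.ext hψ1
  obtain ⟨χ, hχ, h1, -⟩ := exists_principal_not_dvd hM Nat.prime_two hy
  have h2 : χ ≠ Blk.irrOne G := fun e => h1 (by rw [e]; rfl)
  obtain ⟨ξ, hξ, h3⟩ := hB χ hχ h2
  have h4 : ∀ ξ ∈ X, classInner ξ.1 (fl σ (Blk.irrOne G).1) = 0 := fun ξ hξ => by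
    obtain ⟨θ, h5, h6, h7⟩ := h.exists_ind (hXK ξ hξ)
    rw [h7 _ (Blk.irrOne G).2.isClassFunction]
    exact h5.inner_of_ne isIrrCharacter_one h6
  have h5 := hrel ξ hξ _ (irrOne_mem_principalBlock hM)
  rw [h4 ξ hξ, h4 ξ₀ h0] at h5
  refine ξ.2.one_ne_zero ?_
  rcases h3 with e | e <;> rcases hψ₀ with e' | e' <;>
    simpa [e, e', hψ2, classInner_neg_left, classInner_irr_irr, h2] using h5

end iso

end CL.GlSz
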