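import Mathlib
import Cfsg.Agent.TECH.Conj

/-! Jordan's class equation argument: the group theoretic part. -/

set_option autoImplicit false
open Subgroup
open scoped CL.MSS

namespace CL.JordanP

universe u

theorem exists_orbit_reps {K Ω : Type*} [Group K] [Finite K] [MulAction K Ω] (X : Finset Ω)
    (hX : ∀ g : K, ∀ x ∈ X, g • x ∈ X) :
    ∃ R : Finset Ω, R ⊆ X ∧ ∀ f : Ω → ℚ, (∀ g : K, ∀ x ∈ X, f (g • x) = f x) →
      ∑ x ∈ X, f x = ∑ x ∈ R, ((MulAction.stabilizer K x).index : ℚ) * f x := by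
  classical
  induction X using Finset.strongInduction with
  | H X ih =>
    rcases X.eq_empty_or_nonempty with rfl | ⟨x, hx⟩
    · exact ⟨∅, subset_rfl, fun _ _ => rfl⟩
    have hss : X.filter (fun y => y ∉ MulAction.orbit K x) ⊂ X :=
      Finset.filter_ssubset.2 ⟨x, hx, not_not.2 (MulAction.mem_orbit_self x)⟩
    obtain ⟨R, hR, h⟩ := ih _ hss (fun g y hy => by
      rw [Finset.mem_filter] at hy ⊢
      refine ⟨hX g y hy.1, fun h' => hy.2 ?_⟩
      have := MulAction.mem_orbit_of_mem_orbit g⁻¹ h'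
      rwa [inv_smul_smul] at this)
    have hxR : x ∉ R := fun h' => (Finset.mem_filter.1 (hR h')).2 (MulAction.mem_orbit_self x)
    refine ⟨insert x R, Finset.insert_subset hx (hR.trans hss.1), fun f hf => ?_⟩
    rw [Finset.sum_insert hxR, ← h f fun g y hy => hf g y (hss.1 hy),
      ← Finset.sum_filter_add_sum_filter_not X (fun y => y ∈ MulAction.orbit K x)]
    congr 1
    rw [Finset.sum_congr rfl (g := fun _ => f x), Finset.sum_const, nsmul_eq_mul,
      MulAction.index_stabilizer, ← Set.ncard_coe_finset]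
    · congr 3
      ext y
      simp only [Finset.coe_filter, Set.mem_setOf_eq, and_iff_right_iff_imp]
      rintro ⟨g, rfl⟩
      exact hX g x hx
    · intro y hy
      obtain ⟨g, rfl⟩ := (Finset.mem_filter.1 hy).2
      exact hf g x hx

section conj
variable {H : Type*} [Group H]

/-- The conjugation action of a subgroup on the whole group. -/
@[reducible] def cjAct (N : Subgroup H) : MulAction N H :=
  MulAction.compHom H ((MulAut.conj : H →* MulAut H).comp N.subtype)

theorem stabilizer_cjAct (N : Subgroup H) (x : H) :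
    @MulAction.stabilizer N H _ (cjAct N) x = (centralizer ({x} : Set H)).subgroupOf N := by
  ext g
  rw [mem_subgroupOf, mem_centralizer_singleton_iff]
  exact mul_inv_eq_iff_eq_mul

theorem relIndex_centralizer_le [Finite H] (N : Subgroup H) (x : H) {Y : Set H}
    (h : ∀ g ∈ N, g * x * g⁻¹ ∈ Y) : (centralizer ({x} : Set H)).relIndex N ≤ Y.ncard := by
  rw [relIndex, ← stabilizer_cjAct, @MulAction.index_stabilizer N H _ (cjAct N)]
  refine Set.ncard_le_ncard ?_
  rintro _ ⟨g, rfl⟩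
  exact h g g.2

theorem exists_factorial_mul_card [Finite H] (N : Subgroup H) (X : Finset H) {L : ℕ}
    (hX : ∀ g ∈ N, ∀ x ∈ X, g * x * g⁻¹ ∈ X)
    (hL : ∀ x ∈ X, Nat.card ↥(centralizer ({x} : Set H) ⊓ N) ≤ L) :
    ∃ a : ℕ, (L.factorial : ℚ) * X.card = a * Nat.card N := by
  obtain ⟨R, hR, h⟩ := @exists_orbit_reps N H _ _ (cjAct N) X fun g x hx => hX g g.2 x hx
  have h1 := h (fun _ => 1) fun _ _ _ => rfl
  have h2 : ∀ x ∈ R, ∃ a : ℕ, (L.factorial : ℚ) *
      (((@MulAction.stabilizer N H _ (cjAct N) x).index : ℚ) * 1) = a * Nat.card N := fun x hx => by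
    rw [stabilizer_cjAct]
    have h3 : Nat.card ((centralizer ({x} : Set H)).subgroupOf N) ≤ L := by
      rw [← inf_subgroupOf_right, Nat.card_congr (subgroupOfEquivOfLe inf_le_right).toEquiv]
      exact hL x (hR hx)
    obtain ⟨a, ha⟩ := Nat.dvd_factorial Nat.card_pos h3
    refine ⟨a, ?_⟩
    rw [ha, ← ((centralizer ({x} : Set H)).subgroupOf N).card_mul_index]
    push_cast; ring
  choose! a ha using h2
  refine ⟨∑ x ∈ R, a x, ?_⟩
  rw [Finset.sum_const, nsmul_eq_mul, mul_one] at h1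
  rw [h1, Finset.mul_sum, Finset.sum_congr rfl ha, ← Finset.sum_mul]
  push_cast; rfl

end conj

/-- A variant of Landau's lemma. -/
theorem landau_variant (r : ℕ) : ∀ Q : ℕ, 0 < Q → ∃ B : ℕ, ∀ (ι : Type u) (R : Finset ι)
    (n : ι → ℕ) (h : ℕ) (b : ℤ), R.card ≤ r → 0 < h → (∀ i ∈ R, 0 < n i ∧ n i ≤ h) →
      ∑ i ∈ R, (1 : ℚ) / n i - 1 / h = b / Q → h ≤ B ∨ ∃ i ∈ R, n i = h := by
  have neg : ∀ (Q h : ℕ) (b : ℤ) (s : ℚ), 0 < Q → 0 < h → 0 ≤ s → b < 0 → s - 1 / h = b / Q →
      h ≤ Q := fun Q h b s hQ hh hs hb e => by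
    have hQ' : (0 : ℚ) < Q := by exact_mod_cast hQ
    have hh' : (0 : ℚ) < h := by exact_mod_cast hh
    have hb' : (b : ℚ) ≤ -1 := by exact_mod_cast (by omega : b ≤ -1)
    have h1 : (b : ℚ) / Q ≤ -1 / Q := div_le_div_of_nonneg_right hb' hQ'.le
    have h2 : (1 : ℚ) / Q ≤ 1 / h := by rw [neg_div] at h1; linarith
    exact_mod_cast (one_div_le_one_div hQ' hh').1 h2
  induction r with
  | zero =>
    intro Q hQ
    refine ⟨Q, fun ι R n h b hR hh _ e => Or.inl ?_⟩
    rw [Finset.card_eq_zero.1 (Nat.le_zero.1 hR), Finset.sum_empty] at e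
    refine neg Q h b 0 hQ hh le_rfl ?_ e
    by_contra hb
    have h1 : (0 : ℚ) ≤ b / Q := div_nonneg (by exact_mod_cast not_lt.1 hb) (Nat.cast_nonneg _)
    have h2 : (0 : ℚ) < 1 / h := one_div_pos.2 (by exact_mod_cast hh)
    linarith
  | succ r ih =>
    intro Q hQ
    classical
    obtain ⟨B, hB⟩ := ih (Q * ((r + 1) * Q).factorial) (Nat.mul_pos hQ (Nat.factorial_pos _))
    refine ⟨max Q B, fun ι R n h b hR hh hn e => ?_⟩
    have hQ' : (0 : ℚ) < Q := by exact_mod_cast hQ
    have hh' : (0 : ℚ) < h := by exact_mod_cast hh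
    have hs : (0 : ℚ) ≤ ∑ i ∈ R, (1 : ℚ) / n i := Finset.sum_nonneg fun i _ => by positivity
    rcases lt_trichotomy b 0 with hb | rfl | hb
    · exact Or.inl ((neg Q h b _ hQ hh hs hb e).trans (le_max_left _ _))
    · right
      rw [Int.cast_zero, zero_div, sub_eq_zero] at e
      obtain ⟨i, hi⟩ : R.Nonempty := by
        rw [Finset.nonempty_iff_ne_empty]
        rintro rfl
        exact (one_div_pos.2 hh').ne e
      refine ⟨i, hi, le_antisymm (hn i hi).2 ?_⟩
      have h1 : (1 : ℚ) / n i ≤ 1 / h :=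
        e ▸ Finset.single_le_sum (f := fun i => (1 : ℚ) / n i) (fun i _ => by positivity) hi
      exact_mod_cast (one_div_le_one_div (by exact_mod_cast (hn i hi).1) hh').1 h1
    · obtain ⟨i, hi, hle⟩ : ∃ i ∈ R, n i ≤ (r + 1) * Q := by
        by_contra hc
        push Not at hc
        have h1 : ∑ i ∈ R, (1 : ℚ) / n i ≤ R.card • ((1 : ℚ) / ((r + 1) * Q)) :=
          Finset.sum_le_card_nsmul _ _ _ fun i hi =>
            one_div_le_one_div_of_le (by positivity) (by exact_mod_cast (hc i hi).le)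
        have h2 : (R.card : ℚ) ≤ r + 1 := by exact_mod_cast hR
        have h3 : (R.card : ℚ) * (1 / ((r + 1) * Q)) ≤ 1 / Q := by
          calc _ ≤ ((r : ℚ) + 1) * (1 / ((r + 1) * Q)) := by gcongr
            _ = 1 / Q := by field_simp
        have h4 : (1 : ℚ) / Q ≤ b / Q :=
          div_le_div_of_nonneg_right (by exact_mod_cast (by omega : 1 ≤ b)) hQ'.le
        have h5 : (0 : ℚ) < 1 / h := one_div_pos.2 hh'
        rw [nsmul_eq_mul] at h1
        linarith
      obtain ⟨c, hc⟩ := Nat.dvd_factorial (hn i hi).1 hle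
      have hc0 : (c : ℚ) ≠ 0 := by
        intro h0
        have : c = 0 := by exact_mod_cast h0
        rw [this, mul_zero] at hc
        exact (Nat.factorial_pos _).ne' hc
      have hni : (n i : ℚ) ≠ 0 := by exact_mod_cast (hn i hi).1.ne'
      rcases hB ι (R.erase i) n h (b * (n i * c) - Q * c)
        (by rw [Finset.card_erase_of_mem hi]; omega) hh
        (fun j hj => hn j (Finset.mem_of_mem_erase hj)) (by
          rw [← Finset.add_sum_erase R _ hi] at e
          rw [hc]
          push_cast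
          have : ∑ j ∈ R.erase i, (1 : ℚ) / n j - 1 / h = b / Q - 1 / n i := by linarith
          rw [this]
          field_simp) with h1 | ⟨j, hj, h1⟩
      · exact Or.inl (h1.trans (le_max_right _ _))
      · exact Or.inr ⟨j, Finset.mem_of_mem_erase hj, h1⟩

open scoped Pointwise in
/-- The class equation argument. -/
theorem count_lemma (L : ℕ) : ∃ B : ℕ, ∀ (H : Type u) [Group H] [Finite H] (Λ : Set H)
    (r : H → H → Prop), 1 ∉ Λ → (∀ g, ∀ x ∈ Λ, g * x * g⁻¹ ∈ Λ) → (∀ x ∈ Λ, r x x) →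
    (∀ x y, r x y → r y x) → (∀ x ∈ Λ, ∀ y ∈ Λ, ∀ z ∈ Λ, r x y → r y z → r x z) →
    (∀ g x y, r x y → r (g * x * g⁻¹) (g * y * g⁻¹)) →
    (∀ y, y ≠ 1 → y ∉ Λ → Nat.card (centralizer ({y} : Set H)) ≤ L) →
    (∀ x ∈ Λ, ∀ N : Subgroup H, (∀ g ∈ N, r (g * x * g⁻¹) x) → ∀ y ∈ Λ, ¬ r x y →
      Nat.card ↥(centralizer ({y} : Set H) ⊓ N) ≤ L) →
    Nat.card H ≤ B ∨ ∃ x ∈ Λ, ∀ g, r (g * x * g⁻¹) x := by
  obtain ⟨B, hB⟩ := landau_variant.{u} (2 * L.factorial) L.factorial (Nat.factorial_pos _)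
  refine ⟨B, fun H _ _ Λ r h1 hΛ hrefl hsymm htrans hcj hsmall hmed => ?_⟩
  classical
  have := Fintype.ofFinite H
  set Q := L.factorial with hQ
  have hQ0 : (0 : ℚ) < Q := by exact_mod_cast Nat.factorial_pos L
  let S : H → Set H := fun x => {y | y ∈ Λ ∧ r x y}
  have hSeq : ∀ x ∈ Λ, ∀ y ∈ Λ, S x = S y ↔ r x y := fun x hx y hy => by
    constructor
    · intro h
      have : y ∈ S x := h ▸ ⟨hy, hrefl y hy⟩
      exact this.2
    · intro h
      ext z
      exact and_congr_right fun hz =>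
        ⟨htrans y hy x hx z hz (hsymm _ _ h), htrans x hx y hy z hz h⟩
  let act : MulAction H (Set H) := MulAction.compHom (Set H) (MulAut.conj : H →* MulAut H)
  have hact : ∀ g x, (MulAut.conj g : MulAut H) • S x = S (g * x * g⁻¹) := fun g x => by
    ext z
    rw [Set.mem_smul_set_iff_inv_smul_mem]
    change (MulAut.conj g)⁻¹ z ∈ Λ ∧ r x ((MulAut.conj g)⁻¹ z) ↔ z ∈ Λ ∧ r _ z
    rw [MulAut.conj_inv_apply]
    constructor
    · rintro ⟨h2, h3⟩
      have h4 := hΛ g _ h2
      have h5 := hcj g _ _ h3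
      simp only [mul_assoc, mul_inv_cancel_left, mul_inv_cancel, mul_one] at h4 h5 ⊢
      exact ⟨h4, h5⟩
    · rintro ⟨h2, h3⟩
      have h4 := hΛ g⁻¹ _ h2
      have h5 := hcj g⁻¹ _ _ h3
      simp only [mul_assoc, inv_mul_cancel_left, inv_mul_cancel, mul_one, inv_inv] at h4 h5 ⊢
      exact ⟨h4, h5⟩
  let N : Set H → Subgroup H := fun E => @MulAction.stabilizer H (Set H) _ act E
  have hN : ∀ x ∈ Λ, ∀ g, g ∈ N (S x) ↔ r (g * x * g⁻¹) x := fun x hx g => by
    rw [← hSeq _ (hΛ g x hx) x hx, ← hact]; rfl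
  obtain ⟨R, hR, hsum⟩ := @exists_orbit_reps H (Set H) _ _ act (Λ.toFinset.image S)
    (fun g E hE => by
      obtain ⟨x, hx, rfl⟩ := Finset.mem_image.1 hE
      exact Finset.mem_image.2 ⟨_, Set.mem_toFinset.2 (hΛ g x (Set.mem_toFinset.1 hx)),
        (hact g x).symm⟩)
  have hR' : ∀ E ∈ R, ∃ x ∈ Λ, S x = E := fun E hE => by
    obtain ⟨x, hx, rfl⟩ := Finset.mem_image.1 (hR hE)
    exact ⟨x, Set.mem_toFinset.1 hx, rfl⟩
  have hh : (0 : ℚ) < Nat.card H := by exact_mod_cast Nat.card_pos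
  have hn : ∀ E, (0 : ℚ) < Nat.card (N E) := fun E => by exact_mod_cast Nat.card_pos
  -- the size of `Λ`
  have h2 : (Λ.toFinset.card : ℚ) / Nat.card H = ∑ E ∈ R, (E.ncard : ℚ) / Nat.card (N E) := by
    rw [Finset.card_eq_sum_card_image S, Nat.cast_sum,
      Finset.sum_congr rfl (g := fun E => (E.ncard : ℚ)), hsum, Finset.sum_div]
    · refine Finset.sum_congr rfl fun E _ => ?_
      rw [← (N E).card_mul_index]
      have := hn E
      have h3 : ((N E).index : ℚ) ≠ 0 := Nat.cast_ne_zero.2 index_ne_zero_of_finite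
      push_cast
      field_simp
      exact mul_comm _ _
    · intro g E _
      exact congrArg _ (Set.ncard_smul_set (MulAut.conj g : MulAut H) E)
    · intro E hE
      obtain ⟨x, hx, rfl⟩ := Finset.mem_image.1 hE
      rw [← Set.ncard_coe_finset]
      congr 2
      ext y
      simp only [Finset.coe_filter, Set.mem_toFinset, Set.mem_setOf_eq]
      exact and_congr_right fun hy => by
        rw [hSeq y hy x (Set.mem_toFinset.1 hx)]
        exact ⟨hsymm _ _, hsymm _ _⟩
  -- the global congruence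
  obtain ⟨a, ha⟩ := exists_factorial_mul_card (L := L) ⊤ ((Λ.toFinsetᶜ).erase 1)
    (fun g _ x hx => by
      rw [Finset.mem_erase, Finset.mem_compl, Set.mem_toFinset] at hx ⊢
      refine ⟨fun h => hx.1 (by simpa using h), fun h => hx.2 ?_⟩
      have := hΛ g⁻¹ _ h
      simpa [mul_assoc] using this)
    (fun x hx => by
      rw [Finset.mem_erase, Finset.mem_compl, Set.mem_toFinset] at hx
      rw [inf_top_eq]
      exact hsmall x hx.1 hx.2)
  have h3 : (((Λ.toFinsetᶜ).erase 1).card : ℚ) = Nat.card H - Λ.toFinset.card - 1 := by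
    have h4 := Finset.card_erase_add_one (s := Λ.toFinsetᶜ) (a := 1)
      (Finset.mem_compl.2 (fun h => h1 (Set.mem_toFinset.1 h)))
    have h5 := Finset.card_add_card_compl Λ.toFinset
    rw [← h4, ← Nat.card_eq_fintype_card] at h5
    rw [← h5]; push_cast; ring
  rw [h3, card_top] at ha
  -- the local congruences
  have h4 : ∀ E ∈ R, ∃ a : ℤ, (Q : ℚ) * (1 + E.ncard) = a * Nat.card (N E) := fun E hE => by
    obtain ⟨x, hx, rfl⟩ := hR' E hE
    have hsub : ∀ y ∈ S x, y ∈ N (S x) := fun y hy => by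
      rw [(hSeq x hx y hy.1).2 hy.2, hN y hy.1, mul_inv_cancel_right]
      exact hrefl y hy.1
    obtain ⟨a, ha⟩ := exists_factorial_mul_card (L := L) (N (S x))
      ((((N (S x) : Set H).toFinset) \ (S x).toFinset).erase 1)
      (fun g hg y hy => by
        simp only [Finset.mem_erase, Finset.mem_sdiff, Set.mem_toFinset, SetLike.mem_coe] at hy ⊢
        refine ⟨fun h => hy.1 (by simpa using h),
          mul_mem (mul_mem hg hy.2.1) (inv_mem hg), fun h => hy.2.2 ?_⟩
        have h5 : (MulAut.conj g : MulAut H) • S x = S x := hg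
        rw [← h5] at h
        exact (Set.smul_mem_smul_set_iff (a := (MulAut.conj g : MulAut H))).1 h)
      (fun y hy => by
        simp only [Finset.mem_erase, Finset.mem_sdiff, Set.mem_toFinset, SetLike.mem_coe] at hy
        by_cases hyΛ : y ∈ Λ
        · exact hmed x hx _ (fun g hg => (hN x hx g).1 hg) y hyΛ fun h => hy.2.2 ⟨hyΛ, h⟩
        · exact (card_le_of_le inf_le_left).trans (hsmall y hy.1 hyΛ))
    have h5 := Finset.card_erase_add_one
      (s := ((N (S x) : Set H).toFinset) \ (S x).toFinset) (a := 1) (by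
        simp only [Finset.mem_sdiff, Set.mem_toFinset, SetLike.mem_coe]
        exact ⟨one_mem _, fun h => h1 h.1⟩)
    have h6 := Finset.card_sdiff_add_card_eq_card (s := (S x).toFinset)
      (t := (N (S x) : Set H).toFinset) (fun y hy => by
        rw [Set.mem_toFinset] at hy ⊢; exact hsub y hy)
    rw [← h5, ← Set.ncard_eq_toFinset_card', ← Set.ncard_eq_toFinset_card',
      ← Nat.card_coe_set_eq (N (S x) : Set H)] at h6
    have h7 : (Nat.card (N (S x)) : ℚ) = _ := congrArg Nat.cast h6.symm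
    refine ⟨Q - a, ?_⟩
    push_cast at h7 ⊢
    rw [sub_mul, ← ha, h7]
    ring
  choose! b hb using h4
  have h5 : ∀ E ∈ R, (1 : ℚ) / (2 * Q) ≤ (E.ncard : ℚ) / Nat.card (N E) := fun E hE => by
    obtain ⟨x, hx, hxE⟩ := hR' E hE
    have h6 : (1 : ℚ) ≤ E.ncard := by
      have : 0 < E.ncard := (Set.ncard_pos).2 ⟨x, hxE ▸ ⟨hx, hrefl x hx⟩⟩
      exact_mod_cast this
    have h7 := hb E hE
    have h8 : (1 : ℚ) ≤ b E := by
      have : (0 : ℚ) < b E := (mul_pos_iff_of_pos_right (hn E)).1 (h7 ▸ by positivity)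
      exact_mod_cast (by exact_mod_cast this : (0 : ℤ) < b E)
    rw [div_le_div_iff₀ (by positivity) (hn E)]
    nlinarith [hn E]
  have h6 : R.card ≤ 2 * Q := by
    have h7 : R.card • ((1 : ℚ) / (2 * Q)) ≤ 1 := by
      refine (Finset.card_nsmul_le_sum R _ _ h5).trans ?_
      rw [← h2, div_le_one hh, Nat.card_eq_fintype_card]
      exact_mod_cast Finset.card_le_univ _
    rw [nsmul_eq_mul, mul_one_div, div_le_one (by positivity)] at h7
    exact_mod_cast h7
  rcases hB (Set H) R (fun E => Nat.card (N E)) (Nat.card H) (∑ E ∈ R, b E + a - Q) h6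
    Nat.card_pos (fun E _ => ⟨Nat.card_pos, (N E).card_le_card_group⟩) (by
      have h7 : ∀ E ∈ R, (1 : ℚ) / Nat.card (N E) = b E / Q - E.ncard / Nat.card (N E) :=
        fun E hE => by
          have := hb E hE
          have := hn E
          field_simp
          linarith
      rw [Finset.sum_congr rfl h7, Finset.sum_sub_distrib, ← h2, ← Finset.sum_div]
      push_cast
      field_simp
      linarith) with h | ⟨E, hE, h⟩
  · exact Or.inl h
  · obtain ⟨x, hx, rfl⟩ := hR' E hE
    refine Or.inr ⟨x, hx, fun g => (hN x hx g).1 ?_⟩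
    rw [eq_top_of_card_eq _ h]
    exact mem_top g

end CL.JordanP
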