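import Mathlib
import Cfsg.Agent.BLK.Princ2
import Cfsg.Agent.BLK.BlockOrth
import Cfsg.Agent.BLK.Osima

/-!
# Principal blocks for two primes meeting trivially: independence of sections
-/

open Cfsg CL.Blk
open scoped ComplexConjugate

namespace CL.PInd

variable {G : Type*} [Group G] [Finite G] {p q : ℕ}

/-- the `p`-part -/
noncomputable def pt (hp : p.Prime) (g : G) : G := (exists_isPPart hp g).choose

theorem pt_spec (hp : p.Prime) (g : G) : IsPPart p g (pt hp g) := (exists_isPPart hp g).choose_spec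

theorem pt_eq (hp : p.Prime) {g x : G} (h : IsPPart p g x) : pt hp g = x :=
  (pt_spec hp g).unique hp h

theorem pt_conj (hp : p.Prime) (g c : G) : pt hp (c * g * c⁻¹) = c * pt hp g * c⁻¹ :=
  pt_eq hp ((pt_spec hp g).conj c)

omit [Finite G] in
theorem orderOf_cj (g c : G) : orderOf (c * g * c⁻¹) = orderOf g := by
  have := (MulAut.conj c).orderOf_eq g
  simpa using this

open Classical in
/-- The `p`-section of `x` is independent from the `q`-regular elements. -/
theorem indep [Fintype G] {Mp Mq : Ideal AlgInt} (hp : IsPModular p Mp) (hq : IsPModular q Mq)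
    (h : ∀ χ : IrrCharacter G, χ ∈ principalBlock Mp G → χ ∈ principalBlock Mq G →
      (χ : G → ℂ) = fun _ => 1) (x : G) :
    Nat.card G * (Finset.univ.filter fun g : G => IsConj x (pt hp.1 g) ∧ ¬ q ∣ orderOf g).card =
      (Finset.univ.filter fun g : G => IsConj x (pt hp.1 g)).card *
        Nat.card {g : G // ¬ q ∣ orderOf g} := by
  set φ : G → ℂ := fun g => if IsConj x (pt hp.1 g) then 1 else 0 with hφ
  have hcl : IsClassFunction G φ := by
    intro g c
    have : IsConj x (pt hp.1 (c * g * c⁻¹)) ↔ IsConj x (pt hp.1 g) := by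
      rw [pt_conj]
      have hc : IsConj (pt hp.1 g) (c * pt hp.1 g * c⁻¹) := isConj_iff.2 ⟨c, rfl⟩
      exact ⟨fun a => a.trans hc.symm, fun a => a.trans hc⟩
    simp only [hφ, this]
  have h1 : irrOne G ∈ principalBlock Mp G :=
    (eq_principal_iff hp isPBlock_principalBlock).1 rfl
  have hz : ∀ χ : IrrCharacter G, χ ∉ principalBlock Mp G → classInner φ χ = 0 := by
    intro χ hχ
    have := sum_section_eq_zero_of_int hp (blockCoeff_mem_V hp isPBlock_principalBlock) h1 hχ
      {g | IsConj x (pt hp.1 g)} (by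
        intro g k a b ha hb hab hg
        simp only [Set.mem_ofPred_eq] at hg ⊢
        rw [pt_eq hp.1 ha] at hg
        rw [pt_eq hp.1 hb]
        exact hg.trans hab)
    unfold classInner
    rw [Finset.sum_filter] at this
    have e : ∑ g, φ g * conj ((χ : G → ℂ) g) = 0 := by
      rw [← this]
      refine Finset.sum_congr rfl fun g _ => ?_
      simp only [hφ, Set.mem_ofPred_eq, irrOne_apply]
      split_ifs <;> simp
    rw [e, mul_zero]
  have key := regSum_eq_sum_irr (p := q) hcl
  rw [Finset.sum_eq_single (irrOne G)] at key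
  · have e1 : regSum q φ =
        ((Finset.univ.filter fun g : G => IsConj x (pt hp.1 g) ∧ ¬ q ∣ orderOf g).card : ℂ) := by
      rw [regSum_eq_filter, Finset.sum_filter, Finset.card_filter]
      push_cast
      refine Finset.sum_congr rfl fun g _ => ?_
      simp only [hφ]
      by_cases a : IsConj x (pt hp.1 g) <;> by_cases b : q ∣ orderOf g <;> simp [a, b]
    have e2 : classInner φ (irrOne G) = (Nat.card G : ℂ)⁻¹ *
        ((Finset.univ.filter fun g : G => IsConj x (pt hp.1 g)).card : ℂ) := by
      unfold classInner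
      congr 1
      rw [Finset.card_filter]
      push_cast
      refine Finset.sum_congr rfl fun g _ => ?_
      simp only [hφ, irrOne_apply]
      split_ifs <;> simp
    have e3 : regSum q (irrOne G).1 = Nat.card {g : G // ¬ q ∣ orderOf g} := regSum_one
    rw [e1, e2, e3] at key
    have hG : (Nat.card G : ℂ) ≠ 0 := by exact_mod_cast Nat.card_pos.ne'
    have : (Nat.card G : ℂ) *
        ((Finset.univ.filter fun g : G => IsConj x (pt hp.1 g) ∧ ¬ q ∣ orderOf g).card : ℂ) =
        ((Finset.univ.filter fun g : G => IsConj x (pt hp.1 g)).card : ℂ) *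
          (Nat.card {g : G // ¬ q ∣ orderOf g} : ℂ) := by
      rw [key]; field_simp
    exact_mod_cast this
  · intro χ _ hne
    by_cases a : χ ∈ principalBlock Mp G
    · have b : χ ∉ principalBlock Mq G := fun b => hne (Subtype.ext (h χ a b))
      rw [regSum_eq_zero_of_notMem hq b, mul_zero]
    · rw [hz χ a, zero_mul]
  · intro hn
    exact absurd (Finset.mem_univ _) hn

open Classical in
theorem card_sec [Fintype G] (hp : p.Prime) (T : G → Prop) (hT : ∀ g c, T g → T (c * g * c⁻¹))
    (x : G) :
    (Finset.univ.filter fun g : G => IsConj x (pt hp g) ∧ T g).card =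
      (Finset.univ.filter fun y : G => IsConj x y).card *
        (Finset.univ.filter fun g : G => pt hp g = x ∧ T g).card := by
  rw [Finset.card_eq_sum_card_fiberwise (f := pt hp)
    (t := Finset.univ.filter fun y : G => IsConj x y)
    (fun g hg => by simpa using (Finset.mem_filter.1 hg).2.1)]
  rw [Finset.sum_const_nat]
  intro y hy
  obtain ⟨c, rfl⟩ := isConj_iff.1 (Finset.mem_filter.1 hy).2
  symm
  refine Finset.card_bij (fun g _ => c * g * c⁻¹) ?_ ?_ ?_
  · intro g hg
    obtain ⟨-, h1, h2⟩ := Finset.mem_filter.1 hg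
    simp only [Finset.mem_filter, Finset.mem_univ, true_and]
    rw [pt_conj, h1]
    exact ⟨⟨isConj_iff.2 ⟨c, rfl⟩, hT _ _ h2⟩, rfl⟩
  · intro a _ b _ hab
    simpa using hab
  · intro g hg
    simp only [Finset.mem_filter, Finset.mem_univ, true_and] at hg
    refine ⟨c⁻¹ * g * c⁻¹⁻¹, ?_, by group⟩
    simp only [Finset.mem_filter, Finset.mem_univ, true_and]
    rw [pt_conj, hg.2]
    exact ⟨by group, hT _ _ hg.1.2⟩

open Classical in
/-- The full power of `q` divides the number of elements with `p`-part `x`. -/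
theorem dvd_fib [Fintype G] {Mp Mq : Ideal AlgInt} (hp : IsPModular p Mp) (hq : IsPModular q Mq)
    (h : ∀ χ : IrrCharacter G, χ ∈ principalBlock Mp G → χ ∈ principalBlock Mq G →
      (χ : G → ℂ) = fun _ => 1) (x : G) {k : ℕ} (hk : q ^ k ∣ Nat.card G) :
    q ^ k ∣ (Finset.univ.filter fun g : G => pt hp.1 g = x).card := by
  have e := indep hp hq h x
  have e1 := card_sec hp.1 (fun g => ¬ q ∣ orderOf g)
    (fun g c hg => by rwa [orderOf_cj]) x
  have e2 := card_sec hp.1 (fun _ => True) (fun _ _ _ => trivial) x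
  simp only [and_true] at e2
  have e1' : (Finset.univ.filter fun g : G => IsConj x (pt hp.1 g) ∧ ¬ q ∣ orderOf g).card =
      (Finset.univ.filter fun y : G => IsConj x y).card *
        (Finset.univ.filter fun g : G => pt hp.1 g = x ∧ ¬ q ∣ orderOf g).card := by
    convert e1
  rw [e1', e2] at e
  have hc : 0 < (Finset.univ.filter fun y : G => IsConj x y).card :=
    Finset.card_pos.2 ⟨x, Finset.mem_filter.2 ⟨Finset.mem_univ _, IsConj.refl x⟩⟩
  have e3 : Nat.card G * (Finset.univ.filter fun g : G => pt hp.1 g = x ∧ ¬ q ∣ orderOf g).card =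
      (Finset.univ.filter fun g : G => pt hp.1 g = x).card *
        Nat.card {g : G // ¬ q ∣ orderOf g} := by
    apply Nat.eq_of_mul_eq_mul_left hc
    linarith
  have hco : (q ^ k).Coprime (Nat.card {g : G // ¬ q ∣ orderOf g}) :=
    Nat.Coprime.pow_left _ ((Nat.Prime.coprime_iff_not_dvd hq.1).2 (not_dvd_card_reg hq))
  exact hco.dvd_of_dvd_mul_right (e3 ▸ hk.mul_right _)

open Classical in
theorem main [hp : Fact p.Prime] (P : Sylow p G)
    (hd : ∀ [Fintype G] (x : G), (P : Subgroup G).index ∣
      (Finset.univ.filter fun g : G => pt hp.out g = x).card) :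
    (P : Subgroup G).Normal ∧ (P : Subgroup G) ⊔ pPrimeCore p G = ⊤ := by
  have := Fintype.ofFinite G
  set m := (P : Subgroup G).index with hm
  set N : G → ℕ := fun x => (Finset.univ.filter fun g : G => pt hp.out g = x).card with hN
  set X : Finset G := Finset.univ.filter fun x : G => ∃ k, orderOf x = p ^ k with hX
  set Y : Finset G := Finset.univ.filter fun x : G => x ∈ (P : Subgroup G) with hY
  have hYX : Y ⊆ X := by
    intro x hx
    have hx' := (Finset.mem_filter.1 hx).2
    obtain ⟨k, hk⟩ := IsPGroup.iff_orderOf.1 P.isPGroup' ⟨x, hx'⟩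
    refine Finset.mem_filter.2 ⟨Finset.mem_univ _, k, ?_⟩
    rw [← hk, Subgroup.orderOf_mk]
  have hYc : Y.card = Nat.card (P : Subgroup G) := by
    rw [Nat.card_eq_fintype_card, Fintype.card_subtype]
  have hge : ∀ x ∈ X, m ≤ N x := by
    intro x hx
    refine Nat.le_of_dvd (Finset.card_pos.2 ⟨x, ?_⟩) (hd x)
    exact Finset.mem_filter.2 ⟨Finset.mem_univ _,
      pt_eq hp.out (isPPart_self hp.out (Finset.mem_filter.1 hx).2)⟩
  have hsum : ∑ x ∈ X, N x = Y.card * m := by
    rw [hYc, hm, Subgroup.card_mul_index, Nat.card_eq_fintype_card, ← Finset.card_univ]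
    exact (Finset.card_eq_sum_card_fiberwise (f := pt hp.out) (s := Finset.univ) (t := X)
      (fun g _ => by
        simp only [hX, Finset.coe_filter, Finset.mem_univ, true_and, Set.mem_ofPred_eq]
        exact (pt_spec hp.out g).pElt)).symm
  have hm0 : 0 < m := Nat.pos_of_ne_zero Subgroup.index_ne_zero_of_finite
  have h1X : (1 : G) ∈ X := hYX (Finset.mem_filter.2 ⟨Finset.mem_univ _, one_mem _⟩)
  have hlow : (X.erase 1).card * m ≤ ∑ x ∈ X.erase 1, N x := by
    rw [← smul_eq_mul]
    exact Finset.card_nsmul_le_sum _ _ _ fun x hx => hge x (Finset.mem_of_mem_erase hx)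
  have hsplit := Finset.add_sum_erase X N h1X
  have hce := Finset.card_erase_add_one h1X
  have hle := Finset.card_le_card hYX
  have hN1 := hge 1 h1X
  have hXY : X.card ≤ Y.card := by
    apply Nat.le_of_mul_le_mul_right _ hm0
    nlinarith
  have hN1' : N 1 ≤ m := by
    have : X.card = Y.card := le_antisymm hXY hle
    nlinarith
  have hXe : Y = X := Finset.eq_of_subset_of_card_le hYX hXY
  have hPn : (P : Subgroup G).Normal := by
    refine ⟨fun x hx c => ?_⟩
    have hx1 : x ∈ X := hYX (Finset.mem_filter.2 ⟨Finset.mem_univ _, hx⟩)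
    have hx2 : c * x * c⁻¹ ∈ X := by
      refine Finset.mem_filter.2 ⟨Finset.mem_univ _, ?_⟩
      rw [orderOf_cj]
      exact (Finset.mem_filter.1 hx1).2
    rw [← hXe] at hx2
    exact (Finset.mem_filter.1 hx2).2
  refine ⟨hPn, ?_⟩
  obtain ⟨H, hH⟩ := Subgroup.exists_right_complement'_of_coprime (N := (P : Subgroup G))
    P.card_coprime_index
  have hHc : Nat.card H = m := hH.symm.index_eq_card.symm
  have hHp : ¬ p ∣ Nat.card H := hHc ▸ P.not_dvd_index
  set R : Finset G := Finset.univ.filter fun g : G => pt hp.out g = 1 with hR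
  set Z : Finset G := Finset.univ.filter fun x : G => x ∈ H with hZ
  have hZc : Z.card = Nat.card H := by
    rw [Nat.card_eq_fintype_card, Fintype.card_subtype]
  have hZR : Z ⊆ R := by
    intro x hx
    refine Finset.mem_filter.2 ⟨Finset.mem_univ _, pt_eq hp.out (isPPart_one_iff.2 fun hdv => hHp ?_)⟩
    exact hdv.trans (H.orderOf_dvd_natCard (Finset.mem_filter.1 hx).2)
  have hZe : Z = R := Finset.eq_of_subset_of_card_le hZR (by rw [hZc, hHc]; exact hN1')
  have hHn : H.Normal := by
    refine ⟨fun x hx c => ?_⟩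
    have hx1 : x ∈ R := hZR (Finset.mem_filter.2 ⟨Finset.mem_univ _, hx⟩)
    have hx2 : c * x * c⁻¹ ∈ R := by
      refine Finset.mem_filter.2 ⟨Finset.mem_univ _, ?_⟩
      rw [pt_conj, (Finset.mem_filter.1 hx1).2]
      group
    rw [← hZe] at hx2
    exact (Finset.mem_filter.1 hx2).2
  have hHle : H ≤ pPrimeCore p G :=
    le_sSup ⟨hHn, ((Nat.Prime.coprime_iff_not_dvd hp.out).2 hHp).symm⟩
  exact top_le_iff.1 (hH.sup_eq_top ▸ sup_le_sup_left hHle _)

end CL.PInd
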