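import Mathlib
import Cfsg.Agent.BLK.FixAvg
import Cfsg.Agent.CHAR.GoingDown

/-!
Degrees of quasi-primitive characters of solvable groups and class sizes.
-/

open Cfsg Subgroup CL.Char
open scoped commutatorElement

namespace CL.Blk

variable {G : Type*} [Group G] [Fintype G]

theorem isHomog_of_primitive {χ : G → ℂ} (hχ : IsIrrCharacter G χ)
    (hprim : ¬ ∃ (H : Subgroup G), H ≠ ⊤ ∧ ∃ θ : ↥H → ℂ, IsCharacter ↥H θ ∧ indFun H θ = χ)
    (M : Subgroup G) (hM : M.Normal) : IsHomog M χ := by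
  rcases homogeneous_or_induced M hχ with h | ⟨T, ψ, -, hT, hψ, h⟩
  · exact h
  · exact absurd ⟨T, hT, ψ, hψ.isCharacter, h⟩ hprim

theorem exists_chain_fun [Group.IsSolvable G] {p : ℕ} (hp : p.Prime) {F R : Subgroup G}
    [F.Normal] [R.Normal] (hF : Group.IsNilpotent F) (hR : ∀ r ∈ R, ∃ k : ℕ, r ^ p ^ k ∈ F)
    {χ : G → ℂ} (hχ : IsIrrCharacter G χ) (hq : ∀ M : Subgroup G, M.Normal → IsHomog M χ) :
    ∀ K : Subgroup G, K.Normal → ∀ (θ : K → ℂ) (e : ℕ), IsIrrCharacter K θ →
      (fun n : K => χ n) = (e : ℂ) • θ →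
      ∃ a : G → ℕ, (∀ g, ∀ r ∈ R, a (g * r) = a g) ∧
        (∀ g, a g + vp p (K ⊓ centralizer {g}) ≤ vp p K) ∧
        Nat.card G * (charDegree θ).factorization p ≤ ∑ g, a g := by
  classical
  intro K
  induction K using WellFoundedLT.induction with
  | ind K ih => ?_
  intro hK θ e hθ he
  by_cases hK0 : K = ⊥
  · subst hK0
    refine ⟨fun _ => 0, fun _ _ _ => rfl, fun g => by simp [vp_bot], ?_⟩
    have h1 := hθ.charDegree_dvd_card
    rw [Subgroup.card_bot, Nat.dvd_one] at h1
    simp [h1]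
  obtain ⟨L, hL, -, hLK, hch⟩ := exists_chief_below (N := ⊥) (bot_lt_iff_ne_bot.2 hK0)
  obtain ⟨φ, f, hf, hφ, hfe⟩ := (hq L hL).exists_pos hχ.one_ne_zero
  have he0 : (e : ℂ) ≠ 0 := by
    intro h0
    have := congrFun he 1
    rw [h0] at this
    exact hχ.one_ne_zero (by simpa using this)
  have h1 : (fun n : L => θ ⟨n, hLK.le n.2⟩) = ((f : ℂ) / e) • φ := by
    funext n
    have h2 := congrFun he ⟨n, hLK.le n.2⟩
    have h3 := congrFun hfe n
    simp only [Pi.smul_apply, smul_eq_mul] at h2 h3 ⊢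
    field_simp
    rw [mul_comm, ← h2, h3]
  obtain ⟨e', he'⟩ : ∃ e' : ℕ, (f : ℂ) / e = e' := by
    obtain ⟨m, hm⟩ := (hθ.isCharacter.resLE hLK.le).exists_nat_inner hφ.isCharacter
    exact ⟨m, by rw [← hm, h1, inner_smul_self hφ]⟩
  rw [he'] at h1
  have hab : ⁅K, K⁆ ≤ L := by
    have hV := isMinNormal_map_mk'_of_chief hLK hch
    have hVc := hV.isMulCommutative_of_isSolvable inferInstance
    rw [commutator_le]
    intro a ha b hb
    rw [← QuotientGroup.eq_one_iff]
    have := hVc.is_comm.comm (⟨_, mem_map_of_mem (QuotientGroup.mk' L) ha⟩ :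
      K.map (QuotientGroup.mk' L)) ⟨_, mem_map_of_mem (QuotientGroup.mk' L) hb⟩
    have h2 : QuotientGroup.mk' L a * QuotientGroup.mk' L b =
      QuotientGroup.mk' L b * QuotientGroup.mk' L a := congrArg Subtype.val this
    show QuotientGroup.mk' L ⁅a, b⁆ = 1
    rw [map_commutatorElement, commutatorElement_eq_one_iff_mul_comm, h2]
  have hinv : inertia K θ = ⊤ := inertia_eq_top_of_res_eq_smul hχ.isClassFunction he0 he
  have h2 := eq_one_or_sq_eq_of_chief hLK.le hch hab hθ hinv hφ h1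
  obtain ⟨a, ha1, ha2, ha3⟩ := ih L hLK hL φ f hφ hfe
  obtain ⟨b, hb1, hb2, hb3⟩ := exists_chief_fun hp hF hR hLK hch h2
  have hdeg : charDegree θ = e' * charDegree φ := by
    apply charDegree_eq_of_apply_one
    have := congrFun h1 1
    simp only [Pi.smul_apply, smul_eq_mul] at this
    rw [hφ.apply_one_eq_charDegree] at this
    push_cast
    exact this
  have he'0 : e' ≠ 0 := by
    rintro rfl
    have := hθ.charDegree_pos
    omega
  refine ⟨fun g => a g + b g, fun g r hr => by simp only [ha1 g r hr, hb1 g r hr],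
    fun g => ?_, ?_⟩
  · have := ha2 g
    have := hb2 g
    beta_reduce
    omega
  · rw [hdeg, Nat.factorization_mul he'0 hφ.charDegree_pos.ne', Finset.sum_add_distrib,
      Finsupp.add_apply, mul_add]
    omega

/-- For a quasi-primitive character of a solvable group, the `p`-part of the degree is bounded
by the `p`-part of all class sizes in a suitable coset of `R`. -/
theorem exists_class_size_ge [Group.IsSolvable G] {p : ℕ} (hp : p.Prime) {F R : Subgroup G}
    [F.Normal] [R.Normal] (hF : Group.IsNilpotent F) (hR : ∀ r ∈ R, ∃ k : ℕ, r ^ p ^ k ∈ F)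
    {χ : G → ℂ} (hχ : IsIrrCharacter G χ) (hq : ∀ M : Subgroup G, M.Normal → IsHomog M χ) :
    ∃ g : G, ∀ r ∈ R, (charDegree χ).factorization p ≤
      ((centralizer ({g * r} : Set G)).index).factorization p := by
  have hθ : IsIrrCharacter (⊤ : Subgroup G) (fun n : (⊤ : Subgroup G) => χ n) :=
    hχ.comp_mulEquiv Subgroup.topEquiv
  obtain ⟨a, ha1, ha2, ha3⟩ := exists_chain_fun hp hF hR hχ hq ⊤ inferInstance _ 1 hθ (by simp)
  have h1 : charDegree (fun n : (⊤ : Subgroup G) => χ n) = charDegree χ := rfl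
  rw [h1] at ha3
  obtain ⟨g, hg⟩ : ∃ g, (charDegree χ).factorization p ≤ a g := by
    by_contra hcon
    push Not at hcon
    have := Finset.sum_lt_sum_of_nonempty Finset.univ_nonempty
      fun g (_ : g ∈ (Finset.univ : Finset G)) => hcon g
    rw [Finset.sum_const, Finset.card_univ, smul_eq_mul, ← Nat.card_eq_fintype_card] at this
    omega
  refine ⟨g, fun r hr => ?_⟩
  have h2 := ha2 (g * r)
  rw [ha1 g r hr, top_inf_eq] at h2
  have h3 : vp p (⊤ : Subgroup G) = vp p (centralizer ({g * r} : Set G)) +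
      ((centralizer ({g * r} : Set G)).index).factorization p := by
    unfold vp
    rw [Subgroup.card_top, ← Subgroup.card_mul_index (centralizer ({g * r} : Set G)),
      Nat.factorization_mul Nat.card_pos.ne' Subgroup.index_ne_zero_of_finite]
    rfl
  omega

theorem exists_class_size_ge' [Group.IsSolvable G] {p : ℕ} (hp : p.Prime)
    {χ : G → ℂ} (hχ : IsIrrCharacter G χ) (hq : ∀ M : Subgroup G, M.Normal → IsHomog M χ) :
    ∃ g : G, (charDegree χ).factorization p ≤
      ((centralizer ({g} : Set G)).index).factorization p := by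
  obtain ⟨g, hg⟩ := exists_class_size_ge hp (F := ⊥) (R := ⊥) inferInstance
    (fun r hr => ⟨0, by simpa using hr⟩) hχ hq
  exact ⟨g * 1, hg 1 (Subgroup.one_mem _)⟩

end CL.Blk
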