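import Mathlib
import Cfsg.Agent.ODD.AbelemRep

/-!
# Norm elements of cyclic subgroups acting on modules
-/

set_option autoImplicit false
set_option linter.unusedSectionVars false

namespace CL.RP

open Subgroup Finset

section Norm

variable {k M L : Type*} [CommRing k] [AddCommGroup M] [Module k M] [Group L]
  (φ : L →* Module.End k M)

/-- the sum of the powers of `g` -/
noncomputable def nm (g : L) : Module.End k M := ∑ i ∈ range (orderOf g), φ g ^ i

theorem nm_commute {g h : L} (e : Commute g h) : Commute (nm φ g) (φ h) :=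
  Commute.sum_left _ _ _ fun i _ => (e.map φ).pow_left i

theorem nm_one : nm φ 1 = 1 := by simp [nm]

theorem nm_comp {L' : Type*} [Group L'] (f : L' →* L) (hf : Function.Injective f) (g : L') :
    nm (φ.comp f) g = nm φ (f g) := by
  rw [nm, nm, orderOf_injective f hf]; rfl

theorem nm_of_eq_one {g : L} (h : φ g = 1) : nm φ g = (orderOf g : k) • 1 := by
  simp [nm, h, Nat.cast_smul_eq_nsmul]

theorem nm_mul [Finite L] {a b : L} (e : Commute a b) (hc : (orderOf a).Coprime (orderOf b)) :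
    nm φ (a * b) = nm φ a * nm φ b := by
  rw [nm, nm, nm, e.orderOf_mul_eq_mul_orderOf_of_coprime hc, sum_mul_sum, ← sum_product']
  have ha := orderOf_pos a
  have hb := orderOf_pos b
  refine sum_nbij (fun i => (i % orderOf a, i % orderOf b)) (fun i _ => by
    simp [Nat.mod_lt _ ha, Nat.mod_lt _ hb]) (fun i hi j hj h => ?_) (fun p hp => ?_) fun i _ => ?_
  · simp only [Prod.mk.injEq] at h
    exact Nat.ModEq.eq_of_lt_of_lt ((Nat.modEq_and_modEq_iff_modEq_mul hc).1 h) (by simpa using hi)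
      (by simpa using hj)
  · obtain ⟨p1, p2⟩ := p
    simp only [coe_product, coe_range, Set.mem_prod, Set.mem_Iio] at hp
    refine ⟨Nat.chineseRemainder hc p1 p2, by
      simpa using Nat.chineseRemainder_lt_mul hc p1 p2 ha.ne' hb.ne', Prod.ext ?_ ?_⟩
    · exact Eq.trans (Nat.chineseRemainder hc p1 p2).2.1 (Nat.mod_eq_of_lt hp.1)
    · exact Eq.trans (Nat.chineseRemainder hc p1 p2).2.2 (Nat.mod_eq_of_lt hp.2)
  · rw [← map_pow, ← map_pow, ← map_pow, pow_mod_orderOf, pow_mod_orderOf, e.mul_pow, map_mul]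

/-- `F ⟨y⟩` is a Frobenius group -/
def Frob (F : Subgroup L) (y : L) : Prop :=
  F ≠ ⊥ ∧ y ∈ normalizer (F : Set L) ∧ ∀ n : ℕ, y ^ n ≠ 1 → ∀ x ∈ F, Commute x (y ^ n) → x = 1

theorem Frob.eq_one [Finite L] {F : Subgroup L} {y : L} (h : Frob F y) (hu : IsUnit (Nat.card F : k))
    (h0 : nm φ y = 0) : ∀ x ∈ F, φ x = 1 := by
  classical
  have := Fintype.ofFinite F
  set N : Module.End k M := ∑ x : F, φ x with hN
  have key : ∀ i, y ^ i ≠ 1 → ∑ x : F, φ x * φ y ^ i * φ (x : L)⁻¹ = N * φ y ^ i := fun i hi => by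
    have hn : y ^ i ∈ normalizer (F : Set L) := pow_mem h.2.1 i
    let c : F → F := fun x => ⟨x * (y ^ i * (x : L)⁻¹ * (y ^ i)⁻¹), mul_mem x.2
      ((mem_normalizer_iff.1 hn _).1 (inv_mem x.2))⟩
    have hc : Function.Bijective c := Finite.injective_iff_bijective.1 fun a b e => by
      have e1 : (a : L) * (y ^ i * (a : L)⁻¹ * (y ^ i)⁻¹) = b * (y ^ i * (b : L)⁻¹ * (y ^ i)⁻¹) :=
        congrArg Subtype.val e
      have e2 := h.2.2 i hi ((b : L)⁻¹ * a) (mul_mem (inv_mem b.2) a.2) (by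
        have : (b : L)⁻¹ * a * y ^ i =
          (b : L)⁻¹ * (a * (y ^ i * (a : L)⁻¹ * (y ^ i)⁻¹)) * y ^ i * a := by group
        rw [Commute, SemiconjBy, this, e1]; group)
      exact Subtype.ext (inv_mul_eq_one.1 e2).symm
    rw [hN, ← hc.sum_comp fun x : F => φ x, sum_mul]
    refine sum_congr rfl fun x _ => ?_
    simp only [c, ← map_pow, ← map_mul]
    congr 1; group
  have h1 : ∑ x : F, φ x * nm φ y * φ (x : L)⁻¹ = (Nat.card F : k) • 1 + (N * nm φ y - N) := by
    obtain ⟨n, hn⟩ : ∃ n, orderOf y = n + 1 := ⟨_, (Nat.succ_pred_eq_of_pos (orderOf_pos y)).symm⟩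
    simp only [nm, hn, mul_sum, sum_mul]
    rw [sum_comm, sum_range_succ', sum_range_succ', sum_congr rfl fun i hi =>
      key (i + 1) (pow_ne_one_of_lt_orderOf (by omega) (by have := mem_range.1 hi; omega))]
    simp [← map_mul, Nat.cast_smul_eq_nsmul, add_comm]
  rw [h0] at h1
  simp only [mul_zero, zero_mul, sum_const_zero, zero_sub] at h1
  have h2 : N = (Nat.card F : k) • 1 := (add_neg_eq_zero.1 h1.symm).symm
  intro x hx
  have h3 : φ x * N = N := by
    rw [hN, mul_sum]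
    exact Fintype.sum_equiv (Equiv.mulLeft (⟨x, hx⟩ : F)) _ _ fun a => by simp
  rw [h2, mul_smul_comm, mul_one] at h3
  exact hu.smul_left_cancel.1 h3

/-- irreducibility -/
def Irr : Prop := ∀ U : Submodule k M, (∀ h : L, ∀ v ∈ U, φ h v ∈ U) → U = ⊥ ∨ U = ⊤

theorem exists_top {E : Type*} [Ring E] {A : E} (h : IsNilpotent A) {a : ℕ} (ha : A ^ a ≠ 0) :
    ∃ s, A ^ (s + a) ≠ 0 ∧ A ^ (s + a + 1) = 0 := by
  classical
  have h1 : ∃ s, A ^ (s + a + 1) = 0 := h.imp fun n hn => by rw [add_assoc, pow_add, hn, zero_mul]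
  refine ⟨Nat.find h1, ?_, Nat.find_spec h1⟩
  rcases e : Nat.find h1 with _ | s
  · simpa using ha
  · have := Nat.find_min h1 (m := s) (by omega)
    rwa [show s + 1 + a = s + a + 1 by ring]

theorem pow_mul_sub_ne {a b : L} (e : Commute a b) (ha : IsNilpotent (φ a - 1))
    (hb : IsNilpotent (φ b - 1)) (h : ∀ i j, (φ a - 1) ^ i ≠ 0 → (φ b - 1) ^ j ≠ 0 →
      (φ a - 1) ^ i * (φ b - 1) ^ j ≠ 0) {i j : ℕ} (hi : (φ a - 1) ^ i ≠ 0) (hj : (φ b - 1) ^ j ≠ 0)
    (hu : IsUnit ((i + j).choose i : k)) : (φ (a * b) - 1) ^ (i + j) ≠ 0 := fun h0 => by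
  obtain ⟨s, h1, h2⟩ := exists_top ha hi
  obtain ⟨t, h3, h4⟩ := exists_top hb hj
  have e1 := e.map φ
  have c1 : Commute (φ a - 1) (φ b - 1) := (e1.sub_left (.one_left _)).sub_right (.one_right _)
  have c2 : Commute (φ a - 1) (φ a) := (Commute.refl _).sub_left (.one_left _)
  have c3 : Commute (φ b - 1) (φ a) := e1.symm.sub_left (.one_left _)
  have e2 : φ (a * b) - 1 = (φ a - 1) + (φ b - 1) * φ a := by rw [e.eq, map_mul]; noncomm_ring
  have hA : IsUnit (φ a) := (Group.isUnit a).map φ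
  generalize φ a - 1 = A at *
  generalize φ b - 1 = B at *
  have h5 : A ^ s * B ^ t * (A + B * φ a) ^ (i + j) = ((i + j).choose i : k) • (A ^ (s + i) *
      B ^ (t + j) * φ a ^ j) := by
    have h6 : ∀ x, A ^ s * B ^ t * (A ^ x * (B * φ a) ^ (i + j - x) * ((i + j).choose x : ℕ)) =
        ((i + j).choose x : k) • (A ^ (s + x) * B ^ (t + (i + j - x)) * φ a ^ (i + j - x)) := fun x => by
      rw [c3.mul_pow, Nat.cast_smul_eq_nsmul, nsmul_eq_mul', pow_add, pow_add]
      simp only [← mul_assoc]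
      rw [mul_assoc (A ^ s), ← (c1.pow_pow x t).eq, ← mul_assoc]
    rw [(c1.mul_right c2).add_pow, mul_sum, sum_congr rfl fun x _ => h6 x, sum_eq_single i]
    · simp
    · intro x hx hne
      rcases lt_or_gt_of_ne hne with l | l
      · rw [pow_eq_zero_of_le (a := B) (by omega) h4]; simp
      · rw [pow_eq_zero_of_le (a := A) (by omega) h2]; simp
    · simp +contextual
  rw [← e2, h0, mul_zero, eq_comm, hu.smul_eq_zero, (hA.pow j).mul_left_eq_zero] at h5
  exact h _ _ h1 h3 h5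

end Norm

section Pi

variable {k M ι : Type*} [CommRing k] [AddCommGroup M] [Module k M] [DecidableEq ι] {R : ι → Type*}
  [∀ i, Group (R i)] {φ : (∀ i, R i) →* Module.End k M}

theorem commute_single {i : ι} (x : R i) {h : ∀ i, R i} (hi : h i = 1) :
    Commute (Pi.mulSingle i x) h := by
  ext l
  by_cases e : l = i
  · subst e; simp [hi]
  · simp [e]

theorem Irr.mul_ne (hI : Irr φ) (i : ι) {A B : Module.End k M}
    (hA : ∀ h : ∀ i, R i, h i = 1 → Commute A (φ h)) (hB : ∀ x, Commute B (φ (Pi.mulSingle i x)))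
    (h1 : A ≠ 0) (h2 : B ≠ 0) : A * B ≠ 0 := fun h0 => by
  let U : Submodule k M := ⨅ x : R i, LinearMap.ker (A * φ (Pi.mulSingle i x))
  have hU : ∀ v, v ∈ U ↔ ∀ x : R i, (A * φ (Pi.mulSingle i x)) v = 0 := fun v => by simp [U]
  have h3 := hI U fun h v hv => (hU _).2 fun x => by
    have e1 : Pi.mulSingle i x * h = Function.update h i 1 * Pi.mulSingle i (x * h i) := by
      ext l
      by_cases e : l = i
      · subst e; simp
      · simp [e]
    rw [← Module.End.mul_apply, mul_assoc, ← map_mul, e1, map_mul, ← mul_assoc,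
      (hA _ (by simp)).eq, mul_assoc, Module.End.mul_apply, (hU v).1 hv, map_zero]
  rcases h3 with e | e
  · refine h2 (LinearMap.ext fun v => (Submodule.mem_bot k).1 (e ▸ (hU _).2 fun x => ?_))
    rw [← Module.End.mul_apply, mul_assoc, ← (hB x).eq, ← mul_assoc, h0, zero_mul]; rfl
  · refine h1 (LinearMap.ext fun v => ?_)
    simpa using (hU v).1 (e ▸ Submodule.mem_top) 1

theorem Irr.nm_pi [Fintype ι] [∀ i, Finite (R i)] [Nontrivial M] (hI : Irr φ) (g : ∀ i, R i)
    (hc : ∀ i l, i ≠ l → (orderOf (g i)).Coprime (orderOf (g l)))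
    (h : ∀ i, nm φ (Pi.mulSingle i (g i)) ≠ 0) : nm φ g ≠ 0 ∧ orderOf g = ∏ i, orderOf (g i) := by
  have key : ∀ T : Finset ι, nm φ (T.piecewise g 1) ≠ 0 ∧
      orderOf (T.piecewise g 1) = ∏ i ∈ T, orderOf (g i) := fun T => by
    induction T using Finset.induction_on with
    | empty => simp [nm_one]
    | insert a T ha ih =>
      have e1 : (insert a T).piecewise g 1 = Pi.mulSingle a (g a) * T.piecewise g 1 := by
        ext l
        by_cases e : l = a
        · subst e; simp [piecewise, ha]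
        · simp [piecewise, e]
      have h1 : T.piecewise g 1 a = 1 := by simp [piecewise, ha]
      have h2 : orderOf (Pi.mulSingle a (g a) : ∀ i, R i) = orderOf (g a) :=
        orderOf_injective (MonoidHom.mulSingle R a) (Pi.mulSingle_injective a) _
      have h3 : (orderOf (Pi.mulSingle a (g a) : ∀ i, R i)).Coprime (orderOf (T.piecewise g 1)) := by
        rw [h2, ih.2]
        exact Nat.Coprime.prod_right fun i hi => hc a i fun e => ha (e ▸ hi)
      rw [e1, nm_mul φ (commute_single _ h1) h3, (commute_single _ h1).orderOf_mul_eq_mul_orderOf_of_coprime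
        h3, h2, ih.2, prod_insert ha]
      exact ⟨hI.mul_ne a (fun x hx => nm_commute φ (commute_single _ hx))
        (fun x => nm_commute φ (commute_single _ h1).symm) (h a) ih.1, rfl⟩
  simpa using key univ

end Pi

section Three

variable {M : Type*} [AddCommGroup M] [Module (ZMod 3) M]

open Polynomial in
theorem three_facts (x : Module.End (ZMod 3) M) : (x - 1) ^ 3 = x ^ 3 - 1 ∧ (x - 1) ^ 9 = x ^ 9 - 1 ∧
    ∑ i ∈ range 9, x ^ i = (x - 1) ^ 8 := by
  have h3 : (X - 1 : (ZMod 3)[X]) ^ 3 = X ^ 3 - 1 := by rw [sub_pow_char, one_pow]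
  have h9 : (X - 1 : (ZMod 3)[X]) ^ 9 = X ^ 9 - 1 := by
    rw [show 9 = 3 ^ 2 from rfl, sub_pow_char_pow, one_pow]
  have h8 : ∑ i ∈ range 9, (X : (ZMod 3)[X]) ^ i = (X - 1) ^ 8 :=
    mul_right_cancel₀ (X_sub_C_ne_zero 1) (by rw [map_one, geom_sum_mul, ← pow_succ, h9])
  refine ⟨?_, ?_, ?_⟩
  · simpa using congrArg (aeval x) h3
  · simpa using congrArg (aeval x) h9
  · simpa using congrArg (aeval x) h8

variable {ι : Type*} [DecidableEq ι] {R : ι → Type*} [∀ i, Group (R i)]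
  {φ : (∀ i, R i) →* Module.End (ZMod 3) M}

/-- three factors acting non-trivially in characteristic three -/
theorem Irr.exists_nine (hI : Irr φ) {a b c : ι} (hab : a ≠ b) (hac : a ≠ c) (hbc : b ≠ c)
    (g : ∀ i, R i) (h9 : ∀ i, orderOf (g i) = 9)
    (h : ∀ i, i = a ∨ i = b ∨ i = c → φ (Pi.mulSingle i (g i ^ 3)) ≠ 1) :
    ∃ y, orderOf y = 9 ∧ nm φ y ≠ 0 := by
  have n9 : ∀ y : ∀ i, R i, y ^ 9 = 1 → IsNilpotent (φ y - 1) := fun y hy =>
    ⟨9, by rw [(three_facts _).2.1, ← map_pow, hy, map_one, sub_self]⟩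
  have s9 : ∀ i, (Pi.mulSingle i (g i) : ∀ i, R i) ^ 9 = 1 := fun i => by
    rw [← Pi.mulSingle_pow, ← h9 i, pow_orderOf_eq_one, Pi.mulSingle_one]
  have s3 : ∀ i, i = a ∨ i = b ∨ i = c → (φ (Pi.mulSingle i (g i)) - 1) ^ 3 ≠ 0 := fun i hi => by
    rw [(three_facts _).1, ← map_pow, ← Pi.mulSingle_pow, sub_ne_zero]; exact h i hi
  have key : ∀ i (y : ∀ i, R i), y i = 1 → y ^ 9 = 1 → ∀ s t, (φ (Pi.mulSingle i (g i)) - 1) ^ s ≠ 0 →
      (φ y - 1) ^ t ≠ 0 → IsUnit ((s + t).choose s : ZMod 3) →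
      (φ (Pi.mulSingle i (g i) * y) - 1) ^ (s + t) ≠ 0 := fun i y hy hy9 s t =>
    pow_mul_sub_ne φ (commute_single _ hy) (n9 _ (s9 i)) (n9 _ hy9) fun u v => hI.mul_ne i
      (fun z hz => (((commute_single _ hz).map φ).sub_left (.one_left _)).pow_left u)
      fun x => (((commute_single _ hy).symm.map φ).sub_left (.one_left _)).pow_left v
  have h1 := key b (Pi.mulSingle c (g c)) (by simp [hbc]) (s9 c) 3 3 (s3 b (by simp)) (s3 c (by simp))
    (by decide)
  have h2 : (Pi.mulSingle b (g b) * Pi.mulSingle c (g c) : ∀ i, R i) ^ 9 = 1 := by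
    rw [(commute_single _ (by simp [hbc])).mul_pow, s9, s9, one_mul]
  have h0 : (Pi.mulSingle b (g b) * Pi.mulSingle c (g c) : ∀ i, R i) a = 1 := by simp [hab, hac]
  have h3 := key a _ h0 h2 2 6 (fun k => s3 a (by simp) (by rw [pow_succ, k, zero_mul])) h1 (by decide)
  have h4 : orderOf (Pi.mulSingle a (g a) * (Pi.mulSingle b (g b) * Pi.mulSingle c (g c)) :
      ∀ i, R i) = 9 := by
    refine Nat.dvd_antisymm (orderOf_dvd_of_pow_eq_one (by
      rw [(commute_single _ h0).mul_pow, s9, h2, one_mul])) ?_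
    have := orderOf_map_dvd (Pi.evalMonoidHom R a)
      (Pi.mulSingle a (g a) * (Pi.mulSingle b (g b) * Pi.mulSingle c (g c)))
    simpa [hab, hac, h9] using this
  exact ⟨_, h4, by rw [nm, h4, (three_facts _).2.2]; exact h3⟩

end Three

section Lift

open Abelem

variable {X L : Type*} [Group X] [Finite X] [Group L] {r : ℕ} (π : X →* L)
  (hE : Cfsg.IsElementaryAbelian r π.ker)

theorem exists_rep (hπ : Function.Surjective π) : ∃ φ : L →* Module.End (ZMod r) (V hE),
    ∀ x v, (φ (π x) v).val = x * v.val * x⁻¹ := by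
  let ρ : X →* Module.End (ZMod r) (V hE) :=
    { toFun := fun g => conjLin hE g (le_normalizer_of_normal (mem_top g))
      map_one' := by ext v; simp
      map_mul' := fun a b => by ext v; simp [mul_assoc] }
  have h1 : π.ker ≤ ρ.ker := fun g hg => by
    ext v
    simp [ρ, comm_of_mem hE hg v.mem]
  refine ⟨(QuotientGroup.lift _ ρ h1).comp
    (QuotientGroup.quotientKerEquivOfSurjective π hπ).symm.toMonoidHom, fun x v => ?_⟩
  have : (QuotientGroup.quotientKerEquivOfSurjective π hπ).symm (π x) = x :=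
    (MulEquiv.symm_apply_eq _).2 rfl
  simp [this, ρ]

theorem exists_lift (hr : r.Prime) (hπ : Function.Surjective π) {φ : L →* Module.End (ZMod r) (V hE)}
    (hφ : ∀ x v, (φ (π x) v).val = x * v.val * x⁻¹) {g : L} (h : nm φ g ≠ 0) :
    ∃ x : X, orderOf x = orderOf g * r := by
  have := Fact.mk hr
  obtain ⟨x, rfl⟩ := hπ g
  obtain ⟨v, hv⟩ : ∃ v, nm φ (π x) v ≠ 0 := by
    by_contra! k; exact h (LinearMap.ext k)
  have h1 : ∀ n, (v.val * x) ^ n = ((∑ i ∈ range n, φ (π x) ^ i) v).val * x ^ n := fun n => by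
    induction n with
    | zero => simp
    | succ n ih =>
      rw [pow_succ, ih, sum_range_succ, LinearMap.add_apply, V.val_add, ← map_pow, ← map_pow, hφ]
      group
  have key : ∀ y, π y = π x → y ^ orderOf (π x) ≠ 1 → orderOf y = orderOf (π x) * r := fun y e hy => by
    have h2 : y ^ orderOf (π x) ∈ π.ker := by rw [MonoidHom.mem_ker, map_pow, e, pow_orderOf_eq_one]
    have h3 := orderOf_eq_prime (hE.2 _ h2) hy
    have h4 : orderOf (π x) ∣ orderOf y := e ▸ orderOf_map_dvd π y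
    rw [orderOf_pow_of_dvd (fun k => (orderOf_pos y).ne' (by simpa [k] using h4)) h4] at h3
    rw [← h3, Nat.mul_div_cancel' h4]
  by_cases h2 : x ^ orderOf (π x) = 1
  · refine ⟨v.val * x, key _ (by rw [map_mul, v.mem, one_mul]) ?_⟩
    rw [h1, h2, mul_one]
    exact fun k => hv (V.val_eq_one_iff.1 k)
  · exact ⟨x, key x rfl h2⟩

theorem irr_of_min (hπ : Function.Surjective π) {φ : L →* Module.End (ZMod r) (V hE)}
    (hφ : ∀ x v, (φ (π x) v).val = x * v.val * x⁻¹)
    (hmin : ∀ H : Subgroup X, H.Normal → H ≤ π.ker → H = ⊥ ∨ H = π.ker) : Irr φ := fun U hU => by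
  rw [← toSubgroup_eq_bot_iff, ← toSubgroup_eq_self_iff]
  refine hmin _ ⟨?_⟩ (toSubgroup_le U)
  rintro _ ⟨v, hv, rfl⟩ g
  exact ⟨_, hU (π g) v hv, hφ g v⟩

end Lift

end CL.RP
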