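import Mathlib

/-!
# Arithmetic of the element orders of small Ree groups `²G₂(3^p)`, `p` a large prime
-/

set_option autoImplicit false

namespace CL.RP

/-- the orders of the four cyclic tori of `²G₂(3^(2m+1))` -/
def cl (m : ℕ) : Fin 4 → ℕ :=
  ![3 ^ (2 * m + 1) - 1, (3 ^ (2 * m + 1) + 1) / 2, 3 ^ (2 * m + 1) - 3 ^ (m + 1) + 1,
    3 ^ (2 * m + 1) + 3 ^ (m + 1) + 1]

/-- the element orders of `²G₂(3^(2m+1))` -/
def sp (m d : ℕ) : Prop := d ∣ 6 ∨ d ∣ 9 ∨ ∃ j, d ∣ cl m j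

/-- a prime other than `2, 3, 7` -/
def Big (r : ℕ) : Prop := r.Prime ∧ r ≠ 2 ∧ r ≠ 3 ∧ r ≠ 7

/-- `2m+1` is a large prime -/
def P (m : ℕ) : Prop := (2 * m + 1).Prime ∧ 50 ≤ m

variable {m : ℕ}

theorem q_eq (m : ℕ) : (3 : ℤ) ^ (2 * m + 1) = 3 * (3 ^ m) ^ 2 := by ring

theorem cl0 (m : ℕ) : (cl m 0 : ℤ) = 3 * (3 ^ m) ^ 2 - 1 := by
  have : 1 ≤ 3 ^ (2 * m + 1) := Nat.one_le_pow _ _ (by norm_num)
  simp only [cl, Matrix.cons_val_zero]
  push_cast [this]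
  ring

theorem cl1 (m : ℕ) : (2 * cl m 1 : ℤ) = 3 * (3 ^ m) ^ 2 + 1 := by
  have h : 2 ∣ 3 ^ (2 * m + 1) + 1 := (Odd.add_one (Odd.pow (by decide))).two_dvd
  have := Nat.mul_div_cancel' h
  simp only [cl, Matrix.cons_val_one, Matrix.cons_val_zero]
  rw [← q_eq]
  exact_mod_cast this

theorem cl2 (m : ℕ) : (cl m 2 : ℤ) = 3 * (3 ^ m) ^ 2 - 3 * 3 ^ m + 1 := by
  have : 3 ^ (m + 1) ≤ 3 ^ (2 * m + 1) := Nat.pow_le_pow_right (by norm_num) (by omega)
  simp only [cl, Matrix.cons_val]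
  push_cast [this]
  ring

theorem cl3 (m : ℕ) : (cl m 3 : ℤ) = 3 * (3 ^ m) ^ 2 + 3 * 3 ^ m + 1 := by
  simp only [cl, Matrix.cons_val]
  push_cast
  ring

theorem cl_dvd {j : Fin 4} (hj : j ≠ 0) : (cl m j : ℤ) ∣ (3 ^ (2 * m + 1)) ^ 3 + 1 := by
  rw [q_eq]
  have h1 := cl1 m
  have h2 := cl2 m
  have h3 := cl3 m
  have e : (3 * ((3 : ℤ) ^ m) ^ 2) ^ 3 + 1 = 2 * cl m 1 * cl m 2 * cl m 3 := by
    rw [h1, h2, h3]; ring
  rw [e]
  fin_cases j
  · exact absurd rfl hj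
  · exact ((dvd_mul_left _ 2).mul_right _).mul_right _
  · exact (dvd_mul_left _ _).mul_right _
  · exact dvd_mul_left _ _

theorem pow_zero_cl {n : ℕ} (h : n ∣ cl m 0) : (3 : ZMod n) ^ (2 * m + 1) = 1 := by
  have h1 : (n : ℤ) ∣ 3 ^ (2 * m + 1) - 1 := by rw [q_eq, ← cl0]; exact_mod_cast h
  have := (ZMod.intCast_zmod_eq_zero_iff_dvd _ n).2 h1
  push_cast at this
  exact sub_eq_zero.1 this

theorem pow_ne_cl {n : ℕ} {j : Fin 4} (hj : j ≠ 0) (h : n ∣ cl m j) :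
    ((3 : ZMod n) ^ 3) ^ (2 * m + 1) = -1 := by
  have h1 : (n : ℤ) ∣ (3 ^ (2 * m + 1)) ^ 3 + 1 := (Int.natCast_dvd_natCast.2 h).trans (cl_dvd hj)
  have := (ZMod.intCast_zmod_eq_zero_iff_dvd _ n).2 h1
  push_cast at this
  rw [← pow_mul, mul_comm, pow_mul]
  exact eq_neg_of_add_eq_zero_left this

theorem pow_six_cl {n : ℕ} {j : Fin 4} (h : n ∣ cl m j) : (3 : ZMod n) ^ (6 * (2 * m + 1)) = 1 := by
  by_cases hj : j = 0
  · subst hj; rw [mul_comm, pow_mul, pow_zero_cl h, one_pow]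
  · rw [show 6 * (2 * m + 1) = 3 * ((2 * m + 1) * 2) by ring, pow_mul, pow_mul, pow_ne_cl hj h]; simp

theorem not_three (m : ℕ) (j : Fin 4) : ¬ 3 ∣ cl m j := fun h => by
  have := pow_six_cl h
  rw [show (3 : ZMod 3) = 0 from rfl, zero_pow (by omega)] at this
  exact absurd this (by decide)

theorem sq_mod (m : ℕ) : ∃ k : ℤ, (3 ^ m) ^ 2 = 8 * k + 1 := by
  refine ⟨((3 ^ m) ^ 2 - 1) / 8, ?_⟩
  have : (8 : ℤ) ∣ 9 ^ m - 1 ^ m := by simpa using sub_dvd_pow_sub_pow (9 : ℤ) 1 m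
  rw [one_pow, show (9 : ℤ) ^ m = (3 ^ m) ^ 2 by rw [← pow_mul, mul_comm, pow_mul]; norm_num] at this
  omega

theorem odd_s (m : ℕ) : ∃ k : ℤ, 3 ^ m = 2 * k + 1 := Odd.pow (by decide)

theorem not_two {j : Fin 4} (hj : j = 2 ∨ j = 3) : ¬ 2 ∣ cl m j := fun h => by
  obtain ⟨k, hk⟩ := sq_mod m
  obtain ⟨l, hl⟩ := odd_s m
  have h' : (2 : ℤ) ∣ cl m j := by exact_mod_cast h
  rcases hj with rfl | rfl
  · rw [cl2, hk, hl] at h'; omega
  · rw [cl3, hk, hl] at h'; omega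

theorem not_four (m : ℕ) (j : Fin 4) : ¬ 4 ∣ cl m j := fun h => by
  obtain ⟨k, hk⟩ := sq_mod m
  have h' : (4 : ℤ) ∣ cl m j := by exact_mod_cast h
  fin_cases j
  · have := cl0 m; simp only [Fin.zero_eta] at h'; omega
  · have := cl1 m; simp only [Fin.mk_one] at h'; omega
  · exact not_two (.inl rfl) ((by decide : 2 ∣ 4).trans h)
  · exact not_two (.inr rfl) ((by decide : 2 ∣ 4).trans h)

theorem two_dvd (m : ℕ) : 2 ∣ cl m 0 := by
  obtain ⟨k, hk⟩ := sq_mod m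
  have := cl0 m
  have : (2 : ℤ) ∣ cl m 0 := by omega
  exact_mod_cast this

/-- a prime dividing two of the torus orders is `2` -/
theorem eq_of_dvd {r : ℕ} (hr : r.Prime) (h2 : r ≠ 2) {j j' : Fin 4} (h : r ∣ cl m j)
    (h' : r ∣ cl m j') : j = j' := by
  have key : ∀ a b : ℤ, ∀ j j' : Fin 4, r ∣ cl m j → r ∣ cl m j' → a * cl m j + b * cl m j' = 2 →
      False := fun a b j j' h h' e => by
    have : (r : ℤ) ∣ 2 := e ▸ dvd_add ((Int.natCast_dvd_natCast.2 h).mul_left a)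
      ((Int.natCast_dvd_natCast.2 h').mul_left b)
    exact h2 ((Nat.prime_dvd_prime_iff_eq hr Nat.prime_two).1 (by exact_mod_cast this))
  have e0 := cl0 m
  have e1 := cl1 m
  have e2 := cl2 m
  have e3 := cl3 m
  set s : ℤ := 3 ^ m
  have k01 := key (-1) 2 0 1
  have k02 := key (2 * (1 - 3 * s)) (2 * (2 + 3 * s)) 0 2
  have k03 := key (2 * (1 + 3 * s)) (2 * (2 - 3 * s)) 0 3
  have k12 := key (4 * (1 - s)) (2 * s) 1 2
  have k13 := key (4 * (1 + s)) (-2 * s) 1 3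
  have k23 := key (1 + s) (1 - s) 2 3
  replace k01 := fun a b => k01 a b (by linear_combination e1 - e0)
  replace k02 := fun a b => k02 a b (by rw [e0, e2]; ring)
  replace k03 := fun a b => k03 a b (by rw [e0, e3]; ring)
  replace k12 := fun a b => k12 a b (by linear_combination 2 * (1 - s) * e1 + 2 * s * e2)
  replace k13 := fun a b => k13 a b (by linear_combination 2 * (1 + s) * e1 - 2 * s * e3)
  replace k23 := fun a b => k23 a b (by rw [e2, e3]; ring)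
  by_contra hne
  fin_cases j <;> fin_cases j' <;> first | exact hne rfl | tauto

theorem P.odd3 (h : P m) : ¬ 3 ∣ 2 * m + 1 := fun k => by
  have := (Nat.prime_dvd_prime_iff_eq Nat.prime_three h.1).1 k
  have := h.2
  omega

theorem P.cop (h : P m) : (2 * m + 1).Coprime 6 := by
  have h3 := h.odd3
  exact Nat.Coprime.mul_right (m := 2) (n := 3) (Nat.coprime_two_right.2 (odd_two_mul_add_one m))
    ((Nat.prime_three.coprime_iff_not_dvd.2 h3).symm)

/-- `3 ^ 6 = 1` modulo a divisor of a torus order -/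
theorem P.six (h : P m) {n : ℕ} {j : Fin 4} (hd : n ∣ cl m j) (h6 : (3 : ZMod n) ^ 6 = 1) :
    n ∣ 2 ∨ n ∣ 28 ∧ j ≠ 0 := by
  by_cases hj : j = 0
  · subst hj
    have h1 := pow_gcd_eq_one.2 ⟨pow_zero_cl hd, h6⟩
    rw [h.cop, pow_one] at h1
    exact .inl ((ZMod.natCast_eq_zero_iff 2 n).1 (by push_cast; linear_combination h1))
  · have h1 := pow_ne_cl hj hd
    rw [pow_succ, pow_mul, ← pow_mul 3 3 2, h6, one_pow, one_mul] at h1
    exact .inr ⟨(ZMod.natCast_eq_zero_iff 28 n).1 (by push_cast; linear_combination h1), hj⟩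

theorem P.ord (h : P m) {r : ℕ} (hr : Big r) {j : Fin 4} (hd : r ∣ cl m j) :
    2 * m + 1 ∣ orderOf (3 : ZMod r) ∧ orderOf (3 : ZMod r) ∣ 6 * (2 * m + 1) := by
  have h1 := orderOf_dvd_of_pow_eq_one (pow_six_cl hd)
  refine ⟨by_contra fun k => ?_, h1⟩
  have h2 := orderOf_dvd_iff_pow_eq_one.1
    ((h.1.coprime_iff_not_dvd.2 k).symm.dvd_of_dvd_mul_right h1)
  obtain ⟨hp, a, b, c⟩ := hr
  rcases h.six hd h2 with k | ⟨k, -⟩
  · exact a ((Nat.prime_dvd_prime_iff_eq hp Nat.prime_two).1 k)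
  · rcases (Nat.Prime.dvd_mul hp (m := 4) (n := 7)).1 k with k | k
    · exact a ((Nat.prime_dvd_prime_iff_eq hp Nat.prime_two).1 (hp.dvd_of_dvd_pow (n := 2) k))
    · exact c ((Nat.prime_dvd_prime_iff_eq hp (by norm_num)).1 k)

theorem P.dvd_sub (h : P m) {r : ℕ} (hr : Big r) {j : Fin 4} (hd : r ∣ cl m j) :
    2 * m + 1 ∣ r - 1 := by
  have := Fact.mk hr.1
  refine (h.ord hr hd).1.trans (ZMod.orderOf_dvd_card_sub_one fun k => hr.2.2.1 ?_)
  exact (Nat.prime_dvd_prime_iff_eq hr.1 Nat.prime_three).1 ((ZMod.natCast_eq_zero_iff 3 r).1 k)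

/-- a big prime of a torus order for `m` and one for `e` -/
theorem P.dvd_of (h : P m) {r e : ℕ} (hr : Big r) {j j' : Fin 4} (hd : r ∣ cl m j)
    (hd' : r ∣ cl e j') : 2 * m + 1 ∣ 2 * e + 1 :=
  h.cop.dvd_of_dvd_mul_left ((h.ord hr hd).1.trans (orderOf_dvd_of_pow_eq_one (pow_six_cl hd')))

theorem P.not_seven (h : P m) {j : Fin 4} (hj : j = 0 ∨ j = 1) : ¬ 7 ∣ cl m j := fun hd => by
  rcases hj with rfl | rfl
  · rcases h.six hd (by decide) with k | k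
    · omega
    · exact k.2 rfl
  · have h1 : (7 : ℤ) ∣ 3 ^ (2 * m + 1) + 1 := by
      rw [q_eq, ← cl1]; exact Dvd.dvd.mul_left (by exact_mod_cast hd) _
    have h2 := (ZMod.intCast_zmod_eq_zero_iff_dvd _ 7).2 h1
    push_cast at h2
    have h3 := h.odd3
    rw [← Nat.div_add_mod (2 * m + 1) 6, pow_add, pow_mul, show (3 : ZMod 7) ^ 6 = 1 by decide,
      one_pow, one_mul] at h2
    have : (2 * m + 1) % 6 = 1 ∨ (2 * m + 1) % 6 = 5 := by omega
    rcases this with e | e <;> rw [e] at h2 <;> exact absurd h2 (by decide)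

theorem P.not_49 (h : P m) (j : Fin 4) : ¬ 49 ∣ cl m j := fun hd => by
  have h2 := pow_six_cl hd
  have h3 : ¬ 7 ∣ 2 * m + 1 := fun k => by
    have := (Nat.prime_dvd_prime_iff_eq (by norm_num) h.1).1 k
    have := h.2
    omega
  rw [pow_mul, ← Nat.div_add_mod (2 * m + 1) 7, pow_add, pow_mul,
    show ((3 : ZMod 49) ^ 6) ^ 7 = 1 by decide, one_pow, one_mul] at h2
  have : (2 * m + 1) % 7 < 7 := Nat.mod_lt _ (by norm_num)
  have h4 : (2 * m + 1) % 7 ≠ 0 := by omega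
  generalize (2 * m + 1) % 7 = k at *
  interval_cases k <;> first | exact h4 rfl | exact absurd h2 (by decide)

theorem exists_f (m : ℕ) {r : ℕ} (hr : r.Prime) : ∃ j : Fin 4, (j = 2 ∨ j = 3) ∧ ¬ r ∣ cl m j := by
  by_cases h2 : r = 2
  · exact ⟨2, .inl rfl, h2 ▸ not_two (.inl rfl)⟩
  by_cases h : r ∣ cl m 2
  · exact ⟨3, .inr rfl, fun k => absurd (eq_of_dvd hr h2 h k) (by decide)⟩
  · exact ⟨2, .inl rfl, h⟩

theorem s_ge (h : 50 ≤ m) : (10 ^ 8 : ℤ) ≤ 3 ^ m :=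
  le_trans (by norm_num) (pow_le_pow_right₀ (by norm_num : (1 : ℤ) ≤ 3) h)

theorem cl_bd (m : ℕ) (j : Fin 4) :
    (3 ^ m) ^ 2 ≤ (cl m j : ℤ) ∧ (cl m j : ℤ) ≤ 7 * (3 ^ m) ^ 2 := by
  have h : (1 : ℤ) ≤ 3 ^ m := one_le_pow₀ (by norm_num)
  have e0 := cl0 m
  have e1 := cl1 m
  have e2 := cl2 m
  have e3 := cl3 m
  generalize (3 : ℤ) ^ m = s at *
  fin_cases j <;> simp only [Fin.zero_eta, Fin.mk_one, Fin.reduceFinMk] <;> constructor <;> nlinarith

theorem cl_pos (m : ℕ) (j : Fin 4) : 0 < cl m j := by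
  have := (cl_bd m j).1
  have : (0 : ℤ) < (3 ^ m) ^ 2 := by positivity
  omega

/-- the part of a torus order prime to `14` -/
def bp (m : ℕ) (j : Fin 4) : ℕ := cl m j / Nat.gcd (cl m j) 14

theorem bp_mul (m : ℕ) (j : Fin 4) : Nat.gcd (cl m j) 14 * bp m j = cl m j :=
  Nat.mul_div_cancel' (Nat.gcd_dvd_left _ _)

theorem bp_dvd (m : ℕ) (j : Fin 4) : bp m j ∣ cl m j := Dvd.intro_left _ (bp_mul m j)

theorem cl_dvd_bp (m : ℕ) (j : Fin 4) : cl m j ∣ 14 * bp m j := by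
  nth_rw 1 [← bp_mul m j]
  exact Nat.mul_dvd_mul_right (Nat.gcd_dvd_right _ _) _

theorem P.big (h : P m) {j : Fin 4} {r : ℕ} (hr : r.Prime) (hd : r ∣ bp m j) : Big r := by
  have key : ∀ a : ℕ, a.Prime → a ∣ 14 → ¬ a * a ∣ cl m j → ¬ a ∣ bp m j := fun a _ h1 h2 h3 =>
    h2 (bp_mul m j ▸ Nat.mul_dvd_mul (Nat.dvd_gcd (h3.trans (bp_dvd m j)) h1) h3)
  refine ⟨hr, ?_, ?_, ?_⟩ <;> rintro rfl
  · exact key 2 hr (by decide) (not_four m j) hd
  · exact not_three m j (hd.trans (bp_dvd m j))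
  · exact key 7 hr (by decide) (h.not_49 j) hd

theorem Big.cop {r : ℕ} (h : Big r) : r.Coprime 126 := by
  obtain ⟨hp, a, b, c⟩ := h
  have k := fun q hq => (Nat.coprime_primes hp (q := q) hq).2
  exact Nat.Coprime.mul_right (m := 2 * 3 ^ 2) (n := 7)
    ((k 2 Nat.prime_two a).mul_right ((k 3 Nat.prime_three b).pow_right 2)) (k 7 (by norm_num) c)

theorem Big.pow_dvd_bp {r k : ℕ} (h : Big r) {j : Fin 4} (hd : r ^ k ∣ cl m j) : r ^ k ∣ bp m j :=
  ((h.cop.coprime_dvd_right (by decide : 14 ∣ 126)).pow_left k).dvd_of_dvd_mul_left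
    (hd.trans (cl_dvd_bp m j))

theorem Big.dvd_bp {r : ℕ} (h : Big r) {j : Fin 4} (hd : r ∣ cl m j) : r ∣ bp m j := by
  simpa using h.pow_dvd_bp (k := 1) (by simpa using hd)

theorem P.bp_ge (h : P m) (j : Fin 4) : 10 ^ 14 ≤ bp m j := by
  have h1 := (cl_bd m j).1
  have h2 := s_ge h.2
  have h3 : (cl m j : ℤ) ≤ 14 * bp m j := by
    have := Nat.le_of_dvd (Nat.pos_of_ne_zero fun k => (cl_pos m j).ne' (by
      rw [← bp_mul, (mul_eq_zero.1 k).resolve_left (by decide), mul_zero])) (cl_dvd_bp m j)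
    exact_mod_cast this
  have : (10 ^ 14 : ℤ) ≤ bp m j := by nlinarith
  exact_mod_cast this

theorem P.exists_big (h : P m) (j : Fin 4) : ∃ r, Big r ∧ r ∣ bp m j := by
  have := h.bp_ge j
  obtain ⟨r, hr, hd⟩ := Nat.exists_prime_and_dvd (n := bp m j) (by omega)
  exact ⟨r, h.big hr hd, hd⟩

theorem P.bp_zero (h : P m) : 2 * bp m 0 = cl m 0 := by
  have h1 : Nat.gcd (cl m 0) 14 = 2 := by
    rw [show 14 = 7 * 2 from rfl, Nat.Coprime.gcd_mul_left_cancel_right _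
      ((Nat.Prime.coprime_iff_not_dvd (by norm_num)).2 (h.not_seven (.inl rfl)))]
    exact Nat.gcd_eq_right (two_dvd m)
  rw [← bp_mul, h1]

theorem sp.of_dvd {a b : ℕ} (h : sp m b) (hd : a ∣ b) : sp m a :=
  h.imp hd.trans (Or.imp hd.trans fun ⟨j, k⟩ => ⟨j, hd.trans k⟩)

theorem sp.cl {a r : ℕ} (h : sp m a) (hr : r.Prime) (h2 : r ≠ 2) (h3 : r ≠ 3) (hd : r ∣ a) :
    ∃ j, a ∣ cl m j := by
  rcases h with h | h | h
  · rcases (Nat.Prime.dvd_mul hr (m := 2) (n := 3)).1 (hd.trans h) with k | k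
    · exact absurd ((Nat.prime_dvd_prime_iff_eq hr Nat.prime_two).1 k) h2
    · exact absurd ((Nat.prime_dvd_prime_iff_eq hr Nat.prime_three).1 k) h3
  · exact absurd ((Nat.prime_dvd_prime_iff_eq hr Nat.prime_three).1
      (hr.dvd_of_dvd_pow (n := 2) (hd.trans h))) h3
  · exact h

theorem sp.three {a : ℕ} (h : sp m a) (hd : 3 ∣ a) : a ∣ 6 ∨ a ∣ 9 :=
  h.imp_right fun h => h.resolve_right fun ⟨j, k⟩ => not_three m j (hd.trans k)

theorem not_sp_four : ¬ sp m 4 := by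
  rintro (h | h | ⟨j, h⟩)
  exacts [absurd h (by decide), absurd h (by decide), not_four m j h]

theorem P.not_sp_14 (h : P m) : ¬ sp m 14 := by
  rintro (k | k | ⟨j, k⟩)
  · exact absurd k (by decide)
  · exact absurd k (by decide)
  · by_cases hj : j = 0 ∨ j = 1
    · exact h.not_seven hj ((by decide : 7 ∣ 14).trans k)
    · exact not_two (by omega) ((by decide : 2 ∣ 14).trans k)

theorem P.not_sp_49 (h : P m) : ¬ sp m 49 := by
  rintro (k | k | ⟨j, k⟩)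
  exacts [absurd k (by decide), absurd k (by decide), h.not_49 j k]

theorem coeff_zero {s A B C : ℤ} (hA : |B| < s) (hC : |C| < s) (h : A * s ^ 2 + B * s + C = 0) :
    A = 0 ∧ B = 0 ∧ C = 0 := by
  have hs : s ≠ 0 := by have := abs_nonneg C; omega
  have h1 : C = 0 := Int.eq_zero_of_abs_lt_dvd ⟨-(A * s + B), by linear_combination h⟩ hC
  have h2 : A * s + B = 0 := mul_right_cancel₀ hs (by linear_combination h - h1)
  have h3 : B = 0 := Int.eq_zero_of_abs_lt_dvd ⟨-A, by linear_combination h2⟩ hA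
  exact ⟨mul_right_cancel₀ hs (by linear_combination h2 - h3), h3, h1⟩

/-- two torus orders that are close to multiples -/
theorem P.close (h : P m) {j j' : Fin 4} (hne : j ≠ j') {t t' c : ℕ} (ht : t ≤ 1764) (ht' : t' ≤ 1764)
    (h0 : 0 < t) (hc : c = 14 ∨ c = 28) (e : t' * cl m j' = t * cl m j + c) :
    j = 0 ∧ 2 * t = c := by
  have hs := s_ge h.2
  have e0 := cl0 m
  have e1 := cl1 m
  have e2 := cl2 m
  have e3 := cl3 m
  have e' : (t' : ℤ) * cl m j' = t * cl m j + c := by exact_mod_cast e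
  generalize (3 : ℤ) ^ m = s at *
  have key : ∀ a b d a' b' d' : ℤ, |b| ≤ 6 → |d| ≤ 6 → |b'| ≤ 6 → |d'| ≤ 6 →
      2 * (cl m j : ℤ) = a * s ^ 2 + b * s + d → 2 * (cl m j' : ℤ) = a' * s ^ 2 + b' * s + d' →
      t' * a' - t * a = 0 ∧ t' * b' - t * b = 0 ∧ t' * d' - t * d - 2 * c = 0 :=
    fun a b d a' b' d' h1 h2 h3 h4 h5 h6 => by
      rw [abs_le] at h1 h2 h3 h4
      have : (t : ℤ) ≤ 1764 := by exact_mod_cast ht
      have : (t' : ℤ) ≤ 1764 := by exact_mod_cast ht'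
      have : (0 : ℤ) ≤ t := by positivity
      have : (0 : ℤ) ≤ t' := by positivity
      have : (c : ℤ) ≤ 28 := by omega
      refine coeff_zero (s := s) (abs_lt.2 ⟨by nlinarith, by nlinarith⟩)
        (abs_lt.2 ⟨by nlinarith, by nlinarith⟩) (by linear_combination 2 * e' - t' * h6 + t * h5)
  have f : ∀ i : Fin 4, 2 * (cl m i : ℤ) = ![6, 3, 6, 6] i * s ^ 2 + ![0, 0, -6, 6] i * s +
      ![-2, 1, 2, 2] i := fun i => by
    fin_cases i <;> simp <;> linarith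
  have := key _ _ _ _ _ _ (by fin_cases j <;> decide) (by fin_cases j <;> decide)
    (by fin_cases j' <;> decide) (by fin_cases j' <;> decide) (f j) (f j')
  clear * - this hne h0 hc
  fin_cases j <;> fin_cases j' <;> simp at this hne ⊢ <;> omega

end CL.RP
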