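import Mathlib
import Cfsg.Agent.BLK.RPNum
import Cfsg.Agent.INV.AbBase
import Cfsg.Agent.PERM.Spec

/-!
# The element orders of a product of small Ree groups
-/

set_option autoImplicit false
set_option linter.unusedSectionVars false

namespace CL.RP

open Subgroup

variable {ι : Type*} {m : ι → ℕ}

/-- the exponents are large, distinct and grow fast -/
structure Hyp (m : ι → ℕ) : Prop where
  p : ∀ i, P (m i)
  inj : Function.Injective m
  grow : ∀ i l, m l < m i → 3 ^ (2 * m l + 2) < 2 * m i + 1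

/-- `a` witnesses that `n` divides an element order of the product -/
def Wit (m : ι → ℕ) (n : ℕ) (a : ι → ℕ) : Prop :=
  (∀ i, sp (m i) (a i)) ∧ ∀ r e : ℕ, r.Prime → r ^ (e + 1) ∣ n → ∃ i, r ^ (e + 1) ∣ a i

/-- `n` is an element order of the product -/
def ok (m : ι → ℕ) (n : ℕ) : Prop := ∃ a, Wit m n a

theorem ok.of_dvd {a b : ℕ} (h : ok m b) (hd : a ∣ b) : ok m a :=
  h.imp fun _ k => ⟨k.1, fun r e hr h1 => k.2 r e hr (h1.trans hd)⟩

theorem Wit.one {n r : ℕ} {a : ι → ℕ} (h : Wit m n a) (hr : r.Prime) (hd : r ∣ n) : ∃ i, r ∣ a i := by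
  simpa using h.2 r 0 hr (by simpa using hd)

theorem Hyp.slot (H : Hyp m) {r : ℕ} (hr : Big r) {i l : ι} {j j' : Fin 4} (h : r ∣ cl (m i) j)
    (h' : r ∣ cl (m l) j') : i = l := by
  have := (Nat.prime_dvd_prime_iff_eq (H.p i).1 (H.p l).1).1 ((H.p i).dvd_of hr h h')
  exact H.inj (by omega)

theorem Wit.fill (H : Hyp m) {n r : ℕ} {a : ι → ℕ} (h : Wit m n a) (hr : Big r) (hd : r ∣ n) {i : ι}
    {j : Fin 4} (hj : r ∣ cl (m i) j) : r ∣ a i ∧ a i ∣ cl (m i) j := by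
  obtain ⟨l, hl⟩ := h.one hr.1 hd
  obtain ⟨j', h'⟩ := (h.1 l).cl hr.1 hr.2.1 hr.2.2.1 hl
  obtain rfl := H.slot hr hj (hl.trans h')
  exact ⟨hl, eq_of_dvd hr.1 hr.2.1 hj (hl.trans h') ▸ h'⟩

theorem ok.same (H : Hyp m) {n r r' : ℕ} (h : ok m n) (hr : Big r) (hr' : Big r') (hd : r ∣ n)
    (hd' : r' ∣ n) {i : ι} {j j' : Fin 4} (hj : r ∣ cl (m i) j) (hj' : r' ∣ cl (m i) j') : j = j' := by
  obtain ⟨a, h⟩ := h
  exact eq_of_dvd hr.1 hr.2.1 hj ((h.fill H hr hd hj).1.trans (h.fill H hr' hd' hj').2)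

theorem ok.exists_cl {n r : ℕ} (h : ok m n) (hr : Big r) (hd : r ∣ n) : ∃ i j, r ∣ cl (m i) j := by
  obtain ⟨a, h⟩ := h
  obtain ⟨l, hl⟩ := h.one hr.1 hd
  obtain ⟨j', h'⟩ := (h.1 l).cl hr.1 hr.2.1 hr.2.2.1 hl
  exact ⟨l, j', hl.trans h'⟩

theorem not_ok_four : ¬ ok m 4 := fun ⟨_, h⟩ => by
  obtain ⟨i, k⟩ := h.2 2 1 Nat.prime_two dvd_rfl
  exact not_sp_four ((h.1 i).of_dvd k)

theorem not_ok_27 : ¬ ok m 27 := fun ⟨_, h⟩ => by
  obtain ⟨i, k⟩ := h.2 3 2 Nat.prime_three dvd_rfl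
  rcases ((h.1 i).of_dvd k).three (by decide) with k | k <;> exact absurd k (by decide)

theorem Hyp.not_ok_49 (H : Hyp m) : ¬ ok m 49 := fun ⟨_, h⟩ => by
  obtain ⟨i, k⟩ := h.2 7 1 (by norm_num) dvd_rfl
  exact (H.p i).not_sp_49 ((h.1 i).of_dvd k)

theorem Hyp.not_ok_p (H : Hyp m) (i : ι) : ¬ ok m (2 * m i + 1) := fun h => by
  have h0 := (H.p i).2
  have hb : Big (2 * m i + 1) := ⟨(H.p i).1, by omega, by omega, by omega⟩
  obtain ⟨l, j, hl⟩ := h.exists_cl hb dvd_rfl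
  have h1 := Nat.le_of_dvd (by omega) ((H.p l).dvd_sub hb hl)
  have h2 := H.grow i l (by omega)
  have h3 := Nat.le_of_dvd (cl_pos _ _) hl
  have h4 := (cl_bd (m l) j).2
  have h5 : ((3 ^ (2 * m l + 2) : ℕ) : ℤ) = 9 * (3 ^ m l) ^ 2 := by push_cast; ring
  have h6 : (0 : ℤ) < (3 ^ m l) ^ 2 := by positivity
  omega

/-- an element order all of whose big primes belong to the slot `i` -/
theorem ok.dvd_bound (H : Hyp m) {y : ℕ} (h : ok m y) {i : ι}
    (hy : ∀ r, Big r → r ∣ y → ∃ j, r ∣ cl (m i) j) : ∃ j, y ∣ 126 * bp (m i) j := by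
  obtain ⟨a, ha⟩ := id h
  obtain ⟨j, hj⟩ : ∃ j, ∀ r, Big r → r ∣ y → a i ∣ cl (m i) j := by
    by_cases k : ∃ r, Big r ∧ r ∣ y
    · obtain ⟨r, hr, hd⟩ := k
      obtain ⟨j, hj⟩ := hy r hr hd
      exact ⟨j, fun _ _ _ => (ha.fill H hr hd hj).2⟩
    · exact ⟨0, fun r hr hd => absurd ⟨r, hr, hd⟩ k⟩
  refine ⟨j, (Nat.dvd_iff_prime_pow_dvd_dvd _ _).2 fun r k hr hd => ?_⟩
  have key : ∀ c, ¬ ok m (r ^ (c + 1)) → r ^ c ∣ 126 → r ^ k ∣ 126 * bp (m i) j := fun c h1 h2 =>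
    ((pow_dvd_pow r (not_lt.1 fun l => h1 (h.of_dvd ((pow_dvd_pow r l).trans hd)))).trans
      h2).mul_right _
  by_cases h2 : r = 2
  · subst h2; exact key 1 not_ok_four (by decide)
  by_cases h3 : r = 3
  · subst h3; exact key 2 not_ok_27 (by decide)
  by_cases h7 : r = 7
  · subst h7; exact key 1 H.not_ok_49 (by decide)
  have hb : Big r := ⟨hr, h2, h3, h7⟩
  rcases k with _ | k
  · simp
  have h1 : r ∣ y := (dvd_pow_self r (by omega)).trans hd
  obtain ⟨l, hl⟩ := ha.2 r k hr hd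
  obtain ⟨j', h'⟩ := (ha.1 l).cl hr h2 h3 ((dvd_pow_self r (by omega)).trans hl)
  obtain ⟨j'', h''⟩ := hy r hb h1
  obtain rfl := H.slot hb h'' (((dvd_pow_self r (by omega)).trans hl).trans h')
  exact (hb.pow_dvd_bp (hl.trans (hj r hb h1))).mul_left _

/-- the slot `i` is filled by the class `j` -/
def Fills (m : ι → ℕ) (n : ℕ) (i : ι) (j : Fin 4) : Prop := ∃ r, Big r ∧ r ∣ n ∧ r ∣ cl (m i) j

theorem Wit.fills (H : Hyp m) {n : ℕ} {a : ι → ℕ} (h : Wit m n a) {i : ι} {j : Fin 4}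
    (hf : Fills m n i j) : a i ∣ cl (m i) j := by
  obtain ⟨r, h1, h2, h3⟩ := hf
  exact (h.fill H h1 h2 h3).2

theorem ok.all (H : Hyp m) {n : ℕ} (h : ok m n) {c : ι → Fin 4} (hc : ∀ i, Fills m n i (c i))
    {r e : ℕ} (hr : r.Prime) (hd : r ^ (e + 1) ∣ n) : ∃ i, r ^ (e + 1) ∣ cl (m i) (c i) := by
  obtain ⟨a, h⟩ := h
  exact (h.2 r e hr hd).imp fun i k => k.trans (h.fills H (hc i))

theorem ok.not_18 (H : Hyp m) {n : ℕ} (h : ok m n) {i : ι}
    (hc : ∀ l, l ≠ i → ∃ j, (j = 2 ∨ j = 3) ∧ Fills m n l j) : ¬ 18 ∣ n := fun hd => by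
  obtain ⟨a, h⟩ := h
  obtain ⟨l, hl⟩ := h.2 3 1 Nat.prime_three ((by decide : 3 ^ (1 + 1) ∣ 18).trans hd)
  obtain ⟨l', hl'⟩ := h.one Nat.prime_two ((by decide : 2 ∣ 18).trans hd)
  obtain rfl : l = i := by_contra fun k => by
    obtain ⟨j, -, k⟩ := hc l k
    exact not_three _ _ (((by decide : 3 ∣ 3 ^ (1 + 1)).trans hl).trans (h.fills H k))
  obtain rfl : l' = l := by_contra fun k => by
    obtain ⟨j, a, k⟩ := hc l' k
    exact not_two a (hl'.trans (h.fills H k))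
  rcases (h.1 l').three ((by decide : 3 ∣ 3 ^ (1 + 1)).trans hl) with k | k
  · exact absurd (hl.trans k) (by decide)
  · exact absurd (hl'.trans k) (by decide)

theorem ok.not_126 (H : Hyp m) {n : ℕ} (h : ok m n) {i i' : ι} (hc : ∀ l, l ≠ i → l ≠ i' →
    ∃ j, (j = 2 ∨ j = 3) ∧ ¬ 7 ∣ cl (m l) j ∧ Fills m n l j) : ¬ 126 ∣ n := fun hd => by
  obtain ⟨a, h⟩ := h
  obtain ⟨l, hl⟩ := h.2 3 1 Nat.prime_three ((by decide : 3 ^ (1 + 1) ∣ 126).trans hd)
  obtain ⟨l', hl'⟩ := h.one Nat.prime_two ((by decide : 2 ∣ 126).trans hd)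
  obtain ⟨l'', hl''⟩ := h.one (by norm_num : Nat.Prime 7) ((by decide : 7 ∣ 126).trans hd)
  have h9 : a l ∣ 9 := ((h.1 l).three ((by decide : 3 ∣ 3 ^ (1 + 1)).trans hl)).resolve_left
    fun k => absurd (hl.trans k) (by decide)
  have k1 : l = i ∨ l = i' := by_contra fun k => by
    obtain ⟨j, -, -, k⟩ := hc l (fun e => k (.inl e)) fun e => k (.inr e)
    exact not_three _ _ (((by decide : 3 ∣ 3 ^ (1 + 1)).trans hl).trans (h.fills H k))
  have k2 : l' = i ∨ l' = i' := by_contra fun k => by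
    obtain ⟨j, a, -, k⟩ := hc l' (fun e => k (.inl e)) fun e => k (.inr e)
    exact not_two a (hl'.trans (h.fills H k))
  have k3 : l'' = i ∨ l'' = i' := by_contra fun k => by
    obtain ⟨j, -, a, k⟩ := hc l'' (fun e => k (.inl e)) fun e => k (.inr e)
    exact a (hl''.trans (h.fills H k))
  have k4 : l' ≠ l := by rintro rfl; exact absurd (hl'.trans h9) (by decide)
  have k5 : l'' ≠ l := by rintro rfl; exact absurd (hl''.trans h9) (by decide)
  obtain rfl : l'' = l' := by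
    rcases k1 with rfl | rfl <;> rcases k2 with rfl | rfl <;> rcases k3 with rfl | rfl <;> tauto
  exact (H.p _).not_sp_14 ((h.1 l'').of_dvd
    (Nat.Coprime.mul_dvd_of_dvd_of_dvd (by decide : Nat.Coprime 2 7) hl' hl''))

theorem Hyp.fills (H : Hyp m) {n : ℕ} {i : ι} {j : Fin 4} (h : bp (m i) j ∣ n) : Fills m n i j := by
  obtain ⟨r, h1, h2⟩ := (H.p i).exists_big j
  exact ⟨r, h1, h2.trans h, h2.trans (bp_dvd _ _)⟩

theorem Hyp.cop (H : Hyp m) {i l : ι} (h : i ≠ l) (j j' : Fin 4) :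
    (bp (m i) j).Coprime (bp (m l) j') := Nat.coprime_of_dvd fun _ hr h1 h2 =>
  h (H.slot ((H.p i).big hr h1) (h1.trans (bp_dvd _ _)) (h2.trans (bp_dvd _ _)))

theorem P.cop_bp {m : ℕ} (h : P m) (j : Fin 4) : (bp m j).Coprime 126 :=
  Nat.coprime_of_dvd fun _ hr h1 h2 => hr.ne_one (Nat.eq_one_of_dvd_coprimes (h.big hr h1).cop dvd_rfl h2)

/-- all element orders occur in the product -/
def Good (m : ι → ℕ) (X : Type*) [Group X] : Prop := ∀ g : X, ok m (orderOf g)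

variable {X Y : Type*} [Group X] [Finite X] [Group Y]

theorem Good.of_injective (h : Good m X) (f : Y →* X) (hf : Function.Injective f) : Good m Y :=
  fun g => orderOf_injective f hf g ▸ h (f g)

theorem Good.sub (h : Good m X) (H : Subgroup X) : Good m H :=
  h.of_injective H.subtype H.subtype_injective

theorem Good.of_surjective (h : Good m X) (f : X →* Y) (hf : Function.Surjective f) : Good m Y :=
  fun g => by
    obtain ⟨x, rfl⟩ := hf g
    exact (h x).of_dvd (orderOf_map_dvd f x)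

theorem Good.two (h : Good m X) {x y : X} {a b : ℕ} (hab : a.Coprime b) (hx : a ∣ orderOf x)
    (hy : b ∣ orderOf y) (e : Commute x y) : ok m (a * b) := by
  obtain ⟨g, hg⟩ := Spec.exists_orderOf_mul e hab hx hy
  exact hg ▸ h g

theorem Good.sq (h : Good m X) {k : ℕ} {g : X} (hg : g ^ 2 ^ k = 1) : g ^ 2 = 1 := by
  obtain ⟨j, -, hj⟩ := (Nat.dvd_prime_pow Nat.prime_two).1 (orderOf_dvd_of_pow_eq_one hg)
  refine orderOf_dvd_iff_pow_eq_one.1 (hj ▸ ?_)
  rcases j with _ | _ | j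
  · simp
  · simp
  exact absurd ((h g).of_dvd (hj ▸ ⟨2 ^ j, by ring⟩)) not_ok_four

theorem Good.ab2 (h : Good m X) : AbS.Ab2 X := fun P hP x hx y hy => by
  have k : ∀ z ∈ P, z⁻¹ = z := fun z hz => by
    obtain ⟨j, hj⟩ := hP ⟨z, hz⟩
    exact inv_eq_of_mul_eq_one_left ((pow_two z).symm.trans (h.sq (congrArg Subtype.val hj)))
  rw [← k _ (mul_mem hx hy), mul_inv_rev, k x hx, k y hy]

theorem Good.same (h : Good m X) (H : Hyp m) {x y : X} (e : Commute x y) {r r' : ℕ} (hr : Big r)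
    (hr' : Big r') (hx : r ∣ orderOf x) (hy : r' ∣ orderOf y) {i : ι} {j j' : Fin 4}
    (hj : r ∣ cl (m i) j) (hj' : r' ∣ cl (m i) j') : j = j' := by
  by_cases k : r = r'
  · exact eq_of_dvd hr.1 hr.2.1 hj (k ▸ hj')
  · exact (h.two ((Nat.coprime_primes hr.1 hr'.1).2 k) hx hy e).same H hr hr' (dvd_mul_right _ _)
      (dvd_mul_left _ _) hj hj'

theorem prime_pow_dvd_lcm {r k a b : ℕ} (hr : r.Prime) (h : r ^ k ∣ Nat.lcm a b) :
    r ^ k ∣ a ∨ r ^ k ∣ b := by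
  by_cases ha : a = 0
  · simp [ha]
  by_cases hb : b = 0
  · simp [hb]
  rw [hr.pow_dvd_iff_le_factorization (Nat.lcm_ne_zero ha hb), Nat.factorization_lcm ha hb,
    Finsupp.sup_apply, le_sup_iff] at h
  rwa [hr.pow_dvd_iff_le_factorization ha, hr.pow_dvd_iff_le_factorization hb]

theorem good_pi [Fintype ι] {R : ι → Type*} [∀ i, Group (R i)]
    (h : ∀ i (g : R i), sp (m i) (orderOf g)) : Good m (∀ i, R i) := fun g => by
  classical
  refine ⟨fun i => orderOf (g i), fun i => h i _, fun r e hr hd => ?_⟩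
  rw [Pi.orderOf] at hd
  have key : ∀ T : Finset ι, r ^ (e + 1) ∣ T.lcm (fun i => orderOf (g i)) →
      ∃ i, r ^ (e + 1) ∣ orderOf (g i) := fun T => by
    induction T using Finset.induction_on with
    | empty => exact fun k => absurd (Nat.dvd_one.1 ((dvd_pow_self r (by omega)).trans k)) hr.ne_one
    | insert a T _ ih =>
      rw [Finset.lcm_insert]
      exact fun k => (prime_pow_dvd_lcm hr k).elim (fun k => ⟨a, k⟩) ih
  exact key _ hd

/-- product of commuting elements of coprime orders -/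
theorem exists_prod (T : Finset ι) (x : ι → X) (hc : ∀ i l, i ≠ l → Commute (x i) (x l))
    (ho : ∀ i l, i ≠ l → (orderOf (x i)).Coprime (orderOf (x l))) :
    ∃ g : X, orderOf g = ∏ i ∈ T, orderOf (x i) ∧ ∀ y, (∀ i ∈ T, Commute y (x i)) → Commute y g := by
  classical
  induction T using Finset.induction_on with
  | empty => exact ⟨1, by simp, fun y _ => Commute.one_right y⟩
  | insert a T ha ih =>
    obtain ⟨g, h1, h2⟩ := ih
    have hne : ∀ i ∈ T, a ≠ i := fun i hi e => ha (e ▸ hi)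
    refine ⟨x a * g, ?_, fun y hy => (hy a (by simp)).mul_right (h2 y fun i hi => hy i (by simp [hi]))⟩
    rw [(h2 _ fun i hi => hc a i (hne i hi)).orderOf_mul_eq_mul_orderOf_of_coprime
      (h1 ▸ Nat.Coprime.prod_right fun i hi => ho a i (hne i hi)), h1, Finset.prod_insert ha]

/-- a sequence of exponents as required -/
theorem exists_seq : ∃ p : ℕ → ℕ, StrictMono p ∧ (∀ i, (p i).Prime ∧ Odd (p i)) ∧
    Hyp fun i => (p i - 1) / 2 := by
  choose nx h1 h2 using fun n => Nat.exists_infinite_primes (3 ^ (n + 1) + 1)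
  let p : ℕ → ℕ := fun n => Nat.rec (nx 100) (fun _ a => nx a) n
  have hp : ∀ n, (p n).Prime := fun n => by cases n <;> exact h2 _
  have hl : ∀ n, n + 1 < 3 ^ (n + 1) := fun n => Nat.lt_pow_self (by norm_num)
  have hs : ∀ n, 3 ^ (p n + 1) < p (n + 1) := fun n => h1 _
  have hm : StrictMono p := strictMono_nat_of_lt_succ fun n => by have := hl (p n); have := hs n; omega
  have h0 : ∀ n, 101 ≤ p n := fun n =>
    le_trans (by have := hl 100; have := h1 100; exact show 101 ≤ nx 100 by omega)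
      (hm.monotone (Nat.zero_le n))
  have ho : ∀ n, Odd (p n) := fun n => (hp n).odd_of_ne_two (by have := h0 n; omega)
  have he : ∀ n, 2 * ((p n - 1) / 2) + 1 = p n := fun n => by obtain ⟨k, hk⟩ := ho n; omega
  refine ⟨p, hm, fun i => ⟨hp i, ho i⟩, fun i => ⟨(he i).symm ▸ hp i, by have := h0 i; omega⟩,
    fun i l e => hm.injective (by have := he i; have := he l; omega), fun i l e => ?_⟩
  have h3 : l < i := hm.lt_iff_lt.1 (by have := he i; have := he l; omega)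
  rw [show 2 * ((p l - 1) / 2) + 2 = p l + 1 by have := he l; omega, he]
  exact (hs l).trans_le (hm.monotone h3)

theorem Hyp.comp {κ : Type*} (H : Hyp m) {f : κ → ι} (hf : Function.Injective f) :
    Hyp fun k => m (f k) := ⟨fun _ => H.p _, fun _ _ e => hf (H.inj e), fun _ _ => H.grow _ _⟩

end CL.RP
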