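import Cfsg.Agent.BLK.McKay
import Cfsg.Agent.SOLV.MinNormal
import Cfsg.Agent.CHAR.BrauerPerm
import Cfsg.Agent.CHAR.Quot
import Mathlib.GroupTheory.FiniteAbelian.Duality

/-! Groups whose real irreducible characters have degree prime to `p`. -/

set_option autoImplicit false
open Cfsg Subgroup
open scoped ComplexConjugate commutatorElement

namespace CL.RealP
open CL.Char CL.Glb CL.MSS CL.OW

universe u
variable {G : Type*} [Group G] {p : ℕ}

/-- The subgroup generated by the `p`-elements. -/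
abbrev Op (p : ℕ) (G : Type*) [Group G] : Subgroup G := closure {g : G | ∃ k : ℕ, orderOf g = p ^ k}

instance : (Op p G).Normal := ⟨fun n hn g => by
  have : (Op p G).map (MulAut.conj g).toMonoidHom ≤ Op p G := by
    rw [map_le_iff_le_comap, closure_le]
    exact fun x ⟨k, hk⟩ => subset_closure ⟨k, (MulEquiv.orderOf_eq (MulAut.conj g) x).trans hk⟩
  exact this ⟨n, hn, rfl⟩⟩

theorem mem_Op (hp : p.Prime) {g : G} {k : ℕ} (h : g ^ p ^ k = 1) : g ∈ Op p G :=
  ((Nat.dvd_prime_pow hp).1 (orderOf_dvd_of_pow_eq_one h)).elim fun j hj =>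
    subset_closure ⟨j, hj.2⟩

theorem Op_le {H : Subgroup G} (h : ∀ g k, g ^ p ^ k = 1 → g ∈ H) : Op p G ≤ H :=
  (closure_le _).2 fun g ⟨k, hk⟩ => h g k (hk ▸ pow_orderOf_eq_one g)

theorem map_Op_le (hp : p.Prime) {G' : Type*} [Group G'] (f : G →* G') :
    (Op p G).map f ≤ Op p G' := map_le_iff_le_comap.2 (Op_le fun g k h =>
  mem_Op hp (k := k) (by rw [← map_pow, h, map_one]))

theorem le_Op (hp : p.Prime) {P : Subgroup G} (h : IsPGroup p P) : P ≤ Op p G := fun g hg =>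
  (h ⟨g, hg⟩).elim fun k hk => mem_Op hp (k := k) (congrArg Subtype.val hk)

theorem comm_le (P : Subgroup G) : ⁅P, P⁆ ≤ P := commutator_le.2 fun _ ha _ hb =>
  mul_mem (mul_mem (mul_mem ha hb) (inv_mem ha)) (inv_mem hb)

variable [Finite G]

theorem not_dvd_index_Op [hp : Fact p.Prime] : ¬ p ∣ (Op p G).index := fun h =>
  (default : Sylow p G).not_dvd_index (h.trans (index_dvd_of_le
    (le_Op hp.out (default : Sylow p G).isPGroup')))

/-- All real irreducible characters have degree prime to `p`. -/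
def RP (p : ℕ) (G : Type*) [Group G] : Prop :=
  ∀ χ : IrrCharacter G, (∀ g : G, ((χ : G → ℂ) g).im = 0) → ¬ p ∣ charDegree (χ : G → ℂ)

omit [Finite G] in
theorem RP.quot (h : RP p G) (N : Subgroup G) [N.Normal] : RP p (G ⧸ N) := fun χ hχ =>
  h ⟨_, χ.2.infl N⟩ fun _ => hχ _

theorem real_iff {G : Type*} {χ : G → ℂ} : (∀ g, (χ g).im = 0) ↔ (fun g => conj (χ g)) = χ :=
  ⟨fun h => funext fun g => Complex.conj_eq_iff_im.2 (h g),
    fun h g => Complex.conj_eq_iff_im.1 (congrFun h g)⟩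

/-- A real character over a character conjugate to its complex conjugate. -/
theorem exists_real_over {N H : Subgroup G} [hN : N.Normal] [Fintype N] (hd : N ⊓ H = ⊥) {m : ℕ} (hm : Odd m)
    (hc : H.index = m * Nat.card N) {ν : N → ℂ} (hν : IsIrrCharacter N ν)
    (ho : Odd (charDegree ν)) {s : G} (hs : conjN N s ν = fun n => conj (ν n)) :
    ∃ χ : IrrCharacter G, (fun g => conj (χ.1 g)) = χ.1 ∧ classInner (fun n : N => χ.1 n) ν ≠ 0 := by
  classical
  have := Fintype.ofFinite G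
  have h1 : IsCharacter G (indFun H fun _ => 1) := isCharacter_one.ind
  have h2 : mult (fun n : N => indFun H (fun _ => 1) n) ν = m * charDegree ν := by
    refine mult_eq ?_
    rw [classInner, Finset.sum_eq_single 1 (fun n _ hn => ?_) (by simp), coe_one, indFun_one, hc,
      hν.apply_one_eq_charDegree]
    · have := card_subgroup_ne_zero N
      simp
      field_simp
    · rw [indFun_eq_zero_of_not_conj H _ _ fun x hx => hn ?_, zero_mul]
      have h3 : x⁻¹ * n * x ∈ N ⊓ H := ⟨hN.conj_mem' _ n.2 x, hx⟩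
      rw [hd, mem_bot, mul_assoc, inv_mul_eq_one, eq_comm, mul_eq_right] at h3
      exact Subtype.ext h3
  have h3 := mult_comp N.subtype h1 hν.isCharacter
  by_contra hc
  push Not at hc
  have h4 : ((m * charDegree ν : ℕ) : ZMod 2) = 0 := by
    rw [← h2]
    refine (congrArg _ h3).trans ?_
    rw [Nat.cast_sum]
    refine Finset.sum_involution (fun χ _ => irrConj G χ) (fun χ _ => ?_) (fun χ _ h h0 => h ?_)
      (fun _ _ => Finset.mem_univ _) fun χ _ => Subtype.ext (funext fun g => by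
        simp [irrConj_apply])
    · have e1 : mult (indFun H fun _ => 1) (irrConj G χ).1 = mult (indFun H fun _ => 1) χ.1 := by
        refine mult_eq ?_
        have h5 := classInner_gal (indFun H fun _ => 1) χ.2.isCharacter.isGen conj
        rw [inner_eq_mult h1 χ.2.isCharacter, map_natCast] at h5
        rw [← h5]
        congr 1
        funext g
        rw [← indFun_conj]
        simp
      have e2 : mult (fun n => (irrConj G χ).1 (N.subtype n)) ν =
          mult (fun n => χ.1 (N.subtype n)) ν := by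
        refine mult_eq ?_
        have h5 := classInner_gal (fun n : N => χ.1 n) (hν.conjN s).isCharacter.isGen conj
        rw [classInner_res_conjN χ.2.isClassFunction, hs] at h5
        simp only [Complex.conj_conj] at h5
        exact h5.trans ((congrArg conj (inner_eq_mult (χ.2.isCharacter.comp N.subtype)
          hν.isCharacter)).trans (map_natCast _ _))
      rw [e1, e2, CharTwo.add_self_eq_zero]
    · rw [show mult (fun c => χ.1 (N.subtype c)) ν = 0 from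
        mult_eq ((hc χ (congrArg Subtype.val h0)).trans Nat.cast_zero.symm)]
      simp
  exact (Nat.not_even_iff_odd.2 (hm.mul ho)) ((ZMod.natCast_eq_zero_iff_even).1 h4)

omit [Finite G] in
theorem exists_sq {C : Subgroup G} {s : G} {k : ℕ} (hk : s ^ 2 ^ k = 1) (hs : s ∉ C) :
    ∃ t, t ∉ C ∧ t * t ∈ C := by
  induction k generalizing s with
  | zero => exact absurd (by rw [← pow_one s, ← pow_zero 2, hk]; exact C.one_mem) hs
  | succ k ih =>
    by_cases h : s * s ∈ C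
    exacts [⟨s, hs, h⟩, ih (by rw [← pow_two, ← pow_mul, ← pow_succ', hk]) h]

theorem exists_hom_ne {N : Subgroup G} (hN : IsMulCommutative N) {n : N} (hn : n ≠ 1) :
    ∃ lam : N →* ℂˣ, lam n ≠ 1 := by
  let : CommGroup N := {(inferInstance : Group N) with mul_comm := hN.is_comm.comm}
  exact CommGroup.exists_apply_ne_one_of_hasEnoughRootsOfUnity N ℂ hn

theorem exists_hom_inv {N : Subgroup G} [N.Normal] (hN : IsMulCommutative N)
    (h : ¬ Op 2 G ≤ centralizer (N : Set G)) :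
    ∃ lam : N →* ℂˣ, lam ≠ 1 ∧ ∃ s, ∀ n, lam (conjEquiv N s n) = (lam n)⁻¹ := by
  obtain ⟨s, k, hk, hs⟩ : ∃ s k, s ^ 2 ^ k = 1 ∧ s ∉ centralizer (N : Set G) := by
    by_contra hc
    push Not at hc
    exact h (Op_le hc)
  obtain ⟨t, h1, h2⟩ := exists_sq hk hs
  obtain ⟨n, h3⟩ : ∃ n : N, conjEquiv N t n * n⁻¹ ≠ 1 := by
    by_contra hc
    push Not at hc
    refine h1 fun n hn => ?_
    have := congrArg Subtype.val (hc ⟨n, hn⟩)
    change t * n * t⁻¹ * n⁻¹ = 1 at this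
    rw [mul_inv_eq_one, mul_inv_eq_iff_eq_mul] at this
    exact this.symm
  obtain ⟨lam, h4⟩ := exists_hom_ne hN h3
  refine ⟨lam.comp (conjEquiv N t).toMonoidHom / lam, fun h0 => h4 ?_, t, fun m => ?_⟩
  · simpa [div_eq_mul_inv] using DFunLike.congr_fun h0 n
  · have : conjEquiv N t (conjEquiv N t m) = m := Subtype.ext (by
      change t * (t * m * t⁻¹) * t⁻¹ = m
      calc _ = t * t * m * (t * t)⁻¹ := by group
        _ = _ := by rw [← h2 m m.2, mul_inv_cancel_right])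
    simp [this]

theorem RP.exists_irr (hr : RP p G) {N H : Subgroup G} [N.Normal] (hd : N ⊓ H = ⊥) {m : ℕ}
    (hm : Odd m) (hc : H.index = m * Nat.card N) {lam : N →* ℂˣ} (h1 : lam ≠ 1) {s : G}
    (hs : ∀ n, lam (conjEquiv N s n) = (lam n)⁻¹) :
    ∃ χ, IsIrrCharacter G χ ∧ ¬ p ∣ charDegree χ ∧
      classInner (fun n : N => χ n) (fun _ => 1) = 0 := by
  obtain ⟨χ, h2, h3⟩ := exists_real_over hd hm hc (isIrrCharacter_hom lam) (by simp [charDegree])
    (s := s) (funext fun n => by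
      rw [conjN_eq_comp, ← (isIrrCharacter_hom lam).isCharacter.apply_inv, map_inv]
      exact congrArg Units.val (hs n))
  refine ⟨χ.1, χ.2, hr χ (real_iff.2 h2), by_contra fun h0 => h3 ?_⟩
  rw [show (fun n : N => χ.1 n) = χ.1 1 • fun _ => (1 : ℂ) from funext fun n => by
    simpa using χ.2.ker_of_inner_res_one_ne_zero N h0 n n.2]
  refine by_contra fun h4 => h1 (MonoidHom.ext fun n => Units.ext ?_)
  exact (congrFun (eq_of_inner_smul_ne_zero isIrrCharacter_one (isIrrCharacter_hom lam) h4) n).symm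

theorem exists_constituent {H : Type*} [Group H] [Fintype H] {φ : H → ℂ} (hφ : IsCharacter H φ)
    (hd : ¬ p ∣ charDegree φ) :
    ∃ ψ, IsIrrCharacter H ψ ∧ classInner φ ψ ≠ 0 ∧ ¬ p ∣ charDegree ψ := by
  obtain ⟨n, h1, h2⟩ := hφ.exists_nat_coeffs
  by_contra hc
  push Not at hc
  refine hd ?_
  rw [charDegree_eq_of_apply_one (n := ∑ ψ, n ψ * charDegree ψ.1) (by
    rw [h2, Finset.sum_apply, Nat.cast_sum]
    exact Finset.sum_congr rfl fun ψ _ => by simp [ψ.2.apply_one_eq_charDegree])]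
  refine Finset.dvd_sum fun ψ _ => ?_
  by_cases h0 : n ψ = 0
  · simp [h0]
  · exact (hc _ ψ.2 (h1 ψ ▸ Nat.cast_ne_zero.2 h0)).mul_left _

variable [hp : Fact p.Prime]

theorem RP.le_centralizer_min (hr : RP p G) (h2 : p ≠ 2) {P N : Subgroup G} (hP : IsPGroup p P)
    (hN : IsMinNormal N) (hNP : N ≤ ⁅P, P⁆) : Op 2 G ≤ centralizer (N : Set G) := by
  have := hN.normal
  have hle : N ≤ P := hNP.trans (comm_le P)
  have hNp : IsPGroup p N := hP.to_le hle
  by_contra hc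
  obtain ⟨lam, h1, s, hs⟩ := exists_hom_inv (hN.isElementaryAbelian_of_isPGroup hNp).1 hc
  obtain ⟨S⟩ : Nonempty (Sylow 2 G) := inferInstance
  have hd : N ⊓ S = ⊥ := (IsPGroup.disjoint_of_ne p 2 h2 _ _ hNp S.isPGroup').eq_bot
  have h3 : Nat.card N ∣ (S : Subgroup G).index :=
    (IsPGroup.coprime_card_of_ne p 2 h2 _ _ hNp S.isPGroup').dvd_of_dvd_mul_left
      (by rw [card_mul_index]; exact card_subgroup_dvd_card N)
  obtain ⟨m, hm⟩ := h3
  obtain ⟨χ, h4, h5, h6⟩ := hr.exists_irr hd (m := m) (Nat.odd_iff.2 (Nat.two_dvd_ne_zero.1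
    fun h => S.not_dvd_index (hm ▸ h.mul_left _))) (hm.trans (mul_comm _ _)) h1 hs
  obtain ⟨ψ, h7, h8, h9⟩ := exists_constituent (h4.isCharacter.comp P.subtype)
    (OW.charDegree_comp χ P.subtype ▸ h5)
  obtain ⟨a, ha⟩ := IsPGroup.iff_card.1 hP
  obtain ⟨b, -, hb⟩ := (Nat.dvd_prime_pow hp.out).1 (ha ▸ h7.charDegree_dvd_card)
  have h10 : ψ 1 = 1 := by
    cases b with
    | zero => rw [h7.apply_one_eq_charDegree, hb]; simp
    | succ b => exact absurd (hb ▸ dvd_pow_self p b.succ_ne_zero) h9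
  refine inner_comp_ne_zero_of_constituent (inclusion hle) (h4.isCharacter.comp P.subtype) h7 h8
    isCharacter_one ?_ h6
  rw [show (fun n => ψ (inclusion hle n)) = fun _ => 1 from funext fun n => ?_,
    isIrrCharacter_one.inner_self]
  · exact one_ne_zero
  · refine (h7.one_eq_one_iff_commutator.1 h10 _ ?_).trans h10
    have h11 := hNP n.2
    rw [← P.range_subtype, MonoidHom.range_eq_map, ← map_commutator] at h11
    obtain ⟨y, hy, e⟩ := h11
    rwa [show inclusion hle n = y from Subtype.ext e.symm]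

theorem le_centralizer_aux (h2 : p ≠ 2) (c : ℕ) : ∀ (G : Type u) [Group G] [Finite G],
    Nat.card G = c → RP p G → ∀ {P M : Subgroup G}, IsPGroup p P → M.Normal → M ≤ ⁅P, P⁆ →
      Op 2 G ≤ centralizer (M : Set G) := by
  induction c using Nat.strong_induction_on with | h c ih => ?_
  intro G _ _ hc hr P M hP hM hMP
  by_cases h0 : M = ⊥
  · exact fun s _ m hm => by simp [mem_bot.1 (h0 ▸ hm : m ∈ ⊥)]
  obtain ⟨N, hN, hNM⟩ := exists_isMinNormal_le M h0
  have := hN.normal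
  have h1 := hr.le_centralizer_min h2 hP hN (hNM.trans hMP)
  have h3 := ih _ (hc ▸ card_quotient_lt hN.ne_bot) (G ⧸ N) rfl (hr.quot N)
    (hP.map (QuotientGroup.mk' N)) (hM.map _ (QuotientGroup.mk'_surjective N))
    ((map_mono hMP).trans (map_commutator P P _).le)
  refine Op_le fun s k hk m hm => ?_
  have hs := mem_Op Nat.prime_two hk
  have h4 : s * m * s⁻¹ * m⁻¹ ∈ N := by
    have := h3 (map_Op_le Nat.prime_two (QuotientGroup.mk' N) ⟨s, hs, rfl⟩) _ ⟨m, hm, rfl⟩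
    rw [← QuotientGroup.eq_one_iff]
    simp only [QuotientGroup.mk'_apply] at this
    simp [← this]
  have h5 : ∀ j : ℕ, s ^ j * m * (s ^ j)⁻¹ = (s * m * s⁻¹ * m⁻¹) ^ j * m := fun j => by
    induction j with
    | zero => simp
    | succ j ih =>
      calc _ = s * (s ^ j * m * (s ^ j)⁻¹) * s⁻¹ := by rw [pow_succ']; group
        _ = (s * m * s⁻¹ * m⁻¹) ^ j * (s * m * s⁻¹ * m⁻¹) * m := by
          rw [ih, ← mul_assoc, ← h1 hs _ (pow_mem h4 j)]; group
        _ = _ := by rw [pow_succ]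
  have h6 := h5 (2 ^ k)
  rw [hk, one_mul, inv_one, mul_one, eq_comm, mul_eq_right] at h6
  obtain ⟨a, ha⟩ := hP ⟨_, (comm_le P) (hMP (hNM h4))⟩
  have h7 : s * m * s⁻¹ * m⁻¹ = 1 := mem_bot.1 (mem_of_coprime_pow_mem ⊥ (Nat.Coprime.pow a k
    ((Nat.coprime_primes hp.out Nat.prime_two).2 h2)) (congrArg Subtype.val ha) h6)
  rw [mul_inv_eq_one, mul_inv_eq_iff_eq_mul] at h7
  exact h7.symm

theorem normal_syl_aux (c : ℕ) : ∀ (G : Type u) [Group G] [Finite G], Nat.card G = c → RP p G →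
    ∀ {L U R : Subgroup G}, L.Normal → Group.IsSolvable L → ¬ p ∣ L.index → U.Normal →
      (∀ u ∈ U, ∃ a, u ^ p ^ a ∈ Op 2 G) → SylIn p R U → R.Normal := by
  induction c using Nat.strong_induction_on with | h c ih => ?_
  intro G _ _ hc hr L U R hL hs hi hU hK hR
  have hRL : R ≤ L := fun r h => by
    obtain ⟨a, ha⟩ := hR.pgroup ⟨r, h⟩
    exact mem_of_coprime_pow_mem L (Nat.Coprime.pow_left a ((Nat.Prime.coprime_iff_not_dvd
      hp.out).2 hi)) (by rw [show r ^ p ^ a = 1 from congrArg Subtype.val ha]; exact L.one_mem)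
      (L.pow_index_mem r)
  by_cases h0 : L ⊓ U = ⊥
  · rw [eq_bot_iff.2 ((le_inf hRL hR.le).trans h0.le)]
    infer_instance
  obtain ⟨N, hN, hNL⟩ := exists_isMinNormal_le _ h0
  have := hN.normal
  have hNU := hNL.trans inf_le_right
  obtain ⟨q, hq, hab, hNq⟩ := hN.exists_isElementaryAbelian_of_isSolvable
    (isSolvable_of_le (hNL.trans inf_le_left) hs)
  have hsu := QuotientGroup.mk'_surjective N
  have h1 : (R ⊔ N).Normal := by
    have := ih _ (hc ▸ card_quotient_lt hN.ne_bot) (G ⧸ N) rfl (hr.quot N) (hL.map _ hsu)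
      (isSolvable_map _ _) (fun h => hi (h.trans (L.index_map_dvd hsu))) (hU.map _ hsu) (by
        rintro _ ⟨u, hu, rfl⟩
        obtain ⟨a, ha⟩ := hK u hu
        exact ⟨a, map_Op_le Nat.prime_two _ ⟨_, ha, map_pow _ _ _⟩⟩) (hR.map _)
    have h2 := this.comap (QuotientGroup.mk' N)
    rwa [comap_map_eq, QuotientGroup.ker_mk'] at h2
  have hNp : IsPGroup q N := fun n => ⟨1, Subtype.ext (by simpa using hNq n n.2)⟩
  by_cases hqp : q = p
  · subst hqp
    rwa [sup_of_le_left (hR.le_of_normalized hNp hNU le_normalizer_of_normal)] at h1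
  have hfr : ∀ g, ∃ n ∈ N, ∃ y ∈ normalizer (R : Set G), g = n * y := fun g => by
    obtain ⟨m, hm, y, hy, rfl⟩ := (hR.of_le le_sup_left (sup_le hR.le hNU)).frattini
      (x := g) (le_normalizer_of_normal (mem_top g))
    rw [sup_comm] at hm
    obtain ⟨n, hn, r, hr, rfl⟩ := mem_sup_norm le_normalizer_of_normal hm
    exact ⟨n, hn, r * y, mul_mem (le_normalizer hr) hy, mul_assoc ..⟩
  have hnor : ∀ A : Subgroup G, A ≤ N → normalizer (R : Set G) ≤ normalizer (A : Set G) →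
      A = ⊥ ∨ A = N := fun A hA h => hN.eq_bot_or_eq A ⟨fun a ha g => by
    obtain ⟨n, hn, y, hy, rfl⟩ := hfr g
    have h2 := conj_mem_of_norm (h hy) ha
    have h3 : n * (y * a * y⁻¹) = (y * a * y⁻¹) * n :=
      congrArg Subtype.val (hab.is_comm.comm (⟨n, hn⟩ : N) ⟨_, hA h2⟩)
    rwa [show n * y * a * (n * y)⁻¹ = n * (y * a * y⁻¹) * n⁻¹ by group, h3, mul_inv_cancel_right]⟩ hA
  by_contra hRn
  have hnle : ¬ N ≤ normalizer (R : Set G) := fun h => hRn (normalizer_eq_top_iff.1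
    (eq_top_iff.2 fun g _ => by
      obtain ⟨n, hn, y, hy, rfl⟩ := hfr g
      exact mul_mem (h hn) hy))
  have hd : N ⊓ normalizer (R : Set G) = ⊥ := (hnor _ inf_le_left (le_norm_of_conj fun s hs g hg =>
    ⟨this.conj_mem _ hg.1 s, conj_mem_of_norm (le_normalizer hs) hg.2⟩)).resolve_right
      fun h => hnle (h.ge.trans inf_le_right)
  have hcomm : ⁅N, R⁆ = N := (hnor _ (commutator_le_left N R) (le_norm_of_conj fun s hs g hg => by
    have : ⁅N, R⁆.map (MulAut.conj s).toMonoidHom ≤ ⁅N, R⁆ := by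
      rw [map_commutator]
      exact commutator_mono (by rintro _ ⟨x, hx, rfl⟩; exact this.conj_mem _ hx s)
        (by rintro _ ⟨x, hx, rfl⟩; exact conj_mem_of_norm hs hx)
    exact this ⟨g, hg, rfl⟩)).resolve_left fun h => hnle
      ((commutator_eq_bot_iff_le_centralizer.1 h).trans (centralizer_le_normalizer _))
  obtain ⟨lam, h2, s, hs⟩ : ∃ lam : N →* ℂˣ, lam ≠ 1 ∧ ∃ s, ∀ n,
      lam (conjEquiv N s n) = (lam n)⁻¹ := by
    by_cases hK2 : Op 2 G ≤ centralizer (N : Set G)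
    swap
    · exact exists_hom_inv hab hK2
    by_cases hq2 : q = 2
    · obtain ⟨n, hn⟩ := (ne_bot_iff_exists_ne_one).1 hN.ne_bot
      obtain ⟨lam, h2⟩ := exists_hom_ne hab hn
      refine ⟨lam, fun h => h2 (h ▸ rfl), 1, fun n => eq_inv_of_mul_eq_one_left ?_⟩
      rw [← map_mul, ← map_one lam]
      exact congrArg lam (Subtype.ext (by simpa [conjEquiv, hq2, pow_two] using hNq n n.2))
    refine absurd (le_trans (fun n hn => ?_) (Op_le (p := 2) fun x k hk => ?_)) hnle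
    · obtain ⟨a, ha⟩ := hK n (hNU hn)
      exact mem_of_coprime_pow_mem _ (Nat.Coprime.pow_left a ((Nat.coprime_primes hp.out hq).2
        (Ne.symm hqp))) ha (by rw [hNq n hn]; exact one_mem _)
    · obtain ⟨n, hn, y, hy, rfl⟩ := hfr x
      have h3 : Commute n y := by
        have := hK2 (mem_Op Nat.prime_two hk) n hn
        rwa [mul_assoc, mul_left_cancel_iff] at this
      rw [h3.mul_pow, mul_eq_one_iff_eq_inv] at hk
      have h4 : n ^ 2 ^ k ∈ N ⊓ normalizer (R : Set G) :=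
        mem_inf.2 ⟨pow_mem hn _, hk ▸ inv_mem (pow_mem hy _)⟩
      rw [hd] at h4
      rw [mem_bot.1 (mem_of_coprime_pow_mem ⊥ (Nat.Coprime.pow_left k
        ((Nat.coprime_primes Nat.prime_two hq).2 (Ne.symm hq2))) h4 (hNq n hn)), one_mul]
      exact hy
  obtain ⟨χ, h3, h4, h5⟩ := hr.exists_irr hd odd_one (by
    rw [one_mul]
    exact (isComplement'_of_disjoint_and_mul_eq_univ (disjoint_iff.2 hd) (Set.eq_univ_of_forall
      fun g => (hfr g).elim fun n ⟨hn, y, hy, e⟩ => ⟨n, hn, y, hy, e.symm⟩)).index_eq_card) h2 hs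
  obtain ⟨S, hS, hRS⟩ := exists_sylIn_ge hR.pgroup le_top
  obtain ⟨θ, h6, h7, h8⟩ := exists_inv_under (h := le_top) (K := N) le_normalizer_of_normal hS
    (h3.comp_mulEquiv topEquiv) h4
  obtain ⟨mu, rfl⟩ := h6.isCharacter.exists_hom h6.apply_one_of_isMulCommutative
  refine h7 (Eq.trans (congrArg _ (funext fun n => ?_)) h5)
  have h9 : ⁅N, R⁆ ≤ mu.ker.map N.subtype := commutator_le.2 fun a ha r hr => by
    refine ⟨⟨a, ha⟩ * (conjEquiv N r ⟨a, ha⟩)⁻¹, ?_, by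
      simp [conjEquiv, commutatorElement_def, mul_assoc]⟩
    rw [SetLike.mem_coe, MonoidHom.mem_ker, map_mul, map_inv, mul_inv_eq_one]
    exact Units.ext ((h8 (hRS hr)).2 _ _ rfl).symm
  obtain ⟨y, hy, e⟩ := h9 (hcomm.ge n.2)
  rw [← show y = n from Subtype.ext e, MonoidHom.mem_ker.1 hy, Units.val_one]

theorem RP.normal_syl (hr : RP p G) (hs : Group.IsSolvable (Op p G)) {U R : Subgroup G}
    (hU : U.Normal) (hK : ∀ u ∈ U, ∃ a, u ^ p ^ a ∈ Op 2 G) (hR : SylIn p R U) : R.Normal :=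
  normal_syl_aux _ G rfl hr inferInstance hs not_dvd_index_Op hU hK hR

theorem RP.le_centralizer (hr : RP p G) (h2 : p ≠ 2) {P M : Subgroup G} (hP : IsPGroup p P)
    (hM : M.Normal) (h : M ≤ ⁅P, P⁆) : Op 2 G ≤ centralizer (M : Set G) :=
  le_centralizer_aux h2 _ G rfl hr hP hM h

omit hp in
theorem exists_real_amb {M H : Subgroup G} (h : M ≤ H) (hN : H ≤ normalizer (M : Set G))
    (hi : ¬ 2 ∣ M.relIndex H) {θ : M → ℂ} (hθ : IsIrrCharacter M θ)
    (hr : (fun m => conj (θ m)) = θ) :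
    ∃ χ, IsIrrCharacter H χ ∧ (fun g => conj (χ g)) = χ ∧ Ov h χ θ ∧
      charDegree χ = (stab M θ).relIndex H * charDegree θ ∧
      ∀ χ', IsIrrCharacter H χ' → (fun g => conj (χ' g)) = χ' → Ov h χ' θ → χ' = χ := by
  have := (normal_subgroupOf_iff_le_normalizer h).mpr hN
  have hm := Nat.odd_iff.2 (Nat.two_dvd_ne_zero.1 hi)
  obtain ⟨χ, h1, h2, h3, h4⟩ := OddExt.Hyp.exists_unique (σ := conj) (N := M.subgroupOf H)
    ⟨hm, fun g => pow_relIndex_mem h hN g.2, fun z hz => by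
      rw [Complex.conj_mul', Complex.norm_eq_one_of_pow_eq_one hz hm.pos.ne']; simp⟩
    (hθ.subOf h) fun _ => congrFun hr _
  have h5 := (classInner_res_subOf h χ θ).symm.trans h2
  have h6 : Ov h χ θ := fun h0 => one_ne_zero (h5.symm.trans h0)
  obtain ⟨e, h7, h8, -⟩ := degree_amb hN h1 hθ h6
  obtain rfl : e = 1 := Nat.cast_eq_one.1 (h7.symm.trans h5)
  exact ⟨χ, h1, funext h3, h6, by rw [h8, one_mul], fun χ' a b c =>
    h4 _ a (fun h0 => c ((classInner_res_subOf h _ θ).symm.trans h0)) (congrFun b)⟩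

omit hp in
theorem real_under {M H : Subgroup G} {h : M ≤ H} (hN : H ≤ normalizer (M : Set G))
    (hi : ¬ 2 ∣ M.relIndex H) {θ : M → ℂ} (hθ : IsIrrCharacter M θ) {χ : H → ℂ}
    (hχ : IsIrrCharacter H χ) (ho : Ov h χ θ) (hr : (fun g => conj (χ g)) = χ) :
    (fun m => conj (θ m)) = θ :=
  real_of_ov hN hθ (fun h0 => hi (h0.trans (relIndex_dvd_of_le_left H
    (le_inf h (le_stab_self _ hθ.isClassFunction))))) hχ ho hr

omit hp in
theorem Rel_gal {K C : Subgroup G} {h : C ≤ K} {θ : K → ℂ} {η : C → ℂ} (hη : IsCharacter C η)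
    (hr : Rel p (inclusion h) θ η) (σ : ℂ →+* ℂ) :
    Rel p (inclusion h) (fun k => σ (θ k)) fun c => σ (η c) := by
  obtain ⟨m, hm, hm'⟩ := hr
  exact ⟨m, by rw [classInner_gal _ hη.isGen, hm, map_natCast], hm'⟩

omit [Finite G] hp in
theorem IS_gal {P K : Subgroup G} {θ : K → ℂ} (h : IS P K θ) (σ : ℂ →+* ℂ) :
    IS P K fun k => σ (θ k) := fun s hs g g' e => congrArg σ (h s hs g g' e)

omit [Finite G] hp in
theorem IS_cj {P K : Subgroup G} {θ : K → ℂ} (h : IS P K θ) {x : G}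
    (hx : x ∈ normalizer (K : Set G)) (hP : x ∈ normalizer (P : Set G)) :
    IS P K fun k => θ (cjE K hx k) := fun s hs g g' e =>
  h _ (conj_mem_of_norm hP hs) _ _ (by rw [coe_cjE, coe_cjE, e]; group)

theorem relIndex_normalizer {P T : Subgroup G} (h : SylIn p P T) :
    (((normalizer (P : Set G)).relIndex T : ℕ) : ZMod p) = 1 := by
  have h1 := card_sylow_modEq_one p T
  rw [h.toSylow.card_eq_index_normalizer, ← Sylow.coe_coe, h.coe_toSylow,
    ← subgroupOf_normalizer_eq h.le] at h1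
  exact ((ZMod.natCast_eq_natCast_iff _ _ _).2 h1).trans Nat.cast_one

theorem index_eq_relIndex {P T : Subgroup G} (h : SylIn p P ⊤) (hT : P ≤ T) :
    ((T.relIndex ⊤ : ℕ) : ZMod p) = (T.relIndex (normalizer (P : Set G)) : ℕ) := by
  have h1 := relIndex_mul_relIndex _ T ⊤ (inf_le_left (b := normalizer (P : Set G))) le_top
  rw [← relIndex_mul_relIndex _ (normalizer (P : Set G)) ⊤ inf_le_right le_top,
    inf_relIndex_left, inf_relIndex_right] at h1
  have h2 := congrArg (Nat.cast (R := ZMod p)) h1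
  rwa [Nat.cast_mul, Nat.cast_mul, relIndex_normalizer h, relIndex_normalizer (h.of_le hT le_top),
    one_mul, mul_one] at h2

/-- Real characters of degree prime to `p`. -/
abbrev RI (p : ℕ) (H : Type*) [Group H] :=
  {χ : IrrCharacter H // (∀ g, (χ.1 g).im = 0) ∧ ¬ p ∣ charDegree χ.1}

theorem exists_equiv_top {K P : Subgroup G} [hK : K.Normal] (hi : ¬ 2 ∣ K.index) (hP : SylIn p P ⊤)
    (hQ : (P ⊓ K).Normal) : ∃ e : RI p (⊤ : Subgroup G) ≃ RI p (normalizer (P : Set G)), ∀ χ,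
      (charDegree (e χ).1.1 : ZMod p) = charDegree χ.1.1 ∨
        (charDegree (e χ).1.1 : ZMod p) = -charDegree χ.1.1 := by
  set N := normalizer (P : Set G)
  let C := K ⊓ N
  have hCK : C ≤ K := inf_le_left
  have hCN : C ≤ N := inf_le_right
  have hPN : P ≤ N := le_normalizer
  have hNC : N ≤ normalizer (C : Set G) := le_norm_of_conj fun s hs g hg =>
    ⟨hK.conj_mem _ hg.1 s, conj_mem_of_norm (le_normalizer hs) hg.2⟩
  have hKn : ∀ {H : Subgroup G}, H ≤ normalizer (K : Set G) := fun {_} => le_normalizer_of_normal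
  have hi1 : ¬ 2 ∣ K.relIndex ⊤ := by rwa [relIndex_top_right]
  have hi2 : ¬ 2 ∣ C.relIndex N := fun h => hi (h.trans (by
    rw [inf_relIndex_right]; exact relIndex_dvd_index_of_normal K N))
  have hS := hP.of_le hPN le_top
  have hc : Corr p (inclusion hCK) (IS P K) (IS P C) := corr_pgroup (N := P ⊓ K) (C := C) hp.out hP.pgroup
    (hP.inf_normal_of_le hKn le_top).not_dvd_relIndex le_normalizer_of_normal K
    le_normalizer_of_normal hKn (fun g hg => pow_relIndex_mem inf_le_right le_normalizer_of_normal hg)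
    (fun k => ⟨fun h => ⟨h.1, fun x hx => ⟨by
      simpa [mul_assoc] using mul_mem hx (conj_mem_of_norm h.2 (inv_mem hx)),
      K.mul_mem (hK.conj_mem _ h.1 x) (K.inv_mem h.1)⟩⟩, fun h => ⟨h.1, mem_normalizer_fintype
        fun x hx => by simpa [mul_assoc] using mul_mem hx (h.2 _ (inv_mem hx)).1⟩⟩) hCK
  have hdeg : ∀ {θ η}, IsIrrCharacter K θ → IS P K θ → IsIrrCharacter C η → IS P C η →
      Rel p (inclusion hCK) θ η → (charDegree η : ZMod p) = charDegree θ ∨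
        (charDegree η : ZMod p) = -charDegree θ := fun h1 h2 h3 h4 h5 => by
    rw [hc.degree hKn (hPN.trans hNC) hp.out hP.pgroup h1 h2 h3 h4 h5]
    obtain ⟨m, h6, h7⟩ := h5
    rw [mult_eq h6]
    exact (hc.pm _ h1 h2 _ h3 h4 m h6 h7).imp (fun h => by simp [h]) fun h => by simp [h]
  have hst : ∀ {θ η}, IsIrrCharacter K θ → IS P K θ → IsIrrCharacter C η → IS P C η →
      Rel p (inclusion hCK) θ η → (stab K θ).relIndex N = (stab C η).relIndex N :=
    fun h1 h2 h3 h4 h5 => relIndex_congr fun x hx => by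
      have h6 := h5.cj (hKn hx) (hNC hx)
      rw [mem_stab_iff (hKn hx), mem_stab_iff (hNC hx)]
      exact ⟨fun e => hc.uniq _ h1 h2 _ _ (h3.comp_mulEquiv _) (IS_cj h4 _ hx) h3 h4 (e ▸ h6) h5,
        fun e => hc.inj _ _ (h1.comp_mulEquiv _) (IS_cj h2 _ hx) h1 h2 _ h3 h4 (e ▸ h6) h5⟩
  have hnd : ∀ {a b : ℕ}, ((a : ZMod p) = b ∨ (a : ZMod p) = -b) → (p ∣ a ↔ p ∣ b) := fun h => by
    rw [← ZMod.natCast_eq_zero_iff, ← ZMod.natCast_eq_zero_iff]
    rcases h with h | h <;> simp [h]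
  refine (exists_equiv_of_rel (fun (χ : RI p (⊤ : Subgroup G)) (ξ : RI p N) =>
    ∃ θ η, IsIrrCharacter K θ ∧ IS P K θ ∧ IsIrrCharacter C η ∧ IS P C η ∧
      Rel p (inclusion hCK) θ η ∧ Ov le_top χ.1.1 θ ∧ Ov hCN ξ.1.1 η) (fun χ => ?_) (fun ξ => ?_)
    (fun χ ξ ξ' ⟨θ, η, a1, a2, a3, a4, a5, a6, a7⟩ ⟨θ', η', b1, b2, b3, b4, b5, b6, b7⟩ => ?_)
    (fun χ χ' ξ ⟨θ, η, a1, a2, a3, a4, a5, a6, a7⟩ ⟨θ', η', b1, b2, b3, b4, b5, b6, b7⟩ =>
      ?_)).imp fun e he χ => ?_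
  rotate_right
  · obtain ⟨θ, η, a1, a2, a3, a4, a5, a6, a7⟩ := he χ
    obtain ⟨χ', -, -, -, b1, b2⟩ := exists_real_amb le_top hKn hi1 a1
      (real_under hKn hi1 a1 χ.1.2 a6 (real_iff.1 χ.2.1))
    obtain ⟨ξ', -, -, -, c1, c2⟩ := exists_real_amb hCN hNC hi2 a3
      (real_under hNC hi2 a3 (e χ).1.2 a7 (real_iff.1 (e χ).2.1))
    rw [b2 _ χ.1.2 (real_iff.1 χ.2.1) a6, c2 _ (e χ).1.2 (real_iff.1 (e χ).2.1) a7, b1, c1,
      Nat.cast_mul, Nat.cast_mul, index_eq_relIndex hP ((IS_iff_le_stab hKn).1 a2),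
      hst a1 a2 a3 a4 a5]
    exact (hdeg a1 a2 a3 a4 a5).imp (fun h => by rw [h]) fun h => by rw [h, mul_neg]
  · obtain ⟨θ, a1, a6, h⟩ := exists_inv_under (h := le_top) hKn hP χ.1.2 χ.2.2
    have a2 := (IS_iff_le_stab hKn).2 h
    obtain ⟨η, a3, a4, a5⟩ := hc.ex θ a1 a2
    have h1 := real_under hKn hi1 a1 χ.1.2 a6 (real_iff.1 χ.2.1)
    obtain ⟨ξ, b1, b2, b3, b4, -⟩ := exists_real_amb hCN hNC hi2 a3 (hc.uniq _ a1 a2 _ _ (a3.gal conj)
      (IS_gal a4 _) a3 a4 (h1 ▸ Rel_gal a3.isCharacter a5 conj) a5)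
    refine ⟨⟨⟨ξ, b1⟩, real_iff.2 b2, fun h0 => (hp.out.dvd_mul.1 (b4 ▸ h0)).elim
      (not_dvd_relIndex_of_syl hS ((IS_iff_le_stab (hPN.trans hNC)).1 a4) hPN le_rfl) fun h0 =>
        χ.2.2 (((hnd (hdeg a1 a2 a3 a4 a5)).1 h0).trans (degree_dvd_amb hKn χ.1.2 a1 a6))⟩,
      θ, η, a1, a2, a3, a4, a5, a6, b3⟩
  · obtain ⟨η, a3, a7, h⟩ := exists_inv_under (h := hCN) hNC hS ξ.1.2 ξ.2.2
    have a4 := (IS_iff_le_stab (hPN.trans hNC)).2 h
    obtain ⟨θ, a1, a2, a5⟩ := hc.surj η a3 a4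
    have h1 := real_under hNC hi2 a3 ξ.1.2 a7 (real_iff.1 ξ.2.1)
    obtain ⟨χ, b1, b2, b3, b4, -⟩ := exists_real_amb le_top hKn hi1 a1 (hc.inj _ _ (a1.gal conj)
      (IS_gal a2 _) a1 a2 _ a3 a4 (h1 ▸ Rel_gal a3.isCharacter a5 conj) a5)
    refine ⟨⟨⟨χ, b1⟩, real_iff.2 b2, fun h0 => (hp.out.dvd_mul.1 (b4 ▸ h0)).elim
      (not_dvd_relIndex_of_syl hP ((IS_iff_le_stab hKn).1 a2) le_top le_rfl) fun h0 =>
        ξ.2.2 (((hnd (hdeg a1 a2 a3 a4 a5)).2 h0).trans (degree_dvd_amb hNC ξ.1.2 a3 a7))⟩,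
      θ, η, a1, a2, a3, a4, a5, b3, a7⟩
  · obtain ⟨g, _, hg, rfl⟩ := exists_cj_of_inv hKn hP χ.1.2 a1 b1 a6 b6
      ((IS_iff_le_stab hKn).1 a2) ((IS_iff_le_stab hKn).1 b2)
    obtain rfl := hc.uniq _ b1 b2 _ _ b3 b4 (a3.comp_mulEquiv _) (IS_cj a4 _ hg) b5
      (a5.cj _ (hNC hg))
    obtain ⟨_, -, -, -, -, h⟩ := exists_real_amb hCN hNC hi2 b3
      (real_under hNC hi2 b3 ξ'.1.2 b7 (real_iff.1 ξ'.2.1))
    exact Subtype.ext (Subtype.ext ((h _ ξ.1.2 (real_iff.1 ξ.2.1) (Ov_cj_right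
      ξ.1.2.isClassFunction a7 hg _)).trans (h _ ξ'.1.2 (real_iff.1 ξ'.2.1) b7).symm))
  · obtain ⟨g, hg, rfl⟩ := exists_cj_of_ov hNC ξ.1.2 a3 b3 a7 b7
    obtain rfl := hc.inj _ _ b1 b2 (a1.comp_mulEquiv _) (IS_cj a2 (hKn hg) hg) _ b3 b4 b5
      (a5.cj _ (hNC hg))
    obtain ⟨_, -, -, -, -, h⟩ := exists_real_amb le_top hKn hi1 b1
      (real_under hKn hi1 b1 χ'.1.2 b6 (real_iff.1 χ'.2.1))
    exact Subtype.ext (Subtype.ext ((h _ χ.1.2 (real_iff.1 χ.2.1) (Ov_cj_right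
      χ.1.2.isClassFunction a6 (mem_top g) _)).trans (h _ χ'.1.2 (real_iff.1 χ'.2.1) b6).symm))

theorem RP.exists_equiv (hr : RP p G) {K P : Subgroup G} [K.Normal] (hi : ¬ 2 ∣ K.index)
    (hP : SylIn p P ⊤) (hQ : (P ⊓ K).Normal) :
    ∃ e : {χ : IrrCharacter G // ∀ g, (χ.1 g).im = 0} ≃ RI p (normalizer (P : Set G)), ∀ χ,
      (charDegree (e χ).1.1 : ZMod p) = charDegree χ.1.1 ∨
        (charDegree (e χ).1.1 : ZMod p) = -charDegree χ.1.1 := by
  obtain ⟨e, he⟩ := exists_equiv_top hi hP hQ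
  exact ⟨((irrCongr topEquiv).subtypeEquiv fun χ => ⟨fun h => ⟨fun _ => h _, hr χ h⟩,
    fun h g => h.1 ⟨g, mem_top g⟩⟩).trans e, fun χ => he _⟩

omit hp in
theorem mem_of_real {K : Subgroup G} [K.Normal] (hi : ¬ 2 ∣ K.index) {x : G} (hx : IsConj x x⁻¹) :
    x ∈ K := (QuotientGroup.eq_one_iff x).1 (eq_one_of_isConj_inv_of_odd
  (Nat.odd_iff.2 (Nat.two_dvd_ne_zero.1 hi)) ((QuotientGroup.mk' K).map_isConj hx).symm)

theorem RP.meets_aux (hr : RP p G) {K P : Subgroup G} [hK : K.Normal] (hi : ¬ 2 ∣ K.index)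
    (hP : SylIn p P ⊤) (hQ : P ⊓ K = ⊥) {x : G} (hx : IsConj x x⁻¹) :
    ∃ y ∈ normalizer (P : Set G), IsConj x y := by
  obtain ⟨e, -⟩ := hr.exists_equiv hi hP (hQ ▸ inferInstance)
  set N := normalizer (P : Set G)
  have hcen : ∀ y : N, IsConj y y⁻¹ → (y : G) ∈ centralizer (P : Set G) := fun y hy a ha => by
    have h1 := mem_of_real hi (N.subtype.map_isConj hy)
    have h2 : a * y * a⁻¹ * (y : G)⁻¹ ∈ P ⊓ K := mem_inf.2 ⟨by
      simpa [mul_assoc] using mul_mem ha (conj_mem_of_norm y.2 (inv_mem ha)),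
      mul_mem (hK.conj_mem _ h1 a) (inv_mem h1)⟩
    rwa [hQ, mem_bot, mul_inv_eq_one, mul_inv_eq_iff_eq_mul] at h2
  have hre : ∀ {H : Type _} [Group H] {a b : H}, IsConj a b → IsConj a a⁻¹ → IsConj b b⁻¹ :=
    fun h1 h2 => h1.symm.trans (h2.trans (isConj_iff.2 ((isConj_iff.1 h1).imp fun c hc => by
      rw [← hc]; group)))
  let f : {C : ConjClasses N // ∀ g, ConjClasses.mk g = C → IsConj g g⁻¹} →
      {C : ConjClasses G // ∀ g, ConjClasses.mk g = C → IsConj g g⁻¹} := fun C =>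
    ⟨ConjClasses.map N.subtype C.1, fun g hg => by
      obtain ⟨y, hy⟩ := ConjClasses.mk_surjective C.1
      rw [← hy] at hg
      exact hre (ConjClasses.mk_eq_mk_iff_isConj.1 hg).symm (N.subtype.map_isConj (C.2 y hy))⟩
  have hf : Function.Injective f := by
    rintro ⟨C, hC⟩ ⟨D, hD⟩ h
    obtain ⟨y, rfl⟩ := ConjClasses.mk_surjective C
    obtain ⟨z, rfl⟩ := ConjClasses.mk_surjective D
    obtain ⟨g, hg⟩ := isConj_iff.1 (ConjClasses.mk_eq_mk_iff_isConj.1 (congrArg Subtype.val h))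
    change g * y * g⁻¹ = z at hg
    obtain ⟨n, hn, h1⟩ := hP.toSylowTop.conj_eq_normalizer_conj_of_mem_centralizer y g⁻¹
      (hcen y (hC y rfl)) (by rw [inv_inv, hg]; exact hcen z (hD z rfl))
    exact Subtype.ext (ConjClasses.mk_eq_mk_iff_isConj.2 (isConj_iff.2 ⟨⟨n, hn⟩⁻¹, Subtype.ext (by
      simpa [← hg] using h1.symm)⟩))
  obtain ⟨⟨C, hC⟩, h⟩ := (hf.bijective_of_nat_card_le (by
    rw [← card_real_irr, ← card_real_irr, Nat.card_congr e]
    exact Nat.card_le_card_of_injective (fun χ => ⟨χ.1, χ.2.1⟩) fun a b h =>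
      Subtype.ext (congrArg (·.1) h))).2 ⟨ConjClasses.mk x, fun g hg =>
        hre (ConjClasses.mk_eq_mk_iff_isConj.1 hg).symm hx⟩
  obtain ⟨y, rfl⟩ := ConjClasses.mk_surjective C
  exact ⟨y, y.2, (ConjClasses.mk_eq_mk_iff_isConj.1 (congrArg Subtype.val h)).symm⟩

theorem RP.meets (hr : RP p G) {K P : Subgroup G} [hK : K.Normal] (hi : ¬ 2 ∣ K.index)
    (hP : SylIn p P ⊤) (hQ : (P ⊓ K).Normal) {x : G} (hx : IsConj x x⁻¹) :
    ∃ y ∈ normalizer (P : Set G), IsConj x y := by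
  have hsu := QuotientGroup.mk'_surjective (P ⊓ K)
  have := hK.map _ hsu
  obtain ⟨y, hy, h⟩ := (hr.quot (P ⊓ K)).meets_aux (K := K.map (QuotientGroup.mk' _))
    (fun h => hi (h.trans (K.index_map_dvd hsu))) (map_top_of_surjective _ hsu ▸ hP.map _)
    (eq_bot_iff.2 (by
      rintro _ ⟨⟨a, ha, rfl⟩, b, hb, e⟩
      have h1 := QuotientGroup.eq.1 e
      exact (QuotientGroup.eq_one_iff a).2 ⟨ha, (K.mul_mem_cancel_left (inv_mem hb)).1 h1.2⟩))
    ((QuotientGroup.mk' _).map_isConj hx)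
  obtain ⟨c, rfl⟩ := isConj_iff.1 h
  obtain ⟨c, rfl⟩ := hsu c
  refine ⟨_, ?_, isConj_iff.2 ⟨c, rfl⟩⟩
  have h1 := comap_normalizer_eq_of_surjective (P.map (QuotientGroup.mk' _)) hsu
  rw [comap_map_eq, QuotientGroup.ker_mk', sup_of_le_left inf_le_left] at h1
  exact h1 ▸ hy

theorem RP.inf_normal (hr : RP p G) (hs : Group.IsSolvable (Op p G)) {P : Subgroup G}
    (hP : SylIn p P ⊤) : (P ⊓ Op 2 G).Normal :=
  hr.normal_syl hs inferInstance (fun u hu => ⟨0, by simpa using hu⟩)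
    (hP.inf_normal_of_le le_normalizer_of_normal le_top)

end CL.RealP
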