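import Mathlib
import Cfsg.Agent.BLK.BrLeon
import Cfsg.Agent.PERM.PermMod

/-! Degrees of the constituents of the permutation character on a TI class of Sylow subgroups. -/

set_option autoImplicit false
open Cfsg Subgroup MulAction Module
open scoped ComplexConjugate Pointwise

namespace CL.Blk

theorem exists_reps_of_free {K X : Type*} [Group K] [Fintype K] [MulAction K X] (s : Finset X)
    (hs : ∀ k : K, ∀ x ∈ s, k • x ∈ s) (hf : ∀ x ∈ s, ∀ k : K, k • x = x → k = 1) :
    ∃ T : Finset X, ∀ {A : Type*} [AddCommMonoid A] (F : X → A),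
      ∑ x ∈ s, F x = ∑ k : K, ∑ t ∈ T, F (k • t) := by
  classical
  let o : X → X := fun x => (Quotient.mk (orbitRel K X) x).out
  have ho : ∀ x, ∃ k : K, k • x = o x := fun x =>
    orbitRel_apply.1 (Quotient.mk_out (s := orbitRel K X) x)
  have ho' : ∀ (k : K) x, o (k • x) = o x := fun k x =>
    congrArg Quotient.out (Quotient.sound (orbitRel_apply.2 (mem_orbit x k)))
  refine ⟨s.filter fun x => o x = x, fun F => ?_⟩
  rw [← Finset.sum_product']
  refine (Finset.sum_bij (fun a _ => a.1 • a.2) (fun a ha => ?_) (fun a ha b hb h => ?_)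
    (fun x hx => ?_) fun _ _ => rfl).symm
  · exact hs _ _ (Finset.mem_filter.1 (Finset.mem_product.1 ha).2).1
  · have ha' := Finset.mem_filter.1 (Finset.mem_product.1 ha).2
    have hb' := Finset.mem_filter.1 (Finset.mem_product.1 hb).2
    have h1 : a.2 = b.2 := by rw [← ha'.2, ← hb'.2, ← ho' a.1, h, ho']
    refine Prod.ext (inv_mul_eq_one.1 (hf _ hb'.1 _ ?_)).symm h1
    rw [mul_smul, inv_smul_eq_iff, ← h, h1]
  · obtain ⟨k, hk⟩ := ho x
    exact ⟨(k⁻¹, o x), Finset.mem_product.2 ⟨Finset.mem_univ _, Finset.mem_filter.2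
      ⟨hk ▸ hs k x hx, by rw [← hk, ho', hk]⟩⟩, by rw [← hk, inv_smul_smul]⟩

variable {G : Type*} [Group G] {p : ℕ}

/-- A generator of a permutation lattice that is a trace from `1` to `P` forces a large rank. -/
theorem card_le_finrank_of_trace (hp : p.Prime) {U X : Type*} [AddCommGroup U] [Module ℂ U]
    [FiniteDimensional ℂ U] (ρ : Representation ℂ G U) [Finite X] [MulAction G X]
    [IsPretransitive G X] {u : X → U} (hu : ∀ g x, ρ g (u x) = u (g • x)) {P : Subgroup G}
    [Fintype P] (hP : IsPGroup p P) {x₀ : X} (h0 : u x₀ ≠ 0) {T : Finset X}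
    (h : u x₀ = -∑ y : P, ∑ t ∈ T, u (y • t)) : Nat.card P ≤ finrank ℂ U := by
  obtain ⟨M, hM⟩ := BS.exists_isPModular p hp
  have := Fact.mk hp
  have := charP_F hM
  by_contra hlt
  let w := ∑ t ∈ T, u t
  have hw : ∀ y : P, ρ y w = ∑ t ∈ T, u (y • t) := fun y => by simp only [w, map_sum, hu]; rfl
  let W : Submodule (F M) (P → F M) :=
    { carrier := {f | ∃ c : P → ℂ, (∀ y, c y ∈ V M) ∧ ∑ y, c y • ρ y w = 0 ∧
        f = fun y => red M (c y)}
      zero_mem' := ⟨0, fun _ => zero_mem _, by simp, funext fun _ => red_zero.symm⟩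
      add_mem' := by
        rintro _ _ ⟨a, a1, a2, rfl⟩ ⟨b, b1, b2, rfl⟩
        exact ⟨a + b, fun y => add_mem (a1 y) (b1 y), by
          simp [add_smul, Finset.sum_add_distrib, a2, b2],
          funext fun y => (red_add (a1 y) (b1 y)).symm⟩
      smul_mem' := by
        rintro r _ ⟨a, a1, a2, rfl⟩
        exact ⟨fun y => liftF M r * a y, fun y => mul_mem (liftF_mem r) (a1 y), by
          simp only [mul_smul, ← Finset.smul_sum, a2, smul_zero],
          funext fun y => by rw [red_mul (liftF_mem r) (a1 y), red_liftF]; rfl⟩ }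
  have hW : PermMod.Inv P W := by
    rintro g _ ⟨a, a1, a2, rfl⟩
    refine ⟨fun y => a (g * y), fun y => a1 _, ?_, rfl⟩
    have h1 := congrArg (ρ (g⁻¹ : P)) a2
    rw [map_zero, ← Equiv.sum_comp (Equiv.mulLeft g), map_sum] at h1
    rw [← h1]
    refine Finset.sum_congr rfl fun y _ => ?_
    rw [map_smul, ← Module.End.mul_apply, ← map_mul]
    simp
  have hne : W ≠ ⊥ := by
    obtain ⟨a, a1, y, hy⟩ := Fintype.not_linearIndependent_iff.1
      fun h : LinearIndependent ℂ fun y : P => ρ y w =>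
        hlt ((Nat.card_eq_fintype_card (α := P)).trans_le h.fintype_card_le_finrank)
    obtain ⟨z, hz⟩ := Finite.exists_max fun y => (V M).valuation (a y)
    have hz0 : a z ≠ 0 := fun h => hy (by simpa [h] using hz y)
    refine (Submodule.ne_bot_iff W).2 ⟨_, ⟨fun y => (a z)⁻¹ * a y, fun y => ?_, ?_, rfl⟩,
      fun h => ?_⟩
    · rw [← (V M).valuation_le_one_iff, map_mul, map_inv₀, inv_mul_le_one₀
        (zero_lt_iff.2 ((map_ne_zero _).2 hz0))]
      exact hz y
    · simp only [mul_smul, ← Finset.smul_sum, a1, smul_zero]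
    · simpa [hz0, red_one] using congrFun h z
  obtain ⟨k, hk⟩ := IsPGroup.iff_card.1 hP
  obtain ⟨c, c1, c2, c3⟩ := PermMod.const_le_iff.1
    (PermMod.const_le_of_ne_bot (G := P) (Nat.card_eq_fintype_card.symm.trans hk) hW hne)
  have h1 : u x₀ = ∑ y : P, (c y - 1) • ∑ t ∈ T, u (y • t) := by
    simp only [← hw, sub_smul, Finset.sum_sub_distrib, c2, one_smul, zero_sub] at h ⊢
    exact h
  obtain ⟨l, hl⟩ := not_forall.1 (mt (Module.forall_dual_apply_eq_zero_iff ℂ _).1 h0)
  obtain ⟨x, hx⟩ := @Finite.exists_max _ _ _ ⟨x₀⟩ _ fun x => (V M).valuation (l (u x))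
  have hx0 : (V M).valuation (l (u x)) ≠ 0 := fun h => hl (by simpa [h] using hx x₀)
  obtain ⟨g, rfl⟩ := exists_smul_eq G x₀ x
  refine absurd rfl (ne_of_lt (a := (V M).valuation (l (u (g • x₀)))) ?_)
  nth_rewrite 1 [← hu, h1]
  simp only [map_sum, map_smul, hu, smul_eq_mul, Finset.mul_sum]
  refine Valuation.map_sum_lt _ hx0 fun y _ => Valuation.map_sum_lt _ hx0 fun t _ => ?_
  rw [map_mul]
  have h2 : (V M).valuation (c y - 1) < 1 := (red_eq_red_iff (c1 y) (one_mem _)).1
    ((congrFun c3 y).symm.trans red_one.symm)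
  exact (mul_le_mul_right (hx _) _).trans_lt (mul_lt_of_lt_one_left (zero_lt_iff.2 hx0) h2)

theorem card_le_degree_of_TI [Finite G] [hp : Fact p.Prime] (P : Sylow p G)
    (hTI : ∀ g : G, g ∉ normalizer ((P : Subgroup G) : Set G) →
      (P : Subgroup G) ⊓ (MulAut.conj g • (P : Subgroup G)) = ⊥) {ξ : G → ℂ}
    (hξ : IsIrrCharacter G ξ) (h1 : ξ ≠ fun _ => 1) {H : Subgroup G} [Fintype H]
    (hH : normalizer ((P : Subgroup G) : Set G) ≤ H)
    (h : classInner (fun h : H => ξ h) (fun _ => 1) ≠ 0) : Nat.card P ≤ charDegree ξ := by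
  classical
  have := Fintype.ofFinite G
  have := Fintype.ofFinite (P : Subgroup G)
  have h2 := hξ.inner Char.isIrrCharacter_one
  rw [if_neg h1] at h2
  obtain ⟨n, ρ, -, rfl⟩ := hξ
  let _ : Invertible (Nat.card G : ℂ) := invertibleOfNonzero (Char.card_ne_zero G)
  let _ : Invertible (Nat.card H : ℂ) := invertibleOfNonzero (Char.card_ne_zero H)
  have h3 := ρ.card_inv_mul_sum_char_eq_finrank
  have h4 := Representation.card_inv_mul_sum_char_eq_finrank (ρ.comp H.subtype)
  simp only [Char.classInner_def, map_one, mul_one] at h h2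
  rw [h2, eq_comm, Nat.cast_eq_zero, Submodule.finrank_eq_zero] at h3
  obtain ⟨v, hv, hv0⟩ := (Submodule.ne_bot_iff (Representation.invariants (ρ.comp H.subtype))).1
    fun h0 => h (h4.trans (by rw [h0, finrank_bot, Nat.cast_zero]))
  let u : G ⧸ normalizer ((P : Subgroup G) : Set G) → Fin n → ℂ :=
    Quotient.lift (fun g => ρ g v) fun a b hab => by
      have h5 : ρ (a⁻¹ * b) v = v := hv ⟨_, hH (QuotientGroup.leftRel_apply.1 hab)⟩
      show ρ a v = ρ b v
      rw [← mul_inv_cancel_left a b, map_mul, Module.End.mul_apply, h5]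
  have hu : ∀ g x, ρ g (u x) = u (g • x) := fun g x => by
    induction x using QuotientGroup.induction_on with
    | H a => exact (congrArg (· v) (map_mul ρ g a)).symm
  have h5 : ∑ x, u x = 0 := (Submodule.eq_bot_iff _).1 h3 _ fun g => by
    simp only [map_sum, hu]
    exact Equiv.sum_comp (MulAction.toPerm g) u
  obtain ⟨T, hT⟩ := exists_reps_of_free (K := (P : Subgroup G))
    (Finset.univ.erase ((1 : G) : G ⧸ normalizer ((P : Subgroup G) : Set G)))
    (fun k x hx => Finset.mem_erase.2 ⟨fun h => (Finset.mem_erase.1 hx).1 (by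
      rw [smul_eq_iff_eq_inv_smul] at h
      exact h.trans (QuotientGroup.eq.2 (by simpa using le_normalizer k.2))), Finset.mem_univ _⟩)
    fun x hx k hk => by
      induction x using QuotientGroup.induction_on with
      | H a =>
      have h6 : a ∉ normalizer ((P : Subgroup G) : Set G) := fun h =>
        (Finset.mem_erase.1 hx).1 (QuotientGroup.eq.2 (by simpa using h))
      have h7 : ((k : G) * a)⁻¹ * a ∈ normalizer ((P : Subgroup G) : Set G) :=
        QuotientGroup.eq.1 hk
      obtain ⟨j, hj⟩ := P.isPGroup' k⁻¹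
      have h8 : ((k : G) * a)⁻¹ * a ∈ (P : Subgroup G) := by
        have h9 := (MSS.isPGroup_zpowers (p := p) (k := j) (x := ((k : G) * a)⁻¹ * a) (by
          rw [show ((k : G) * a)⁻¹ * a = a⁻¹ * (k⁻¹ : (P : Subgroup G)) * a⁻¹⁻¹ by simp, conj_pow,
            ← coe_pow, hj]; simp)).inf_normalizer_sylow P
        exact (h9.le (mem_inf.2 ⟨mem_zpowers _, h7⟩)).2
      exact inv_eq_one.1 (Subtype.ext (mem_bot.1 ((hTI a h6).le (mem_inf.2 ⟨k⁻¹.2,
        mem_pointwise_smul_iff_inv_smul_mem.2 (by simpa [mul_assoc] using h8)⟩))))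
  rw [Char.charDegree_character]
  refine card_le_finrank_of_trace hp.out ρ hu P.isPGroup' (x₀ := (1 : G)) (T := T)
    (by simpa [u] using hv0) ?_
  rw [← Finset.add_sum_erase _ _ (Finset.mem_univ ((1 : G) : G ⧸ _)), hT] at h5
  exact eq_neg_of_add_eq_zero_left h5

/-- Characters of small degree have the same norm on overgroups of the Sylow normalizer. -/
theorem inner_res_eq_of_TI [Fintype G] [Fact p.Prime] (P : Sylow p G)
    (hTI : ∀ g : G, g ∉ normalizer ((P : Subgroup G) : Set G) →
      (P : Subgroup G) ⊓ (MulAut.conj g • (P : Subgroup G)) = ⊥) {χ : G → ℂ}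
    (hχ : IsCharacter G χ) (hdeg : charDegree χ ^ 2 ≤ Nat.card P) {H : Subgroup G} [Fintype H]
    (hH : normalizer ((P : Subgroup G) : Set G) ≤ H) :
    classInner χ χ = classInner (fun h : H => χ h) (fun h : H => χ h) := by
  classical
  by_cases h0 : χ = 0
  · simp [h0, Char.classInner_def]
  have hΨ := hχ.mul hχ.conj
  have hΨd : charDegree (χ * fun g => conj (χ g)) = charDegree χ ^ 2 :=
    Char.charDegree_eq_of_apply_one (by simp [hχ.apply_one_eq_charDegree, sq])
  obtain ⟨c, hc, hs⟩ := hΨ.exists_nat_coeffs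
  have h1 : classInner χ χ = c (irrOne G) :=
    Eq.trans (by simp [Char.classInner_def, irrOne_apply]) (hc (irrOne G))
  have h2 : classInner (fun h : H => χ h) (fun h : H => χ h) =
      ∑ ξ, c ξ * classInner (fun h : H => ξ.1 h) (fun _ => 1) := by
    simp only [← Char.classInner_smul_left, ← Char.classInner_sum_left]
    simp only [Char.classInner_def, map_one, mul_one]
    congr 1
    exact Finset.sum_congr rfl fun h _ => by simpa using congrFun hs h
  rw [h1, h2, Finset.sum_eq_single (irrOne G) (fun ξ _ hξ => ?_) (by simp)]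
  · rw [show classInner (fun h : H => (irrOne G).1 h) (fun _ => 1) = 1 from
      Char.isIrrCharacter_one.inner_self, mul_one]
  · by_contra h3
    have h4 := card_le_degree_of_TI P hTI ξ.2 (fun h => hξ (Subtype.ext h)) hH
      (right_ne_zero_of_mul h3)
    have h5 := sum_coeff_le_degree hΨ hc {ξ, irrOne G} (f := id) (Set.injOn_id _)
    rw [Finset.sum_pair hξ, hΨd] at h5
    have h6 : c ξ ≠ 0 := Nat.cast_ne_zero.1 (left_ne_zero_of_mul h3)
    have h7 : c (irrOne G) ≠ 0 := fun h => h0 (Char.classInner_self_eq_zero.1 (by rw [h1, h]; simp))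
    have h8 := Nat.le_mul_of_pos_left (charDegree ξ.1) (Nat.pos_of_ne_zero h6)
    have h9 := Nat.mul_pos (Nat.pos_of_ne_zero h7) (irrOne G).2.charDegree_pos
    simp only [id] at h5
    omega

end CL.Blk
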