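import Mathlib
import Cfsg.Agent.BLK.FongCover
import Cfsg.Agent.BLK.GRoots
import Cfsg.Agent.BLK.DefZero
import Cfsg.Agent.FGS.SchurDihedral
import Cfsg.Agent.S4607

/-! Invariant characters of a normal subgroup with exactly two irreducible characters above. -/

set_option autoImplicit false

open Cfsg Subgroup CL.Char
open scoped ComplexConjugate

namespace CL.Blk

universe u

variable {G : Type*} [Group G] [Finite G]

theorem exists_sq_add_sq_of_two {N : Subgroup G} [N.Normal] [Fintype N] {θ : N → ℂ}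
    (hθ : IsIrrCharacter N θ) (h2 : Nat.card (overSet N θ) = 2) :
    ∃ (χ ψ : IrrCharacter G) (a b : ℕ), χ ≠ ψ ∧ overSet N θ = {χ, ψ} ∧ a ≠ 0 ∧ b ≠ 0 ∧
      classInner (fun n : N => χ.1 n) θ = a ∧ classInner (fun n : N => ψ.1 n) θ = b ∧
      a ^ 2 + b ^ 2 = N.relIndex (inertia N θ) := by
  classical
  obtain ⟨χ, ψ, hne, h⟩ := Set.ncard_eq_two.1 h2
  obtain ⟨a, ha⟩ := (χ.2.isCharacter.res N).exists_nat_inner hθ.isCharacter
  obtain ⟨b, hb⟩ := (ψ.2.isCharacter.res N).exists_nat_inner hθ.isCharacter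
  have h1 : χ ∈ overSet N θ := by simp [h]
  have h3 : ψ ∈ overSet N θ := by simp [h]
  refine ⟨χ, ψ, a, b, hne, h, fun e => h1 (by rw [ha, e, Nat.cast_zero]),
    fun e => h3 (by rw [hb, e, Nat.cast_zero]), ha, hb, Nat.cast_injective (R := ℂ) ?_⟩
  rw [← sum_inner_res_sq hθ, ← Finset.sum_subset (Finset.subset_univ {χ, ψ}),
    Finset.sum_pair hne, ha, hb]
  · push_cast; rfl
  · intro ξ _ hξ
    have : ξ ∉ overSet N θ := by simpa [h] using hξ
    rw [not_not.1 this, zero_pow two_ne_zero]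

/-- The irreducible characters lying over a linear character of a central subgroup. -/
def linOver (Z : Subgroup G) (μ : Z →* ℂˣ) : Set (IrrCharacter G) :=
  {β | ∀ z : Z, β.1 z = β.1 1 * μ z}

section central
variable {Z : Subgroup G} (hZ : Z ≤ center G) {μ : Z →* ℂˣ}
include hZ

omit [Finite G] in
theorem inertia_of_le_center [Z.Normal] (θ : Z → ℂ) : inertia Z θ = ⊤ :=
  eq_top_iff.2 fun g _ => centralizer_le_inertia _ fun _ hz => (mem_center_iff.1 (hZ hz) g).symm

theorem overSet_eq_linOver [Fintype Z] : overSet Z (fun z => (μ z : ℂ)) = linOver Z μ := by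
  have := normal_of_le_center' hZ
  ext β
  rw [mem_overSet]
  constructor
  · intro h1 z
    have h2 := clifford_of_invariant β.2 (isIrrCharacter_hom μ) (inertia_of_le_center hZ _) h1
    have h3 := congrFun h2 1
    simp only [OneMemClass.coe_one, Pi.smul_apply, map_one, Units.val_one, smul_eq_mul,
      mul_one] at h3
    rw [h3]
    exact congrFun h2 z
  · intro h1
    have : (fun z : Z => (β : G → ℂ) z) = (β : G → ℂ) 1 • fun z : Z => (μ z : ℂ) := funext h1
    rw [this, classInner_smul_left, (isIrrCharacter_hom μ).inner_self, mul_one]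
    exact β.2.one_ne_zero

theorem exists_pair_linOver (h2 : Nat.card (linOver Z μ) = 2) :
    ∃ β γ : IrrCharacter G, β ≠ γ ∧ linOver Z μ = {β, γ} ∧
      charDegree β.1 ^ 2 + charDegree γ.1 ^ 2 = Z.index := by
  have := normal_of_le_center' hZ
  have := Fintype.ofFinite Z
  rw [← overSet_eq_linOver hZ] at h2 ⊢
  obtain ⟨β, γ, a, b, hne, h, -, -, ha, hb, h1⟩ := exists_sq_add_sq_of_two (isIrrCharacter_hom μ) h2
  have h3 : ∀ δ ∈ overSet Z (fun z => (μ z : ℂ)), ∀ c : ℕ,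
      classInner (fun n : Z => δ.1 n) (fun z => (μ z : ℂ)) = c → charDegree δ.1 = c := by
    intro δ hδ c hc
    rw [overSet_eq_linOver hZ] at hδ
    rw [show (fun z : Z => δ.1 z) = δ.1 1 • fun z : Z => (μ z : ℂ) from funext hδ,
      classInner_smul_left, (isIrrCharacter_hom μ).inner_self, mul_one, irr_one_eq] at hc
    exact_mod_cast hc
  refine ⟨β, γ, hne, h, ?_⟩
  rw [h3 β (by simp [h]) a ha, h3 γ (by simp [h]) b hb, h1, inertia_of_le_center hZ,
    relIndex_top_right]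

theorem eq_two_of_linOver_of_not_dvd (h2 : Nat.card (linOver Z μ) = 2) {r : ℕ} (hr : r.Prime)
    (h1 : r ∣ Z.index) (h3 : ¬ r ∣ Nat.card Z) : r = 2 := by
  have := Fact.mk hr
  have := normal_of_le_center' hZ
  have := Fintype.ofFinite Z
  obtain ⟨M, hM⟩ := Glb.exists_isPModular hr
  obtain ⟨β, γ, hne, h, h4⟩ := exists_pair_linOver hZ h2
  have hU : IsBlockUnion M (linOver Z μ) := overSet_eq_linOver hZ (μ := μ) ▸
    isBlockUnion_overSet hM h3 (θ := irrOfHom μ) (inertia_of_le_center hZ _)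
  by_contra hr2
  have h5 : ∀ δ ∈ linOver Z μ, r ^ Z.index.factorization r ∣ charDegree δ.1 := fun δ hδ => by
    have hB := isPBlock_blockOf (M := M) δ
    have h6 := hU.block_subset hM hB (mem_blockOf_self hM δ) hδ
    obtain ⟨D, hD⟩ := exists_isDefectGroup hM hB
    have h7 : Nat.card (blockOf M δ.1) ≠ 2 := fun e => hr2 (by
      have h8 := (Cfsg.Agent.S4607.result r M hM _ hB D hD).1 e
      rw [hD.card_eq_pow hM hB] at h8
      exact ((Nat.Prime.pow_eq_iff Nat.prime_two).1 h8).1)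
    have h8 : Nat.card (blockOf M δ.1) ≤ 2 := h2 ▸ Nat.card_mono (Set.toFinite _) h6
    have h9 : blockOf M δ.1 = {δ} := by
      have h10 : (blockOf M δ.1).ncard ≤ 1 := by
        rw [← Nat.card_coe_set_eq]; omega
      exact Set.eq_singleton_iff_unique_mem.2 ⟨mem_blockOf_self hM δ, fun x hx =>
        (Set.ncard_le_one (Set.toFinite _)).1 h10 x hx δ (mem_blockOf_self hM δ)⟩
    refine (pow_dvd_pow r ?_).trans
      ((defZero_iff_pow_dvd hr).1 ((defZero_iff_blockOf_eq hM).2 h9))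
    exact Nat.factorization_le_factorization_of_dvd_right Z.index_dvd_card index_ne_zero_of_finite
      Nat.card_pos.ne'
  have h6 : r ^ (Z.index.factorization r * 2) ∣ Z.index := by
    rw [pow_mul]
    conv_rhs => rw [← h4]
    exact dvd_add (pow_dvd_pow_of_dvd (h5 β (by simp [h])) 2)
      (pow_dvd_pow_of_dvd (h5 γ (by simp [h])) 2)
  have h7 := (hr.pow_dvd_iff_le_factorization index_ne_zero_of_finite).1 h6
  have h8 := hr.factorization_pos_of_dvd index_ne_zero_of_finite h1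
  omega

omit hZ in
theorem card_linOver_mul (ν : G →* ℂˣ) {μ' : Z →* ℂˣ} (h : ∀ z : Z, ν z * μ' z = μ z) :
    Nat.card (linOver Z μ') = Nat.card (linOver Z μ) := by
  refine Nat.card_congr ((irrMulHom ν).subtypeEquiv fun β => forall_congr' fun z => ?_)
  rw [irrMulHom_apply, irrMulHom_apply, ← h, map_one, Units.val_one, one_mul, Units.val_mul,
    mul_left_comm, mul_right_inj' (Units.ne_zero _)]

theorem eq_two_of_linOver_of_pow (h2 : Nat.card (linOver Z μ) = 2) {r m : ℕ} (hr : r.Prime)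
    (h1 : r ∣ Z.index) (hm : ¬ r ∣ m) (h3 : μ ^ m = 1) : r = 2 := by
  have := Fact.mk hr
  have hK : μ.ker.map Z.subtype ≤ Z := map_subtype_le _
  have := normal_of_le_center' (hK.trans hZ)
  set f := QuotientGroup.mk' (μ.ker.map Z.subtype)
  have hf : Function.Surjective f := QuotientGroup.mk'_surjective _
  have hs := f.subgroupMap_surjective Z
  have hk : ∀ z : Z, f z = 1 ↔ μ z = 1 := fun z => (QuotientGroup.eq_one_iff _).trans
    ⟨fun ⟨y, hy, e⟩ => Subtype.ext e ▸ hy, fun e => ⟨z, e, rfl⟩⟩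
  obtain ⟨μ', hμ⟩ : ∃ μ' : Z.map f →* ℂˣ, ∀ z, μ' (f.subgroupMap Z z) = μ z :=
    ⟨(f.subgroupMap Z).liftOfSurjective hs ⟨μ, fun z hz => (hk z).1 (congrArg Subtype.val hz)⟩,
      fun z => MonoidHom.liftOfRightInverse_comp_apply _ _ _ _ z⟩
  have hZ' : Z.map f ≤ center _ := by
    rintro _ ⟨z, hz, rfl⟩
    refine mem_center_iff.2 fun g => ?_
    obtain ⟨g, rfl⟩ := hf g
    rw [← map_mul, ← map_mul, mem_center_iff.1 (hZ hz)]
  refine eq_two_of_linOver_of_not_dvd hZ' (μ := μ') ?_ hr ?_ fun hd => hm ?_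
  · rw [← h2]
    refine Nat.card_eq_of_bijective (fun β => ⟨irrInfl f hf β.1, fun z => ?_⟩)
      ⟨fun a b e => Subtype.ext (irrInfl_injective f hf (congrArg Subtype.val e)), fun β => ?_⟩
    · rw [irrInfl_apply, irrInfl_apply, map_one, ← hμ]
      exact β.2 (f.subgroupMap Z z)
    · obtain ⟨δ, hδ⟩ := (mem_range_irrInfl f hf β.1).2 fun n hn => by
        have h4 := hK ((QuotientGroup.eq_one_iff _).1 hn)
        rw [β.2 ⟨n, h4⟩, (hk ⟨n, h4⟩).1 hn, Units.val_one, mul_one]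
      refine ⟨⟨δ, fun z => ?_⟩, Subtype.ext hδ⟩
      obtain ⟨z, rfl⟩ := hs z
      have h4 := β.2 z
      rwa [← hδ, irrInfl_apply, irrInfl_apply, map_one, ← hμ] at h4
  · rwa [index_map_eq Z hf (by rwa [QuotientGroup.ker_mk'])]
  · obtain ⟨x, hx⟩ := exists_prime_orderOf_dvd_card' r hd
    obtain ⟨z, rfl⟩ := hs x
    refine hx ▸ orderOf_dvd_of_pow_eq_one (Subtype.ext ?_)
    rw [← map_pow]
    exact (hk _).2 (by rw [map_pow, ← MonoidHom.pow_apply, h3, MonoidHom.one_apply])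

theorem eq_two_of_linOver (h2 : Nat.card (linOver Z μ) = 2) {r n : ℕ} (hr : r.Prime)
    (h1 : r ∣ Z.index) (hn : ¬ r ∣ n) (h3 : ∀ z ∈ Z, z ∈ commutator G → z ^ n = 1) : r = 2 := by
  obtain ⟨k, m, hm, e⟩ := Nat.exists_eq_pow_mul_and_not_dvd (Nat.card_pos (α := Z)).ne' r hr.ne_one
  obtain ⟨a, h4, h5⟩ := Nat.chineseRemainder ((hr.coprime_iff_not_dvd.2 hn).pow_left k) 1 0
  obtain ⟨c, rfl⟩ := Nat.modEq_zero_iff_dvd.1 h5
  obtain ⟨ν, hν⟩ := exists_hom_extend Z (μ ^ (n * c)) fun z hz => by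
    rw [MonoidHom.pow_apply, ← map_pow, pow_mul, show z ^ n = 1 from Subtype.ext (h3 z z.2 hz),
      one_pow, map_one]
  refine eq_two_of_linOver_of_pow hZ (μ := μ / μ ^ (n * c)) ((card_linOver_mul ν fun z => ?_).trans h2)
    hr h1 hm (MonoidHom.ext fun z => ?_)
  · rw [hν, MonoidHom.div_apply, mul_div_cancel]
  · rw [MonoidHom.pow_apply, MonoidHom.div_apply, MonoidHom.pow_apply, div_pow, MonoidHom.one_apply,
      div_eq_one, ← pow_mul, ← map_pow, ← map_pow]
    refine congrArg μ (pow_eq_pow_iff_modEq.2 (Nat.ModEq.of_dvd (orderOf_dvd_natCard z) ?_))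
    simpa only [e, one_mul] using (h4.mul_right' m).symm

theorem index_eq_two_of_linOver (h2 : Nat.card (linOver Z μ) = 2) {k : ℕ} (h1 : Z.index = 2 ^ k)
    (h3 : ∀ z ∈ Z, z ∈ commutator G → z = 1) : Z.index = 2 := by
  obtain ⟨ν, hν⟩ := exists_hom_extend Z μ fun z hz => by
    rw [show z = 1 from Subtype.ext (h3 z z.2 hz), map_one]
  obtain ⟨β, γ, -, h, h4⟩ := exists_pair_linOver hZ h2
  have h5 : irrOfHom ν ∈ linOver Z μ := fun z => by simp [irrOfHom_apply, hν]
  have h6 : charDegree (irrOfHom ν).1 = 1 := Nat.cast_injective (R := ℂ) (by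
    rw [← irr_one_eq]; simp [irrOfHom_apply])
  have h7 : ∀ d : ℕ, d ≠ 0 → 1 + d ^ 2 = 2 ^ k → 2 ^ k = 2 := fun d hd h8 => by
    rcases k with _ | _ | k
    · simp [hd] at h8
    · rfl
    · rw [pow_add, pow_add] at h8
      rcases Nat.even_or_odd' d with ⟨c, rfl | rfl⟩
      · rw [show (2 * c) ^ 2 = 4 * (c * c) by ring] at h8; omega
      · rw [show (2 * c + 1) ^ 2 = 4 * (c * c + c) + 1 by ring] at h8; omega
  rw [h] at h5
  rw [h1] at h4 ⊢
  rcases h5 with rfl | rfl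
  · exact h7 _ (charDegree_ne_zero γ) (by rwa [h6] at h4)
  · exact h7 _ (charDegree_ne_zero β) (by rwa [h6, add_comm] at h4)

end central

/-- If exactly two irreducible characters lie over the invariant character `θ`, a Sylow subgroup
of the quotient with trivial Schur multiplier is trivial or a `2`-group. -/
theorem two_over {T : Type u} [Group T] [Finite T] {E : Type*} [Group E] {φ : T →* E}
    (hφ : Function.Surjective φ) {N : Subgroup T} [N.Normal] [Fintype N] (hN : φ.ker = N)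
    {θ : N → ℂ} (hθ : IsIrrCharacter N θ) (hinv : inertia N θ = ⊤)
    (h2 : Nat.card (overSet N θ) = 2) {r : ℕ} [hr : Fact r.Prime] (h1 : r ∣ Nat.card E)
    {P : Subgroup E} (hP : ¬ r ∣ P.index) (h3 : HasCyclicSchurMultiplier P 1) :
    r = 2 ∧ (IsPGroup r E → Nat.card E = 2) := by
  have := Finite.of_surjective φ hφ
  obtain ⟨Γ, _, _, H, _, _, π, ρ, θ', Z, μ, h⟩ := exists_isFC N hθ hinv
  have := Fintype.ofFinite Z
  obtain ⟨e, -⟩ := h.exists_equiv hθ hinv
  rw [Nat.card_congr e, overSet_eq_linOver h.central] at h2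
  obtain ⟨ξ, hξ⟩ : ∃ ξ : H →* E, ∀ γ, ξ (ρ γ) = φ (π γ) :=
    ⟨ρ.liftOfSurjective h.surjρ ⟨φ.comp π, fun γ hγ => by
      change π γ ∈ φ.ker
      rw [hN, h.mem_iff, MonoidHom.mem_ker.1 hγ]
      exact one_mem Z⟩, fun γ => MonoidHom.liftOfRightInverse_comp_apply _ _ _ _ γ⟩
  have h4 : ξ.ker = Z := Subgroup.ext fun x => by
    obtain ⟨γ, rfl⟩ := h.surjρ x
    rw [MonoidHom.mem_ker, hξ, ← MonoidHom.mem_ker, hN, h.mem_iff]
  have h5 : Schur.IsCentralExt ξ := ⟨fun y => by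
    obtain ⟨t, rfl⟩ := hφ y
    obtain ⟨γ, rfl⟩ := h.surjπ t
    exact ⟨ρ γ, hξ γ⟩, h4 ▸ h.central⟩
  have h6 : Z.index = Nat.card E := h4 ▸ h5.index_ker
  have h7 : ∀ z ∈ Z, z ∈ commutator H → z ^ P.index = 1 := fun z hz hz' => by
    rw [← h4] at hz
    have h8 : z ^ P.index ∈ ξ.ker := pow_mem hz _
    have h9 : (⟨z ^ P.index, by rw [mem_comap, MonoidHom.mem_ker.1 h8]; exact one_mem P⟩ :
        P.comap ξ) ∈ Schur.stemKer (Schur.restrictComap ξ P) :=
      Schur.mem_stemKer_restrictComap.2 ⟨h8, h5.pow_index_mem P ⟨hz, hz'⟩⟩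
    rw [Schur.stemKer_eq_bot_of_trivial h3 (h5.restrictComap P), mem_bot] at h9
    exact congrArg Subtype.val h9
  obtain rfl := eq_two_of_linOver h.central h2 hr.out (h6 ▸ h1) hP h7
  refine ⟨rfl, fun hE => ?_⟩
  obtain ⟨k, hk⟩ := hE.exists_card_eq
  obtain ⟨j, hj⟩ := hE.index P
  obtain rfl : j = 0 := by
    by_contra h8
    exact hP (hj ▸ dvd_pow_self 2 h8)
  rw [← h6] at hk ⊢
  exact index_eq_two_of_linOver h.central h2 hk fun z hz hz' => by simpa [hj] using h7 z hz hz'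

end CL.Blk
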