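import Mathlib
import Cfsg.Agent.BLK.Corner
import Cfsg.Agent.BLK.Harada
import Cfsg.Agent.BLK.NormNil
import Cfsg.Agent.BLK.KLOne
import Cfsg.Agent.BLK.TwoOver
import Cfsg.Agent.BLK.ThreeCore
import Cfsg.Agent.PLOC.PFrattini

/-! Blocks with three irreducible characters and a normal defect group. -/

set_option autoImplicit false

open Cfsg MonoidAlgebra Subgroup CL.Char
open scoped CL.MSS ComplexConjugate commutatorElement

namespace CL.Blk

universe u

variable {G : Type*} [Group G] [Finite G] {p : ℕ} {M : Ideal AlgInt} {B : Set (IrrCharacter G)}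
  {V : Subgroup G}

theorem blockRank_le_card_kerSet (hM : IsPModular p M) (hB : IsBlockUnion M B) [V.Normal]
    (hV : IsPGroup p V) : blockRank p B ≤ Nat.card (B ∩ kerSet V :) := by
  classical
  refine le_trans (Submodule.finrank_mono (Submodule.span_le.2 ?_)) (blockRank_le_card p _)
  rintro _ ⟨χ, hχ, rfl⟩
  obtain ⟨τ, hτ, h⟩ := exists_descend hM.1 (QuotientGroup.mk'_surjective V)
    (by rwa [QuotientGroup.ker_mk']) χ.2.isClassFunction
  have := Fintype.ofFinite G
  have := Fintype.ofFinite V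
  have h1 : blockPart (kerSet V) (fun g => τ (QuotientGroup.mk' V g)) =
      fun g => τ (QuotientGroup.mk' V g) := funext fun g => by
    rw [blockPart_kerSet (hτ.comp _), Finset.sum_congr rfl fun (n : V) _ => by
      rw [map_mul, show QuotientGroup.mk' V n = 1 from (QuotientGroup.eq_one_iff _).2 n.2, one_mul],
      Finset.sum_const, Finset.card_univ, nsmul_eq_mul, ← Nat.card_eq_fintype_card,
      inv_mul_cancel_left₀ (Nat.cast_ne_zero.2 Nat.card_pos.ne')]
  have h2 : pRegularPart p χ.1 = rb p (B ∩ kerSet V) fun g => τ (QuotientGroup.mk' V g) := by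
    rw [← rb_blockPart, h1, rb_congr hM hB h, rb, blockPart_irr, if_pos hχ]
  change pRegularPart p χ.1 ∈ Submodule.span ℂ _
  rw [h2, rb, blockPart_eq_sum, pRegularPart_sum]
  refine Submodule.sum_mem _ fun ψ hψ => ?_
  rw [pRegularPart_smul]
  exact Submodule.smul_mem _ _ (Submodule.subset_span ⟨ψ, by simpa using hψ, rfl⟩)

open Classical in
theorem card_mul_sum_sq_kerSet (hM : IsPModular p M) (hB : IsBlockUnion M B) [V.Normal]
    (hV : IsPGroup p V) : Nat.card V * ∑ χ with χ ∈ B ∩ kerSet V, charDegree χ.1 ^ 2 =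
      ∑ χ with χ ∈ B, charDegree χ.1 ^ 2 := by
  have := Fintype.ofFinite V
  have h1 : ∑ v : V, ∑ χ with χ ∈ B, χ.1 v * conj (χ.1 1) =
      ∑ χ with χ ∈ B, χ.1 1 * conj (χ.1 1) :=
    Finset.sum_eq_single 1 (fun v _ hv => column_of_not_isConj hM hB (pElt_of_mem hM.1 hV v.2)
      ⟨0, orderOf_one⟩ fun h => hv (Subtype.ext (isConj_one_left.1 h))) (by simp)
  refine Nat.cast_injective (R := ℂ) ?_
  simp only [irr_one_eq, map_natCast] at h1
  push_cast
  simp only [sq]
  rw [← h1, Finset.sum_comm, Finset.mul_sum, Finset.sum_filter, Finset.sum_filter]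
  refine Finset.sum_congr rfl fun χ _ => ?_
  rw [← Finset.sum_mul]
  by_cases h2 : χ ∈ B
  · rw [if_pos h2]
    split_ifs with h3
    · rw [Finset.sum_congr rfl fun (v : V) _ => h3.2 v v.2, Finset.sum_const, Finset.card_univ,
        nsmul_eq_mul, ← Nat.card_eq_fintype_card, irr_one_eq, mul_assoc]
    · have h4 := not_not.1 fun a => h3 ⟨h2, (inner_res_one_ne_zero_iff χ.2).1 a⟩
      rw [classInner_def] at h4
      simp only [map_one, mul_one] at h4
      rw [(mul_eq_zero.1 h4).resolve_left (by simp [Nat.card_pos.ne']), zero_mul]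
  · rw [if_neg h2, if_neg fun a => h2 a.1]

/-- For a normal `p`-subgroup `V` central in `H`, containing its centraliser, the characters over
an invariant canonical character of the root block are the characters of the block with `V` in
their kernel. -/
theorem overSet_eq_inter_kerSet (hM : IsPModular p M) [V.Normal] {H : Subgroup G} [H.Normal]
    [Fintype H] (hVH : V ≤ H) (hH : centralizer (V : Set G) ≤ H) (hV : IsPGroup p V)
    {b : Set (IrrCharacter H)} (hb : IsInducedBlock M H b B) {θ : IrrCharacter H} (hθ : θ ∈ b)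
    (hk : θ ∈ kerSet (V.subgroupOf H)) (hu : ∀ θ' ∈ b, θ' ∈ kerSet (V.subgroupOf H) → θ' = θ)
    (hinv : inertia H θ.1 = ⊤) : overSet H θ.1 = B ∩ kerSet V := by
  obtain ⟨hb', hB, -⟩ := (isInducedBlock_iff hM).1 hb
  have := Fintype.ofFinite (V.subgroupOf H)
  ext χ
  refine ⟨fun h => ⟨?_, fun v hv => ?_⟩, fun ⟨h1, h2⟩ => ?_⟩
  · have hc := isPBlock_blockOf (M := M) χ
    rw [hb.unique hM ((isInducedBlock_iff hM).2 ⟨hb', hc,
      ((covF_eB_iff hM hc hb').2 ⟨χ, mem_blockOf_self hM χ, θ, hθ, h⟩).indAlong_of_centralizer_le hM.1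
        (natCast_F hM) (isBlk_eB hM hc) (isBlk_eB hM hb') hV
        ((isBlk_eB hM hc).brNe_of_normal hM.1 (natCast_F hM) hV) hH⟩)]
    exact mem_blockOf_self hM χ
  · have h1 := clifford_of_invariant χ.2 θ.2 hinv h
    exact (congrFun h1 ⟨v, hVH hv⟩).trans ((congrArg (_ * ·) (hk ⟨v, hVH hv⟩ hv)).trans
      (congrFun h1 1).symm)
  · obtain ⟨θ', h3, h4⟩ := exists_under_of_covF hM hB hb' (hb.covF hM) h1
    obtain ⟨ζ, hζ, h5⟩ := θ'.2.exists_under_res (V.subgroupOf H)
    have h6 := inner_comp_ne_zero_of_constituent (V.subgroupOf H).subtype (χ.2.isCharacter.res H)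
      θ'.2 h4 hζ.isCharacter h5
    rw [show (fun x : V.subgroupOf H => χ.1 ((V.subgroupOf H).subtype x : H)) =
      χ.1 1 • fun _ => (1 : ℂ) from funext fun x => (h2 _ x.2).trans (mul_one _).symm] at h6
    rw [← eq_of_inner_smul_ne_zero isIrrCharacter_one hζ h6] at h5
    rwa [hu θ' h3 ((inner_res_one_ne_zero_iff θ'.2).1 h5)] at h4

theorem card_eq_three_of_normal {G : Type u} [Group G] [Finite G] (hM : IsPModular p M)
    {B : Set (IrrCharacter G)} (hB : IsPBlock M B) {V : Subgroup G} [hV : V.Normal]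
    (hD : IsDefectGroup p M B V) (hc : ∀ x ∈ V, ∀ y ∈ V, x * y = y * x) (hk : Nat.card B = 3) :
    Nat.card V = 3 := by
  classical
  induction hn : Nat.card G using Nat.strong_induction_on generalizing G with | _ n ih => ?_
  have := Fact.mk hM.1
  have := Fintype.ofFinite G
  by_cases hl : blockRank p B ≤ 1
  · rw [← (nilpotent_of_card_le_four hM hB hD hl (by omega)).2.2, hk]
  have hd : blockDefect p B ≠ 0 := fun e => by
    have := card_eq_one_of_blockDefect_eq_zero hM hB e
    omega
  have h1 := blockRank_lt_card hM hB hd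
  set H := V ⊔ centralizer (V : Set G) with hH
  have := Fintype.ofFinite H
  have hVH : V ≤ H := le_sup_left
  have hVC : V ≤ centralizer (V : Set G) := fun x hx y hy => hc y hy x hx
  obtain ⟨b, hind, hbd⟩ := exists_root_block hM hB hD hVH le_sup_right
    (sup_centralizer_le_normalizer V)
  have hb := ((isInducedBlock_iff hM).1 hind).1
  by_cases hT : cjStab (sb M H b) = ⊤
  swap
  · have h2 : ∀ x, x ∈ cjStab (sb M H b) ↔ cjN H x (eB M b) = eB M b := cj_sb_eq_iff b
    have h3 : H ≤ cjStab (sb M H b) := isFixed_iff_le_cjStab.1 (isSB_sb hM hb).fixed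
    obtain ⟨B', hB', h4, h5⟩ := fr_surj hM h3 hb h2 hB ((covF_eB_iff hM hB hb).1 (hind.covF hM))
    have h6 := isFR_of_stab hM h3 hb h2 h4 h5
    obtain ⟨D, hD', x, h7⟩ := h6.exists_cj hM hD
    have h8 : D.map (Subgroup.subtype _) = V := by
      rw [← MSS.inv_cj_cj x (D.map _), h7, MSS.cj_eq_of_normal]
    have h9 : D = V.subgroupOf _ := by
      rw [← h8, subgroupOf, comap_map_eq_self_of_injective (subtype_injective _)]
    rw [← h8, card_map_of_injective (subtype_injective _)]
    subst h9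
    exact ih _ (hn ▸ card_lt_of_ne_top hT) hB' hD' (fun x hx y hy => Subtype.ext (hc _ hx _ hy))
      (h6.card ▸ hk) rfl
  have hU := isBlockUnion_of_block hM hB
  obtain ⟨θ, hθ, hθk⟩ := exists_mem_block_ker hM hb (V.subgroupOf H) hbd.isPGroup
  have hu : ∀ θ' ∈ b, θ' ∈ kerSet (V.subgroupOf H) → θ' = θ := fun θ' =>
    (regComm_of_sup hM.1 hbd.isPGroup (subgroupOf_sup_centralizer_eq_top hVH le_rfl)).canon_unique
      hM hb hbd hθ hθk
  have hinv : inertia H θ.1 = ⊤ := eq_top_iff.2 fun x _ => mem_inertia_iff.2 <|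
    congrArg Subtype.val (hu (irrCj H x θ) ((cjN_eB_eq_iff_forall hM hb hb x).1
      ((cj_sb_eq_iff b x).1 (hT ▸ mem_top x : x ∈ cjStab _)) θ hθ) fun v hv => by
        rw [coe_irrCj, conjN_apply_one]
        exact hθk _ (hV.conj_mem _ hv x))
  have h2 := overSet_eq_inter_kerSet hM hVH le_sup_right hD.isPGroup hind hθ hθk hu hinv
  have h3 := blockRank_le_card_kerSet hM hU hD.isPGroup
  have h4 := card_mul_sum_sq_kerSet hM hU hD.isPGroup
  have h5 : 1 < Nat.card V := hD.card_eq_pow hM hB ▸ Nat.one_lt_pow hd hM.1.one_lt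
  have h6 : Nat.card (overSet H θ.1) = 2 := by
    have h7 : (B ∩ kerSet V).ncard < B.ncard := Set.ncard_lt_ncard
      ⟨Set.inter_subset_left, fun a => by
        simp only [Set.inter_eq_left.2 (a.trans Set.inter_subset_right)] at h4
        obtain ⟨χ, hχ⟩ := block_nonempty hM hB
        have := Finset.single_le_sum (f := fun χ : IrrCharacter G => charDegree χ.1 ^ 2)
          (fun _ _ => Nat.zero_le _) (Finset.mem_filter.2 ⟨Finset.mem_univ χ, hχ⟩)
        have := pow_pos (Nat.pos_of_ne_zero (charDegree_ne_zero χ)) 2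
        nlinarith⟩ (Set.toFinite _)
    rw [h2]
    change (B ∩ kerSet V).ncard = 2
    change _ ≤ (B ∩ kerSet V).ncard at h3
    change B.ncard = 3 at hk
    change _ < B.ncard at h1
    omega
  obtain ⟨χ, ψ, a, c, hne, h7, ha, hc', -, -, h8⟩ := exists_sq_add_sq_of_two θ.2 h6
  obtain ⟨ξ, hξ⟩ : ∃ ξ, B \ kerSet V = {ξ} := Set.ncard_eq_one.1 (by
    have := Set.ncard_inter_add_ncard_sdiff_eq_ncard B (kerSet V)
    rw [← h2, show (overSet H θ.1).ncard = 2 from h6, show B.ncard = 3 from hk] at this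
    omega)
  have h9 : (charDegree χ.1 ^ 2 + charDegree ψ.1 ^ 2) * (Nat.card V - 1) = charDegree ξ.1 ^ 2 := by
    rw [← Finset.sum_filter_add_sum_filter_not (Finset.univ.filter (· ∈ B)) (· ∈ kerSet V),
      Finset.filter_filter, Finset.filter_filter] at h4
    have e1 : Finset.univ.filter (fun χ => χ ∈ B ∧ χ ∈ kerSet V) = {χ, ψ} :=
      Finset.coe_injective (by simpa using h2.symm.trans h7)
    have e2 : Finset.univ.filter (fun χ => χ ∈ B ∧ χ ∉ kerSet V) = {ξ} :=
      Finset.coe_injective (by rw [Finset.coe_singleton, ← hξ]; ext; simp)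
    erw [e1, e2] at h4
    rw [Finset.sum_pair hne, Finset.sum_singleton] at h4
    rw [Nat.mul_sub_one, mul_comm, h4, Nat.add_sub_cancel_left]
  let φ := (MulAut.conjNormal : G →* MulAut V).rangeRestrict
  have h10 : φ.ker = H := by
    rw [MonoidHom.ker_rangeRestrict, hH, sup_eq_right.2 hVC]
    ext g
    rw [MonoidHom.mem_ker, mem_centralizer_iff, MulEquiv.ext_iff]
    exact ⟨fun h v hv => (mul_inv_eq_iff_eq_mul.1 (congrArg Subtype.val (h ⟨v, hv⟩))).symm,
      fun h v => Subtype.ext (mul_inv_eq_iff_eq_mul.2 (h v v.2).symm)⟩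
  have h11 : H.index = Nat.card (MulAut.conjNormal : G →* MulAut V).range := by
    rw [← h10, index_ker, MonoidHom.range_eq_top.2 (MonoidHom.rangeRestrict_surjective _), card_top]
  have := Finite.one_lt_card_iff_nontrivial.1 h5
  refine card_eq_three_of_trans hD.isPGroup ?_ (fun u v h h' => ?_) ha hc'
    (by rw [h8, hinv, relIndex_top_right, h11]) (charDegree_ne_zero ξ) h9 fun r _ h P =>
      two_over (MonoidHom.rangeRestrict_surjective _) h10 θ.2 hinv h6 h
  · rw [← h11, ← relIndex_top_right, ← hT]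
    exact not_dvd_relIndex_of_root hM hD hind le_normalizer_of_normal
      (isFixed_iff_le_cjStab.2 le_rfl)
  · obtain ⟨g, hg⟩ := isConj_iff.1 (isConj_of_card_eq_add_one hM hB hD (by omega) u.2 v.2
      (fun e => h (Subtype.ext e)) fun e => h' (Subtype.ext e))
    exact ⟨_, ⟨g, rfl⟩, Subtype.ext hg⟩

theorem commutator_eq_bot_of_isCyclic_map [Fact p.Prime] (hV : IsPGroup p V) {H : Type*} [Group H]
    {f : G →* H} (hk : f.ker = ⁅V, V⁆) (h : IsCyclic (V.map f)) : ⁅V, V⁆ = ⊥ := by
  have : IsCyclic (V ⧸ (f.subgroupMap V).ker) := isCyclic_of_surjective _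
    (QuotientGroup.quotientKerEquivOfSurjective _ (f.subgroupMap_surjective V)).symm.surjective
  have := PG.isCyclic_of_quotient_le_frattini (N := (f.subgroupMap V).ker) (by
    rw [ker_subgroupMap, hk, ← map_subtype_commutator, subgroupOf,
      comap_map_eq_self_of_injective (subtype_injective _)]
    exact PG.commutator_le_frattini hV)
  rw [← map_subtype_commutator, (commutator_eq_bot_iff V).2 inferInstance, Subgroup.map_bot]

/-- A normal defect group of a block with at most three characters of height zero has order at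
most three. -/
theorem card_le_three_of_height_zero (hM : IsPModular p M) (hB : IsPBlock M B) [hV : V.Normal]
    (hD : IsDefectGroup p M B V)
    (h3 : Nat.card {χ : IrrCharacter G // χ ∈ B ∧ blockHeight p B (χ : G → ℂ) = 0} ≤ 3) :
    Nat.card V ≤ 3 := by
  have hp := Fact.mk hM.1
  set f := QuotientGroup.mk' ⁅V, V⁆ with hf'
  have hf : Function.Surjective f := QuotientGroup.mk'_surjective _
  have hk : f.ker = ⁅V, V⁆ := QuotientGroup.ker_mk' _
  have hkD : f.ker ≤ V := by rw [hk]; exact commutator_le_left V V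
  have hkp : IsPGroup p f.ker := hD.isPGroup.to_le hkD
  have : (V.map f).Normal := hV.map f hf
  have hb : IsPBlock M (irrInfl f hf ⁻¹' B) :=
    isPBlock_infl_of_sameBlock hM hf hkp (fun χ ψ hs =>
      sameBlock_of_infl_of_commute hM hf hkp (hD.isPGroup.map f) (fun x hr hx u hu =>
        mem_centralizer_of_commutator_mem hM.1 hD.isPGroup hr (fun v hv => by
          rw [← hk, MonoidHom.mem_ker, map_commutatorElement,
            commutatorElement_eq_one_iff_mul_comm]
          exact hx _ ⟨v, hv, rfl⟩) u (hkD hu)) hs) hB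
  have hDb := (isDefectGroup_infl_iff hM hf hkp hB hb).2 ⟨V, hD, rfl⟩
  have hab : ∀ x ∈ V.map f, ∀ y ∈ V.map f, x * y = y * x := by
    rintro _ ⟨x, hx, rfl⟩ _ ⟨y, hy, rfl⟩
    rw [← commutatorElement_eq_one_iff_mul_comm, ← map_commutatorElement, ← MonoidHom.mem_ker, hk]
    exact commutator_mem_commutator hx hy
  have h0 := (comm_iff_height_zero_of_normal hM hb hDb).1 hab
  have h1 : Nat.card (irrInfl f hf ⁻¹' B) ≤ 3 := le_trans (Nat.card_le_card_of_injective
    (fun χ => ⟨irrInfl f hf χ.1, χ.2, (blockHeight_eq_zero_iff (B := B) χ.2).2 (by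
      rw [show charDegree (irrInfl f hf χ).1 = charDegree χ.1.1 by
        rw [charDegree, charDegree, irrInfl_apply, map_one],
        (blockHeight_eq_zero_iff χ.2).1 (h0 _ χ.2), minVal_eq_index hM hb hDb,
        minVal_eq_index hM hB hD, index_map_eq V hf hkD])⟩)
    fun _ _ e => Subtype.ext (irrInfl_injective f hf (congrArg Subtype.val e))) h3
  have h2 : Nat.card (V.map f) = 1 ∨ Nat.card (V.map f) = 2 ∨ Nat.card (V.map f) = 3 := by
    by_cases hd : blockDefect p (irrInfl f hf ⁻¹' B) = 0
    · rw [hDb.card_eq_pow hM hb, hd]; exact Or.inl rfl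
    have h4 := blockRank_lt_card hM hb hd
    have h5 := blockRank_pos hM hb
    by_cases h6 : Nat.card (irrInfl f hf ⁻¹' B) = 2
    · exact Or.inr (Or.inl ((Cfsg.Agent.S4607.result p M hM _ hb _ hDb).1 h6))
    · exact Or.inr (Or.inr (card_eq_three_of_normal hM hb hDb hab (by omega)))
  have h4 := commutator_eq_bot_of_isCyclic_map hD.isPGroup hk (by
    rcases h2 with h | h | h
    · have := (Nat.card_eq_one_iff_unique.1 h).1
      exact isCyclic_of_subsingleton
    · exact isCyclic_of_prime_card h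
    · exact isCyclic_of_prime_card h)
  rw [card_map_of_injective ((MonoidHom.ker_eq_bot_iff f).1 (hk.trans h4))] at h2
  omega

end CL.Blk
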